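import Mathlib
import Cfsg.Agent.H62.PSU3a
import Cfsg.Agent.H62.PSU3b

set_option autoImplicit false
set_option linter.unusedSectionVars false
set_option linter.style.haveILetI false
set_option linter.unusedSimpArgs false

namespace Cfsg.Agent.H62

open Matrix Polynomial

section PSU3c

variable {F : Type*} [Field F]

/-- some power (with one of four exponents) of a unitary matrix of determinant one is scalar. -/
theorem su3_pow_scalar (p : ℕ) [Fact p.Prime] [CharP F p] (hp3 : 3 ≤ p) (m : ℕ) (hm : m ≠ 0)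
    (q : ℕ) (hq : q = p ^ m) (hFq : ∀ x : F, x ^ (q ^ 2) = x)
    (M : Matrix (Fin 3) (Fin 3) F) (h : IsU3 q M) :
    ∃ (N : ℕ) (c : F), (N = q + 1 ∨ N = p * (q + 1) / Nat.gcd 3 (q + 1)
        ∨ N = (q ^ 2 - 1) / Nat.gcd 3 (q + 1) ∨ N = (q ^ 2 - q + 1) / Nat.gcd 3 (q + 1)) ∧
      M ^ N = c • (1 : Matrix (Fin 3) (Fin 3) F) := by
  have hchar : CharP (AlgebraicClosure F) p :=
    charP_of_injective_algebraMap (algebraMap F (AlgebraicClosure F)).injective p
  have hχ : M.charpoly = X ^ 3 - C (M 0 0 + M 1 1 + M 2 2) * X ^ 2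
      + C ((M 0 0 + M 1 1 + M 2 2) ^ q) * X - 1 := by
    subst hq
    exact su3_charpoly p m M h
  generalize M 0 0 + M 1 1 + M 2 2 = a at hχ
  have hχ' : (M.map (algebraMap F (AlgebraicClosure F))).charpoly
      = X ^ 3 - C (algebraMap F (AlgebraicClosure F) a) * X ^ 2
        + C ((algebraMap F (AlgebraicClosure F) a) ^ q) * X - 1 := by
    rw [Matrix.charpoly_map, hχ]
    simp [Polynomial.map_sub, Polynomial.map_add, Polynomial.map_mul, Polynomial.map_pow]
  have hmonic : (M.map (algebraMap F (AlgebraicClosure F))).charpoly.Monic :=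
    Matrix.charpoly_monic _
  have hsplit : (M.map (algebraMap F (AlgebraicClosure F))).charpoly.Splits :=
    IsAlgClosed.splits _
  have hcard : (M.map (algebraMap F (AlgebraicClosure F))).charpoly.roots.card = 3 := by
    rw [← hsplit.natDegree_eq_card_roots, Matrix.charpoly_natDegree_eq_dim]
    rfl
  obtain ⟨l₁, l₂, l₃, hroots⟩ := Multiset.card_eq_three.1 hcard
  have hfac : (M.map (algebraMap F (AlgebraicClosure F))).charpoly
      = (X - C l₁) * (X - C l₂) * (X - C l₃) := by
    conv_lhs => rw [hsplit.eq_prod_roots_of_monic hmonic, hroots]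
    simp [mul_assoc]
  have ha : (algebraMap F (AlgebraicClosure F) a) ^ (q ^ 2) = algebraMap F (AlgebraicClosure F) a := by
    rw [← map_pow, hFq]
  obtain ⟨N, c', hN, hdvd⟩ := su3_core p hp3 m hm q hq _ ha l₁ l₂ l₃ (hχ'.symm.trans hfac)
  rw [← hfac] at hdvd
  have hCH := Matrix.aeval_self_charpoly (M.map (algebraMap F (AlgebraicClosure F)))
  have h0 : aeval (M.map (algebraMap F (AlgebraicClosure F))) (X ^ N - C c' : (AlgebraicClosure F)[X])
      = 0 := by
    obtain ⟨g, hg⟩ := hdvd
    rw [hg, map_mul, hCH, zero_mul]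
  have h1 : (M.map (algebraMap F (AlgebraicClosure F))) ^ N
      = c' • (1 : Matrix (Fin 3) (Fin 3) (AlgebraicClosure F)) := by
    rw [map_sub, map_pow, aeval_X, aeval_C, Algebra.algebraMap_eq_smul_one] at h0
    exact sub_eq_zero.1 h0
  have h2 : (M ^ N).map (algebraMap F (AlgebraicClosure F))
      = c' • (1 : Matrix (Fin 3) (Fin 3) (AlgebraicClosure F)) := by
    rw [← h1]
    exact map_pow (RingHom.mapMatrix (algebraMap F (AlgebraicClosure F))) M N
  have hent : ∀ i j, algebraMap F (AlgebraicClosure F) ((M ^ N) i j)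
      = (c' • (1 : Matrix (Fin 3) (Fin 3) (AlgebraicClosure F))) i j := by
    intro i j
    rw [← h2]
    rfl
  refine ⟨N, (M ^ N) 0 0, hN, ?_⟩
  ext i j
  apply (algebraMap F (AlgebraicClosure F)).injective
  rw [hent i j]
  have h00 := hent 0 0
  simp only [Matrix.smul_apply, Matrix.one_apply_eq, smul_eq_mul, mul_one] at h00
  by_cases hij : i = j
  · subst hij
    simp [h00]
  · simp [hij]

end PSU3c

end Cfsg.Agent.H62
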