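import Mathlib

set_option autoImplicit false
set_option linter.style.haveILetI false
set_option linter.unusedSimpArgs false
set_option linter.unusedSectionVars false
set_option linter.unusedVariables false

namespace Cfsg.Agent.H62

theorem absorb_exists_orderOf {G : Type*} [Monoid G] (x : G) (n : ℕ) (h : n ∣ orderOf x)
    (h0 : 0 < orderOf x) : ∃ y : G, orderOf y = n := by
  have hn : 0 < n := Nat.pos_of_dvd_of_pos h h0
  refine ⟨x ^ (orderOf x / n), ?_⟩
  rw [orderOf_pow_of_dvd, Nat.div_div_self h h0.ne']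
  · exact (Nat.div_pos (Nat.le_of_dvd h0 h) hn).ne'
  · exact Nat.div_dvd_of_dvd h

/-- absorbing a factor of exponent `r` into a cube. -/
theorem absorb3 {G Z : Type*} [Group G] [Finite G] [Group Z] (r : ℕ) (hZ : ∀ v : Z, v ^ r = 1)
    (h : ∀ g1 g2 g3 : G, ∃ y : G × G × G,
      Nat.lcm (Nat.lcm (orderOf g1) (Nat.lcm (orderOf g2) (orderOf g3))) r ∣ orderOf y) :
    Set.range (orderOf : G × G × G × Z → ℕ) = Set.range (orderOf : G × G × G → ℕ) := by
  ext d
  constructor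
  · rintro ⟨⟨g1, g2, g3, v⟩, rfl⟩
    obtain ⟨y, hy⟩ := h g1 g2 g3
    have hv : orderOf v ∣ r := orderOf_dvd_of_pow_eq_one (hZ v)
    have h1 : orderOf (g1, g2, g3, v) ∣ orderOf y := by
      refine dvd_trans ?_ hy
      rw [Prod.orderOf, Prod.orderOf, Prod.orderOf]
      apply Nat.lcm_dvd
      · exact dvd_trans (Nat.dvd_lcm_left _ _) (Nat.dvd_lcm_left _ _)
      · apply Nat.lcm_dvd
        · exact dvd_trans (dvd_trans (Nat.dvd_lcm_left _ _) (Nat.dvd_lcm_right _ _))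
            (Nat.dvd_lcm_left _ _)
        · apply Nat.lcm_dvd
          · exact dvd_trans (dvd_trans (Nat.dvd_lcm_right _ _) (Nat.dvd_lcm_right _ _))
              (Nat.dvd_lcm_left _ _)
          · exact dvd_trans hv (Nat.dvd_lcm_right _ _)
    exact absorb_exists_orderOf y _ h1 (orderOf_pos y)
  · rintro ⟨⟨g1, g2, g3⟩, rfl⟩
    refine ⟨(g1, g2, g3, 1), ?_⟩
    simp [Prod.orderOf]

/-- absorbing a factor of exponent `r` into a square. -/
theorem absorb2 {G Z : Type*} [Group G] [Finite G] [Group Z] (r : ℕ) (hZ : ∀ v : Z, v ^ r = 1)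
    (h : ∀ g1 g2 : G, ∃ y : G × G,
      Nat.lcm (Nat.lcm (orderOf g1) (orderOf g2)) r ∣ orderOf y) :
    Set.range (orderOf : G × G × Z → ℕ) = Set.range (orderOf : G × G → ℕ) := by
  ext d
  constructor
  · rintro ⟨⟨g1, g2, v⟩, rfl⟩
    obtain ⟨y, hy⟩ := h g1 g2
    have hv : orderOf v ∣ r := orderOf_dvd_of_pow_eq_one (hZ v)
    have h1 : orderOf (g1, g2, v) ∣ orderOf y := by
      refine dvd_trans ?_ hy
      rw [Prod.orderOf, Prod.orderOf]
      apply Nat.lcm_dvd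
      · exact dvd_trans (Nat.dvd_lcm_left _ _) (Nat.dvd_lcm_left _ _)
      · apply Nat.lcm_dvd
        · exact dvd_trans (Nat.dvd_lcm_right _ _) (Nat.dvd_lcm_left _ _)
        · exact dvd_trans hv (Nat.dvd_lcm_right _ _)
    exact absorb_exists_orderOf y _ h1 (orderOf_pos y)
  · rintro ⟨⟨g1, g2⟩, rfl⟩
    refine ⟨(g1, g2, 1), ?_⟩
    simp [Prod.orderOf]

/-- three factors: a good element, or all three bounded by two fixed elements. -/
theorem tri_absorb {G : Type*} [Group G] (r : ℕ) (hU hS hR : G) (hr : r ∣ orderOf hR)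
    (hd : ∀ g : G, (∃ h : G, Nat.lcm (orderOf g) r ∣ orderOf h) ∨
      orderOf g ∣ Nat.lcm (orderOf hU) (orderOf hS))
    (g1 g2 g3 : G) : ∃ y : G × G × G,
      Nat.lcm (Nat.lcm (orderOf g1) (Nat.lcm (orderOf g2) (orderOf g3))) r ∣ orderOf y := by
  rcases hd g1 with ⟨h, hh⟩ | h1
  · refine ⟨(h, g2, g3), ?_⟩
    rw [Prod.orderOf, Prod.orderOf]
    apply Nat.lcm_dvd
    · apply Nat.lcm_dvd
      · exact dvd_trans (dvd_trans (Nat.dvd_lcm_left _ _) hh) (Nat.dvd_lcm_left _ _)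
      · exact Nat.dvd_lcm_right _ _
    · exact dvd_trans (dvd_trans (Nat.dvd_lcm_right _ _) hh) (Nat.dvd_lcm_left _ _)
  rcases hd g2 with ⟨h, hh⟩ | h2
  · refine ⟨(g1, h, g3), ?_⟩
    rw [Prod.orderOf, Prod.orderOf]
    apply Nat.lcm_dvd
    · apply Nat.lcm_dvd
      · exact Nat.dvd_lcm_left _ _
      · apply Nat.lcm_dvd
        · exact dvd_trans (dvd_trans (Nat.dvd_lcm_left _ _) hh)
            (dvd_trans (Nat.dvd_lcm_left _ _) (Nat.dvd_lcm_right _ _))
        · exact dvd_trans (Nat.dvd_lcm_right _ _) (Nat.dvd_lcm_right _ _)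
    · exact dvd_trans (dvd_trans (Nat.dvd_lcm_right _ _) hh)
        (dvd_trans (Nat.dvd_lcm_left _ _) (Nat.dvd_lcm_right _ _))
  rcases hd g3 with ⟨h, hh⟩ | h3
  · refine ⟨(g1, g2, h), ?_⟩
    rw [Prod.orderOf, Prod.orderOf]
    apply Nat.lcm_dvd
    · apply Nat.lcm_dvd
      · exact Nat.dvd_lcm_left _ _
      · apply Nat.lcm_dvd
        · exact dvd_trans (Nat.dvd_lcm_left _ _) (Nat.dvd_lcm_right _ _)
        · exact dvd_trans (dvd_trans (Nat.dvd_lcm_left _ _) hh)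
            (dvd_trans (Nat.dvd_lcm_right _ _) (Nat.dvd_lcm_right _ _))
    · exact dvd_trans (dvd_trans (Nat.dvd_lcm_right _ _) hh)
        (dvd_trans (Nat.dvd_lcm_right _ _) (Nat.dvd_lcm_right _ _))
  refine ⟨(hU, hS, hR), ?_⟩
  rw [Prod.orderOf, Prod.orderOf]
  have hUS : Nat.lcm (orderOf hU) (orderOf hS) ∣
      Nat.lcm (orderOf hU) (Nat.lcm (orderOf hS) (orderOf hR)) :=
    Nat.lcm_dvd (Nat.dvd_lcm_left _ _)
      (dvd_trans (Nat.dvd_lcm_left _ _) (Nat.dvd_lcm_right _ _))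
  apply Nat.lcm_dvd
  · apply Nat.lcm_dvd
    · exact dvd_trans h1 hUS
    · apply Nat.lcm_dvd
      · exact dvd_trans h2 hUS
      · exact dvd_trans h3 hUS
  · exact dvd_trans hr (dvd_trans (Nat.dvd_lcm_right _ _) (Nat.dvd_lcm_right _ _))

/-- two factors: a good element, or both bounded by two fixed elements one of which is good. -/
theorem bi_absorb {G : Type*} [Group G] (r : ℕ) (hU hS hUR : G)
    (hr : Nat.lcm (orderOf hU) r ∣ orderOf hUR)
    (hd : ∀ g : G, (∃ h : G, Nat.lcm (orderOf g) r ∣ orderOf h) ∨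
      orderOf g ∣ Nat.lcm (orderOf hU) (orderOf hS))
    (g1 g2 : G) : ∃ y : G × G,
      Nat.lcm (Nat.lcm (orderOf g1) (orderOf g2)) r ∣ orderOf y := by
  rcases hd g1 with ⟨h, hh⟩ | h1
  · refine ⟨(h, g2), ?_⟩
    rw [Prod.orderOf]
    apply Nat.lcm_dvd
    · apply Nat.lcm_dvd
      · exact dvd_trans (dvd_trans (Nat.dvd_lcm_left _ _) hh) (Nat.dvd_lcm_left _ _)
      · exact Nat.dvd_lcm_right _ _
    · exact dvd_trans (dvd_trans (Nat.dvd_lcm_right _ _) hh) (Nat.dvd_lcm_left _ _)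
  rcases hd g2 with ⟨h, hh⟩ | h2
  · refine ⟨(g1, h), ?_⟩
    rw [Prod.orderOf]
    apply Nat.lcm_dvd
    · apply Nat.lcm_dvd
      · exact Nat.dvd_lcm_left _ _
      · exact dvd_trans (dvd_trans (Nat.dvd_lcm_left _ _) hh) (Nat.dvd_lcm_right _ _)
    · exact dvd_trans (dvd_trans (Nat.dvd_lcm_right _ _) hh) (Nat.dvd_lcm_right _ _)
  refine ⟨(hUR, hS), ?_⟩
  rw [Prod.orderOf]
  have hUS : Nat.lcm (orderOf hU) (orderOf hS) ∣ Nat.lcm (orderOf hUR) (orderOf hS) :=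
    Nat.lcm_dvd (dvd_trans (dvd_trans (Nat.dvd_lcm_left _ _) hr) (Nat.dvd_lcm_left _ _))
      (Nat.dvd_lcm_right _ _)
  apply Nat.lcm_dvd
  · apply Nat.lcm_dvd
    · exact dvd_trans h1 hUS
    · exact dvd_trans h2 hUS
  · exact dvd_trans (dvd_trans (Nat.dvd_lcm_right _ _) hr) (Nat.dvd_lcm_left _ _)

/-- `Multiplicative (Fin m → ZMod r)` has exponent dividing `r`. -/
theorem elem_ab_pow (r m : ℕ) (v : Multiplicative (Fin m → ZMod r)) : v ^ r = 1 := by
  have h : r • (Multiplicative.toAdd v) = 0 := by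
    funext i
    simp
  rw [← ofAdd_toAdd v, ← ofAdd_nsmul, h, ofAdd_zero]

end Cfsg.Agent.H62
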