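import Mathlib

set_option autoImplicit false
set_option linter.style.haveILetI false
set_option linter.unusedSimpArgs false
set_option linter.unusedSectionVars false
set_option linter.unusedVariables false

namespace Cfsg.Agent.H62

open Polynomial

/-- either a matrix is primary, or its minimal polynomial splits into two coprime factors. -/
theorem primary_dichotomy {F : Type*} [Field F] (n : ℕ) (hn : 1 ≤ n)
    (A : Matrix (Fin n) (Fin n) F) :
    (∃ f : F[X], Irreducible f ∧ aeval A (f ^ n) = 0) ∨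
    (∃ μ1 μ2 : F[X], IsCoprime μ1 μ2 ∧ ¬ IsUnit μ1 ∧ ¬ IsUnit μ2 ∧ μ1 * μ2 = minpoly F A) := by
  classical
  haveI : Nonempty (Fin n) := ⟨⟨0, hn⟩⟩
  have hint : IsIntegral F A := Matrix.isIntegral A
  have hne : minpoly F A ≠ 0 := minpoly.ne_zero hint
  have hnu : ¬ IsUnit (minpoly F A) := minpoly.not_isUnit F A
  obtain ⟨f, hf, hfd⟩ := WfDvdMonoid.exists_irreducible_factor hnu hne
  obtain ⟨k, h, hfh, hμ⟩ := WfDvdMonoid.max_power_factor hne hf
  have hk : k ≠ 0 := by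
    rintro rfl
    rw [pow_zero, one_mul] at hμ
    exact hfh (hμ ▸ hfd)
  by_cases hu : IsUnit h
  · left
    refine ⟨f, hf, ?_⟩
    have h1 : aeval A (f ^ k) = 0 := by
      obtain ⟨u, rfl⟩ := hu
      have : f ^ k = minpoly F A * ↑u⁻¹ := by rw [hμ, mul_assoc, Units.mul_inv, mul_one]
      rw [this, map_mul, minpoly.aeval, zero_mul]
    have hkn : k ≤ n := by
      have hdeg : (minpoly F A).natDegree ≤ n := by
        have := Polynomial.natDegree_le_of_dvd (Matrix.minpoly_dvd_charpoly A)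
          (Matrix.charpoly_monic A).ne_zero
        rwa [Matrix.charpoly_natDegree_eq_dim, Fintype.card_fin] at this
      have hfk : (f ^ k).natDegree ≤ (minpoly F A).natDegree :=
        Polynomial.natDegree_le_of_dvd ⟨h, hμ⟩ hne
      rw [Polynomial.natDegree_pow] at hfk
      have hf1 : 1 ≤ f.natDegree := hf.natDegree_pos
      calc k = k * 1 := (mul_one k).symm
        _ ≤ k * f.natDegree := Nat.mul_le_mul_left k hf1
        _ ≤ n := hfk.trans hdeg
    obtain ⟨j, rfl⟩ := Nat.exists_eq_add_of_le hkn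
    rw [pow_add, map_mul, h1, zero_mul]
  · right
    refine ⟨f ^ k, h, ?_, ?_, hu, hμ.symm⟩
    · exact ((Irreducible.coprime_iff_not_dvd hf).mpr hfh).pow_left
    · rw [isUnit_pow_iff hk]; exact hf.not_isUnit

/-- a non-primary matrix commutes with a non-scalar matrix of order `r` and determinant one. -/
theorem nonprimary_z {F : Type*} [Field F] (n r : ℕ) (hr : r.Prime) (hrn : ¬ r ∣ n)
    (ζ : F) (hζ : orderOf ζ = r)
    (A : Matrix (Fin n) (Fin n) F) (μ1 μ2 : F[X]) (hco : IsCoprime μ1 μ2)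
    (h1 : ¬ IsUnit μ1) (h2 : ¬ IsUnit μ2) (hμ : μ1 * μ2 = minpoly F A) :
    ∃ Z : Matrix (Fin n) (Fin n) F, Z.det = 1 ∧ Commute A Z ∧ Z ^ r = 1 ∧
      ∀ (k : ℕ) (c : F), Z ^ k = c • 1 → r ∣ k := by
  classical
  have hint : IsIntegral F A := Matrix.isIntegral A
  have hne : minpoly F A ≠ 0 := minpoly.ne_zero hint
  have hμ1ne : μ1 ≠ 0 := by rintro rfl; rw [zero_mul] at hμ; exact hne hμ.symm
  have hμ2ne : μ2 ≠ 0 := by rintro rfl; rw [mul_zero] at hμ; exact hne hμ.symm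
  obtain ⟨a, b, hab⟩ := hco
  obtain ⟨e1, he1⟩ : ∃ e1, e1 = aeval A (b * μ2) := ⟨_, rfl⟩
  obtain ⟨e2, he2⟩ : ∃ e2, e2 = aeval A (a * μ1) := ⟨_, rfl⟩
  have hsum : e1 + e2 = 1 := by
    rw [he1, he2, ← map_add, add_comm, hab, map_one]
  have hprod : e1 * e2 = 0 := by
    rw [he1, he2, ← map_mul]
    have : b * μ2 * (a * μ1) = (a * b) * (μ1 * μ2) := by ring
    rw [this, hμ, map_mul, minpoly.aeval, mul_zero]
  have hprod' : e2 * e1 = 0 := by
    rw [he1, he2, ← map_mul]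
    have : a * μ1 * (b * μ2) = (a * b) * (μ1 * μ2) := by ring
    rw [this, hμ, map_mul, minpoly.aeval, mul_zero]
  have hcommP : ∀ P : F[X], Commute A (aeval A P) := by
    intro P
    have hA : aeval A (X : F[X]) = A := aeval_X A
    show A * aeval A P = aeval A P * A
    nth_rewrite 1 [← hA]
    nth_rewrite 4 [← hA]
    rw [← map_mul, ← map_mul, mul_comm]
  have hcomm1 : Commute A e1 := he1 ▸ hcommP _
  have hcomm2 : Commute A e2 := he2 ▸ hcommP _
  have hid1 : e1 * e1 = e1 := by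
    have : e1 * (e1 + e2) = e1 := by rw [hsum, mul_one]
    rwa [mul_add, hprod, add_zero] at this
  have hid2 : e2 * e2 = e2 := by
    have : e2 * (e1 + e2) = e2 := by rw [hsum, mul_one]
    rwa [mul_add, hprod', zero_add] at this
  have hne1 : e1 ≠ 0 := by
    intro h
    have hd : minpoly F A ∣ b * μ2 := minpoly.dvd F A (he1 ▸ h)
    rw [← hμ] at hd
    have hd' : μ1 ∣ b := by
      have : μ1 * μ2 ∣ b * μ2 := hd
      exact (mul_dvd_mul_iff_right hμ2ne).mp this
    apply h1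
    apply isUnit_of_dvd_one
    rw [← hab]
    exact dvd_add (dvd_mul_left _ _) (dvd_mul_of_dvd_left hd' _)
  have hne2 : e2 ≠ 0 := by
    intro h
    have hd : minpoly F A ∣ a * μ1 := minpoly.dvd F A (he2 ▸ h)
    rw [← hμ] at hd
    have hd' : μ2 ∣ a := by
      have : μ2 * μ1 ∣ a * μ1 := by rwa [mul_comm μ2 μ1]
      exact (mul_dvd_mul_iff_right hμ1ne).mp this
    apply h2
    apply isUnit_of_dvd_one
    rw [← hab]
    exact dvd_add (dvd_mul_of_dvd_left hd' _) (dvd_mul_left _ _)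
  have hD : ∀ x y x' y' : F,
      (x • e1 + y • e2) * (x' • e1 + y' • e2) = (x * x') • e1 + (y * y') • e2 := by
    intro x y x' y'
    simp only [add_mul, mul_add, smul_mul_assoc, mul_smul_comm, hid1, hid2, hprod, hprod',
      smul_zero, add_zero, zero_add, smul_smul]
    rw [mul_comm x' x, mul_comm y' y]
  have hD1 : ∀ x : F, x • e1 + x • e2 = x • (1 : Matrix (Fin n) (Fin n) F) := by
    intro x; rw [← smul_add, hsum]
  have hDpow : ∀ (x y : F) (k : ℕ), (x • e1 + y • e2) ^ k = (x ^ k) • e1 + (y ^ k) • e2 := by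
    intro x y k
    induction k with
    | zero => rw [pow_zero, pow_zero, pow_zero, hD1, one_smul]
    | succ k ih => rw [pow_succ, ih, hD, pow_succ, pow_succ]
  have hζr : ζ ^ r = 1 := hζ ▸ pow_orderOf_eq_one ζ
  obtain ⟨δ1, hδ1def⟩ : ∃ δ1, δ1 = (ζ • e1 + (1 : F) • e2).det := ⟨_, rfl⟩
  obtain ⟨δ2, hδ2def⟩ : ∃ δ2, δ2 = ((1 : F) • e1 + ζ • e2).det := ⟨_, rfl⟩
  have hδ1 : δ1 ^ r = 1 := by
    rw [hδ1def, ← Matrix.det_pow, hDpow, hζr, one_pow, hD1, one_smul, Matrix.det_one]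
  have hδ2 : δ2 ^ r = 1 := by
    rw [hδ2def, ← Matrix.det_pow, hDpow, hζr, one_pow, hD1, one_smul, Matrix.det_one]
  have hδ12 : δ1 * δ2 = ζ ^ n := by
    rw [hδ1def, hδ2def, ← Matrix.det_mul, hD, mul_one, one_mul, hD1, Matrix.det_smul,
      Matrix.det_one, mul_one, Fintype.card_fin]
  have hprim : IsPrimitiveRoot ζ r := hζ ▸ IsPrimitiveRoot.orderOf ζ
  haveI : NeZero r := ⟨hr.ne_zero⟩
  obtain ⟨u, -, hu⟩ := hprim.eq_pow_of_pow_eq_one hδ1
  obtain ⟨v, -, hv⟩ := hprim.eq_pow_of_pow_eq_one hδ2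
  have huv : ζ ^ (u + v) = ζ ^ n := by rw [pow_add, hu, hv, hδ12]
  obtain ⟨r', rfl⟩ : ∃ r', r = r' + 1 := ⟨r - 1, by have := hr.one_lt; omega⟩
  have e : ζ ^ u * ζ ^ (r' * u) = 1 := by
    rw [← pow_add]
    have : u + r' * u = (r' + 1) * u := by ring
    rw [this, pow_mul, hζr, one_pow]
  refine ⟨ζ ^ v • e1 + ζ ^ (r' * u) • e2, ?_, ?_, ?_, ?_⟩
  · have h3 : ζ ^ v • e1 + ζ ^ (r' * u) • e2 =
        (ζ • e1 + (1 : F) • e2) ^ v * ((1 : F) • e1 + ζ • e2) ^ (r' * u) := by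
      rw [hDpow, hDpow, hD, one_pow, one_pow, mul_one, one_mul]
    rw [h3, Matrix.det_mul, Matrix.det_pow, Matrix.det_pow, ← hδ1def, ← hδ2def, ← hu, ← hv,
      ← pow_mul, ← pow_mul, ← pow_add]
    have : u * v + v * (r' * u) = (r' + 1) * (u * v) := by ring
    rw [this, pow_mul, hζr, one_pow]
  · exact (hcomm1.smul_right _).add_right (hcomm2.smul_right _)
  · rw [hDpow, ← pow_mul, ← pow_mul, mul_comm v, mul_comm (r' * u), pow_mul, pow_mul ζ (r' + 1),
      hζr, one_pow, one_pow, hD1, one_smul]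
  · intro k c hk
    rw [hDpow, ← hD1 c] at hk
    have hk1 : (ζ ^ v) ^ k = c := by
      have h3 := congrArg (fun M => M * e1) hk
      simp only [add_mul, smul_mul_assoc, hid1, hprod', smul_zero, add_zero] at h3
      have h' : ((ζ ^ v) ^ k - c) • e1 = 0 := by rw [sub_smul, h3, sub_self]
      rcases smul_eq_zero.mp h' with h'' | h''
      · exact sub_eq_zero.mp h''
      · exact absurd h'' hne1
    have hk2 : (ζ ^ (r' * u)) ^ k = c := by
      have h3 := congrArg (fun M => M * e2) hk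
      simp only [add_mul, smul_mul_assoc, hid2, hprod, smul_zero, zero_add] at h3
      have h' : ((ζ ^ (r' * u)) ^ k - c) • e2 = 0 := by rw [sub_smul, h3, sub_self]
      rcases smul_eq_zero.mp h' with h'' | h''
      · exact sub_eq_zero.mp h''
      · exact absurd h'' hne2
    have h3 : (ζ ^ n) ^ k = 1 := by
      calc (ζ ^ n) ^ k = (ζ ^ u * ζ ^ v) ^ k := by rw [← huv, pow_add]
        _ = (ζ ^ u) ^ k * (ζ ^ v) ^ k := mul_pow _ _ _
        _ = (ζ ^ u) ^ k * (ζ ^ (r' * u)) ^ k := by rw [hk1, hk2]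
        _ = 1 := by rw [← mul_pow, e, one_pow]
    have h4 : (r' + 1) ∣ n * k := by
      rw [← hζ]; exact orderOf_dvd_of_pow_eq_one (by rw [pow_mul]; exact h3)
    exact (hr.dvd_mul.mp h4).resolve_left hrn

end Cfsg.Agent.H62
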