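import Mathlib

set_option autoImplicit false
set_option linter.style.haveILetI false
set_option linter.unusedSimpArgs false
set_option linter.unusedSectionVars false
set_option linter.unusedVariables false

namespace Cfsg.Agent.H62

open Polynomial

/-- `1 + q + ... + q ^ (n - 1)`. -/
def sgM' (q n : ℕ) : ℕ := ∑ i ∈ Finset.range n, q ^ i

/-- the order of a Singer cycle in `PSL(n, q)`. -/
def sgM (q n : ℕ) : ℕ := sgM' q n / Nat.gcd (sgM' q n) (q - 1)

theorem sgM'_mul (q n : ℕ) (hq : 2 ≤ q) : sgM' q n * (q - 1) = q ^ n - 1 := by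
  unfold sgM'
  rw [Nat.geomSum_eq hq n]
  apply Nat.div_mul_cancel
  simpa only [one_pow] using Nat.sub_dvd_pow_sub_pow q 1 n

theorem sgM'_pos (q n : ℕ) (hn : 1 ≤ n) : 0 < sgM' q n := by
  unfold sgM'
  apply Finset.sum_pos'
  · intro i _; exact Nat.zero_le _
  · exact ⟨0, Finset.mem_range.mpr (by omega), by simp⟩

theorem sgM_mul (q n : ℕ) :
    sgM q n * (q - 1) = sgM' q n * ((q - 1) / Nat.gcd (sgM' q n) (q - 1)) := by
  unfold sgM
  rw [Nat.div_mul_right_comm (Nat.gcd_dvd_left _ _), Nat.mul_div_assoc _ (Nat.gcd_dvd_right _ _)]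

theorem sgM_dvd_of (q n k : ℕ) (hq : 2 ≤ q) (hn : 1 ≤ n)
    (h : q ^ n - 1 ∣ (q - 1) * k * (q - 1)) : sgM q n ∣ k := by
  rw [← sgM'_mul q n hq] at h
  have h1 : sgM' q n ∣ (q - 1) * k := by
    have : sgM' q n * (q - 1) ∣ ((q - 1) * k) * (q - 1) := h
    exact (Nat.mul_dvd_mul_iff_right (by omega)).mp this
  have hM := sgM'_pos q n hn
  have hpos : 0 < Nat.gcd (sgM' q n) (q - 1) := Nat.gcd_pos_of_pos_left _ hM
  obtain ⟨a, ha⟩ := Nat.gcd_dvd_left (sgM' q n) (q - 1)
  obtain ⟨b, hb⟩ := Nat.gcd_dvd_right (sgM' q n) (q - 1)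
  have hco : Nat.Coprime (sgM' q n / Nat.gcd (sgM' q n) (q - 1))
      ((q - 1) / Nat.gcd (sgM' q n) (q - 1)) := Nat.coprime_div_gcd_div_gcd hpos
  have ha' : sgM' q n / Nat.gcd (sgM' q n) (q - 1) = a := by
    nth_rewrite 1 [ha]; exact Nat.mul_div_cancel_left _ hpos
  have hb' : (q - 1) / Nat.gcd (sgM' q n) (q - 1) = b := by
    nth_rewrite 1 [hb]; exact Nat.mul_div_cancel_left _ hpos
  unfold sgM
  rw [ha'] at hco ⊢
  rw [hb'] at hco
  have h2 : a ∣ b * k := by
    have : Nat.gcd (sgM' q n) (q - 1) * a ∣ Nat.gcd (sgM' q n) (q - 1) * (b * k) := by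
      rw [← ha, ← mul_assoc, ← hb]; exact h1
    exact (Nat.mul_dvd_mul_iff_left hpos).mp this
  exact hco.dvd_of_dvd_mul_left h2

/-- roots of `X ^ (q - 1) - 1` in an extension of the field with `q` elements. -/
theorem mem_range_of_pow_card_sub_one {F K : Type*} [Field F] [Fintype F] [Field K] [Algebra F K]
    (x : K) (hx : x ^ (Fintype.card F - 1) = 1) : ∃ c : F, algebraMap F K c = x := by
  classical
  have hq : 2 ≤ Fintype.card F := Fintype.one_lt_card
  have hP : (X ^ Fintype.card F - X : K[X]) ≠ 0 := FiniteField.X_pow_card_sub_X_ne_zero K hq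
  have hdeg : (X ^ Fintype.card F - X : K[X]).natDegree = Fintype.card F :=
    FiniteField.X_pow_card_sub_X_natDegree_eq K hq
  have hS : (Finset.univ.image (algebraMap F K)).card = Fintype.card F := by
    rw [Finset.card_image_of_injective _ (algebraMap F K).injective, Finset.card_univ]
  have hsub : Finset.univ.image (algebraMap F K) ⊆
      (X ^ Fintype.card F - X : K[X]).roots.toFinset := by
    intro y hy
    obtain ⟨c, -, rfl⟩ := Finset.mem_image.mp hy
    rw [Multiset.mem_toFinset, mem_roots hP]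
    simp only [IsRoot, eval_sub, eval_pow, eval_X]
    rw [← map_pow, FiniteField.pow_card, sub_self]
  have hcard : (X ^ Fintype.card F - X : K[X]).roots.toFinset.card ≤
      (Finset.univ.image (algebraMap F K)).card := by
    rw [hS]
    calc _ ≤ Multiset.card (X ^ Fintype.card F - X : K[X]).roots := Multiset.toFinset_card_le _
      _ ≤ (X ^ Fintype.card F - X : K[X]).natDegree := card_roots' _
      _ = Fintype.card F := hdeg
  have heq := Finset.eq_of_subset_of_card_le hsub hcard
  have hxr : x ∈ (X ^ Fintype.card F - X : K[X]).roots.toFinset := by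
    rw [Multiset.mem_toFinset, mem_roots hP]
    simp only [IsRoot, eval_sub, eval_pow, eval_X]
    have : x ^ Fintype.card F = x := by
      have hq' : Fintype.card F = (Fintype.card F - 1) + 1 := by omega
      rw [hq', pow_succ, hx, one_mul]
    rw [this, sub_self]
  rw [← heq] at hxr
  obtain ⟨c, -, hc⟩ := Finset.mem_image.mp hxr
  exact ⟨c, hc⟩

/-- the arithmetic core. -/
theorem nt_core {K : Type*} [Field K] (q d e : ℕ) (hq : 2 ≤ q) (ρ : K)
    (h1 : ρ ^ (q ^ d - 1) = 1) (h2 : (ρ ^ ((q ^ d - 1) / (q - 1))) ^ e = 1) :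
    (ρ ^ sgM q (d * e)) ^ (q - 1) = 1 := by
  have hD : (q ^ d - 1) / (q - 1) = sgM' q d := by
    unfold sgM'; rw [Nat.geomSum_eq hq d]
  rw [hD] at h2
  obtain ⟨l, hl⟩ : ∃ l, l = ρ ^ sgM' q d := ⟨_, rfl⟩
  rw [← hl] at h2
  have hl1 : l ^ (q - 1) = 1 := by
    rw [hl, ← pow_mul, sgM'_mul q d hq, h1]
  have hlq : l ^ q = l := by
    have hq' : q = (q - 1) + 1 := by omega
    rw [hq', pow_succ, hl1, one_mul]
  have hlqj : ∀ j : ℕ, l ^ (q ^ j) = l := by
    intro j
    induction j with
    | zero => simp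
    | succ j ih => rw [pow_succ, pow_mul, ih, hlq]
  have hE : l ^ (∑ i ∈ Finset.range e, (q ^ d) ^ i) = 1 := by
    rw [← Finset.prod_pow_eq_pow_sum]
    have : ∀ i ∈ Finset.range e, l ^ ((q ^ d) ^ i) = l := by
      intro i _
      rw [← pow_mul]; exact hlqj _
    rw [Finset.prod_congr rfl this, Finset.prod_const, Finset.card_range, h2]
  have hDE : sgM' q (d * e) = sgM' q d * ∑ i ∈ Finset.range e, (q ^ d) ^ i := by
    have hqd : 2 ≤ q ^ d ∨ d = 0 := by
      rcases Nat.eq_zero_or_pos d with h | h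
      · right; exact h
      · left
        calc 2 ≤ q := hq
          _ = q ^ 1 := (pow_one q).symm
          _ ≤ q ^ d := Nat.pow_le_pow_right (by omega) h
    rcases hqd with hqd | rfl
    · have e1 : sgM' q (d * e) * (q - 1) = q ^ (d * e) - 1 := sgM'_mul q (d * e) hq
      have e2 : sgM' q d * (q - 1) = q ^ d - 1 := sgM'_mul q d hq
      have e3 : (∑ i ∈ Finset.range e, (q ^ d) ^ i) * (q ^ d - 1) = (q ^ d) ^ e - 1 :=
        sgM'_mul (q ^ d) e hqd
      have e4 : sgM' q (d * e) * (q - 1) =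
          (sgM' q d * ∑ i ∈ Finset.range e, (q ^ d) ^ i) * (q - 1) := by
        calc sgM' q (d * e) * (q - 1) = q ^ (d * e) - 1 := e1
          _ = (q ^ d) ^ e - 1 := by rw [pow_mul]
          _ = (∑ i ∈ Finset.range e, (q ^ d) ^ i) * (q ^ d - 1) := e3.symm
          _ = (∑ i ∈ Finset.range e, (q ^ d) ^ i) * (sgM' q d * (q - 1)) := by rw [e2]
          _ = _ := by ring
      exact Nat.eq_of_mul_eq_mul_right (by omega) e4
    · simp [sgM']
  have hM' : ρ ^ sgM' q (d * e) = 1 := by
    rw [hDE, pow_mul, ← hl, hE]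
  rw [← pow_mul, sgM_mul, pow_mul, hM', one_pow]

/-- a matrix of determinant one annihilated by an irreducible polynomial has a scalar power. -/
theorem irr_pow_scalar {F : Type*} [Field F] [Fintype F] (n : ℕ) (hn : 1 ≤ n)
    (B : Matrix (Fin n) (Fin n) F) (hdet : B.det = 1)
    (f : F[X]) (hf : Irreducible f) (hfB : aeval B f = 0) :
    ∃ c : F, B ^ sgM (Fintype.card F) n = c • (1 : Matrix (Fin n) (Fin n) F) := by
  classical
  haveI : Fact (Irreducible f) := ⟨hf⟩
  haveI : Nonempty (Fin n) := ⟨⟨0, hn⟩⟩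
  have hfne : f ≠ 0 := hf.ne_zero
  have hq : 2 ≤ Fintype.card F := Fintype.one_lt_card
  let pb := AdjoinRoot.powerBasis hfne
  haveI : Module.Finite F (AdjoinRoot f) := pb.finite
  haveI : Finite (AdjoinRoot f) := Module.finite_of_finite F
  haveI : Fintype (AdjoinRoot f) := Fintype.ofFinite _
  let Φ : AdjoinRoot f →ₐ[F] Matrix (Fin n) (Fin n) F :=
    Ideal.Quotient.liftₐ (Ideal.span {f}) (aeval B) (by
      intro a ha
      obtain ⟨c, rfl⟩ := Ideal.mem_span_singleton.mp ha
      rw [map_mul, hfB, zero_mul])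
  have hΦ : Φ (AdjoinRoot.root f) = B := by
    show aeval B (X : F[X]) = B
    exact aeval_X B
  let Ψ : AdjoinRoot f →ₐ[F] Module.End F (Fin n → F) :=
    (Matrix.toLinAlgEquiv' : Matrix (Fin n) (Fin n) F ≃ₐ[F] _).toAlgHom.comp Φ
  letI : Module (AdjoinRoot f) (Fin n → F) :=
    Module.compHom (Fin n → F) (Ψ : AdjoinRoot f →+* Module.End F (Fin n → F))
  have hsmul : ∀ (k : AdjoinRoot f) (v : Fin n → F), k • v = Ψ k v := fun k v => rfl
  haveI : IsScalarTower F (AdjoinRoot f) (Fin n → F) := ⟨fun a k v => by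
    rw [hsmul, hsmul, map_smul]; rfl⟩
  haveI : Module.Finite (AdjoinRoot f) (Fin n → F) :=
    Module.Finite.of_restrictScalars_finite F _ _
  let T : (Fin n → F) →ₗ[AdjoinRoot f] (Fin n → F) := AdjoinRoot.root f • LinearMap.id
  have hT : T.restrictScalars F = Matrix.toLin' B := by
    apply LinearMap.ext; intro v
    show AdjoinRoot.root f • v = _
    rw [hsmul]
    show Matrix.toLin' (Φ (AdjoinRoot.root f)) v = _
    rw [hΦ]
  have hdet1 : LinearMap.det (T.restrictScalars F) = 1 := by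
    rw [hT, LinearMap.det_toLin', hdet]
  rw [LinearMap.det_restrictScalars] at hdet1
  have hdetT : LinearMap.det T =
      AdjoinRoot.root f ^ Module.finrank (AdjoinRoot f) (Fin n → F) := by
    rw [LinearMap.det_smul, LinearMap.det_id, mul_one]
  rw [hdetT, map_pow] at hdet1
  have h2 := congrArg (algebraMap F (AdjoinRoot f)) hdet1
  rw [map_pow, FiniteField.algebraMap_norm_eq_pow, map_one] at h2
  have hcardK : Nat.card (AdjoinRoot f) =
      Fintype.card F ^ Module.finrank F (AdjoinRoot f) := by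
    rw [Module.natCard_eq_pow_finrank (K := F) (V := AdjoinRoot f), Nat.card_eq_fintype_card]
  rw [hcardK, Nat.card_eq_fintype_card] at h2
  have hde : Module.finrank F (AdjoinRoot f) * Module.finrank (AdjoinRoot f) (Fin n → F) = n := by
    rw [Module.finrank_mul_finrank F (AdjoinRoot f) (Fin n → F), Module.finrank_fin_fun]
  have hroot : AdjoinRoot.root f ≠ 0 := by
    intro h
    rw [h, map_zero] at hΦ
    rw [← hΦ, Matrix.det_zero] at hdet
    exact zero_ne_one hdet
  have h1 : AdjoinRoot.root f ^ (Fintype.card F ^ Module.finrank F (AdjoinRoot f) - 1) = 1 := by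
    have := FiniteField.pow_card_sub_one_eq_one (AdjoinRoot.root f) hroot
    rwa [← Nat.card_eq_fintype_card, hcardK] at this
  have h3 := nt_core (Fintype.card F) _ _ hq (AdjoinRoot.root f) h1 h2
  rw [hde] at h3
  obtain ⟨c, hc⟩ := mem_range_of_pow_card_sub_one (F := F) _ h3
  refine ⟨c, ?_⟩
  rw [← hΦ, ← map_pow, ← hc, AlgHom.commutes, Algebra.algebraMap_eq_smul_one]

/-- a primary matrix of determinant one has a scalar power. -/
theorem primary_pow_scalar {F : Type*} [Field F] [Fintype F] (p : ℕ) [Fact p.Prime] [CharP F p]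
    (n : ℕ) (hn : 1 ≤ n) (A : Matrix (Fin n) (Fin n) F) (hdet : A.det = 1)
    (f : F[X]) (hf : Irreducible f) (hfA : aeval A (f ^ n) = 0) (t : ℕ) (ht : n ≤ p ^ t) :
    ∃ c : F, A ^ (p ^ t * sgM (Fintype.card F) n) = c • (1 : Matrix (Fin n) (Fin n) F) := by
  have h1 : aeval A (f ^ p ^ t) = 0 := by
    obtain ⟨j, hj⟩ := Nat.exists_eq_add_of_le ht
    rw [hj, pow_add, map_mul, hfA, zero_mul]
  rw [← Polynomial.map_iterateFrobenius_expand, Polynomial.map_expand,
    Polynomial.expand_aeval] at h1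
  have hbij : Function.Bijective (iterateFrobenius F p t) :=
    Finite.injective_iff_bijective.mp (iterateFrobenius F p t).injective
  have hirr : Irreducible (f.map (iterateFrobenius F p t)) := by
    have h2 : f.map (iterateFrobenius F p t) =
        Polynomial.mapEquiv (RingEquiv.ofBijective (iterateFrobenius F p t) hbij) f := rfl
    rw [h2, MulEquiv.irreducible_iff]
    exact hf
  obtain ⟨c, hc⟩ := irr_pow_scalar n hn (A ^ p ^ t) (by rw [Matrix.det_pow, hdet, one_pow])
    _ hirr h1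
  exact ⟨c, by rw [pow_mul]; exact hc⟩

end Cfsg.Agent.H62
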