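import Mathlib
import Cfsg.Agent.H62.AbsorbC

set_option autoImplicit false
set_option linter.style.haveILetI false
set_option linter.unusedSimpArgs false
set_option linter.unusedSectionVars false
set_option linter.unusedVariables false

namespace Cfsg.Agent.H62

open Polynomial

/-- a Singer element: determinant one, and scalar powers only at multiples of `sgM`. -/
theorem singer_scalar {F : Type*} [Field F] [Fintype F] (p : ℕ) [Fact p.Prime] [CharP F p]
    (n : ℕ) (hn : 1 ≤ n) :
    ∃ S : Matrix (Fin n) (Fin n) F, S.det = 1 ∧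
      ∀ (k : ℕ) (c : F), S ^ k = c • (1 : Matrix (Fin n) (Fin n) F) →
        sgM (Fintype.card F) n ∣ k := by
  classical
  haveI : NeZero n := ⟨by omega⟩
  have hq2 : 2 ≤ Fintype.card F := Fintype.one_lt_card
  have hcard : Nat.card (FiniteField.Extension F p n) = Fintype.card F ^ n := by
    rw [FiniteField.natCard_extension, Nat.card_eq_fintype_card]
  have hfr : Module.finrank F (FiniteField.Extension F p n) = n :=
    FiniteField.finrank_extension F p n
  obtain ⟨g, hg⟩ := IsCyclic.exists_generator (α := (FiniteField.Extension F p n)ˣ)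
  have hog : orderOf g = Fintype.card F ^ n - 1 := by
    rw [orderOf_eq_card_of_forall_mem_zpowers hg, Nat.card_units, hcard]
  have hoz : orderOf (g : FiniteField.Extension F p n) = Fintype.card F ^ n - 1 := by
    rw [orderOf_units, hog]
  let b : Module.Basis (Fin n) F (FiniteField.Extension F p n) :=
    Module.finBasisOfFinrankEq F _ hfr
  have hψ : Function.Injective (Algebra.leftMulMatrix b) := Algebra.leftMulMatrix_injective b
  refine ⟨Algebra.leftMulMatrix b ((g : FiniteField.Extension F p n) ^ (Fintype.card F - 1)),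
    ?_, ?_⟩
  · rw [map_pow, Matrix.det_pow]
    apply FiniteField.pow_card_sub_one_eq_one
    intro h0
    have h1 : Algebra.leftMulMatrix b (g : FiniteField.Extension F p n) *
        Algebra.leftMulMatrix b ((g⁻¹ : (FiniteField.Extension F p n)ˣ) :
          FiniteField.Extension F p n) = 1 := by
      rw [← map_mul, Units.mul_inv, map_one]
    have h2 := congrArg Matrix.det h1
    rw [Matrix.det_mul, h0, zero_mul, Matrix.det_one] at h2
    exact zero_ne_one h2
  · intro k c hk
    rw [← map_pow, ← pow_mul] at hk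
    have h1 : (g : FiniteField.Extension F p n) ^ ((Fintype.card F - 1) * k) =
        algebraMap F _ c := by
      apply hψ
      rw [hk, AlgHom.commutes, Algebra.algebraMap_eq_smul_one]
    have hc : c ≠ 0 := by
      rintro rfl
      rw [map_zero] at h1
      exact (pow_ne_zero _ (Units.ne_zero g)) h1
    have h2 : (g : FiniteField.Extension F p n) ^
        ((Fintype.card F - 1) * k * (Fintype.card F - 1)) = 1 := by
      rw [pow_mul, h1, ← map_pow, FiniteField.pow_card_sub_one_eq_one c hc, map_one]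
    have h3 : Fintype.card F ^ n - 1 ∣ (Fintype.card F - 1) * k * (Fintype.card F - 1) := by
      rw [← hoz]; exact orderOf_dvd_of_pow_eq_one h2
    exact sgM_dvd_of _ n k hq2 hn h3

section Unip

variable {F : Type*} [Field F]

/-- the nilpotent shift matrix truncated at `m`. -/
def shiftM (F : Type*) [Field F] (n m : ℕ) : Matrix (Fin n) (Fin n) F :=
  fun i j => if j.val = i.val + 1 ∧ j.val < m then 1 else 0

theorem shiftM_pow (n m k : ℕ) (i j : Fin n) :
    (shiftM F n m ^ (k + 1)) i j = if j.val = i.val + (k + 1) ∧ j.val < m then 1 else 0 := by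
  induction k generalizing i j with
  | zero => simp [shiftM]
  | succ k ih =>
    rw [pow_succ, Matrix.mul_apply]
    simp only [ih, shiftM]
    by_cases h : j.val = i.val + (k + 1 + 1) ∧ j.val < m
    · rw [if_pos h]
      rw [Finset.sum_eq_single ⟨i.val + (k + 1), by omega⟩]
      · have h1 : (i.val + (k + 1) = i.val + (k + 1) ∧ i.val + (k + 1) < m) := ⟨rfl, by omega⟩
        have h2 : (j.val = i.val + (k + 1) + 1 ∧ j.val < m) := ⟨by omega, h.2⟩
        simp [h1, h2]
        omega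
      · intro b _ hb
        have : ¬ (b.val = i.val + (k + 1) ∧ b.val < m) := fun h' => hb (Fin.ext h'.1)
        simp [this]
      · simp
    · rw [if_neg h]
      apply Finset.sum_eq_zero
      intro b _
      by_cases hb : b.val = i.val + (k + 1) ∧ b.val < m
      · have : ¬ (j.val = b.val + 1 ∧ j.val < m) := by
          rintro ⟨h1, h2⟩
          exact h ⟨by omega, h2⟩
        simp [this]
      · simp [hb]

theorem shiftM_pow_eq_zero_iff (n m k : ℕ) (hm : m ≤ n) :
    shiftM F n m ^ (k + 1) = 0 ↔ m ≤ k + 1 := by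
  constructor
  · intro h
    by_contra hk
    push Not at hk
    have := congrFun (congrFun h ⟨0, by omega⟩) ⟨k + 1, by omega⟩
    rw [shiftM_pow] at this
    simp at this
    omega
  · intro h
    ext i j
    rw [shiftM_pow]
    have : ¬ (j.val = i.val + (k + 1) ∧ j.val < m) := by
      rintro ⟨h1, h2⟩; omega
    simp [this]

theorem unipM_pow (p : ℕ) [Fact p.Prime] [CharP F p] (n m t : ℕ) (hn : 1 ≤ n) :
    (1 + shiftM F n m) ^ (p ^ t) = 1 + shiftM F n m ^ (p ^ t) := by
  haveI : Nonempty (Fin n) := ⟨⟨0, hn⟩⟩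
  rw [add_pow_char_pow_of_commute p t (Commute.one_left _), one_pow]

theorem unipM_orderOf (p : ℕ) [Fact p.Prime] [CharP F p] (n m t : ℕ) (hm : m ≤ n)
    (h1 : p ^ t < m) (h2 : m ≤ p ^ (t + 1)) :
    orderOf (1 + shiftM F n m) = p ^ (t + 1) := by
  have hp : 1 ≤ p := (Fact.out : p.Prime).one_lt.le
  have hn : 1 ≤ n := by have := Nat.one_le_pow t p hp; omega
  obtain ⟨a, ha⟩ : ∃ a, p ^ t = a + 1 := ⟨p ^ t - 1, by have := Nat.one_le_pow t p hp; omega⟩
  obtain ⟨b, hb⟩ : ∃ b, p ^ (t + 1) = b + 1 :=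
    ⟨p ^ (t + 1) - 1, by have := Nat.one_le_pow (t + 1) p hp; omega⟩
  apply orderOf_eq_prime_pow
  · rw [unipM_pow p n m t hn]
    intro h
    have h' : shiftM F n m ^ p ^ t = 0 := by simpa using h
    rw [ha, shiftM_pow_eq_zero_iff _ _ _ hm] at h'
    omega
  · rw [unipM_pow p n m (t + 1) hn, hb, (shiftM_pow_eq_zero_iff _ _ _ hm).mpr (by omega),
      add_zero]

/-- a `p`-element in characteristic `p` has no scalar powers other than the trivial ones. -/
theorem pelt_scalar (p : ℕ) [Fact p.Prime] [CharP F p] (n t : ℕ) (hn : 1 ≤ n)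
    (U : Matrix (Fin n) (Fin n) F) (hU : orderOf U = p ^ t) (k : ℕ) (c : F)
    (hk : U ^ k = c • (1 : Matrix (Fin n) (Fin n) F)) : p ^ t ∣ k := by
  haveI : Nonempty (Fin n) := ⟨⟨0, hn⟩⟩
  have h1 : (U ^ k) ^ (p ^ t) = 1 := by
    rw [← pow_mul, mul_comm, pow_mul, ← hU, pow_orderOf_eq_one, one_pow]
  rw [hk, _root_.smul_pow, one_pow] at h1
  have h2 : c ^ p ^ t = 1 := by
    have := congrFun (congrFun h1 ⟨0, hn⟩) ⟨0, hn⟩
    simpa using this
  have h3 : (c - 1) ^ p ^ t = 0 := by
    rw [sub_pow_char_pow, h2, one_pow, sub_self]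
  have h4 : c = 1 := sub_eq_zero.mp (pow_eq_zero_iff (pow_ne_zero _ (Fact.out : p.Prime).ne_zero)
    |>.mp h3)
  rw [h4, one_smul] at hk
  rw [← hU]
  exact orderOf_dvd_of_pow_eq_one hk

end Unip

section Diag

variable {F : Type*} [Field F]

/-- the diagonal matrix `diag(ζ, ..., ζ, ζ')`. -/
def diagZ (n : ℕ) (ζ ζ' : F) : Matrix (Fin n) (Fin n) F :=
  Matrix.diagonal (fun i => if i.val + 1 < n then ζ else ζ')

theorem diagZ_det (n : ℕ) (hn : 1 ≤ n) (ζ ζ' : F) : (diagZ n ζ ζ').det = ζ ^ (n - 1) * ζ' := by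
  obtain ⟨n', rfl⟩ : ∃ n', n = n' + 1 := ⟨n - 1, by omega⟩
  unfold diagZ
  rw [Matrix.det_diagonal, Fin.prod_univ_castSucc]
  simp

theorem diagZ_pow (n : ℕ) (ζ ζ' : F) (k : ℕ) : diagZ n ζ ζ' ^ k = diagZ n (ζ ^ k) (ζ' ^ k) := by
  unfold diagZ
  rw [Matrix.diagonal_pow]
  congr 1
  funext i
  by_cases h : i.val + 1 < n <;> simp [h]

theorem diagZ_one (n : ℕ) : diagZ n (1 : F) 1 = 1 := by
  unfold diagZ
  simp

theorem diagZ_scalar (n : ℕ) (hn : 2 ≤ n) (ζ ζ' c : F)
    (h : diagZ n ζ ζ' = c • (1 : Matrix (Fin n) (Fin n) F)) : ζ = c ∧ ζ' = c := by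
  unfold diagZ at h
  constructor
  · have := congrFun (congrFun h ⟨0, by omega⟩) ⟨0, by omega⟩
    have h0 : (0 : ℕ) + 1 < n := by omega
    simpa [h0] using this
  · have := congrFun (congrFun h ⟨n - 1, by omega⟩) ⟨n - 1, by omega⟩
    have h0 : ¬ (n - 1 + 1 < n) := by omega
    simpa [h0] using this

theorem diagZ_commute (n : ℕ) (ζ ζ' : F) :
    Commute (1 + shiftM F n (n - 1)) (diagZ n ζ ζ') := by
  apply Commute.add_left (Commute.one_left _)
  show _ * _ = _ * _
  unfold diagZ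
  ext i j
  rw [Matrix.mul_diagonal, Matrix.diagonal_mul]
  by_cases h : j.val = i.val + 1 ∧ j.val < n - 1
  · have h1 : i.val + 1 < n := by omega
    have h2 : j.val + 1 < n := by omega
    rw [if_pos h1, if_pos h2, mul_comm]
  · have : shiftM F n (n - 1) i j = 0 := by unfold shiftM; rw [if_neg h]
    rw [this, zero_mul, mul_zero]

/-- the special diagonal element of order `r`. -/
theorem diagZ_spec (n r : ℕ) (hn : 2 ≤ n) (hr : r.Prime) (hrn : ¬ r ∣ n) (ζ : F)
    (hζ : orderOf ζ = r) :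
    (diagZ n ζ (ζ ^ ((r - 1) * (n - 1)))).det = 1 ∧
    diagZ n ζ (ζ ^ ((r - 1) * (n - 1))) ^ r = 1 ∧
    ∀ (k : ℕ) (c : F), diagZ n ζ (ζ ^ ((r - 1) * (n - 1))) ^ k =
      c • (1 : Matrix (Fin n) (Fin n) F) → r ∣ k := by
  have hζr : ζ ^ r = 1 := hζ ▸ pow_orderOf_eq_one ζ
  obtain ⟨r', rfl⟩ : ∃ r', r = r' + 1 := ⟨r - 1, by have := hr.one_lt; omega⟩
  have e : ∀ j : ℕ, ζ ^ j * ζ ^ (r' * j) = 1 := by
    intro j
    rw [← pow_add]
    have : j + r' * j = (r' + 1) * j := by ring
    rw [this, pow_mul, hζr, one_pow]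
  simp only [Nat.add_sub_cancel]
  refine ⟨?_, ?_, ?_⟩
  · rw [diagZ_det n (by omega), e]
  · rw [diagZ_pow, hζr, ← pow_mul, mul_comm, pow_mul, hζr, one_pow, diagZ_one]
  · intro k c hk
    rw [diagZ_pow] at hk
    obtain ⟨h1, h2⟩ := diagZ_scalar n hn _ _ c hk
    have h3 : (ζ ^ n) ^ k = 1 := by
      have hn' : n = (n - 1) + 1 := by omega
      calc (ζ ^ n) ^ k = (ζ ^ (n - 1) * ζ) ^ k := by rw [← pow_succ, ← hn']
        _ = (ζ ^ (n - 1)) ^ k * ζ ^ k := mul_pow _ _ _
        _ = (ζ ^ (n - 1)) ^ k * (ζ ^ (r' * (n - 1))) ^ k := by rw [h1, h2]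
        _ = 1 := by rw [← mul_pow, e, one_pow]
    have h4 : (r' + 1) ∣ n * k := by
      rw [← hζ]; exact orderOf_dvd_of_pow_eq_one (by rw [pow_mul]; exact h3)
    exact (hr.dvd_mul.mp h4).resolve_left hrn

end Diag

end Cfsg.Agent.H62
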