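import Mathlib
import Cfsg.Agent.H62.AbsorbA
import Cfsg.Agent.H62.AbsorbB
import Cfsg.Agent.H62.AbsorbC
import Cfsg.Agent.H62.AbsorbD

set_option autoImplicit false
set_option linter.style.haveILetI false
set_option linter.unusedSimpArgs false
set_option linter.unusedSectionVars false
set_option linter.unusedVariables false

namespace Cfsg.Agent.H62

open Polynomial

section PSL

variable {F : Type*} [Field F]

theorem psl_pow_eq_one_iff' (n : ℕ) (s : Matrix.SpecialLinearGroup (Fin n) F) (k : ℕ) :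
    (QuotientGroup.mk' (Subgroup.center (Matrix.SpecialLinearGroup (Fin n) F)) s) ^ k = 1 ↔
      ∃ c : F, s.1 ^ k = c • (1 : Matrix (Fin n) (Fin n) F) := by
  rw [← map_pow, QuotientGroup.mk'_apply, QuotientGroup.eq_one_iff,
    Matrix.SpecialLinearGroup.mem_center_iff]
  constructor
  · rintro ⟨c, hc, h⟩
    refine ⟨c, ?_⟩
    rw [← Matrix.SpecialLinearGroup.coe_pow, ← h, Matrix.scalar_apply,
      Matrix.smul_one_eq_diagonal]
  · rintro ⟨c, hc⟩
    refine ⟨c, ?_, ?_⟩
    · have h1 := congrArg Matrix.det hc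
      rw [Matrix.det_pow, s.2, one_pow, Matrix.det_smul, Matrix.det_one, mul_one] at h1
      exact h1.symm
    · rw [Matrix.SpecialLinearGroup.coe_pow, hc, Matrix.scalar_apply,
        Matrix.smul_one_eq_diagonal]

theorem psl_order_dvd_of (n : ℕ) (s : Matrix.SpecialLinearGroup (Fin n) F) (N : ℕ)
    (h : ∃ c : F, s.1 ^ N = c • (1 : Matrix (Fin n) (Fin n) F)) :
    orderOf (QuotientGroup.mk' (Subgroup.center (Matrix.SpecialLinearGroup (Fin n) F)) s) ∣ N :=
  orderOf_dvd_of_pow_eq_one ((psl_pow_eq_one_iff' n s N).mpr h)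

theorem psl_dvd_order_of (n : ℕ) (s : Matrix.SpecialLinearGroup (Fin n) F) (N : ℕ)
    (h : ∀ (k : ℕ) (c : F), s.1 ^ k = c • (1 : Matrix (Fin n) (Fin n) F) → N ∣ k) :
    N ∣ orderOf (QuotientGroup.mk' (Subgroup.center (Matrix.SpecialLinearGroup (Fin n) F)) s) := by
  obtain ⟨c, hc⟩ := (psl_pow_eq_one_iff' n s _).mp (pow_orderOf_eq_one
    (QuotientGroup.mk' (Subgroup.center (Matrix.SpecialLinearGroup (Fin n) F)) s))
  exact h _ c hc

theorem charp_pow_eq_one (p : ℕ) [Fact p.Prime] [CharP F p] (t : ℕ) (c : F)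
    (h : c ^ p ^ t = 1) : c = 1 := by
  have h3 : (c - 1) ^ p ^ t = 0 := by
    rw [sub_pow_char_pow, h, one_pow, sub_self]
  exact sub_eq_zero.mp
    ((pow_eq_zero_iff (pow_ne_zero _ (Fact.out : p.Prime).ne_zero)).mp h3)

theorem sgM_coprime (p q n : ℕ) (hp : p.Prime) (hpq : p ∣ q) (hq : 2 ≤ q) (hn : 1 ≤ n) :
    Nat.Coprime p (sgM q n) := by
  rw [Nat.Prime.coprime_iff_not_dvd hp]
  intro h
  have h1 : sgM q n ∣ sgM' q n := by
    unfold sgM
    exact Nat.div_dvd_of_dvd (Nat.gcd_dvd_left _ _)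
  have h2 : p ∣ q ^ n - 1 := by
    rw [← sgM'_mul q n hq]
    exact dvd_mul_of_dvd_left (dvd_trans h h1) _
  have h3 : p ∣ q ^ n := dvd_pow hpq (by omega)
  have h4 : 1 ≤ q ^ n := Nat.one_le_pow _ _ (by omega)
  have h5 : p ∣ 1 := by
    have := (Nat.dvd_sub h3 h2)
    rwa [Nat.sub_sub_self h4] at this
  exact hp.one_lt.ne' (Nat.dvd_one.mp h5)

end PSL

/-- the two absorption statements for `PSL(n, q)`. -/
theorem psl_absorb {F : Type*} [Field F] [Fintype F] (p a n r m : ℕ) (hp : p.Prime)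
    (ha : 1 ≤ a) (hF : Fintype.card F = p ^ a) (hn : 2 ≤ n) (hr : r.Prime)
    (hrq : r ∣ Fintype.card F - 1) (hrn : ¬ r ∣ n) :
    Set.range (orderOf : Matrix.ProjectiveSpecialLinearGroup (Fin n) F ×
        Matrix.ProjectiveSpecialLinearGroup (Fin n) F ×
        Matrix.ProjectiveSpecialLinearGroup (Fin n) F × Multiplicative (Fin m → ZMod r) → ℕ) =
      Set.range (orderOf : Matrix.ProjectiveSpecialLinearGroup (Fin n) F ×
        Matrix.ProjectiveSpecialLinearGroup (Fin n) F ×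
        Matrix.ProjectiveSpecialLinearGroup (Fin n) F → ℕ) ∧
    ((¬ ∃ j : ℕ, n - 1 = p ^ j) →
      Set.range (orderOf : Matrix.ProjectiveSpecialLinearGroup (Fin n) F ×
          Matrix.ProjectiveSpecialLinearGroup (Fin n) F × Multiplicative (Fin m → ZMod r) → ℕ) =
        Set.range (orderOf : Matrix.ProjectiveSpecialLinearGroup (Fin n) F ×
          Matrix.ProjectiveSpecialLinearGroup (Fin n) F → ℕ)) := by
  classical
  haveI : Fact p.Prime := ⟨hp⟩
  have hq2 : 2 ≤ Fintype.card F := Fintype.one_lt_card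
  have hpq : p ∣ Fintype.card F := by rw [hF]; exact dvd_pow_self p (by omega)
  haveI : CharP F p := by
    obtain ⟨n', hp', hcard⟩ := FiniteField.card F (ringChar F)
    have hpp : p = ringChar F := by
      have h1 : p ∣ ringChar F ^ (n' : ℕ) := by rw [← hcard]; exact hpq
      exact (Nat.prime_dvd_prime_iff_eq hp hp').mp (hp.dvd_of_dvd_pow h1)
    exact hpp ▸ ringChar.charP F
  have hn1 : 1 ≤ n := by omega
  have hrp : r ≠ p := by
    rintro rfl
    have h1 : r ∣ 1 := by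
      have := Nat.dvd_sub hpq hrq
      rwa [Nat.sub_sub_self (by omega)] at this
    exact hr.one_lt.ne' (Nat.dvd_one.mp h1)
  -- an element of order r in F
  obtain ⟨ζ, hζ⟩ : ∃ ζ : F, orderOf ζ = r := by
    obtain ⟨g, hg⟩ := IsCyclic.exists_generator (α := Fˣ)
    have hog : orderOf g = Fintype.card F - 1 := by
      rw [orderOf_eq_card_of_forall_mem_zpowers hg, Nat.card_units, Nat.card_eq_fintype_card]
    obtain ⟨y, hy⟩ := absorb_exists_orderOf g r (hog ▸ hrq) (hog ▸ (by omega))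
    exact ⟨(y : F), by rw [orderOf_units, hy]⟩
  -- the exponent t
  obtain ⟨t, ht1, ht2⟩ : ∃ t, p ^ t < n ∧ n ≤ p ^ (t + 1) := by
    have h1 : n ≤ p ^ Nat.clog p n := Nat.le_pow_clog hp.one_lt n
    have h2 : p ^ (Nat.clog p n).pred < n := Nat.pow_pred_clog_lt_self hp.one_lt (by omega)
    have h3 : 0 < Nat.clog p n := Nat.clog_pos hp.one_lt hn
    refine ⟨(Nat.clog p n).pred, h2, ?_⟩
    have h4 : (Nat.clog p n).pred + 1 = Nat.clog p n := Nat.succ_pred_eq_of_pos h3
    rw [h4]; exact h1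
  -- the regular unipotent element
  have hUord : orderOf (1 + shiftM F n n) = p ^ (t + 1) :=
    unipM_orderOf p n n t le_rfl ht1 ht2
  have hdet_of_ord : ∀ U : Matrix (Fin n) (Fin n) F, orderOf U = p ^ (t + 1) → U.det = 1 := by
    intro U hU
    have h1 : U ^ p ^ (t + 1) = 1 := hU ▸ pow_orderOf_eq_one U
    have h2 := congrArg Matrix.det h1
    rw [Matrix.det_pow, Matrix.det_one] at h2
    exact charp_pow_eq_one p (t + 1) _ h2
  have hpsl_ord : ∀ (u : Matrix.SpecialLinearGroup (Fin n) F), orderOf u.1 = p ^ (t + 1) →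
      orderOf (QuotientGroup.mk' (Subgroup.center (Matrix.SpecialLinearGroup (Fin n) F)) u) =
        p ^ (t + 1) := by
    intro u hu
    apply Nat.dvd_antisymm
    · apply psl_order_dvd_of
      exact ⟨1, by rw [← hu, pow_orderOf_eq_one, one_smul]⟩
    · apply psl_dvd_order_of
      intro k c hk
      exact pelt_scalar p n (t + 1) hn1 u.1 hu k c hk
  obtain ⟨uU, huU⟩ : ∃ uU : Matrix.SpecialLinearGroup (Fin n) F, uU.1 = 1 + shiftM F n n :=
    ⟨⟨_, hdet_of_ord _ hUord⟩, rfl⟩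
  obtain ⟨hU, hUdef⟩ : ∃ hU : Matrix.ProjectiveSpecialLinearGroup (Fin n) F,
      hU = QuotientGroup.mk' (Subgroup.center (Matrix.SpecialLinearGroup (Fin n) F)) uU :=
    ⟨_, rfl⟩
  have hUo : orderOf hU = p ^ (t + 1) := by
    rw [hUdef]; exact hpsl_ord uU (huU ▸ hUord)
  -- the Singer element
  obtain ⟨S, hSdet, hSk⟩ := singer_scalar (F := F) p n hn1
  obtain ⟨uS, huS⟩ : ∃ uS : Matrix.SpecialLinearGroup (Fin n) F, uS.1 = S := ⟨⟨S, hSdet⟩, rfl⟩
  obtain ⟨hS, hSdef⟩ : ∃ hS : Matrix.ProjectiveSpecialLinearGroup (Fin n) F,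
      hS = QuotientGroup.mk' (Subgroup.center (Matrix.SpecialLinearGroup (Fin n) F)) uS :=
    ⟨_, rfl⟩
  have hSo : sgM (Fintype.card F) n ∣ orderOf hS := by
    rw [hSdef]
    apply psl_dvd_order_of
    intro k c hk
    exact hSk k c (huS ▸ hk)
  -- the diagonal element
  obtain ⟨hZdet, hZr, hZk⟩ := diagZ_spec n r hn hr hrn ζ hζ
  obtain ⟨uZ, huZ⟩ : ∃ uZ : Matrix.SpecialLinearGroup (Fin n) F,
      uZ.1 = diagZ n ζ (ζ ^ ((r - 1) * (n - 1))) := ⟨⟨_, hZdet⟩, rfl⟩
  obtain ⟨hR, hRdef⟩ : ∃ hR : Matrix.ProjectiveSpecialLinearGroup (Fin n) F,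
      hR = QuotientGroup.mk' (Subgroup.center (Matrix.SpecialLinearGroup (Fin n) F)) uZ :=
    ⟨_, rfl⟩
  have hRo : orderOf hR = r := by
    rw [hRdef]
    apply Nat.dvd_antisymm
    · apply psl_order_dvd_of
      exact ⟨1, by rw [huZ, hZr, one_smul]⟩
    · apply psl_dvd_order_of
      intro k c hk
      exact hZk k c (huZ ▸ hk)
  -- the dichotomy
  have hd : ∀ g : Matrix.ProjectiveSpecialLinearGroup (Fin n) F,
      (∃ h : Matrix.ProjectiveSpecialLinearGroup (Fin n) F, Nat.lcm (orderOf g) r ∣ orderOf h) ∨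
      orderOf g ∣ Nat.lcm (orderOf hU) (orderOf hS) := by
    intro g
    obtain ⟨s, rfl⟩ := QuotientGroup.mk'_surjective _ g
    rcases primary_dichotomy n hn1 s.1 with ⟨f, hf, hfA⟩ | ⟨μ1, μ2, hco, h1, h2, hμ⟩
    · right
      obtain ⟨c, hc⟩ := primary_pow_scalar p n hn1 s.1 s.2 f hf hfA (t + 1) ht2
      have h1 := psl_order_dvd_of n s _ ⟨c, hc⟩
      refine dvd_trans h1 ?_
      apply Nat.Coprime.mul_dvd_of_dvd_of_dvd
      · exact Nat.Coprime.pow_left _ (sgM_coprime p _ n hp hpq hq2 hn1)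
      · rw [hUo]; exact Nat.dvd_lcm_left _ _
      · exact dvd_trans hSo (Nat.dvd_lcm_right _ _)
    · left
      obtain ⟨Z, hZ1, hZ2, hZ3, hZ4⟩ := nonprimary_z n r hr hrn ζ hζ s.1 μ1 μ2 hco h1 h2 hμ
      obtain ⟨z, hz⟩ : ∃ z : Matrix.SpecialLinearGroup (Fin n) F, z.1 = Z := ⟨⟨Z, hZ1⟩, rfl⟩
      have hzo : orderOf (QuotientGroup.mk'
          (Subgroup.center (Matrix.SpecialLinearGroup (Fin n) F)) z) = r := by
        apply Nat.dvd_antisymm
        · apply psl_order_dvd_of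
          exact ⟨1, by rw [hz, hZ3, one_smul]⟩
        · apply psl_dvd_order_of
          intro k c hk
          exact hZ4 k c (hz ▸ hk)
      have hcomm : Commute s z := by
        apply Subtype.ext
        rw [Matrix.SpecialLinearGroup.coe_mul, Matrix.SpecialLinearGroup.coe_mul, hz]
        exact hZ2
      by_cases hrg : r ∣ orderOf (QuotientGroup.mk'
          (Subgroup.center (Matrix.SpecialLinearGroup (Fin n) F)) s)
      · exact ⟨_, Nat.lcm_dvd dvd_rfl hrg⟩
      · refine ⟨QuotientGroup.mk' _ s * QuotientGroup.mk' _ z, ?_⟩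
        have hco' : Nat.Coprime (orderOf (QuotientGroup.mk'
            (Subgroup.center (Matrix.SpecialLinearGroup (Fin n) F)) s))
            (orderOf (QuotientGroup.mk'
            (Subgroup.center (Matrix.SpecialLinearGroup (Fin n) F)) z)) := by
          rw [hzo, Nat.coprime_comm]
          exact (Nat.Prime.coprime_iff_not_dvd hr).mpr hrg
        rw [(hcomm.map (QuotientGroup.mk' _)).orderOf_mul_eq_mul_orderOf_of_coprime hco', hzo]
        exact Nat.lcm_dvd (dvd_mul_right _ _) (dvd_mul_left _ _)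
  refine ⟨?_, ?_⟩
  · exact absorb3 r (elem_ab_pow r m) (tri_absorb r hU hS hR (hRo ▸ dvd_rfl) hd)
  · intro hj
    -- the decomposable unipotent element
    have ht3 : p ^ t < n - 1 := by
      have : p ^ t ≠ n - 1 := fun h => hj ⟨t, h.symm⟩
      omega
    have hU'ord : orderOf (1 + shiftM F n (n - 1)) = p ^ (t + 1) :=
      unipM_orderOf p n (n - 1) t (by omega) ht3 (by omega)
    obtain ⟨uU', huU'⟩ : ∃ uU' : Matrix.SpecialLinearGroup (Fin n) F,
        uU'.1 = 1 + shiftM F n (n - 1) := ⟨⟨_, hdet_of_ord _ hU'ord⟩, rfl⟩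
    have hU'o := hpsl_ord uU' (huU' ▸ hU'ord)
    have hcomm : Commute uU' uZ := by
      apply Subtype.ext
      rw [Matrix.SpecialLinearGroup.coe_mul, Matrix.SpecialLinearGroup.coe_mul, huU', huZ]
      exact diagZ_commute n ζ _
    have hco' : Nat.Coprime (orderOf (QuotientGroup.mk'
        (Subgroup.center (Matrix.SpecialLinearGroup (Fin n) F)) uU'))
        (orderOf (QuotientGroup.mk'
        (Subgroup.center (Matrix.SpecialLinearGroup (Fin n) F)) uZ)) := by
      rw [hU'o, ← hRdef, hRo]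
      apply Nat.Coprime.pow_left
      exact (Nat.coprime_primes hp hr).mpr (Ne.symm hrp)
    have hURo : Nat.lcm (orderOf hU) r ∣ orderOf (QuotientGroup.mk'
        (Subgroup.center (Matrix.SpecialLinearGroup (Fin n) F)) uU' * QuotientGroup.mk'
        (Subgroup.center (Matrix.SpecialLinearGroup (Fin n) F)) uZ) := by
      rw [(hcomm.map (QuotientGroup.mk' _)).orderOf_mul_eq_mul_orderOf_of_coprime hco', hU'o,
        ← hRdef, hRo, hUo]
      exact Nat.lcm_dvd (dvd_mul_right _ _) (dvd_mul_left _ _)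
    exact absorb2 r (elem_ab_pow r m) (bi_absorb r hU hS _ hURo hd)

end Cfsg.Agent.H62
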