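import Mathlib

set_option autoImplicit false

namespace Cfsg.Agent.H62

open MulAction

/-- A group `H` acting on (the underlying set of) a group `T` by automorphisms and
anti-automorphisms, inducing all inner automorphisms, with all stabilizers of non-identity
elements maximal, and `T` non-abelian. -/
structure XHyp (H T : Type*) [Group T] [Group H] [MulAction H T] : Prop where
  a1 : ∀ h : H, (∀ x y : T, h • (x * y) = h • x * h • y) ∨
    (∀ x y : T, h • (x * y) = h • y * h • x)
  a2 : ∀ t : T, ∃ h : H, ∀ s : T, h • s = t * s * t⁻¹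
  a3 : ∀ x : T, x ≠ 1 → ∀ L : Subgroup H, stabilizer H x ≤ L → L = stabilizer H x ∨ L = ⊤
  na : ∃ a b : T, a * b ≠ b * a

namespace XHyp

variable {H T : Type*} [Group T] [Group H] [MulAction H T]

theorem smul_one' (hX : XHyp H T) (h : H) : h • (1 : T) = 1 := by
  rcases hX.a1 h with h1 | h1
  · have h2 := h1 1 1
    rw [mul_one] at h2
    have h3 : h • (1 : T) * 1 = h • (1 : T) * h • (1 : T) := by rw [mul_one]; exact h2
    exact (mul_left_cancel h3).symm
  · have h2 := h1 1 1
    rw [mul_one] at h2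
    have h3 : h • (1 : T) * 1 = h • (1 : T) * h • (1 : T) := by rw [mul_one]; exact h2
    exact (mul_left_cancel h3).symm

theorem smul_pow' (hX : XHyp H T) (h : H) (x : T) (k : ℕ) : h • (x ^ k) = (h • x) ^ k := by
  induction k with
  | zero => rw [pow_zero, pow_zero]; exact hX.smul_one' h
  | succ k ih =>
    rcases hX.a1 h with h1 | h1
    · rw [pow_succ, h1, ih, pow_succ]
    · rw [pow_succ, h1, ih, pow_succ']

theorem smul_commute (hX : XHyp H T) (h : H) {x y : T} (hc : x * y = y * x) :
    h • x * h • y = h • y * h • x := by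
  rcases hX.a1 h with h1 | h1
  · calc h • x * h • y = h • (x * y) := (h1 x y).symm
      _ = h • (y * x) := by rw [hc]
      _ = h • y * h • x := h1 y x
  · calc h • x * h • y = h • (y * x) := (h1 y x).symm
      _ = h • (x * y) := by rw [hc]
      _ = h • y * h • x := h1 x y

theorem center_eq_bot (hX : XHyp H T) [IsSimpleGroup T] : Subgroup.center T = ⊥ := by
  rcases (inferInstance : (Subgroup.center T).Normal).eq_bot_or_eq_top with h | h
  · exact h
  · exfalso
    obtain ⟨a, b, hab⟩ := hX.na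
    apply hab
    have ha : a ∈ Subgroup.center T := by rw [h]; trivial
    exact ((Subgroup.mem_center_iff.1 ha) b).symm

/-- an element of `H` inducing conjugation by `t`. -/
noncomputable def inn (hX : XHyp H T) (t : T) : H := Classical.choose (hX.a2 t)

theorem inn_smul (hX : XHyp H T) (t s : T) : hX.inn t • s = t * s * t⁻¹ :=
  Classical.choose_spec (hX.a2 t) s

theorem inn_mem_stab_iff (hX : XHyp H T) (t z : T) :
    hX.inn t ∈ stabilizer H z ↔ t * z = z * t := by
  rw [mem_stabilizer_iff, hX.inn_smul]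
  constructor
  · intro hz
    calc t * z = t * z * t⁻¹ * t := by group
      _ = z * t := by rw [hz]
  · intro hz
    rw [hz]; group

theorem stab_ne_top (hX : XHyp H T) [IsSimpleGroup T] {x : T} (hx : x ≠ 1) :
    stabilizer H x ≠ ⊤ := by
  intro h
  have hc : x ∈ Subgroup.center T := by
    rw [Subgroup.mem_center_iff]
    intro t
    have h1 : hX.inn t ∈ stabilizer H x := by rw [h]; trivial
    exact (hX.inn_mem_stab_iff t x).1 h1
  rw [hX.center_eq_bot, Subgroup.mem_bot] at hc
  exact hx hc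

theorem stab_eq_of_le (hX : XHyp H T) [IsSimpleGroup T] {x y : T} (hx : x ≠ 1) (hy : y ≠ 1)
    (hle : stabilizer H x ≤ stabilizer H y) : stabilizer H x = stabilizer H y := by
  rcases hX.a3 x hx _ hle with h | h
  · exact h.symm
  · exact absurd h (hX.stab_ne_top hy)

theorem comm_iff_of_stab_eq (hX : XHyp H T) {x y : T} (h : stabilizer H x = stabilizer H y)
    (t : T) : t * x = x * t ↔ t * y = y * t := by
  rw [← hX.inn_mem_stab_iff t x, ← hX.inn_mem_stab_iff t y, h]

theorem stab_pow_eq (hX : XHyp H T) [IsSimpleGroup T] {x : T} (k : ℕ) (hk : x ^ k ≠ 1) :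
    stabilizer H x = stabilizer H (x ^ k) := by
  have hx : x ≠ 1 := by
    rintro rfl
    exact hk (one_pow k)
  apply hX.stab_eq_of_le hx hk
  intro h hh
  rw [mem_stabilizer_iff] at hh ⊢
  rw [hX.smul_pow', hh]

theorem stab_eq_of_coprime (hX : XHyp H T) [IsSimpleGroup T] {x z : T} (hx : x ≠ 1)
    (hz : z ≠ 1) (hc : x * z = z * x) (hcop : (orderOf x).Coprime (orderOf z)) :
    stabilizer H x = stabilizer H z := by
  have key : ∀ (u v : T), u * v = v * u → (orderOf u).Coprime (orderOf v) →
      ∃ a : ℕ, (u * v) ^ a = u := by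
    intro u v huv hcop'
    obtain ⟨m, hm⟩ := exists_pow_eq_self_of_coprime (x := u) (n := orderOf v) hcop'.symm
    refine ⟨orderOf v * m, ?_⟩
    have h1 : Commute u v := huv
    rw [pow_mul, h1.mul_pow, pow_orderOf_eq_one, mul_one, hm]
  obtain ⟨a, ha⟩ := key x z hc hcop
  obtain ⟨b, hb⟩ := key z x hc.symm hcop.symm
  rw [← hc] at hb
  have e1 := hX.stab_pow_eq (x := x * z) a (by rw [ha]; exact hx)
  have e2 := hX.stab_pow_eq (x := x * z) b (by rw [hb]; exact hz)
  rw [ha] at e1
  rw [hb] at e2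
  rw [← e1, e2]

/-- centralizers of non-identity elements are self-normalizing. -/
theorem normalizer_cent (hX : XHyp H T) [IsSimpleGroup T] {x : T} (hx : x ≠ 1) (g : T)
    (hg : ∀ t : T, t * x = x * t ↔ (g * t * g⁻¹) * x = x * (g * t * g⁻¹)) : g * x = x * g := by
  let L : Subgroup H :=
    { carrier := {h | ∀ t : T, t * x = x * t ↔ (h • t) * x = x * (h • t)}
      one_mem' := by
        intro t
        rw [one_smul]
      mul_mem' := by
        intro a b ha hb t
        rw [mul_smul]
        exact (hb t).trans (ha (b • t))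
      inv_mem' := by
        intro a ha t
        have h1 := ha (a⁻¹ • t)
        rw [smul_inv_smul] at h1
        exact h1.symm }
  have hle : stabilizer H x ≤ L := by
    intro h hh t
    rw [mem_stabilizer_iff] at hh
    constructor
    · intro ht
      have h1 := hX.smul_commute h ht
      rw [hh] at h1
      exact h1
    · intro ht
      have hh' : h⁻¹ • x = x := by rw [inv_smul_eq_iff, hh]
      have h1 := hX.smul_commute h⁻¹ ht
      rw [hh', inv_smul_smul] at h1
      exact h1
  rcases hX.a3 x hx L hle with h | h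
  · have h1 : hX.inn g ∈ L := by
      intro t
      rw [hX.inn_smul]
      exact hg t
    rw [h] at h1
    exact (hX.inn_mem_stab_iff g x).1 h1
  · exfalso
    have hn : (Subgroup.centralizer ({x} : Set T)).Normal := by
      constructor
      intro n hn g'
      have h1 : hX.inn g' ∈ L := by rw [h]; trivial
      have h2 := h1 n
      rw [hX.inn_smul] at h2
      rw [Subgroup.mem_centralizer_iff] at hn ⊢
      intro y hy
      rw [Set.mem_singleton_iff] at hy
      subst hy
      have h3 : n * y = y * n := (hn y rfl).symm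
      exact (h2.1 h3).symm
    rcases hn.eq_bot_or_eq_top with h1 | h1
    · have h2 : x ∈ Subgroup.centralizer ({x} : Set T) := by
        rw [Subgroup.mem_centralizer_iff]
        intro y hy
        rw [Set.mem_singleton_iff] at hy
        rw [hy]
      rw [h1, Subgroup.mem_bot] at h2
      exact hx h2
    · have hc : x ∈ Subgroup.center T := by
        rw [Subgroup.mem_center_iff]
        intro t
        have h2 : t ∈ Subgroup.centralizer ({x} : Set T) := by rw [h1]; trivial
        rw [Subgroup.mem_centralizer_iff] at h2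
        exact (h2 x rfl).symm
      rw [hX.center_eq_bot, Subgroup.mem_bot] at hc
      exact hx hc

end XHyp

theorem pelt_of_mem_sylow {T : Type*} [Group T] {p : ℕ} [hp : Fact p.Prime] (P : Sylow p T)
    {u : T} (hu : u ∈ (P : Subgroup T)) : ∃ b, orderOf u = p ^ b := by
  obtain ⟨k, hk⟩ := P.isPGroup' ⟨u, hu⟩
  have h1 : u ^ (p ^ k) = 1 := congrArg Subtype.val hk
  have h2 := orderOf_dvd_of_pow_eq_one h1
  obtain ⟨b, -, hb⟩ := (Nat.dvd_prime_pow hp.out).1 h2
  exact ⟨b, hb⟩

namespace XHyp

variable {H T : Type*} [Group T] [Group H] [MulAction H T]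

/-- a non-identity `p`-element commutes with no non-identity `p'`-element. -/
theorem no_coprime_commuting (hX : XHyp H T) [IsSimpleGroup T] [Finite T] (p : ℕ)
    [hp : Fact p.Prime] (y w : T) (hy : y ≠ 1) (hyp : ∃ a, orderOf y = p ^ a) (hw : w ≠ 1)
    (hwp : (orderOf w).Coprime p) (hc : y * w = w * y) : False := by
  obtain ⟨a, ha⟩ := hyp
  have e0 : stabilizer H y = stabilizer H w :=
    hX.stab_eq_of_coprime hy hw hc (by rw [ha]; exact (Nat.Coprime.pow_right a hwp).symm)
  have claim : ∀ v : T, v ≠ 1 → (∃ b, orderOf v = p ^ b) → v * y = y * v →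
      stabilizer H v = stabilizer H y := by
    rintro v hv ⟨b, hb⟩ hvy
    have hvw : v * w = w * v := (hX.comm_iff_of_stab_eq e0 v).1 hvy
    rw [e0]
    exact hX.stab_eq_of_coprime hv hw hvw (by rw [hb]; exact (Nat.Coprime.pow_right b hwp).symm)
  have hpg : IsPGroup p (Subgroup.zpowers y) :=
    IsPGroup.of_card (n := a) (by rw [Nat.card_zpowers, ha])
  obtain ⟨P, hP⟩ := hpg.exists_le_sylow
  have hyP : y ∈ (P : Subgroup T) := hP (Subgroup.mem_zpowers y)
  have hnt : Nontrivial (P : Subgroup T) :=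
    ⟨⟨⟨y, hyP⟩, 1, fun h => hy (congrArg Subtype.val h)⟩⟩
  have hcn : Nontrivial (Subgroup.center (P : Subgroup T)) := P.isPGroup'.center_nontrivial
  obtain ⟨z, hz1⟩ := exists_ne (1 : Subgroup.center (P : Subgroup T))
  obtain ⟨z', hz', hz'P, hz'1, hzc⟩ : ∃ z' : T, z' = ((z : (P : Subgroup T)) : T) ∧
      z' ∈ (P : Subgroup T) ∧ z' ≠ 1 ∧ ∀ u ∈ (P : Subgroup T), u * z' = z' * u := by
    refine ⟨_, rfl, (z : (P : Subgroup T)).2, fun h => hz1 (Subtype.ext (Subtype.ext h)), ?_⟩
    intro u hu
    have h1 := (Subgroup.mem_center_iff.1 z.2) ⟨u, hu⟩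
    exact congrArg Subtype.val h1
  have ez : stabilizer H z' = stabilizer H y :=
    claim z' hz'1 (pelt_of_mem_sylow P hz'P) ((hzc y hyP).symm)
  have eu : ∀ u ∈ (P : Subgroup T), u ≠ 1 → stabilizer H u = stabilizer H y := by
    intro u hu hu1
    apply claim u hu1 (pelt_of_mem_sylow P hu)
    exact (hX.comm_iff_of_stab_eq ez u).1 (hzc u hu)
  have hcent : ∀ u ∈ (P : Subgroup T), ∀ c : T, c * y = y * c → c * u = u * c := by
    intro u hu c hcy
    by_cases hu1 : u = 1
    · rw [hu1, mul_one, one_mul]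
    · exact (hX.comm_iff_of_stab_eq (eu u hu hu1) c).2 hcy
  have hN : Subgroup.normalizer ((P : Subgroup T) : Set T) ≤
      Subgroup.centralizer ((P : Subgroup T) : Set T) := by
    intro g hg
    have hg' : g⁻¹ ∈ Subgroup.normalizer ((P : Subgroup T) : Set T) := inv_mem hg
    rw [Subgroup.mem_normalizer_iff] at hg'
    have hz''P : g⁻¹ * z' * g ∈ (P : Subgroup T) := by
      have h1 := (hg' z').1 hz'P
      rwa [inv_inv] at h1
    have hz''1 : g⁻¹ * z' * g ≠ 1 := by
      intro h
      apply hz'1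
      calc z' = g * (g⁻¹ * z' * g) * g⁻¹ := by group
        _ = 1 := by rw [h]; group
    have ez'' := eu _ hz''P hz''1
    have hgy : g * y = y * g := by
      apply hX.normalizer_cent hy g
      intro t
      rw [← hX.comm_iff_of_stab_eq ez'' t, ← hX.comm_iff_of_stab_eq ez (g * t * g⁻¹)]
      constructor
      · intro h
        calc g * t * g⁻¹ * z' = g * (t * (g⁻¹ * z' * g)) * g⁻¹ := by group
          _ = g * ((g⁻¹ * z' * g) * t) * g⁻¹ := by rw [h]
          _ = z' * (g * t * g⁻¹) := by group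
      · intro h
        calc t * (g⁻¹ * z' * g) = g⁻¹ * ((g * t * g⁻¹) * z') * g := by group
          _ = g⁻¹ * (z' * (g * t * g⁻¹)) * g := by rw [h]
          _ = (g⁻¹ * z' * g) * t := by group
    rw [Subgroup.mem_centralizer_iff]
    intro u hu
    exact (hcent u hu g hgy).symm
  have hK := MonoidHom.ker_transferSylow_isComplement' P hN
  have hcard := hK.card_mul_card
  rcases (inferInstance : (MonoidHom.transferSylow P hN).ker.Normal).eq_bot_or_eq_top with h | h
  · rw [h, Subgroup.card_bot, one_mul] at hcard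
    have hPtop : (P : Subgroup T) = ⊤ := Subgroup.eq_top_of_card_eq _ hcard
    have hyc : y ∈ Subgroup.center T := by
      rw [Subgroup.mem_center_iff]
      intro u
      have hu : u ∈ (P : Subgroup T) := by rw [hPtop]; trivial
      exact (hcent u hu y rfl).symm
    rw [hX.center_eq_bot, Subgroup.mem_bot] at hyc
    exact hy hyc
  · rw [h, Subgroup.card_top] at hcard
    have h1 : Nat.card (P : Subgroup T) = 1 := by
      have hpos : 0 < Nat.card T := Nat.card_pos
      exact Nat.eq_of_mul_eq_mul_left hpos (by rw [hcard, mul_one])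
    have hPbot : (P : Subgroup T) = ⊥ := Subgroup.card_eq_one.1 h1
    rw [hPbot, Subgroup.mem_bot] at hyP
    exact hy hyP

/-- everything commuting with a non-identity `p`-element is a `p`-element. -/
theorem ppow_of_commute (hX : XHyp H T) [IsSimpleGroup T] [Finite T] (p : ℕ)
    [hp : Fact p.Prime] (y w : T) (hy : y ≠ 1) (hyp : ∃ a, orderOf y = p ^ a)
    (hc : y * w = w * y) : ∃ b, orderOf w = p ^ b := by
  have hw0 : orderOf w ≠ 0 := (orderOf_pos w).ne'
  refine ⟨(orderOf w).primeFactorsList.length, Nat.eq_prime_pow_of_unique_prime_dvd hw0 ?_⟩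
  intro q hq hqd
  by_contra hne
  have ho : orderOf (w ^ (orderOf w / q)) = q := orderOf_pow_orderOf_div hw0 hqd
  apply hX.no_coprime_commuting p y (w ^ (orderOf w / q)) hy hyp
  · intro h
    rw [h, orderOf_one] at ho
    exact hq.one_lt.ne ho
  · rw [ho]
    exact (Nat.coprime_primes hq hp.out).2 hne
  · have h1 : Commute y w := hc
    exact (h1.pow_right _).eq

theorem eppo (hX : XHyp H T) [IsSimpleGroup T] [Finite T] (x : T) (hx : x ≠ 1) :
    ∃ b, orderOf x = (orderOf x).minFac ^ b := by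
  have hx0 : orderOf x ≠ 0 := (orderOf_pos x).ne'
  have hx1 : orderOf x ≠ 1 := fun h => hx (orderOf_eq_one_iff.1 h)
  have hp : (orderOf x).minFac.Prime := Nat.minFac_prime hx1
  have : Fact (orderOf x).minFac.Prime := ⟨hp⟩
  have ho : orderOf (x ^ (orderOf x / (orderOf x).minFac)) = (orderOf x).minFac :=
    orderOf_pow_orderOf_div hx0 (Nat.minFac_dvd _)
  refine hX.ppow_of_commute (orderOf x).minFac (x ^ (orderOf x / (orderOf x).minFac)) x ?_
    ⟨1, by rw [ho, pow_one]⟩ ?_
  · intro h
    rw [h, orderOf_one] at ho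
    exact hp.one_lt.ne ho
  · exact ((Commute.refl x).pow_left _).eq

/-- the centralizer of a non-identity `p`-element is a Sylow `p`-subgroup. -/
theorem cent_is_sylow (hX : XHyp H T) [IsSimpleGroup T] [Finite T] (p : ℕ) [hp : Fact p.Prime]
    (y : T) (hy : y ≠ 1) (hyp : ∃ a, orderOf y = p ^ a) :
    ∃ P : Sylow p T, ∀ t : T, t ∈ (P : Subgroup T) ↔ t * y = y * t := by
  obtain ⟨C, hC⟩ : ∃ C : Subgroup T, ∀ t : T, t ∈ C ↔ t * y = y * t := by
    refine ⟨Subgroup.centralizer ({y} : Set T), fun t => ?_⟩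
    rw [Subgroup.mem_centralizer_iff]
    constructor
    · intro h
      exact (h y rfl).symm
    · intro h z hz
      rw [Set.mem_singleton_iff] at hz
      rw [hz]
      exact h.symm
  have hpg : IsPGroup p C := by
    intro c
    obtain ⟨b, hb⟩ := hX.ppow_of_commute p y (c : T) hy hyp ((hC c).1 c.2).symm
    refine ⟨b, Subtype.ext ?_⟩
    rw [Subgroup.coe_pow, ← hb]
    exact pow_orderOf_eq_one _
  obtain ⟨P, hP⟩ := hpg.exists_le_sylow
  refine ⟨P, fun t => ?_⟩
  rw [← hC]
  constructor
  swap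
  · exact fun h => hP h
  intro htP
  by_contra htC
  have hlt : C.subgroupOf (P : Subgroup T) < ⊤ := by
    rw [lt_top_iff_ne_top]
    intro h
    have h1 : (⟨t, htP⟩ : (P : Subgroup T)) ∈ C.subgroupOf (P : Subgroup T) := by rw [h]; trivial
    exact htC (Subgroup.mem_subgroupOf.1 h1)
  have hnil : Group.IsNilpotent (P : Subgroup T) := P.isPGroup'.isNilpotent
  have hnc := Group.normalizerCondition_of_isNilpotent (G := (P : Subgroup T)) _ hlt
  obtain ⟨u, hun, huC⟩ := SetLike.exists_of_lt hnc
  apply huC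
  rw [Subgroup.mem_subgroupOf, hC]
  apply hX.normalizer_cent hy (u : T)
  intro s
  rw [← hC, ← hC]
  rw [Subgroup.mem_normalizer_iff] at hun
  constructor
  · intro hs
    have hsP : s ∈ (P : Subgroup T) := hP hs
    have h1 := (hun ⟨s, hsP⟩).1 (Subgroup.mem_subgroupOf.2 hs)
    exact Subgroup.mem_subgroupOf.1 h1
  · intro hs
    have hsP : (u : T) * s * (u : T)⁻¹ ∈ (P : Subgroup T) := hP hs
    have hsP' : s ∈ (P : Subgroup T) := by
      have h1 : s = (u : T)⁻¹ * ((u : T) * s * (u : T)⁻¹) * (u : T) := by group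
      rw [h1]
      exact mul_mem (mul_mem (inv_mem u.2) hsP) u.2
    have h1 := (hun ⟨s, hsP'⟩).2 (Subgroup.mem_subgroupOf.2 hs)
    exact Subgroup.mem_subgroupOf.1 h1

end XHyp

theorem sum_inv_sq_le_one (S : Finset ℕ) (hS : ∀ p ∈ S, 2 ≤ p) :
    ∑ p ∈ S, (1 : ℚ) / (p : ℚ) ^ 2 ≤ 1 := by
  have key : ∀ n : ℕ, ∑ k ∈ Finset.range n, (1 : ℚ) / ((k : ℚ) + 2) ^ 2 ≤
      1 - 1 / ((n : ℚ) + 1) := by
    intro n
    induction n with
    | zero => simp
    | succ n ih =>
      rw [Finset.sum_range_succ]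
      have hn : (0 : ℚ) ≤ n := Nat.cast_nonneg n
      have h1 : (1 : ℚ) / ((n : ℚ) + 2) ^ 2 ≤ 1 / ((n : ℚ) + 1) - 1 / ((n : ℚ) + 2) := by
        rw [div_sub_div _ _ (by positivity) (by positivity),
          div_le_div_iff₀ (by positivity) (by positivity)]
        nlinarith
      push_cast
      have h2 : ((n : ℚ) + 1 + 1) = (n : ℚ) + 2 := by ring
      rw [h2]
      linarith
  obtain ⟨M, hM⟩ : ∃ M : ℕ, ∀ p ∈ S, p < M + 2 := by
    refine ⟨S.sup id, fun p hp => ?_⟩
    have h1 := Finset.le_sup (f := id) hp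
    simp only [id] at h1
    omega
  calc ∑ p ∈ S, (1 : ℚ) / (p : ℚ) ^ 2
      ≤ ∑ p ∈ (Finset.range M).map ⟨fun k => k + 2, add_left_injective 2⟩,
          (1 : ℚ) / (p : ℚ) ^ 2 := by
        apply Finset.sum_le_sum_of_subset_of_nonneg
        · intro p hp
          rw [Finset.mem_map]
          refine ⟨p - 2, Finset.mem_range.2 ?_, ?_⟩
          · have h1 := hM p hp
            have h2 := hS p hp
            omega
          · have h2 := hS p hp
            show p - 2 + 2 = p
            omega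
        · intro _ _ _
          positivity
    _ = ∑ k ∈ Finset.range M, (1 : ℚ) / ((k : ℚ) + 2) ^ 2 := by
        rw [Finset.sum_map]
        apply Finset.sum_congr rfl
        intro k _
        show (1 : ℚ) / (((k + 2 : ℕ) : ℚ)) ^ 2 = 1 / ((k : ℚ) + 2) ^ 2
        push_cast
        rfl
    _ ≤ 1 - 1 / ((M : ℚ) + 1) := key M
    _ ≤ 1 := by
        have h1 : (0 : ℚ) ≤ 1 / ((M : ℚ) + 1) := by positivity
        linarith

namespace XHyp

variable {H T : Type*} [Group T] [Group H] [MulAction H T]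

/-- every Sylow subgroup is the centralizer of some non-identity element. -/
theorem sylow_eq_cent (hX : XHyp H T) [IsSimpleGroup T] [Finite T] (p : ℕ) [hp : Fact p.Prime]
    (Q : Sylow p T) (hpd : p ∣ Nat.card T) :
    ∃ z : T, z ≠ 1 ∧ ∀ t : T, t ∈ (Q : Subgroup T) ↔ t * z = z * t := by
  have hQb := Q.ne_bot_of_dvd_card hpd
  have hnt : Nontrivial (Q : Subgroup T) := (Subgroup.nontrivial_iff_ne_bot _).2 hQb
  have hcn : Nontrivial (Subgroup.center (Q : Subgroup T)) := Q.isPGroup'.center_nontrivial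
  obtain ⟨z, hz1⟩ := exists_ne (1 : Subgroup.center (Q : Subgroup T))
  obtain ⟨z', hz', hz'P, hz'1, hzc⟩ : ∃ z' : T, z' = ((z : (Q : Subgroup T)) : T) ∧
      z' ∈ (Q : Subgroup T) ∧ z' ≠ 1 ∧ ∀ u ∈ (Q : Subgroup T), u * z' = z' * u := by
    refine ⟨_, rfl, (z : (Q : Subgroup T)).2, fun h => hz1 (Subtype.ext (Subtype.ext h)), ?_⟩
    intro u hu
    have h1 := (Subgroup.mem_center_iff.1 z.2) ⟨u, hu⟩
    exact congrArg Subtype.val h1
  obtain ⟨P', hP'⟩ := hX.cent_is_sylow p z' hz'1 (pelt_of_mem_sylow Q hz'P)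
  have hle : (Q : Subgroup T) ≤ (P' : Subgroup T) := fun u hu => (hP' u).2 (hzc u hu)
  have heq : (P' : Subgroup T) = (Q : Subgroup T) := Q.is_maximal' P'.isPGroup' hle
  refine ⟨z', hz'1, fun t => ?_⟩
  rw [← heq]
  exact hP' t

theorem sylow_normalizer (hX : XHyp H T) [IsSimpleGroup T] [Finite T] (p : ℕ)
    [hp : Fact p.Prime] (Q : Sylow p T) (hpd : p ∣ Nat.card T) :
    Subgroup.normalizer ((Q : Subgroup T) : Set T) = (Q : Subgroup T) := by
  apply le_antisymm _ Subgroup.le_normalizer
  intro g hg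
  obtain ⟨z, hz1, hz⟩ := hX.sylow_eq_cent p Q hpd
  rw [hz]
  apply hX.normalizer_cent hz1 g
  intro t
  rw [← hz, ← hz]
  exact (Subgroup.mem_normalizer_iff.1 hg) t

theorem sylow_nonabelian (hX : XHyp H T) [IsSimpleGroup T] [Finite T] (p : ℕ)
    [hp : Fact p.Prime] (Q : Sylow p T) (hpd : p ∣ Nat.card T) :
    ∃ a ∈ (Q : Subgroup T), ∃ b ∈ (Q : Subgroup T), a * b ≠ b * a := by
  by_contra hcon
  push Not at hcon
  have hN : Subgroup.normalizer ((Q : Subgroup T) : Set T) ≤
      Subgroup.centralizer ((Q : Subgroup T) : Set T) := by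
    rw [hX.sylow_normalizer p Q hpd]
    intro g hg
    rw [Subgroup.mem_centralizer_iff]
    intro u hu
    exact hcon u hu g hg
  have hK := MonoidHom.ker_transferSylow_isComplement' Q hN
  have hcard := hK.card_mul_card
  rcases (inferInstance : (MonoidHom.transferSylow Q hN).ker.Normal).eq_bot_or_eq_top with h | h
  · rw [h, Subgroup.card_bot, one_mul] at hcard
    have hPtop : (Q : Subgroup T) = ⊤ := Subgroup.eq_top_of_card_eq _ hcard
    obtain ⟨a, b, hab⟩ := hX.na
    apply hab
    exact hcon a (by rw [hPtop]; trivial) b (by rw [hPtop]; trivial)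
  · rw [h, Subgroup.card_top] at hcard
    have h1 : Nat.card (Q : Subgroup T) = 1 := by
      have hpos : 0 < Nat.card T := Nat.card_pos
      exact Nat.eq_of_mul_eq_mul_left hpos (by rw [hcard, mul_one])
    exact Q.ne_bot_of_dvd_card hpd (Subgroup.card_eq_one.1 h1)

theorem sylow_center_bound (hX : XHyp H T) [IsSimpleGroup T] [Finite T] (p : ℕ)
    [hp : Fact p.Prime] (Q : Sylow p T) (hpd : p ∣ Nat.card T) :
    Nat.card (Subgroup.center (Q : Subgroup T)) * p ^ 2 ≤ Nat.card (Q : Subgroup T) := by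
  obtain ⟨a, ha, b, hb, hab⟩ := hX.sylow_nonabelian p Q hpd
  have h1 := Subgroup.card_eq_card_quotient_mul_card_subgroup
    (Subgroup.center (Q : Subgroup T))
  have hpq : IsPGroup p ((Q : Subgroup T) ⧸ Subgroup.center (Q : Subgroup T)) :=
    Q.isPGroup'.to_quotient _
  obtain ⟨k, hk⟩ := IsPGroup.iff_card.1 hpq
  have hk2 : 2 ≤ k := by
    by_contra hlt
    have hcyc : IsCyclic ((Q : Subgroup T) ⧸ Subgroup.center (Q : Subgroup T)) := by
      have hk' : k = 0 ∨ k = 1 := by omega
      rcases hk' with rfl | rfl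
      · rw [pow_zero] at hk
        have : Subsingleton ((Q : Subgroup T) ⧸ Subgroup.center (Q : Subgroup T)) :=
          (Nat.card_eq_one_iff_unique.1 hk).1
        exact isCyclic_of_subsingleton
      · rw [pow_one] at hk
        exact isCyclic_of_prime_card hk
    apply hab
    have h2 := commutative_of_cyclic_center_quotient
      (QuotientGroup.mk' (Subgroup.center (Q : Subgroup T)))
      (by rw [QuotientGroup.ker_mk']) (⟨a, ha⟩ : (Q : Subgroup T)) ⟨b, hb⟩
    exact congrArg Subtype.val h2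
  rw [h1, hk, mul_comm]
  exact Nat.mul_le_mul_right _ (Nat.pow_le_pow_right hp.out.pos hk2)

end XHyp

theorem card_add_one_le_card_center {T : Type*} [Group T] (Q : Subgroup T) [Finite Q]
    (F : Finset T) (hF : ∀ x ∈ F, x ≠ 1 ∧ x ∈ Q ∧ ∀ u ∈ Q, u * x = x * u) :
    F.card + 1 ≤ Nat.card (Subgroup.center Q) := by
  have hcard : Nat.card ((Subgroup.center Q).map Q.subtype) = Nat.card (Subgroup.center Q) :=
    Subgroup.card_map_of_injective Q.subtype_injective
  have hfin : Finite ((Subgroup.center Q).map Q.subtype) :=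
    Nat.finite_of_card_ne_zero (by rw [hcard]; exact Nat.card_pos.ne')
  have hsub : (F : Set T) ⊆ (((Subgroup.center Q).map Q.subtype : Subgroup T) : Set T) \ {1} := by
    intro x hx
    obtain ⟨hx1, hxQ, hxc⟩ := hF x (Finset.mem_coe.1 hx)
    refine ⟨⟨⟨x, hxQ⟩, ?_, rfl⟩, hx1⟩
    rw [SetLike.mem_coe, Subgroup.mem_center_iff]
    intro u
    exact Subtype.ext (hxc u u.2)
  have h1 := Set.ncard_le_ncard hsub (Set.toFinite _)
  rw [Set.ncard_coe_finset, Set.ncard_sdiff_singleton_of_mem (one_mem _)] at h1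
  have h2 : (((Subgroup.center Q).map Q.subtype : Subgroup T) : Set T).ncard =
      Nat.card (Subgroup.center Q) := by
    rw [← hcard]
    rfl
  rw [h2] at h1
  have h3 : 0 < Nat.card (Subgroup.center Q) := Nat.card_pos
  omega

namespace XHyp

variable {H T : Type*} [Group T] [Group H] [MulAction H T]

open Classical in
/-- the number of non-identity `p`-elements is small. -/
theorem count_p_elements (hX : XHyp H T) [IsSimpleGroup T] [Fintype T] (p : ℕ)
    [hp : Fact p.Prime] (hpd : p ∣ Nat.card T) :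
    ((Finset.univ.filter (fun x : T => x ≠ 1 ∧ ∃ b, orderOf x = p ^ b)).card +
      Nat.card (Sylow p T)) * p ^ 2 ≤ Nat.card T := by
  have hfin : Fintype (Sylow p T) := Fintype.ofFinite _
  have hne : Nonempty (Sylow p T) := inferInstance
  obtain ⟨f, hf⟩ : ∃ f : T → Sylow p T, ∀ x : T, x ≠ 1 → (∃ b, orderOf x = p ^ b) →
      ∀ t : T, t ∈ (f x : Subgroup T) ↔ t * x = x * t := by
    refine ⟨fun x => if h : x ≠ 1 ∧ ∃ b, orderOf x = p ^ b then
      Classical.choose (hX.cent_is_sylow p x h.1 h.2) else hne.some, ?_⟩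
    intro x hx1 hxp
    have h : x ≠ 1 ∧ ∃ b, orderOf x = p ^ b := ⟨hx1, hxp⟩
    simp only [dif_pos h]
    exact Classical.choose_spec (hX.cent_is_sylow p x h.1 h.2)
  have hfib := Finset.card_eq_sum_card_fiberwise (f := f)
    (s := Finset.univ.filter (fun x : T => x ≠ 1 ∧ ∃ b, orderOf x = p ^ b))
    (t := (Finset.univ : Finset (Sylow p T))) (fun x _ => Finset.mem_coe.2 (Finset.mem_univ _))
  have hQ : ∀ Q : Sylow p T,
      (((Finset.univ.filter (fun x : T => x ≠ 1 ∧ ∃ b, orderOf x = p ^ b)).filter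
        (fun x => f x = Q)).card + 1) * p ^ 2 ≤ p ^ (Nat.card T).factorization p := by
    intro Q
    have hb := hX.sylow_center_bound p Q hpd
    rw [Q.card_eq_multiplicity] at hb
    refine le_trans (Nat.mul_le_mul_right _ ?_) hb
    apply card_add_one_le_card_center
    intro x hx
    rw [Finset.mem_filter, Finset.mem_filter] at hx
    obtain ⟨⟨-, hx1, hxp⟩, hfx⟩ := hx
    have h1 := hf x hx1 hxp
    rw [hfx] at h1
    refine ⟨hx1, (h1 x).2 rfl, fun u hu => (h1 u).1 hu⟩
  obtain ⟨Q₀⟩ := hne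
  have hidx : Nat.card (Sylow p T) * p ^ (Nat.card T).factorization p = Nat.card T := by
    rw [Q₀.card_eq_index_normalizer]
    show (Subgroup.normalizer ((Q₀ : Subgroup T) : Set T)).index *
      p ^ (Nat.card T).factorization p = Nat.card T
    rw [hX.sylow_normalizer p Q₀ hpd, ← Q₀.card_eq_multiplicity]
    exact Subgroup.index_mul_card _
  calc ((Finset.univ.filter (fun x : T => x ≠ 1 ∧ ∃ b, orderOf x = p ^ b)).card +
        Nat.card (Sylow p T)) * p ^ 2
      = ∑ Q : Sylow p T, (((Finset.univ.filter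
          (fun x : T => x ≠ 1 ∧ ∃ b, orderOf x = p ^ b)).filter
            (fun x => f x = Q)).card + 1) * p ^ 2 := by
        rw [← Finset.sum_mul, Finset.sum_add_distrib, ← hfib, Finset.sum_const, Finset.card_univ,
          Nat.card_eq_fintype_card]
        simp
    _ ≤ ∑ _Q : Sylow p T, p ^ (Nat.card T).factorization p := Finset.sum_le_sum (fun Q _ => hQ Q)
    _ = Nat.card T := by
        rw [Finset.sum_const, Finset.card_univ, ← Nat.card_eq_fintype_card, smul_eq_mul, hidx]

open Classical in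
/-- **Main lemma**: there is no such configuration on a finite simple group. -/
theorem false (hX : XHyp H T) [IsSimpleGroup T] [Finite T] : False := by
  have hfinT : Fintype T := Fintype.ofFinite T
  have hN0 : Nat.card T ≠ 0 := Nat.card_pos.ne'
  have hS : ∀ p ∈ (Nat.card T).primeFactors, 2 ≤ p := fun p hp =>
    (Nat.prime_of_mem_primeFactors hp).two_le
  -- the p-elements
  have hE : ∀ p ∈ (Nat.card T).primeFactors,
      (((Finset.univ.filter (fun x : T => x ≠ 1 ∧ ∃ b, orderOf x = p ^ b)).card + 1 : ℕ) : ℚ) ≤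
        (Nat.card T : ℚ) * (1 / (p : ℚ) ^ 2) := by
    intro p hp
    have hpp : Fact p.Prime := ⟨Nat.prime_of_mem_primeFactors hp⟩
    have h1 := hX.count_p_elements p (Nat.dvd_of_mem_primeFactors hp)
    have h2 : 1 ≤ Nat.card (Sylow p T) := Nat.card_pos
    have h3 : ((Finset.univ.filter (fun x : T => x ≠ 1 ∧ ∃ b, orderOf x = p ^ b)).card + 1) *
        p ^ 2 ≤ Nat.card T := le_trans (Nat.mul_le_mul_right _ (by omega)) h1
    have h4 : (((Finset.univ.filter (fun x : T => x ≠ 1 ∧ ∃ b, orderOf x = p ^ b)).card + 1 : ℕ)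
        : ℚ) * (p : ℚ) ^ 2 ≤ (Nat.card T : ℚ) := by exact_mod_cast h3
    have hp0 : (0 : ℚ) < (p : ℚ) ^ 2 := by
      have : (0 : ℚ) < p := by exact_mod_cast hpp.out.pos
      positivity
    rw [mul_one_div, le_div_iff₀ hp0]
    exact h4
  -- all non-identity elements are p-elements for some p
  have hcover : (Finset.univ.erase (1 : T)).card ≤ ∑ p ∈ (Nat.card T).primeFactors,
      (Finset.univ.filter (fun x : T => x ≠ 1 ∧ ∃ b, orderOf x = p ^ b)).card := by
    have hmaps : ((Finset.univ.erase (1 : T) : Finset T) : Set T).MapsTo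
        (fun x => (orderOf x).minFac) ((Nat.card T).primeFactors : Set ℕ) := by
      intro x hx
      have hx1 : x ≠ 1 := (Finset.mem_erase.1 (Finset.mem_coe.1 hx)).1
      have ho1 : orderOf x ≠ 1 := fun h => hx1 (orderOf_eq_one_iff.1 h)
      rw [Finset.mem_coe, Nat.mem_primeFactors]
      exact ⟨Nat.minFac_prime ho1, (Nat.minFac_dvd _).trans (orderOf_dvd_natCard x), hN0⟩
    rw [Finset.card_eq_sum_card_fiberwise hmaps]
    apply Finset.sum_le_sum
    intro p _
    apply Finset.card_le_card
    intro x hx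
    rw [Finset.mem_filter] at hx
    obtain ⟨hx1, hxp⟩ := hx
    have hx1' : x ≠ 1 := (Finset.mem_erase.1 hx1).1
    rw [Finset.mem_filter]
    refine ⟨Finset.mem_univ _, hx1', ?_⟩
    obtain ⟨b, hb⟩ := hX.eppo x hx1'
    rw [hxp] at hb
    exact ⟨b, hb⟩
  have hcard1 : (Finset.univ.erase (1 : T)).card = Nat.card T - 1 := by
    rw [Finset.card_erase_of_mem (Finset.mem_univ _), Finset.card_univ, Nat.card_eq_fintype_card]
  -- the inequality
  have hsum : ((∑ p ∈ (Nat.card T).primeFactors,
      ((Finset.univ.filter (fun x : T => x ≠ 1 ∧ ∃ b, orderOf x = p ^ b)).card + 1) : ℕ) : ℚ) ≤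
      (Nat.card T : ℚ) := by
    push_cast
    calc ∑ p ∈ (Nat.card T).primeFactors,
          (((Finset.univ.filter (fun x : T => x ≠ 1 ∧ ∃ b, orderOf x = p ^ b)).card : ℚ) + 1)
        ≤ ∑ p ∈ (Nat.card T).primeFactors, (Nat.card T : ℚ) * (1 / (p : ℚ) ^ 2) := by
          apply Finset.sum_le_sum
          intro p hp
          have := hE p hp
          push_cast at this
          exact this
      _ = (Nat.card T : ℚ) * ∑ p ∈ (Nat.card T).primeFactors, (1 / (p : ℚ) ^ 2) := by
          rw [Finset.mul_sum]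
      _ ≤ (Nat.card T : ℚ) * 1 := by
          apply mul_le_mul_of_nonneg_left (sum_inv_sq_le_one _ hS)
          positivity
      _ = (Nat.card T : ℚ) := mul_one _
  have hsum' : ∑ p ∈ (Nat.card T).primeFactors,
      ((Finset.univ.filter (fun x : T => x ≠ 1 ∧ ∃ b, orderOf x = p ^ b)).card + 1) ≤
      Nat.card T := by exact_mod_cast hsum
  rw [Finset.sum_add_distrib, Finset.sum_const, smul_eq_mul, mul_one] at hsum'
  have hNpos : 0 < Nat.card T := Nat.card_pos
  have hSc : (Nat.card T).primeFactors.card ≤ 1 := by omega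
  -- T is nontrivial
  obtain ⟨a, b, hab⟩ := hX.na
  have hN1 : Nat.card T ≠ 1 := by
    intro h
    have : Subsingleton T := (Nat.card_eq_one_iff_unique.1 h).1
    exact hab (Subsingleton.elim _ _)
  have hp0 : (Nat.card T).minFac ∈ (Nat.card T).primeFactors := by
    rw [Nat.mem_primeFactors]
    exact ⟨Nat.minFac_prime hN1, Nat.minFac_dvd _, hN0⟩
  have hSeq : (Nat.card T).primeFactors = {(Nat.card T).minFac} := by
    rw [Finset.eq_singleton_iff_unique_mem]
    exact ⟨hp0, fun q hq => (Finset.card_le_one.1 hSc) q hq _ hp0⟩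
  rw [hSeq, Finset.sum_singleton] at hcover
  have hpp : Fact (Nat.card T).minFac.Prime := ⟨Nat.minFac_prime hN1⟩
  have h1 := hX.count_p_elements (Nat.card T).minFac (Nat.minFac_dvd _)
  have h2 : 1 ≤ Nat.card (Sylow (Nat.card T).minFac T) := Nat.card_pos
  have h3 : 2 ≤ (Nat.card T).minFac := hpp.out.two_le
  have h4 : Nat.card T * (Nat.card T).minFac ^ 2 ≤ Nat.card T := by
    refine le_trans (Nat.mul_le_mul_right _ ?_) h1
    omega
  have h5 : Nat.card T * 4 ≤ Nat.card T * (Nat.card T).minFac ^ 2 :=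
    Nat.mul_le_mul_left _ (by nlinarith)
  omega

end XHyp

end Cfsg.Agent.H62
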