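import Mathlib
import Cfsg.Agent.H62.Jordan

set_option autoImplicit false

namespace Cfsg.Agent.H62

open MulAction

theorem conj_derangement {G : Type*} [Group G] {Ω : Type*} [MulAction G Ω] (h d : G)
    (hd : ∀ ω : Ω, d • ω ≠ ω) : ∀ ω : Ω, (h * d * h⁻¹) • ω ≠ ω := by
  intro ω e
  apply hd (h⁻¹ • ω)
  rw [mul_smul, mul_smul] at e
  rw [eq_inv_smul_iff, e]

/-- in a sharply 2-transitive group any two derangements are conjugate. -/
theorem sharp_two_trans_conj {G : Type*} [Group G] [Finite G] {Ω : Type*} [Finite Ω]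
    [MulAction G Ω] (hn : 2 ≤ Nat.card Ω)
    (h2 : ∀ {a b c d : Ω}, a ≠ b → c ≠ d → ∃ g : G, g • a = c ∧ g • b = d)
    (hs : ∀ g : G, g ≠ 1 → ∀ a b : Ω, a ≠ b → g • a = a → g • b ≠ b)
    (d₁ d₂ : G) (h₁ : ∀ ω : Ω, d₁ • ω ≠ ω) (h₂ : ∀ ω : Ω, d₂ • ω ≠ ω) :
    ∃ g : G, g * d₁ * g⁻¹ = d₂ := by
  classical
  have := Fintype.ofFinite G
  have := Fintype.ofFinite Ω
  have hne : Nonempty Ω := by
    have h0 : 0 < Nat.card Ω := by omega
    exact (Nat.card_pos_iff.1 h0).1
  have a : Ω := hne.some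
  have htr : IsPretransitive G Ω := ⟨fun x y => by
    by_cases h : x = y
    · exact ⟨1, by rw [one_smul, h]⟩
    · obtain ⟨g, hg, _⟩ := h2 h (Ne.symm h)
      exact ⟨g, hg⟩⟩
  have hB := burnside_transitive (G := G) (Ω := Ω)
  have hn' : 2 ≤ Fintype.card Ω := by rw [← Nat.card_eq_fintype_card]; exact hn
  have h1 : ∀ g : G, Fintype.card (fixedBy Ω g) + (if (∀ ω : Ω, g • ω ≠ ω) then 1 else 0) =
      1 + (if g = 1 then (Fintype.card Ω - 1) else 0) := by
    intro g
    by_cases hg : g = 1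
    · subst hg
      have h3 : Fintype.card (fixedBy Ω (1 : G)) = Fintype.card Ω := by
        apply Fintype.card_of_bijective (f := fun x : fixedBy Ω (1 : G) => (x : Ω))
        exact ⟨Subtype.val_injective, fun ω => ⟨⟨ω, one_smul _ ω⟩, rfl⟩⟩
      have hnd : ¬ (∀ ω : Ω, (1 : G) • ω ≠ ω) := fun h => h a (one_smul _ a)
      rw [if_neg hnd, if_pos rfl, h3]
      omega
    · rw [if_neg hg]
      by_cases hd : ∀ ω : Ω, g • ω ≠ ω
      · rw [if_pos hd]
        have : Fintype.card (fixedBy Ω g) = 0 := Fintype.card_eq_zero_iff.2 ⟨fun x => hd x.1 x.2⟩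
        omega
      · rw [if_neg hd]
        push Not at hd
        obtain ⟨ω, hω⟩ := hd
        have : Fintype.card (fixedBy Ω g) = 1 := by
          rw [Fintype.card_eq_one_iff]
          refine ⟨⟨ω, hω⟩, fun y => ?_⟩
          by_contra hne
          exact hs g hg ω y.1 (fun e => hne (Subtype.ext e.symm)) hω y.2
        omega
  have h4 := Finset.sum_congr rfl (fun g (_ : g ∈ (Finset.univ : Finset G)) => h1 g)
  rw [Finset.sum_add_distrib, Finset.sum_add_distrib, hB] at h4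
  have h5 : ∑ g : G, (if (∀ ω : Ω, g • ω ≠ ω) then 1 else 0) =
      Fintype.card {g : G // ∀ ω : Ω, g • ω ≠ ω} := by
    rw [Fintype.card_subtype, Finset.sum_boole]
    simp
  have h6 : ∑ g : G, (1 + (if g = 1 then (Fintype.card Ω - 1) else 0)) =
      Fintype.card G + (Fintype.card Ω - 1) := by
    rw [Finset.sum_add_distrib]
    simp
  rw [Finset.sum_add_distrib] at h6
  rw [h5, h6] at h4
  have hcardD : Fintype.card {g : G // ∀ ω : Ω, g • ω ≠ ω} = Fintype.card Ω - 1 := by omega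
  have hcardΩ : Fintype.card {x : Ω // x ≠ a} = Fintype.card Ω - 1 := by
    have := Set.card_ne_eq a
    exact this
  let f : {g : G // ∀ ω : Ω, g • ω ≠ ω} → {x : Ω // x ≠ a} := fun d => ⟨d.1 • a, d.2 a⟩
  have hsurj : Function.Surjective f := by
    rintro ⟨b, hb⟩
    obtain ⟨h, hha, hhb⟩ := h2 (h₁ a).symm (Ne.symm hb)
    refine ⟨⟨h * d₁ * h⁻¹, conj_derangement h d₁ h₁⟩, ?_⟩
    apply Subtype.ext
    show (h * d₁ * h⁻¹) • a = b
    have hinv : h⁻¹ • a = a := by rw [inv_smul_eq_iff, hha]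
    rw [mul_smul, mul_smul, hinv, hhb]
  have hbij : Function.Bijective f :=
    (Fintype.bijective_iff_surjective_and_card f).2 ⟨hsurj, by rw [hcardD, hcardΩ]⟩
  obtain ⟨h, hha, hhb⟩ := h2 (h₁ a).symm (h₂ a).symm
  refine ⟨h, ?_⟩
  have hinv : h⁻¹ • a = a := by rw [inv_smul_eq_iff, hha]
  have e : f ⟨h * d₁ * h⁻¹, conj_derangement h d₁ h₁⟩ = f ⟨d₂, h₂⟩ := by
    apply Subtype.ext
    show (h * d₁ * h⁻¹) • a = d₂ • a
    rw [mul_smul, mul_smul, hinv, hhb]
  exact congrArg Subtype.val (hbij.1 e)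

/-- Jordan's theorem, block form: if a normal subgroup `K` of a transitive group `N` is not
transitive, some `n` moves every `K`-orbit, so that all of `n K` consists of derangements. -/
theorem exists_moving_orbits {N : Type*} [Group N] [Finite N] {Ω : Type*} [MulAction N Ω]
    [IsPretransitive N Ω] (K : Subgroup N) [hKn : K.Normal] (hK : ¬ IsPretransitive K Ω) :
    ∃ n : N, ∀ k ∈ K, ∀ ω : Ω, (n * k) • ω ≠ ω := by
  have hxy : ∃ x y : Ω, ∀ k ∈ K, k • x ≠ y := by
    by_contra hcon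
    push Not at hcon
    apply hK
    constructor
    intro x y
    obtain ⟨k, hk, hkx⟩ := hcon x y
    exact ⟨⟨k, hk⟩, hkx⟩
  obtain ⟨x, y, hxy⟩ := hxy
  let M : Subgroup N :=
    { carrier := {m | ∃ k ∈ K, m • x = k • x}
      one_mem' := ⟨1, one_mem _, rfl⟩
      mul_mem' := by
        rintro m1 m2 ⟨k1, hk1, e1⟩ ⟨k2, hk2, e2⟩
        refine ⟨(m1 * k2 * m1⁻¹) * k1, mul_mem (hKn.conj_mem k2 hk2 m1) hk1, ?_⟩
        rw [mul_smul, e2, mul_smul (m1 * k2 * m1⁻¹), ← e1, ← mul_smul, ← mul_smul]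
        congr 1; group
      inv_mem' := by
        rintro m ⟨k, hk, e⟩
        refine ⟨m⁻¹ * k⁻¹ * m⁻¹⁻¹, hKn.conj_mem k⁻¹ (inv_mem hk) m⁻¹, ?_⟩
        rw [inv_inv, mul_smul, e, ← mul_smul]
        congr 1; group }
  have hM : M ≠ ⊤ := by
    intro h
    obtain ⟨m0, hm0⟩ := exists_smul_eq N x y
    have hmem : m0 ∈ M := by rw [h]; trivial
    obtain ⟨k, hk, e⟩ := hmem
    exact hxy k hk (by rw [← e, hm0])
  obtain ⟨n, hn⟩ := exists_not_conj_mem M hM
  refine ⟨n, fun k hk ω e => ?_⟩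
  obtain ⟨z, rfl⟩ := exists_smul_eq N x ω
  apply hn z
  have hk' : z⁻¹ * k * z ∈ K := by simpa using hKn.conj_mem k hk z⁻¹
  have e1 : (z⁻¹ * n * z) • (z⁻¹ * k * z) • x = x := by
    rw [← mul_smul]
    have : z⁻¹ * n * z * (z⁻¹ * k * z) = z⁻¹ * (n * k) * z := by group
    rw [this, mul_smul, mul_smul, e, inv_smul_smul]
  refine ⟨(z⁻¹ * n * z) * (z⁻¹ * k * z)⁻¹ * (z⁻¹ * n * z)⁻¹, hKn.conj_mem _ (inv_mem hk') _, ?_⟩
  calc (z⁻¹ * n * z) • x
      = ((z⁻¹ * n * z) * (z⁻¹ * k * z)⁻¹ * (z⁻¹ * n * z)⁻¹) • ((z⁻¹ * n * z) • (z⁻¹ * k * z) • x) := by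
        rw [← mul_smul, ← mul_smul]; congr 1; group
    _ = ((z⁻¹ * n * z) * (z⁻¹ * k * z)⁻¹ * (z⁻¹ * n * z)⁻¹) • x := by rw [e1]

theorem ns_intrans {N : Type*} [Group N] [Finite N] {Ω : Type*} [MulAction N Ω]
    [IsPretransitive N Ω] (T K : Subgroup N) [K.Normal]
    (hcomm : ∀ t ∈ T, ∀ k ∈ K, t * k = k * t)
    (hTK : ∀ n : N, ∃ t ∈ T, ∃ k ∈ K, n = t * k) (hinf : T ⊓ K = ⊥)
    (hKnc : ∃ k ∈ K, ∃ k' ∈ K, k' * k ≠ k * k')
    (hK : ¬ IsPretransitive K Ω) :
    ∃ d₁ d₂ : N, (∀ ω : Ω, d₁ • ω ≠ ω) ∧ (∀ ω : Ω, d₂ • ω ≠ ω) ∧ ∀ φ : N ≃* N, φ d₁ ≠ d₂ := by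
  obtain ⟨n, hn⟩ := exists_moving_orbits K hK
  obtain ⟨t, ht, k0, hk0, rfl⟩ := hTK n
  obtain ⟨k, hk, k', hk', hne⟩ := hKnc
  have hd : ∀ k1 ∈ K, ∀ ω : Ω, (t * k1) • ω ≠ ω := by
    intro k1 hk1
    have := hn (k0⁻¹ * k1) (mul_mem (inv_mem hk0) hk1)
    rwa [show t * k0 * (k0⁻¹ * k1) = t * k1 by group] at this
  refine ⟨t, t * k, by simpa using hd 1 (one_mem _), hd k hk, ?_⟩
  intro φ hφ
  let S1 : Set N := {x : N | x * t = t * x}
  let S2 : Set N := {x : N | x * (t * k) = (t * k) * x}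
  have e : S1 ≃ S2 :=
    φ.toEquiv.subtypeEquiv (fun x => by
      show x * t = t * x ↔ φ x * (t * k) = (t * k) * φ x
      rw [← hφ, ← map_mul, ← map_mul]
      exact φ.injective.eq_iff.symm)
  have h1 : Nat.card S1 = Nat.card S2 := Nat.card_congr e
  have h2 : S2 ⊂ S1 := by
    constructor
    · intro x hx
      obtain ⟨xT, hxT, xK, hxK, rfl⟩ := hTK x
      have hx' : xT * xK * (t * k) = t * k * (xT * xK) := hx
      have c1 : xK * t = t * xK := (hcomm t ht xK hxK).symm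
      have c2 : k * xT = xT * k := (hcomm xT hxT k hk).symm
      have h3 : (t * xT)⁻¹ * (xT * t) = (k * xK) * (xK * k)⁻¹ := by
        have h' : xT * t * (xK * k) = t * xT * (k * xK) := by
          calc xT * t * (xK * k) = xT * (t * xK) * k := by group
            _ = xT * (xK * t) * k := by rw [c1]
            _ = xT * xK * (t * k) := by group
            _ = t * k * (xT * xK) := hx'
            _ = t * (k * xT) * xK := by group
            _ = t * (xT * k) * xK := by rw [c2]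
            _ = t * xT * (k * xK) := by group
        rw [inv_mul_eq_iff_eq_mul, ← mul_assoc, eq_mul_inv_iff_mul_eq]
        exact h'
      have h4 : (t * xT)⁻¹ * (xT * t) ∈ T ⊓ K := by
        rw [Subgroup.mem_inf]
        refine ⟨T.mul_mem (T.inv_mem (T.mul_mem ht hxT)) (T.mul_mem hxT ht), ?_⟩
        rw [h3]
        exact K.mul_mem (K.mul_mem hk hxK) (K.inv_mem (K.mul_mem hxK hk))
      rw [hinf, Subgroup.mem_bot, inv_mul_eq_one] at h4
      show xT * xK * t = t * (xT * xK)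
      calc xT * xK * t = xT * (xK * t) := by group
        _ = xT * (t * xK) := by rw [c1]
        _ = (xT * t) * xK := by group
        _ = (t * xT) * xK := by rw [h4]
        _ = t * (xT * xK) := by group
    · intro hsub
      have hk't : k' * t = t * k' := (hcomm t ht k' hk').symm
      have hmem : k' ∈ S2 := hsub hk't
      have h5 : k' * (t * k) = (t * k) * k' := hmem
      apply hne
      have h6 : t * (k' * k) = t * (k * k') := by
        calc t * (k' * k) = (t * k') * k := by group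
          _ = (k' * t) * k := by rw [hk't]
          _ = k' * (t * k) := by group
          _ = t * k * k' := h5
          _ = t * (k * k') := by group
      exact mul_left_cancel h6
  have h6 := Set.ncard_lt_ncard h2 (Set.toFinite _)
  rw [← Nat.card_coe_set_eq, ← Nat.card_coe_set_eq] at h6
  omega

theorem ns_trans {N : Type*} [Group N] [Finite N] {Ω : Type*} [MulAction N Ω] [FaithfulSMul N Ω]
    (T K : Subgroup N) (hcomm : ∀ t ∈ T, ∀ k ∈ K, t * k = k * t)
    (hTK : ∀ n : N, ∃ t ∈ T, ∃ k ∈ K, n = t * k) (hT : T ≠ ⊥) (hZ : Subgroup.center N = ⊥)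
    (hK : IsPretransitive K Ω) :
    ∃ d₁ d₂ : N, (∀ ω : Ω, d₁ • ω ≠ ω) ∧ (∀ ω : Ω, d₂ • ω ≠ ω) ∧ ∀ φ : N ≃* N, φ d₁ ≠ d₂ := by
  by_contra hcon
  push Not at hcon
  have hsemi : ∀ t ∈ T, t ≠ 1 → ∀ ω : Ω, t • ω ≠ ω := by
    intro t ht ht1 ω e
    apply ht1
    apply FaithfulSMul.eq_of_smul_eq_smul (α := Ω)
    intro ω'
    obtain ⟨k, hk⟩ := hK.exists_smul_eq ω ω'
    have hk' : (k : N) • ω = ω' := hk
    rw [one_smul, ← hk', ← mul_smul, hcomm t ht k k.2, mul_smul, e]
  have hcard : Nat.card T ≠ 1 := fun h => hT (Subgroup.card_eq_one.1 h)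
  obtain ⟨p, hp, hpd⟩ := Nat.exists_prime_and_dvd hcard
  have : Fact p.Prime := ⟨hp⟩
  obtain ⟨x, hx⟩ := exists_prime_orderOf_dvd_card' p hpd
  have hx1 : (x : N) ≠ 1 := by
    intro h
    have hx' : x = 1 := Subtype.ext h
    rw [hx', orderOf_one] at hx
    exact hp.one_lt.ne hx
  have hord : ∀ t ∈ T, t ≠ 1 → orderOf t = p := by
    intro t ht ht1
    obtain ⟨φ, hφ⟩ := hcon x t (hsemi x x.2 hx1) (hsemi t ht ht1)
    rw [← hφ, MulEquiv.orderOf_eq, Subgroup.orderOf_coe, hx]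
  have hpg : IsPGroup p T := by
    intro t
    by_cases ht1 : t = 1
    · exact ⟨0, by rw [ht1, one_pow]⟩
    · refine ⟨1, ?_⟩
      have h1 := hord t t.2 (fun h => ht1 (Subtype.ext h))
      rw [pow_one]
      apply Subtype.ext
      rw [Subgroup.coe_pow, ← h1]
      exact pow_orderOf_eq_one _
  have hnt : Nontrivial T := (Subgroup.nontrivial_iff_ne_bot T).2 hT
  have hcT := hpg.center_nontrivial
  obtain ⟨z, hz1⟩ := exists_ne (1 : Subgroup.center T)
  have hzc : ((z.1 : T) : N) ∈ Subgroup.center N := by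
    rw [Subgroup.mem_center_iff]
    intro y
    obtain ⟨t, ht, k, hk, rfl⟩ := hTK y
    have h1 : t * ((z.1 : T) : N) = ((z.1 : T) : N) * t :=
      congrArg Subtype.val ((Subgroup.mem_center_iff.1 z.2) ⟨t, ht⟩)
    have h2 : ((z.1 : T) : N) * k = k * ((z.1 : T) : N) := hcomm _ z.1.2 k hk
    calc t * k * ((z.1 : T) : N) = t * (k * ((z.1 : T) : N)) := by group
      _ = t * (((z.1 : T) : N) * k) := by rw [h2]
      _ = (t * ((z.1 : T) : N)) * k := by group
      _ = (((z.1 : T) : N) * t) * k := by rw [h1]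
      _ = ((z.1 : T) : N) * (t * k) := by group
  rw [hZ, Subgroup.mem_bot] at hzc
  apply hz1
  exact Subtype.ext (Subtype.ext hzc)

/-- a transitive faithful group with trivial centre which is the product of two nontrivial
normal subgroups meeting trivially has two derangements not related by any automorphism. -/
theorem ns_lemma {N : Type*} [Group N] [Finite N] {Ω : Type*} [MulAction N Ω] [FaithfulSMul N Ω]
    [IsPretransitive N Ω]
    (T K : Subgroup N) [hTn : T.Normal] [hKn : K.Normal] (hT : T ≠ ⊥) (hK : K ≠ ⊥)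
    (hinf : T ⊓ K = ⊥) (hsup : T ⊔ K = ⊤) (hZ : Subgroup.center N = ⊥) :
    ∃ d₁ d₂ : N, (∀ ω : Ω, d₁ • ω ≠ ω) ∧ (∀ ω : Ω, d₂ • ω ≠ ω) ∧ ∀ φ : N ≃* N, φ d₁ ≠ d₂ := by
  have hcomm : ∀ t ∈ T, ∀ k ∈ K, t * k = k * t := fun t ht k hk =>
    (Subgroup.commute_of_normal_of_disjoint T K hTn hKn (disjoint_iff.2 hinf) t k ht hk).eq
  have hTK : ∀ n : N, ∃ t ∈ T, ∃ k ∈ K, n = t * k := by
    intro n
    have hmem : n ∈ (↑(T ⊔ K) : Set N) := by rw [hsup]; trivial
    rw [Subgroup.mul_normal] at hmem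
    obtain ⟨t, ht, k, hk, rfl⟩ := Set.mem_mul.1 hmem
    exact ⟨t, ht, k, hk, rfl⟩
  have hKT : ∀ n : N, ∃ k ∈ K, ∃ t ∈ T, n = k * t := by
    intro n
    obtain ⟨t, ht, k, hk, rfl⟩ := hTK n
    exact ⟨k, hk, t, ht, hcomm t ht k hk⟩
  have hnc : ∀ (A B : Subgroup N), (∀ a ∈ A, ∀ b ∈ B, a * b = b * a) →
      (∀ n : N, ∃ a ∈ A, ∃ b ∈ B, n = a * b) → B ≠ ⊥ → ∃ k ∈ B, ∃ k' ∈ B, k' * k ≠ k * k' := by
    intro A B hAB hsp hB
    by_contra hcon
    push Not at hcon
    apply hB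
    rw [eq_bot_iff]
    intro b hb
    have hbc : b ∈ Subgroup.center N := by
      rw [Subgroup.mem_center_iff]
      intro y
      obtain ⟨a, ha, b', hb', rfl⟩ := hsp y
      calc a * b' * b = a * (b' * b) := by group
        _ = a * (b * b') := by rw [hcon b hb b' hb']
        _ = (a * b) * b' := by group
        _ = (b * a) * b' := by rw [hAB a ha b hb]
        _ = b * (a * b') := by group
    rw [hZ] at hbc
    exact hbc
  by_cases hKt : IsPretransitive K Ω
  · by_cases hTt : IsPretransitive T Ω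
    · exact ns_trans T K hcomm hTK hT hZ hKt
    · exact ns_intrans K T (fun k hk t ht => (hcomm t ht k hk).symm) hKT
        (by rw [inf_comm]; exact hinf)
        (hnc K T (fun k hk t ht => (hcomm t ht k hk).symm) hKT hT) hTt
  · exact ns_intrans T K hcomm hTK hinf (hnc T K hcomm hTK hK) hKt

/-- a finite group with no proper nontrivial subgroup invariant under a group of automorphisms
`φ`, but with a proper nontrivial normal subgroup, is the direct product of two nontrivial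
normal subgroups. -/
theorem exists_decomposition {N : Type*} [Group N] [Finite N] {G : Type*} [Group G]
    (φ : G →* MulAut N)
    (hsimple : ∀ M : Subgroup N, (∀ g : G, M.map (φ g).toMonoidHom ≤ M) → M = ⊥ ∨ M = ⊤)
    (T₀ : Subgroup N) (hT₀n : T₀.Normal) (hT₀b : T₀ ≠ ⊥) (hT₀t : T₀ ≠ ⊤) :
    ∃ T K : Subgroup N, T.Normal ∧ K.Normal ∧ T ≠ ⊥ ∧ K ≠ ⊥ ∧ T ⊓ K = ⊥ ∧ T ⊔ K = ⊤ := by
  classical
  have hne1 : Nonempty {T : Subgroup N // T.Normal ∧ T ≠ ⊥} := ⟨⟨T₀, hT₀n, hT₀b⟩⟩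
  obtain ⟨⟨T, hTn, hTb⟩, hTmin⟩ :=
    Finite.exists_min (fun T : {T : Subgroup N // T.Normal ∧ T ≠ ⊥} => Nat.card T.1)
  have hTmin' : ∀ L : Subgroup N, L.Normal → L ≠ ⊥ → Nat.card T ≤ Nat.card L :=
    fun L hL hLb => hTmin ⟨L, hL, hLb⟩
  have hTt : T ≠ ⊤ := by
    intro h
    have h1 := hTmin' T₀ hT₀n hT₀b
    rw [h, Subgroup.card_top] at h1
    exact hT₀t (Subgroup.eq_top_of_card_eq _ (le_antisymm (Subgroup.card_le_card_group _) h1))
  have hne2 : Nonempty {K : Subgroup N // K.Normal ∧ T ⊓ K = ⊥} :=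
    ⟨⟨⊥, inferInstance, inf_bot_eq _⟩⟩
  obtain ⟨⟨K, hKn, hKT⟩, hKmax⟩ :=
    Finite.exists_max (fun K : {K : Subgroup N // K.Normal ∧ T ⊓ K = ⊥} => Nat.card K.1)
  have hKmax' : ∀ L : Subgroup N, L.Normal → T ⊓ L = ⊥ → Nat.card L ≤ Nat.card K :=
    fun L hL hLT => hKmax ⟨L, hL, hLT⟩
  have hsup : T ⊔ K = ⊤ := by
    by_contra hne
    have hex : ∃ g : G, ¬ T.map (φ g).toMonoidHom ≤ T ⊔ K := by
      by_contra hall
      push Not at hall
      have hMinv : ∀ g : G, (⨆ g : G, T.map (φ g).toMonoidHom).map (φ g).toMonoidHom ≤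
          ⨆ g : G, T.map (φ g).toMonoidHom := by
        intro g
        rw [Subgroup.map_iSup]
        apply iSup_le
        intro g'
        rw [Subgroup.map_map]
        have h1 : (φ g).toMonoidHom.comp (φ g').toMonoidHom = (φ (g * g')).toMonoidHom := by
          rw [map_mul]; rfl
        rw [h1]
        exact le_iSup (fun g : G => T.map (φ g).toMonoidHom) (g * g')
      have hTM : T ≤ ⨆ g : G, T.map (φ g).toMonoidHom := by
        have h1 := le_iSup (fun g : G => T.map (φ g).toMonoidHom) 1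
        have h2 : T.map (φ 1).toMonoidHom = T := by
          rw [map_one]
          exact Subgroup.map_id T
        rw [h2] at h1
        exact h1
      rcases hsimple _ hMinv with h | h
      · apply hTb
        rw [eq_bot_iff, ← h]
        exact hTM
      · apply hne
        rw [eq_top_iff, ← h]
        exact iSup_le hall
    obtain ⟨g, hg⟩ := hex
    have hT'n : (T.map (φ g).toMonoidHom).Normal := hTn.map _ (φ g).surjective
    have hT'card : Nat.card (T.map (φ g).toMonoidHom) = Nat.card T :=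
      Subgroup.card_map_of_injective (φ g).injective
    have hT'b : T.map (φ g).toMonoidHom ≠ ⊥ := by
      intro h
      rw [h, Subgroup.card_bot] at hT'card
      exact hTb (Subgroup.card_eq_one.1 hT'card.symm)
    have hL : T.map (φ g).toMonoidHom ⊓ (T ⊔ K) = ⊥ := by
      by_contra hLb
      have hLn : (T.map (φ g).toMonoidHom ⊓ (T ⊔ K)).Normal := inferInstance
      have h1 := hTmin' _ hLn hLb
      have h2 : T.map (φ g).toMonoidHom ⊓ (T ⊔ K) = T.map (φ g).toMonoidHom :=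
        Subgroup.eq_of_le_of_card_ge inf_le_left (by rw [hT'card]; exact h1)
      apply hg
      rw [← h2]
      exact inf_le_right
    have hK'n : (K ⊔ T.map (φ g).toMonoidHom).Normal := inferInstance
    have hK'T : T ⊓ (K ⊔ T.map (φ g).toMonoidHom) = ⊥ := by
      rw [eq_bot_iff]
      rintro x ⟨hxT, hxK'⟩
      have hmem : x ∈ (↑(K ⊔ T.map (φ g).toMonoidHom) : Set N) := hxK'
      rw [Subgroup.mul_normal] at hmem
      obtain ⟨k, hk, s, hs, rfl⟩ := Set.mem_mul.1 hmem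
      have hs' : s ∈ T.map (φ g).toMonoidHom ⊓ (T ⊔ K) := by
        rw [Subgroup.mem_inf]
        refine ⟨hs, ?_⟩
        have h1 : s = k⁻¹ * (k * s) := by group
        rw [h1]
        exact (T ⊔ K).mul_mem ((T ⊔ K).inv_mem (Subgroup.mem_sup_right hk))
          (Subgroup.mem_sup_left hxT)
      rw [hL, Subgroup.mem_bot] at hs'
      subst hs'
      rw [mul_one] at hxT ⊢
      have h2 : k ∈ T ⊓ K := Subgroup.mem_inf.2 ⟨hxT, hk⟩
      rw [hKT] at h2
      exact h2
    have h3 := hKmax' _ hK'n hK'T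
    have h4 : K = K ⊔ T.map (φ g).toMonoidHom := Subgroup.eq_of_le_of_card_ge le_sup_left h3
    have h5 : T.map (φ g).toMonoidHom ≤ K := by
      rw [h4]
      exact le_sup_right
    apply hT'b
    rw [eq_bot_iff, ← hL]
    exact le_inf le_rfl (h5.trans le_sup_right)
  refine ⟨T, K, hTn, hKn, hTb, ?_, hKT, hsup⟩
  intro hKb
  rw [hKb, sup_bot_eq] at hsup
  exact hTt hsup

/-- the affine case: if the derangements all lie in an abelian transitive normal subgroup and
form a single class, the group is sharply 2-transitive. -/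
theorem abelian_case {G : Type*} [Group G] [Finite G] {Ω : Type*} [MulAction G Ω]
    [FaithfulSMul G Ω]
    (N : Subgroup G) [hNn : N.Normal] (hab : ∀ x ∈ N, ∀ y ∈ N, x * y = y * x)
    (hNt : IsPretransitive N Ω)
    (hD : ∀ d : G, (∀ ω : Ω, d • ω ≠ ω) → d ∈ N)
    (hconj : ∀ d₁ d₂ : G, (∀ ω : Ω, d₁ • ω ≠ ω) → (∀ ω : Ω, d₂ • ω ≠ ω) →
      ∃ g : G, g * d₁ * g⁻¹ = d₂) :
    IsMultiplyPretransitive G Ω 2 ∧
      ∀ g : G, g ≠ 1 → ∀ a b : Ω, a ≠ b → g • a = a → g • b ≠ b := by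
  have hNtr : ∀ x y : Ω, ∃ n ∈ N, n • x = y := by
    intro x y
    obtain ⟨n, hn⟩ := hNt.exists_smul_eq x y
    exact ⟨n.1, n.2, hn⟩
  have hsemi : ∀ n ∈ N, ∀ ω : Ω, n • ω = ω → n = 1 := by
    intro n hn ω e
    apply FaithfulSMul.eq_of_smul_eq_smul (α := Ω)
    intro ω'
    obtain ⟨m, hm, rfl⟩ := hNtr ω ω'
    rw [one_smul, ← mul_smul, hab n hn m hm, mul_smul, e]
  have hder : ∀ n ∈ N, n ≠ 1 → ∀ ω : Ω, n • ω ≠ ω := fun n hn hn1 ω e => hn1 (hsemi n hn ω e)
  constructor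
  · rw [is_two_pretransitive_iff]
    intro a b c d hab' hcd
    obtain ⟨g1, -, hg1⟩ := hNtr a c
    have hx : g1 • b ≠ c := by
      intro h
      rw [← hg1] at h
      exact hab' (MulAction.injective g1 h).symm
    obtain ⟨m, hm, hmx⟩ := hNtr c (g1 • b)
    obtain ⟨m', hm', hmd⟩ := hNtr c d
    have hm1 : m ≠ 1 := by
      rintro rfl
      rw [one_smul] at hmx
      exact hx hmx.symm
    have hm'1 : m' ≠ 1 := by
      rintro rfl
      rw [one_smul] at hmd
      exact hcd hmd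
    obtain ⟨g, hg⟩ := hconj m m' (hder m hm hm1) (hder m' hm' hm'1)
    obtain ⟨n, hn, hnc⟩ := hNtr c (g • c)
    have hhc : (n⁻¹ * g) • c = c := by rw [mul_smul, ← hnc, inv_smul_smul]
    have hconj' : (n⁻¹ * g) * m * (n⁻¹ * g)⁻¹ = m' := by
      have h1 : (n⁻¹ * g) * m * (n⁻¹ * g)⁻¹ = n⁻¹ * (g * m * g⁻¹) * n := by group
      rw [h1, hg, mul_assoc, hab m' hm' n hn, ← mul_assoc, inv_mul_cancel, one_mul]
    refine ⟨(n⁻¹ * g) * g1, ?_, ?_⟩
    · rw [mul_smul, hg1, hhc]
    · rw [mul_smul]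
      calc (n⁻¹ * g) • g1 • b = (n⁻¹ * g) • m • c := by rw [hmx]
        _ = ((n⁻¹ * g) * m * (n⁻¹ * g)⁻¹) • (n⁻¹ * g) • c := by
          rw [← mul_smul, ← mul_smul]; congr 1; group
        _ = m' • c := by rw [hhc, hconj']
        _ = d := hmd
  · intro g hg a b hab' hga hgb
    obtain ⟨m, hm, hmb⟩ := hNtr a b
    have hm1 : m ≠ 1 := by
      rintro rfl
      rw [one_smul] at hmb
      exact hab' hmb
    have hginv : g⁻¹ • a = a := by rw [inv_smul_eq_iff, hga]
    have hgm : g * m * g⁻¹ = m := by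
      have h1 : (m⁻¹ * (g * m * g⁻¹)) • a = a := by
        rw [mul_smul, mul_smul, mul_smul, hginv, hmb, hgb, ← hmb, inv_smul_smul]
      have h2 := hsemi _ (N.mul_mem (N.inv_mem hm) (hNn.conj_mem m hm g)) a h1
      rw [inv_mul_eq_one] at h2
      exact h2.symm
    let θ : N → N := fun x => ⟨(x : G) * (g * (x : G)⁻¹ * g⁻¹),
      N.mul_mem x.2 (hNn.conj_mem _ (N.inv_mem x.2) g)⟩
    have hθ : ¬ Function.Injective θ := by
      intro hinj
      have h1 : θ ⟨m, hm⟩ = θ 1 := by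
        apply Subtype.ext
        show m * (g * m⁻¹ * g⁻¹) = (1 : G) * (g * (1 : G)⁻¹ * g⁻¹)
        have h2 : g * m⁻¹ * g⁻¹ = (g * m * g⁻¹)⁻¹ := by group
        rw [h2, hgm]
        group
      exact hm1 (congrArg Subtype.val (hinj h1))
    have hθ' : ¬ Function.Surjective θ := fun h => hθ (Finite.injective_iff_surjective.2 h)
    rw [Function.Surjective] at hθ'
    push Not at hθ'
    obtain ⟨n', hn'⟩ := hθ'
    have hd : ∀ ω : Ω, ((n' : G) * g) • ω ≠ ω := by
      intro ω e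
      obtain ⟨x, hx, rfl⟩ := hNtr a ω
      apply hn' ⟨x, hx⟩
      apply Subtype.ext
      show x * (g * x⁻¹ * g⁻¹) = (n' : G)
      have h1 : (x⁻¹ * (n' : G) * (g * x * g⁻¹)) • a = a := by
        have h0 : x⁻¹ * (n' : G) * (g * x * g⁻¹) = x⁻¹ * ((n' : G) * g) * x * g⁻¹ := by group
        rw [h0, mul_smul, mul_smul, mul_smul, hginv, e, inv_smul_smul]
      have h2 := hsemi _ (N.mul_mem (N.mul_mem (N.inv_mem hx) n'.2) (hNn.conj_mem x hx g)) a h1
      have h3 : (n' : G) = x * (x⁻¹ * (n' : G) * (g * x * g⁻¹)) * (g * x⁻¹ * g⁻¹) := by group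
      rw [h3, h2]
      group
    have hgN : g ∈ N := by
      have h1 := hD _ hd
      have h2 : g = (n' : G)⁻¹ * ((n' : G) * g) := by group
      rw [h2]
      exact N.mul_mem (N.inv_mem n'.2) h1
    exact hg (hsemi g hgN a hga)

/-- a primitive group which is not almost simple and in which all derangements are conjugate
is sharply 2-transitive. -/
theorem unique_class_imp_sharp {G : Type*} [Group G] [Finite G] {Ω : Type*} [Finite Ω]
    [MulAction G Ω] [FaithfulSMul G Ω]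
    (hΩ : 2 ≤ Nat.card Ω) (hprim : IsPreprimitive G Ω)
    (hnas : ¬ ∃ T : Subgroup G, T.Normal ∧ IsSimpleGroup T ∧ ¬ IsMulCommutative T ∧
      Subgroup.centralizer (T : Set G) = ⊥)
    (hconj : ∀ d₁ d₂ : G, (∀ ω : Ω, d₁ • ω ≠ ω) → (∀ ω : Ω, d₂ • ω ≠ ω) →
      ∃ g : G, g * d₁ * g⁻¹ = d₂) :
    IsMultiplyPretransitive G Ω 2 ∧
      ∀ g : G, g ≠ 1 → ∀ a b : Ω, a ≠ b → g • a = a → g • b ≠ b := by
  have hne : Nonempty Ω := by
    have h0 : 0 < Nat.card Ω := by omega
    exact (Nat.card_pos_iff.1 h0).1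
  have htr : IsPretransitive G Ω := hprim.toIsPretransitive
  have hnt : ∀ M : Subgroup G, M.Normal → M ≠ ⊥ → IsPretransitive M Ω := by
    intro M hMn hMb
    have hq : IsQuasiPreprimitive G Ω := inferInstance
    apply hq.isPretransitive_of_normal
    intro h
    apply hMb
    rw [eq_bot_iff]
    intro m hm
    rw [Subgroup.mem_bot]
    apply FaithfulSMul.eq_of_smul_eq_smul (α := Ω)
    intro ω
    rw [one_smul]
    have hω : ω ∈ fixedPoints M Ω := by rw [h]; trivial
    exact hω ⟨m, hm⟩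
  have hDM : ∀ M : Subgroup G, M.Normal → M ≠ ⊥ → ∀ d : G, (∀ ω : Ω, d • ω ≠ ω) → d ∈ M := by
    intro M hMn hMb d hd
    have := hnt M hMn hMb
    obtain ⟨m, hm⟩ := exists_derangement (G := M) (Ω := Ω) hΩ
    obtain ⟨g, hg⟩ := hconj m.1 d hm hd
    rw [← hg]
    exact hMn.conj_mem m.1 m.2 g
  obtain ⟨N, hN⟩ : ∃ N : Subgroup G, N = Subgroup.normalClosure {d : G | ∀ ω : Ω, d • ω ≠ ω} :=
    ⟨_, rfl⟩
  have hNn : N.Normal := by rw [hN]; exact Subgroup.normalClosure_normal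
  have hDN : ∀ d : G, (∀ ω : Ω, d • ω ≠ ω) → d ∈ N := by
    intro d hd
    rw [hN]
    exact Subgroup.subset_normalClosure hd
  obtain ⟨d0, hd0⟩ := exists_derangement (G := G) (Ω := Ω) hΩ
  have hNb : N ≠ ⊥ := by
    intro h
    have h1 := hDN d0 hd0
    rw [h, Subgroup.mem_bot] at h1
    subst h1
    exact hd0 hne.some (one_smul _ _)
  have hNmin : ∀ M : Subgroup G, M.Normal → M ≠ ⊥ → N ≤ M := by
    intro M hMn hMb
    rw [hN]
    exact Subgroup.normalClosure_le_normal (fun d hd => hDM M hMn hMb d hd)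
  have hNt := hnt N hNn hNb
  by_cases hab : ∀ x ∈ N, ∀ y ∈ N, x * y = y * x
  · exact abelian_case N hab hNt hDN hconj
  · exfalso
    have hZ : Subgroup.center N = ⊥ := by
      by_contra hZb
      have hZn : ((Subgroup.center N).map N.subtype).Normal :=
        ConjAct.normal_of_characteristic_of_normal
      have hZb' : (Subgroup.center N).map N.subtype ≠ ⊥ :=
        fun h => hZb ((Subgroup.map_eq_bot_iff_of_injective _ N.subtype_injective).1 h)
      have hle := hNmin _ hZn hZb'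
      apply hab
      intro x hx y hy
      obtain ⟨z, hz, rfl⟩ := hle hx
      exact (congrArg Subtype.val ((Subgroup.mem_center_iff.1 hz) ⟨y, hy⟩)).symm
    by_cases hsimp : IsSimpleGroup N
    · apply hnas
      refine ⟨N, hNn, hsimp, ?_, ?_⟩
      · intro hc
        apply hab
        intro x hx y hy
        exact congrArg Subtype.val (hc.is_comm.comm ⟨x, hx⟩ ⟨y, hy⟩)
      · by_contra hCb
        have hCn : (Subgroup.centralizer (N : Set G)).Normal := Subgroup.normal_centralizer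
        have hle := hNmin _ hCn hCb
        apply hab
        intro x hx y hy
        exact ((Subgroup.mem_centralizer_iff.1 (hle hx)) y hy).symm
    · have hNnt : Nontrivial N := (Subgroup.nontrivial_iff_ne_bot N).2 hNb
      have hex : ∃ T₀ : Subgroup N, T₀.Normal ∧ T₀ ≠ ⊥ ∧ T₀ ≠ ⊤ := by
        by_contra hcon
        push Not at hcon
        apply hsimp
        refine ⟨fun H hH => ?_⟩
        by_cases h : H = ⊥
        · left; exact h
        · right; exact hcon H hH h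
      obtain ⟨T₀, hT₀n, hT₀b, hT₀t⟩ := hex
      have hGsimple : ∀ M : Subgroup N,
          (∀ g : G, M.map (MulAut.conjNormal g : N ≃* N).toMonoidHom ≤ M) → M = ⊥ ∨ M = ⊤ := by
        intro M hM
        by_cases hMb : M = ⊥
        · left; exact hMb
        · right
          have hMn : (M.map N.subtype).Normal := by
            constructor
            rintro _ ⟨m, hm, rfl⟩ g
            have h1 : (MulAut.conjNormal g : N ≃* N) m ∈ M := hM g ⟨m, hm, rfl⟩
            exact ⟨_, h1, by simp [MulAut.conjNormal_apply]⟩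
          have hMb' : M.map N.subtype ≠ ⊥ :=
            fun h => hMb ((Subgroup.map_eq_bot_iff_of_injective _ N.subtype_injective).1 h)
          have hle := hNmin _ hMn hMb'
          rw [eq_top_iff]
          intro x _
          obtain ⟨m, hm, hmx⟩ := hle x.2
          have h2 : m = x := Subtype.ext hmx
          rw [← h2]
          exact hm
      obtain ⟨T, K, hTn, hKn, hTb, hKb, hinf, hsup⟩ :=
        exists_decomposition (MulAut.conjNormal (H := N)) hGsimple T₀ hT₀n hT₀b hT₀t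
      obtain ⟨d₁, d₂, h₁, h₂, hφ⟩ := ns_lemma (Ω := Ω) T K hTb hKb hinf hsup hZ
      obtain ⟨g, hg⟩ := hconj d₁.1 d₂.1 h₁ h₂
      apply hφ (MulAut.conjNormal g)
      apply Subtype.ext
      rw [MulAut.conjNormal_apply]
      exact hg

end Cfsg.Agent.H62
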