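import Mathlib
import Cfsg.Agent.H62.Manning
import Cfsg.Agent.H62.ExtPrim
import Cfsg.Agent.H62.Jordan
import Cfsg.Agent.H62.Derang
import Cfsg.Agent.H62.AutMax

set_option autoImplicit false

namespace Cfsg.Agent.H62

open MulAction

section Reg

variable {G : Type*} [Group G] {Ω : Type*} [MulAction G Ω]

/-- for a subgroup `T` transitive from `α`, an element of `T` carrying `α` to `ω`. -/
noncomputable def regPt (T : Subgroup G) (α : Ω) (hex : ∀ ω : Ω, ∃ t ∈ T, t • α = ω) (ω : Ω) : T :=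
  ⟨Classical.choose (hex ω), (Classical.choose_spec (hex ω)).1⟩

theorem regPt_smul (T : Subgroup G) (α : Ω) (hex : ∀ ω : Ω, ∃ t ∈ T, t • α = ω) (ω : Ω) :
    (regPt T α hex ω : G) • α = ω :=
  (Classical.choose_spec (hex ω)).2

theorem reg_unique (T : Subgroup G) (α : Ω) (hun : ∀ t ∈ T, t • α = α → t = 1) (t₁ t₂ : T)
    (h : (t₁ : G) • α = (t₂ : G) • α) : t₁ = t₂ := by
  have h1 : ((t₂ : G)⁻¹ * (t₁ : G)) • α = α := by rw [mul_smul, h, inv_smul_smul]
  have h2 := hun _ (T.mul_mem (T.inv_mem t₂.2) t₁.2) h1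
  apply Subtype.ext
  rw [inv_mul_eq_one] at h2
  exact h2.symm

theorem regPt_eq (T : Subgroup G) (α : Ω) (hex : ∀ ω : Ω, ∃ t ∈ T, t • α = ω)
    (hun : ∀ t ∈ T, t • α = α → t = 1) (t : T) (ω : Ω) (h : (t : G) • α = ω) :
    regPt T α hex ω = t :=
  reg_unique T α hun _ _ (by rw [regPt_smul, h])

/-- the action of the point stabilizer `G_α` on a regular subgroup `T`, transported from its
action on the points. -/
@[instance_reducible]
noncomputable def regAction (T : Subgroup G) (α : Ω) (hex : ∀ ω : Ω, ∃ t ∈ T, t • α = ω)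
    (hun : ∀ t ∈ T, t • α = α → t = 1) : MulAction (stabilizer G α) T where
  smul h t := regPt T α hex ((h : G) • (t : G) • α)
  one_smul t := by
    show regPt T α hex (((1 : stabilizer G α) : G) • (t : G) • α) = t
    apply regPt_eq T α hex hun
    rw [Subgroup.coe_one, one_smul]
  mul_smul h h' t := by
    show regPt T α hex (((h * h' : stabilizer G α) : G) • (t : G) • α) =
      regPt T α hex ((h : G) • ((regPt T α hex ((h' : G) • (t : G) • α) : T) : G) • α)
    rw [regPt_smul, Subgroup.coe_mul, mul_smul]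

theorem regAction_smul (T : Subgroup G) (α : Ω) (hex : ∀ ω : Ω, ∃ t ∈ T, t • α = ω)
    (hun : ∀ t ∈ T, t • α = α → t = 1) (h : stabilizer G α) (t : T) :
    (((regAction T α hex hun).smul h t : T) : G) • α = (h : G) • (t : G) • α :=
  regPt_smul T α hex _

/-- **Main lemma, permutation form.** A regular non-abelian simple subgroup `T` which the point
stabilizer `G_α` permutes (via the identification of `T` with the points) by automorphisms and
anti-automorphisms, including all inner ones, is incompatible with all two-point stabilizers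
`G_{αβ}` being maximal in `G_α`. -/
theorem regular_simple_false [Finite G] (α : Ω) (T : Subgroup G) [IsSimpleGroup T]
    (hna : ∃ a ∈ T, ∃ b ∈ T, a * b ≠ b * a)
    (hex : ∀ ω : Ω, ∃ t ∈ T, t • α = ω) (hun : ∀ t ∈ T, t • α = α → t = 1)
    (hB1 : ∀ h ∈ stabilizer G α, (∀ t ∈ T, h * t * h⁻¹ ∈ T) ∨
      (∀ t ∈ T, ∀ s ∈ T, (h * t * h⁻¹) * s = s * (h * t * h⁻¹)))
    (hB2 : ∀ t ∈ T, ∃ h ∈ stabilizer G α, ∀ s ∈ T, h * s * h⁻¹ = t * s * t⁻¹)
    (hB3 : ∀ β : Ω, ∀ L : Subgroup (stabilizer G α),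
      stabilizer (stabilizer G α) β ≤ L → L = stabilizer (stabilizer G α) β ∨ L = ⊤) : False := by
  let inst : MulAction (stabilizer G α) T := regAction T α hex hun
  have hsm : ∀ (h : stabilizer G α) (t : T), ((h • t : T) : G) • α = (h : G) • (t : G) • α :=
    fun h t => regAction_smul T α hex hun h t
  have hinv : ∀ h : stabilizer G α, (h : G)⁻¹ • α = α := by
    intro h
    rw [inv_smul_eq_iff]
    exact h.2.symm
  have hX : XHyp (stabilizer G α) T := by
    refine ⟨?_, ?_, ?_, ?_⟩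
    · intro h
      rcases hB1 h.1 h.2 with h1 | h1
      · left
        have key : ∀ x : T, ((h • x : T) : G) = (h : G) * (x : G) * (h : G)⁻¹ := by
          intro x
          have e : (h • x : T) = ⟨(h : G) * (x : G) * (h : G)⁻¹, h1 x x.2⟩ := by
            apply reg_unique T α hun
            rw [hsm]
            show (h : G) • (x : G) • α = ((h : G) * (x : G) * (h : G)⁻¹) • α
            rw [mul_smul, mul_smul, hinv]
          rw [e]
        intro x y
        apply Subtype.ext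
        rw [Subgroup.coe_mul, key, key, key, Subgroup.coe_mul]
        group
      · right
        intro x y
        apply reg_unique T α hun
        rw [hsm]
        show (h : G) • ((x : G) * (y : G)) • α = (((h • y : T) : G) * ((h • x : T) : G)) • α
        have e1 : ((h • x : T) : G) • α = ((h : G) * (x : G) * (h : G)⁻¹) • α := by
          rw [hsm, mul_smul, mul_smul, hinv]
        have e2 : ((h • y : T) : G) • α = ((h : G) * (y : G) * (h : G)⁻¹) • α := by
          rw [hsm, mul_smul, mul_smul, hinv]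
        have c1 := h1 x x.2 (h • y : T) (h • y : T).2
        have e3 : (h : G) * (x : G) * (h : G)⁻¹ * ((h : G) * (y : G) * (h : G)⁻¹) =
            (h : G) * ((x : G) * (y : G)) * (h : G)⁻¹ := by group
        symm
        calc (((h • y : T) : G) * ((h • x : T) : G)) • α
            = ((h • y : T) : G) • ((h : G) * (x : G) * (h : G)⁻¹) • α := by rw [mul_smul, e1]
          _ = ((h : G) * (x : G) * (h : G)⁻¹) • ((h • y : T) : G) • α := by
              rw [← mul_smul, ← c1, mul_smul]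
          _ = ((h : G) * (x : G) * (h : G)⁻¹) • ((h : G) * (y : G) * (h : G)⁻¹) • α := by rw [e2]
          _ = (h : G) • ((x : G) * (y : G)) • α := by
              rw [← mul_smul, e3, mul_smul, mul_smul, hinv]
    · intro t
      obtain ⟨h, hh, hc⟩ := hB2 t.1 t.2
      refine ⟨⟨h, hh⟩, fun s => ?_⟩
      apply reg_unique T α hun
      rw [hsm]
      show h • (s : G) • α = ((t : G) * (s : G) * (t : G)⁻¹) • α
      rw [← hc s.1 s.2, mul_smul, mul_smul]
      have : h⁻¹ • α = α := by rw [inv_smul_eq_iff]; exact hh.symm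
      rw [this]
    · intro x hx L hL
      have e : stabilizer (stabilizer G α) x = stabilizer (stabilizer G α) ((x : G) • α) := by
        ext h
        rw [mem_stabilizer_iff, mem_stabilizer_iff]
        constructor
        · intro hh
          have h1 := hsm h x
          rw [hh] at h1
          exact h1.symm
        · intro hh
          apply reg_unique T α hun
          rw [hsm]
          exact hh
      rw [e] at hL ⊢
      exact hB3 _ L hL
    · obtain ⟨a, ha, b, hb, hab⟩ := hna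
      exact ⟨⟨a, ha⟩, ⟨b, hb⟩, fun h => hab (congrArg Subtype.val h)⟩
  exact hX.false

end Reg

section EP

variable {G : Type*} [Group G] {Ω : Type*} [MulAction G Ω]

/-- in an extremely primitive group the two-point stabilizers are maximal in (or equal to) the
point stabilizers. -/
theorem ep_stab_coatom
    (hep : ∀ (α ω : Ω), IsPreprimitive (stabilizer G α) (orbit (stabilizer G α) ω))
    (α β : Ω) (L : Subgroup (stabilizer G α)) (hL : stabilizer (stabilizer G α) β ≤ L) :
    L = stabilizer (stabilizer G α) β ∨ L = ⊤ := by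
  by_cases hfix : ∀ h : stabilizer G α, h • β = β
  · right
    rw [eq_top_iff]
    intro h _
    exact hL (mem_stabilizer_iff.2 (hfix h))
  · push Not at hfix
    obtain ⟨h₀, hh₀⟩ := hfix
    have hnt : Nontrivial (orbit (stabilizer G α) β) := by
      refine ⟨⟨⟨β, mem_orbit_self β⟩, ⟨h₀ • β, mem_orbit _ h₀⟩, ?_⟩⟩
      intro e
      exact hh₀ (congrArg Subtype.val e).symm
    have hpp := hep α β
    have hc : IsCoatom (stabilizer (stabilizer G α)
        (⟨β, mem_orbit_self β⟩ : orbit (stabilizer G α) β)) :=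
      IsPreprimitive.isCoatom_stabilizer_of_isPreprimitive _ _
    have e : stabilizer (stabilizer G α) (⟨β, mem_orbit_self β⟩ : orbit (stabilizer G α) β) =
        stabilizer (stabilizer G α) β := by
      ext h
      rw [mem_stabilizer_iff, mem_stabilizer_iff]
      constructor
      · intro hh
        exact congrArg Subtype.val hh
      · intro hh
        exact Subtype.ext hh
    rw [e] at hc
    by_cases hLe : L = stabilizer (stabilizer G α) β
    · left; exact hLe
    · right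
      exact hc.2 L (lt_of_le_of_ne hL (Ne.symm hLe))

/-- an element conjugating a finite subgroup into itself normalizes it. -/
theorem conj_mem_iff_of_forall [Finite G] (T : Subgroup G) (h : G)
    (hh : ∀ t ∈ T, h * t * h⁻¹ ∈ T) (t : G) : t ∈ T ↔ h * t * h⁻¹ ∈ T := by
  constructor
  · exact hh t
  · intro ht
    have hinj : Function.Injective (fun x : T => (⟨h * x * h⁻¹, hh x x.2⟩ : T)) := by
      intro x y hxy
      have h1 : h * (x : G) * h⁻¹ = h * (y : G) * h⁻¹ := congrArg Subtype.val hxy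
      apply Subtype.ext
      exact mul_left_cancel (mul_right_cancel h1)
    obtain ⟨s, hs⟩ := (Finite.injective_iff_surjective.1 hinj) ⟨h * t * h⁻¹, ht⟩
    have h1 : h * (s : G) * h⁻¹ = h * t * h⁻¹ := congrArg Subtype.val hs
    have h2 : (s : G) = t := mul_left_cancel (mul_right_cancel h1)
    rw [← h2]
    exact s.2

/-- if every element of `G_α` normalizes `T₁`, a subgroup of the transitive normal subgroup `M`
normalized by `M`, then `T₁` is normal in `G`. -/
theorem normal_of_stab_normalizes (α : Ω) (M : Subgroup G) (hMtr : ∀ ω : Ω, ∃ m ∈ M, m • α = ω)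
    (T₁ : Subgroup G) (ht2 : ∀ m ∈ M, ∀ t ∈ T₁, m * t * m⁻¹ ∈ T₁)
    (hH : ∀ h ∈ stabilizer G α, ∀ t ∈ T₁, h * t * h⁻¹ ∈ T₁) : T₁.Normal := by
  constructor
  intro t ht g
  obtain ⟨m, hm, hmg⟩ := hMtr (g • α)
  have hh : m⁻¹ * g ∈ stabilizer G α := by
    rw [mem_stabilizer_iff, mul_smul, ← hmg, inv_smul_smul]
  have h1 := hH _ hh t ht
  have h2 := ht2 m hm _ h1
  have e : m * (m⁻¹ * g * t * (m⁻¹ * g)⁻¹) * m⁻¹ = g * t * g⁻¹ := by group
  rw [e] at h2
  exact h2

end EP

section EP2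

variable {G : Type*} [Group G] {Ω : Type*} [MulAction G Ω]

/-- **Regular non-simple socle.** -/
theorem regular_nonsimple_false [Finite G] (α : Ω)
    (hcoG : IsCoatom (stabilizer G α))
    (hB3 : ∀ β : Ω, ∀ L : Subgroup (stabilizer G α),
      stabilizer (stabilizer G α) β ≤ L → L = stabilizer (stabilizer G α) β ∨ L = ⊤)
    (M : Subgroup G) [hMn : M.Normal] (hMtr : ∀ ω : Ω, ∃ m ∈ M, m • α = ω)
    (hMreg : ∀ m ∈ M, m • α = α → m = 1)
    (hMna : ¬ ∀ x ∈ M, ∀ y ∈ M, x * y = y * x)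
    (hMmin : ∀ L : Subgroup G, L.Normal → L ≠ ⊥ → L ≤ M → L = M)
    (T₁ : Subgroup G) (ht1 : T₁ ≤ M) (ht2 : ∀ m ∈ M, ∀ t ∈ T₁, m * t * m⁻¹ ∈ T₁) (ht3 : T₁ ≠ ⊥)
    (ht4 : T₁ ≠ M)
    (ht5 : ∀ g : G, (∃ t ∈ T₁, t ≠ 1 ∧ g * t * g⁻¹ ∈ T₁) → ∀ t ∈ T₁, g * t * g⁻¹ ∈ T₁)
    (ht6 : ∀ g : G, (¬ ∀ t ∈ T₁, g * t * g⁻¹ ∈ T₁) →
      ∀ t ∈ T₁, ∀ s ∈ T₁, (g * t * g⁻¹) * s = s * (g * t * g⁻¹)) : False := by
  have hnotall : ¬ ∀ h ∈ stabilizer G α, ∀ t ∈ T₁, h * t * h⁻¹ ∈ T₁ := by
    intro hall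
    have hn := normal_of_stab_normalizes α M hMtr T₁ ht2 hall
    exact ht4 (hMmin T₁ hn ht3 ht1)
  have step1 : ∀ x ∈ T₁, x ≠ 1 → ∀ h ∈ stabilizer G α, (∀ t ∈ T₁, h * t * h⁻¹ ∈ T₁) →
      h * x * h⁻¹ = x := by
    intro x hx hx1 h hh hnorm
    let L₀ : Subgroup (stabilizer G α) :=
      { carrier := {k | ∀ t : G, t ∈ T₁ ↔ (k : G) * t * (k : G)⁻¹ ∈ T₁}
        one_mem' := by
          intro t
          simp
        mul_mem' := by
          intro a b ha hb t
          rw [hb t, ha ((b : G) * t * (b : G)⁻¹)]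
          have e : (a : G) * ((b : G) * t * (b : G)⁻¹) * (a : G)⁻¹ =
              ((a * b : stabilizer G α) : G) * t * ((a * b : stabilizer G α) : G)⁻¹ := by
            rw [Subgroup.coe_mul]; group
          rw [e]
        inv_mem' := by
          intro a ha t
          have h1 := ha ((a : G)⁻¹ * t * (a : G))
          have e : (a : G) * ((a : G)⁻¹ * t * (a : G)) * (a : G)⁻¹ = t := by group
          rw [e] at h1
          rw [Subgroup.coe_inv, inv_inv]
          exact h1.symm }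
    have hle : stabilizer (stabilizer G α) (x • α) ≤ L₀ := by
      intro k hk
      rw [mem_stabilizer_iff] at hk
      have hk' : (k : G) • x • α = x • α := hk
      have hkinv : (k : G)⁻¹ • α = α := by
        rw [inv_smul_eq_iff]
        exact k.2.symm
      have e1 : (k : G) * x * (k : G)⁻¹ = x := by
        have h1 : (x⁻¹ * ((k : G) * x * (k : G)⁻¹)) • α = α := by
          rw [mul_smul, mul_smul, mul_smul, hkinv, hk', inv_smul_smul]
        have h2 := hMreg _ (M.mul_mem (M.inv_mem (ht1 hx)) (hMn.conj_mem x (ht1 hx) k)) h1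
        rw [inv_mul_eq_one] at h2
        exact h2.symm
      have e2 : (k : G)⁻¹ * x * (k : G)⁻¹⁻¹ = x := by
        rw [inv_inv]
        calc (k : G)⁻¹ * x * (k : G)
            = (k : G)⁻¹ * ((k : G) * x * (k : G)⁻¹) * (k : G) := by rw [e1]
          _ = x := by group
      have n1 := ht5 (k : G) ⟨x, hx, hx1, by rw [e1]; exact hx⟩
      have n2 := ht5 (k : G)⁻¹ ⟨x, hx, hx1, by rw [e2]; exact hx⟩
      intro t
      constructor
      · exact n1 t
      · intro ht
        have h3 := n2 _ ht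
        have e : (k : G)⁻¹ * ((k : G) * t * (k : G)⁻¹) * (k : G)⁻¹⁻¹ = t := by group
        rw [e] at h3
        exact h3
    rcases hB3 (x • α) L₀ hle with hL | hL
    · have hmem : (⟨h, hh⟩ : stabilizer G α) ∈ L₀ :=
        fun t => conj_mem_iff_of_forall T₁ h hnorm t
      rw [hL, mem_stabilizer_iff] at hmem
      have hk' : h • x • α = x • α := hmem
      have hinv : h⁻¹ • α = α := by
        rw [inv_smul_eq_iff]
        exact hh.symm
      have h1 : (x⁻¹ * (h * x * h⁻¹)) • α = α := by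
        rw [mul_smul, mul_smul, mul_smul, hinv, hk', inv_smul_smul]
      have h2 := hMreg _ (M.mul_mem (M.inv_mem (ht1 hx)) (hMn.conj_mem x (ht1 hx) h)) h1
      rw [inv_mul_eq_one] at h2
      exact h2.symm
    · exfalso
      apply hnotall
      intro k hk t ht
      have hmem : (⟨k, hk⟩ : stabilizer G α) ∈ L₀ := by rw [hL]; trivial
      exact (hmem t).1 ht
  obtain ⟨x₀, hx₀, hx₀1⟩ : ∃ x₀ ∈ T₁, x₀ ≠ 1 := by
    by_contra hcon
    push Not at hcon
    apply ht3
    rw [eq_bot_iff]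
    intro t ht
    exact hcon t ht
  obtain ⟨S, hS⟩ : ∃ S : Set G, S = {g | ∃ h ∈ stabilizer G α, g = h * x₀ * h⁻¹} := ⟨_, rfl⟩
  have hScomm : ∀ a ∈ S, ∀ b ∈ S, a * b = b * a := by
    rw [hS]
    rintro a ⟨h, hh, rfl⟩ b ⟨h', hh', rfl⟩
    have hk : h⁻¹ * h' ∈ stabilizer G α := mul_mem (inv_mem hh) hh'
    by_cases hn : ∀ t ∈ T₁, (h⁻¹ * h') * t * (h⁻¹ * h')⁻¹ ∈ T₁
    · have e := step1 x₀ hx₀ hx₀1 _ hk hn
      have e' : h' * x₀ * h'⁻¹ = h * x₀ * h⁻¹ := by
        calc h' * x₀ * h'⁻¹ = h * ((h⁻¹ * h') * x₀ * (h⁻¹ * h')⁻¹) * h⁻¹ := by group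
          _ = h * x₀ * h⁻¹ := by rw [e]
      rw [e']
    · have c := ht6 _ hn x₀ hx₀ x₀ hx₀
      calc h * x₀ * h⁻¹ * (h' * x₀ * h'⁻¹)
          = h * (x₀ * ((h⁻¹ * h') * x₀ * (h⁻¹ * h')⁻¹)) * h⁻¹ := by group
        _ = h * (((h⁻¹ * h') * x₀ * (h⁻¹ * h')⁻¹) * x₀) * h⁻¹ := by rw [c]
        _ = h' * x₀ * h'⁻¹ * (h * x₀ * h⁻¹) := by group
  have hLcomm : ∀ u ∈ Subgroup.closure S, ∀ v ∈ Subgroup.closure S, u * v = v * u := by
    have h1 : Subgroup.closure S ≤ Subgroup.centralizer S := by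
      rw [Subgroup.closure_le]
      intro a ha
      rw [SetLike.mem_coe, Subgroup.mem_centralizer_iff]
      intro b hb
      exact hScomm b hb a ha
    have h2 : Subgroup.closure S ≤ Subgroup.centralizer (Subgroup.closure S : Set G) := by
      rw [Subgroup.closure_le]
      intro a ha
      rw [SetLike.mem_coe, Subgroup.mem_centralizer_iff]
      intro b hb
      have h3 := h1 hb
      rw [Subgroup.mem_centralizer_iff] at h3
      exact (h3 a ha).symm
    intro u hu v hv
    have h3 := h2 hu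
    rw [Subgroup.mem_centralizer_iff] at h3
    exact (h3 v hv).symm
  have hLM : Subgroup.closure S ≤ M := by
    rw [Subgroup.closure_le, hS]
    rintro _ ⟨h, hh, rfl⟩
    exact hMn.conj_mem x₀ (ht1 hx₀) h
  have hLnorm : ∀ h ∈ stabilizer G α, ∀ l ∈ Subgroup.closure S,
      h * l * h⁻¹ ∈ Subgroup.closure S := by
    intro h hh l hl
    have h1 : (Subgroup.closure S).map (MulAut.conj h).toMonoidHom ≤ Subgroup.closure S := by
      rw [MonoidHom.map_closure, Subgroup.closure_le, hS]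
      rintro _ ⟨_, ⟨k, hk, rfl⟩, rfl⟩
      apply Subgroup.subset_closure
      refine ⟨h * k, mul_mem hh hk, ?_⟩
      show h * (k * x₀ * k⁻¹) * h⁻¹ = h * k * x₀ * (h * k)⁻¹
      group
    exact h1 ⟨l, hl, rfl⟩
  let P : Subgroup G :=
    { carrier := {g | ∃ l ∈ Subgroup.closure S, ∃ h ∈ stabilizer G α, g = l * h}
      one_mem' := ⟨1, one_mem _, 1, one_mem _, by rw [mul_one]⟩
      mul_mem' := by
        rintro _ _ ⟨l, hl, h, hh, rfl⟩ ⟨l', hl', h', hh', rfl⟩
        refine ⟨l * (h * l' * h⁻¹), mul_mem hl (hLnorm h hh l' hl'), h * h', mul_mem hh hh', ?_⟩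
        group
      inv_mem' := by
        rintro _ ⟨l, hl, h, hh, rfl⟩
        refine ⟨h⁻¹ * l⁻¹ * h⁻¹⁻¹, hLnorm h⁻¹ (inv_mem hh) l⁻¹ (inv_mem hl), h⁻¹, inv_mem hh, ?_⟩
        group }
  have hx₀α : x₀ • α ≠ α := fun h => hx₀1 (hMreg x₀ (ht1 hx₀) h)
  have hPtop : P = ⊤ := by
    apply hcoG.2
    apply lt_of_le_of_ne
    · intro h hh
      exact ⟨1, one_mem _, h, hh, by rw [one_mul]⟩
    · intro e
      have hmem : x₀ ∈ P := by
        refine ⟨x₀, Subgroup.subset_closure ?_, 1, one_mem _, by rw [mul_one]⟩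
        rw [hS]
        exact ⟨1, one_mem _, by group⟩
      rw [← e] at hmem
      exact hx₀α hmem
  apply hMna
  have hML : ∀ m ∈ M, m ∈ Subgroup.closure S := by
    intro m hm
    have hmP : m ∈ P := by rw [hPtop]; trivial
    obtain ⟨l, hl, h, hh, e⟩ := hmP
    have h1 : (l⁻¹ * m) • α = α := by
      rw [e, mul_smul, mul_smul, hh, inv_smul_smul]
    have h2 := hMreg _ (M.mul_mem (M.inv_mem (hLM hl)) hm) h1
    rw [inv_mul_eq_one] at h2
    rw [← h2]
    exact hl
  intro x hx y hy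
  exact hLcomm x (hML x hx) y (hML y hy)

end EP2

section EP3

variable {G : Type*} [Group G] {Ω : Type*} [MulAction G Ω]

/-- **Non-regular non-simple socle.** -/
theorem nonregular_nonsimple_false [Finite G] [Finite Ω] [FaithfulSMul G Ω]
    (hprim : IsPreprimitive G Ω)
    (hep : ∀ (α ω : Ω), IsPreprimitive (stabilizer G α) (orbit (stabilizer G α) ω))
    (α : Ω) (hcoG : IsCoatom (stabilizer G α))
    (M : Subgroup G) [hMn : M.Normal] (hMtr : ∀ ω : Ω, ∃ m ∈ M, m • α = ω)
    (hMnr : ∃ m ∈ M, m ≠ 1 ∧ m • α = α)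
    (hMmin : ∀ L : Subgroup G, L.Normal → L ≠ ⊥ → L ≤ M → L = M)
    (T₁ : Subgroup G) [IsSimpleGroup T₁] (hna : ∃ a ∈ T₁, ∃ b ∈ T₁, a * b ≠ b * a)
    (ht1 : T₁ ≤ M) (ht2 : ∀ m ∈ M, ∀ t ∈ T₁, m * t * m⁻¹ ∈ T₁) (ht3 : T₁ ≠ ⊥)
    (ht4 : T₁ ≠ M)
    (ht6 : ∀ g : G, (¬ ∀ t ∈ T₁, g * t * g⁻¹ ∈ T₁) →
      ∀ t ∈ T₁, ∀ s ∈ T₁, (g * t * g⁻¹) * s = s * (g * t * g⁻¹)) : False := by
  let K : Subgroup (stabilizer G α) := M.subgroupOf (stabilizer G α)
  have hKn : K.Normal := Subgroup.normal_subgroupOf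
  have hK : K ≠ ⊥ := by
    obtain ⟨m, hm, hm1, hmα⟩ := hMnr
    intro h
    have hmem : (⟨m, hmα⟩ : stabilizer G α) ∈ K := Subgroup.mem_subgroupOf.2 hm
    rw [h, Subgroup.mem_bot] at hmem
    exact hm1 (congrArg Subtype.val hmem)
  have hinv : ∀ h ∈ stabilizer G α, h⁻¹ • α = α := by
    intro h hh
    rw [inv_smul_eq_iff]; exact hh.symm
  have hΔH : ∀ h ∈ stabilizer G α, ∀ t ∈ T₁, ∃ t' ∈ T₁, t' • α = h • t • α := by
    intro h hh t ht
    by_cases hω : t • α = α
    · refine ⟨1, one_mem _, ?_⟩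
      rw [hω, one_smul]; exact hh.symm
    · obtain ⟨k, hk, hks⟩ := ep_normal_trans hprim hep α (t • α) hω K hK ⟨h, hh⟩
      have hkM : (k : G) ∈ M := Subgroup.mem_subgroupOf.1 hk
      refine ⟨(k : G) * t * (k : G)⁻¹, ht2 _ hkM t ht, ?_⟩
      rw [mul_smul, mul_smul, hinv _ k.2]
      exact hks
  let S : Subgroup G :=
    { carrier := {g | ∀ ω : Ω, (∃ t ∈ T₁, t • α = ω) ↔ (∃ t ∈ T₁, t • α = g • ω)}
      one_mem' := by
        intro ω
        rw [one_smul]
      mul_mem' := by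
        intro a b ha hb ω
        rw [hb ω, ha (b • ω), mul_smul]
      inv_mem' := by
        intro a ha ω
        rw [ha (a⁻¹ • ω), smul_inv_smul] }
  have hHS : stabilizer G α ≤ S := by
    intro h hh ω
    constructor
    · rintro ⟨t, ht, rfl⟩
      exact hΔH h hh t ht
    · rintro ⟨t, ht, e⟩
      obtain ⟨t', ht', e'⟩ := hΔH h⁻¹ (inv_mem hh) t ht
      refine ⟨t', ht', ?_⟩
      rw [e', e, inv_smul_smul]
  have hTS : T₁ ≤ S := by
    intro s hs ω
    constructor
    · rintro ⟨t, ht, rfl⟩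
      exact ⟨s * t, mul_mem hs ht, mul_smul _ _ _⟩
    · rintro ⟨t, ht, e⟩
      refine ⟨s⁻¹ * t, mul_mem (inv_mem hs) ht, ?_⟩
      rw [mul_smul, e, inv_smul_smul]
  have hStop : S = ⊤ := by
    by_contra hne
    have hSH : S = stabilizer G α := by
      by_contra hne2
      exact hne (hcoG.2 S (lt_of_le_of_ne hHS (Ne.symm hne2)))
    apply ht3
    rw [eq_bot_iff]
    intro t ht
    rw [Subgroup.mem_bot]
    apply FaithfulSMul.eq_of_smul_eq_smul (α := Ω)
    intro ω
    rw [one_smul]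
    obtain ⟨m, hm, rfl⟩ := hMtr ω
    have h1 : m⁻¹ * t * m⁻¹⁻¹ ∈ T₁ := ht2 _ (inv_mem hm) t ht
    have h2 : (m⁻¹ * t * m⁻¹⁻¹) • α = α := by
      have h3 := hTS h1
      rw [hSH] at h3
      exact h3
    have e : t * m = m * (m⁻¹ * t * m⁻¹⁻¹) := by group
    rw [← mul_smul, e, mul_smul, h2]
  have hex : ∀ ω : Ω, ∃ t ∈ T₁, t • α = ω := by
    intro ω
    obtain ⟨m, hm, rfl⟩ := hMtr ω
    have hmS : m ∈ S := by rw [hStop]; trivial
    exact (hmS α).1 ⟨1, one_mem _, one_smul _ _⟩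
  have hnotall : ¬ ∀ h ∈ stabilizer G α, ∀ t ∈ T₁, h * t * h⁻¹ ∈ T₁ := by
    intro hall
    have hn := normal_of_stab_normalizes α M hMtr T₁ ht2 hall
    exact ht4 (hMmin T₁ hn ht3 ht1)
  obtain ⟨h₀, hh₀, hh₀n⟩ : ∃ h₀ ∈ stabilizer G α, ¬ ∀ t ∈ T₁, h₀ * t * h₀⁻¹ ∈ T₁ := by
    by_contra hcon
    apply hnotall
    intro h hh
    by_contra hc
    exact hcon ⟨h, hh, hc⟩
  have hc₀ := ht6 h₀ hh₀n
  have hcen : ∀ ω : Ω, ∃ u : G, u • α = ω ∧ ∀ s ∈ T₁, u * s = s * u := by
    intro ω
    obtain ⟨t', ht', e⟩ := hex (h₀⁻¹ • ω)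
    refine ⟨h₀ * t' * h₀⁻¹, ?_, fun s hs => hc₀ t' ht' s hs⟩
    rw [mul_smul, mul_smul, hinv h₀ hh₀, e, smul_inv_smul]
  have hun : ∀ t ∈ T₁, t • α = α → t = 1 := by
    intro t ht htα
    apply FaithfulSMul.eq_of_smul_eq_smul (α := Ω)
    intro ω
    rw [one_smul]
    obtain ⟨u, rfl, hu⟩ := hcen ω
    rw [← mul_smul, ← hu t ht, mul_smul, htα]
  apply regular_simple_false α T₁ hna hex hun
  · intro h hh
    by_cases hn : ∀ t ∈ T₁, h * t * h⁻¹ ∈ T₁
    · left; exact hn
    · right; exact ht6 h hn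
  · intro t ht
    obtain ⟨u, hu1, hu2⟩ := hcen (t⁻¹ • α)
    refine ⟨t * u, ?_, ?_⟩
    · rw [mem_stabilizer_iff, mul_smul, hu1, smul_inv_smul]
    · intro s hs
      have hus := hu2 s hs
      calc t * u * s * (t * u)⁻¹ = t * (u * s) * u⁻¹ * t⁻¹ := by group
        _ = t * (s * u) * u⁻¹ * t⁻¹ := by rw [hus]
        _ = t * s * t⁻¹ := by group
  · exact ep_stab_coatom hep α

end EP3

section Dec

/-- a finite group with no proper nontrivial subgroup invariant under a group of automorphisms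
`φ`, but with a proper nontrivial normal subgroup, is the direct product of two nontrivial
normal subgroups, the first of them of least order among the nontrivial normal subgroups. -/
theorem exists_decomposition' {N : Type*} [Group N] [Finite N] {G : Type*} [Group G]
    (φ : G →* MulAut N)
    (hsimple : ∀ M : Subgroup N, (∀ g : G, M.map (φ g).toMonoidHom ≤ M) → M = ⊥ ∨ M = ⊤)
    (T₀ : Subgroup N) (hT₀n : T₀.Normal) (hT₀b : T₀ ≠ ⊥) (hT₀t : T₀ ≠ ⊤) :
    ∃ T K : Subgroup N, T.Normal ∧ K.Normal ∧ T ≠ ⊥ ∧ K ≠ ⊥ ∧ T ⊓ K = ⊥ ∧ T ⊔ K = ⊤ ∧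
      ∀ L : Subgroup N, L.Normal → L ≠ ⊥ → Nat.card T ≤ Nat.card L := by
  classical
  have hne1 : Nonempty {T : Subgroup N // T.Normal ∧ T ≠ ⊥} := ⟨⟨T₀, hT₀n, hT₀b⟩⟩
  obtain ⟨⟨T, hTn, hTb⟩, hTmin⟩ :=
    Finite.exists_min (fun T : {T : Subgroup N // T.Normal ∧ T ≠ ⊥} => Nat.card T.1)
  have hTmin' : ∀ L : Subgroup N, L.Normal → L ≠ ⊥ → Nat.card T ≤ Nat.card L :=
    fun L hL hLb => hTmin ⟨L, hL, hLb⟩
  have hTt : T ≠ ⊤ := by
    intro h
    have h1 := hTmin' T₀ hT₀n hT₀b
    rw [h, Subgroup.card_top] at h1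
    exact hT₀t (Subgroup.eq_top_of_card_eq _ (le_antisymm (Subgroup.card_le_card_group _) h1))
  have hne2 : Nonempty {K : Subgroup N // K.Normal ∧ T ⊓ K = ⊥} :=
    ⟨⟨⊥, inferInstance, inf_bot_eq _⟩⟩
  obtain ⟨⟨K, hKn, hKT⟩, hKmax⟩ :=
    Finite.exists_max (fun K : {K : Subgroup N // K.Normal ∧ T ⊓ K = ⊥} => Nat.card K.1)
  have hKmax' : ∀ L : Subgroup N, L.Normal → T ⊓ L = ⊥ → Nat.card L ≤ Nat.card K :=
    fun L hL hLT => hKmax ⟨L, hL, hLT⟩
  have hsup : T ⊔ K = ⊤ := by
    by_contra hne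
    have hex : ∃ g : G, ¬ T.map (φ g).toMonoidHom ≤ T ⊔ K := by
      by_contra hall
      push Not at hall
      have hMinv : ∀ g : G, (⨆ g : G, T.map (φ g).toMonoidHom).map (φ g).toMonoidHom ≤
          ⨆ g : G, T.map (φ g).toMonoidHom := by
        intro g
        rw [Subgroup.map_iSup]
        apply iSup_le
        intro g'
        rw [Subgroup.map_map]
        have h1 : (φ g).toMonoidHom.comp (φ g').toMonoidHom = (φ (g * g')).toMonoidHom := by
          rw [map_mul]; rfl
        rw [h1]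
        exact le_iSup (fun g : G => T.map (φ g).toMonoidHom) (g * g')
      have hTM : T ≤ ⨆ g : G, T.map (φ g).toMonoidHom := by
        have h1 := le_iSup (fun g : G => T.map (φ g).toMonoidHom) 1
        have h2 : T.map (φ 1).toMonoidHom = T := by
          rw [map_one]
          exact Subgroup.map_id T
        rw [h2] at h1
        exact h1
      rcases hsimple _ hMinv with h | h
      · apply hTb
        rw [eq_bot_iff, ← h]
        exact hTM
      · apply hne
        rw [eq_top_iff, ← h]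
        exact iSup_le hall
    obtain ⟨g, hg⟩ := hex
    have hT'n : (T.map (φ g).toMonoidHom).Normal := hTn.map _ (φ g).surjective
    have hT'card : Nat.card (T.map (φ g).toMonoidHom) = Nat.card T :=
      Subgroup.card_map_of_injective (φ g).injective
    have hT'b : T.map (φ g).toMonoidHom ≠ ⊥ := by
      intro h
      rw [h, Subgroup.card_bot] at hT'card
      exact hTb (Subgroup.card_eq_one.1 hT'card.symm)
    have hL : T.map (φ g).toMonoidHom ⊓ (T ⊔ K) = ⊥ := by
      by_contra hLb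
      have hLn : (T.map (φ g).toMonoidHom ⊓ (T ⊔ K)).Normal := inferInstance
      have h1 := hTmin' _ hLn hLb
      have h2 : T.map (φ g).toMonoidHom ⊓ (T ⊔ K) = T.map (φ g).toMonoidHom :=
        Subgroup.eq_of_le_of_card_ge inf_le_left (by rw [hT'card]; exact h1)
      apply hg
      rw [← h2]
      exact inf_le_right
    have hK'n : (K ⊔ T.map (φ g).toMonoidHom).Normal := inferInstance
    have hK'T : T ⊓ (K ⊔ T.map (φ g).toMonoidHom) = ⊥ := by
      rw [eq_bot_iff]
      rintro x ⟨hxT, hxK'⟩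
      have hmem : x ∈ (↑(K ⊔ T.map (φ g).toMonoidHom) : Set N) := hxK'
      rw [Subgroup.mul_normal] at hmem
      obtain ⟨k, hk, s, hs, rfl⟩ := Set.mem_mul.1 hmem
      have hs' : s ∈ T.map (φ g).toMonoidHom ⊓ (T ⊔ K) := by
        rw [Subgroup.mem_inf]
        refine ⟨hs, ?_⟩
        have h1 : s = k⁻¹ * (k * s) := by group
        rw [h1]
        exact (T ⊔ K).mul_mem ((T ⊔ K).inv_mem (Subgroup.mem_sup_right hk))
          (Subgroup.mem_sup_left hxT)
      rw [hL, Subgroup.mem_bot] at hs'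
      subst hs'
      rw [mul_one] at hxT ⊢
      have h2 : k ∈ T ⊓ K := Subgroup.mem_inf.2 ⟨hxT, hk⟩
      rw [hKT] at h2
      exact h2
    have h3 := hKmax' _ hK'n hK'T
    have h4 : K = K ⊔ T.map (φ g).toMonoidHom := Subgroup.eq_of_le_of_card_ge le_sup_left h3
    have h5 : T.map (φ g).toMonoidHom ≤ K := by
      rw [h4]
      exact le_sup_right
    apply hT'b
    rw [eq_bot_iff, ← hL]
    exact le_inf le_rfl (h5.trans le_sup_right)
  refine ⟨T, K, hTn, hKn, hTb, ?_, hKT, hsup, hTmin'⟩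
  intro hKb
  rw [hKb, sup_bot_eq] at hsup
  exact hTt hsup

/-- structure of a non-abelian, non-simple minimal normal subgroup `M` of a finite group: it has
a non-abelian simple normal subgroup `T₁`, whose conjugates in `G` either coincide with `T₁`
or meet it trivially and centralize it. -/
theorem min_normal_structure {G : Type*} [Group G] [Finite G] (M : Subgroup G) [hMn : M.Normal]
    (hMb : M ≠ ⊥)
    (hMmin : ∀ L : Subgroup G, L.Normal → L ≠ ⊥ → L ≤ M → L = M)
    (hMna : ¬ ∀ x ∈ M, ∀ y ∈ M, x * y = y * x)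
    (hMns : ¬ IsSimpleGroup M) :
    ∃ T₁ : Subgroup G, IsSimpleGroup T₁ ∧ (∃ a ∈ T₁, ∃ b ∈ T₁, a * b ≠ b * a) ∧ T₁ ≤ M ∧
      (∀ m ∈ M, ∀ t ∈ T₁, m * t * m⁻¹ ∈ T₁) ∧ T₁ ≠ ⊥ ∧ T₁ ≠ M ∧
      (∀ g : G, (∃ t ∈ T₁, t ≠ 1 ∧ g * t * g⁻¹ ∈ T₁) → ∀ t ∈ T₁, g * t * g⁻¹ ∈ T₁) ∧
      (∀ g : G, (¬ ∀ t ∈ T₁, g * t * g⁻¹ ∈ T₁) →
        ∀ t ∈ T₁, ∀ s ∈ T₁, (g * t * g⁻¹) * s = s * (g * t * g⁻¹)) := by
  classical
  have hZ : Subgroup.center M = ⊥ := by
    by_contra hZb
    have hZn : ((Subgroup.center M).map M.subtype).Normal :=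
      ConjAct.normal_of_characteristic_of_normal
    have hZb' : (Subgroup.center M).map M.subtype ≠ ⊥ :=
      fun h => hZb ((Subgroup.map_eq_bot_iff_of_injective _ M.subtype_injective).1 h)
    have hle := hMmin _ hZn hZb' (Subgroup.map_subtype_le _)
    apply hMna
    intro x hx y hy
    rw [← hle] at hx
    obtain ⟨z, hz, rfl⟩ := hx
    exact (congrArg Subtype.val ((Subgroup.mem_center_iff.1 hz) ⟨y, hy⟩)).symm
  have hMnt : Nontrivial M := (Subgroup.nontrivial_iff_ne_bot M).2 hMb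
  have hex : ∃ T₀ : Subgroup M, T₀.Normal ∧ T₀ ≠ ⊥ ∧ T₀ ≠ ⊤ := by
    by_contra hcon
    push Not at hcon
    apply hMns
    refine ⟨fun H hH => ?_⟩
    by_cases h : H = ⊥
    · left; exact h
    · right; exact hcon H hH h
  obtain ⟨T₀, hT₀n, hT₀b, hT₀t⟩ := hex
  have hGsimple : ∀ M' : Subgroup M,
      (∀ g : G, M'.map (MulAut.conjNormal g : M ≃* M).toMonoidHom ≤ M') → M' = ⊥ ∨ M' = ⊤ := by
    intro M' hM'
    by_cases hMb' : M' = ⊥
    · left; exact hMb'
    · right
      have hMn' : (M'.map M.subtype).Normal := by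
        constructor
        rintro _ ⟨m, hm, rfl⟩ g
        have h1 : (MulAut.conjNormal g : M ≃* M) m ∈ M' := hM' g ⟨m, hm, rfl⟩
        exact ⟨_, h1, by simp [MulAut.conjNormal_apply]⟩
      have hMb'' : M'.map M.subtype ≠ ⊥ :=
        fun h => hMb' ((Subgroup.map_eq_bot_iff_of_injective _ M.subtype_injective).1 h)
      have hle := hMmin _ hMn' hMb'' (Subgroup.map_subtype_le _)
      rw [eq_top_iff]
      intro x _
      have hx : (x : G) ∈ M'.map M.subtype := by rw [hle]; exact x.2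
      obtain ⟨m, hm, hmx⟩ := hx
      have h2 : m = x := Subtype.ext hmx
      rw [← h2]
      exact hm
  obtain ⟨T, K, hTn, hKn, hTb, hKb, hinf, hsup, hTmin⟩ :=
    exists_decomposition' (MulAut.conjNormal (H := M)) hGsimple T₀ hT₀n hT₀b hT₀t
  have hTK : ∀ t ∈ T, ∀ k ∈ K, t * k = k * t := by
    intro t ht k hk
    exact Subgroup.commute_of_normal_of_disjoint T K hTn hKn (disjoint_iff.2 hinf) t k ht hk
  have hsp : ∀ x : M, ∃ t ∈ T, ∃ k ∈ K, x = t * k := by
    intro x
    have hx : x ∈ (↑(T ⊔ K) : Set M) := by rw [hsup]; trivial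
    rw [Subgroup.mul_normal] at hx
    obtain ⟨t, ht, k, hk, rfl⟩ := Set.mem_mul.1 hx
    exact ⟨t, ht, k, hk, rfl⟩
  have hconjT : ∀ g : G, (T.map (MulAut.conjNormal g : M ≃* M).toMonoidHom).Normal :=
    fun g => hTn.map _ (MulAut.conjNormal g : M ≃* M).surjective
  have hconjcard : ∀ g : G,
      Nat.card (T.map (MulAut.conjNormal g : M ≃* M).toMonoidHom) = Nat.card T :=
    fun g => Subgroup.card_map_of_injective (MulAut.conjNormal g : M ≃* M).injective
  have key5 : ∀ g : G, T ⊓ T.map (MulAut.conjNormal g : M ≃* M).toMonoidHom ≠ ⊥ →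
      T.map (MulAut.conjNormal g : M ≃* M).toMonoidHom ≤ T := by
    intro g hne
    have hn : (T ⊓ T.map (MulAut.conjNormal g : M ≃* M).toMonoidHom).Normal := by
      have := hconjT g
      infer_instance
    have h1 := hTmin _ hn hne
    have h2 : T ⊓ T.map (MulAut.conjNormal g : M ≃* M).toMonoidHom =
        T.map (MulAut.conjNormal g : M ≃* M).toMonoidHom :=
      Subgroup.eq_of_le_of_card_ge inf_le_right (by rw [hconjcard]; exact h1)
    rw [← h2]
    exact inf_le_left
  have hTnt : Nontrivial T := (Subgroup.nontrivial_iff_ne_bot T).2 hTb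
  have hTsimple : IsSimpleGroup T := by
    refine ⟨fun L hL => ?_⟩
    by_cases hLb : L = ⊥
    · left; exact hLb
    · right
      have hLn : (L.map T.subtype).Normal := by
        constructor
        rintro _ ⟨l, hl, rfl⟩ x
        obtain ⟨t, ht, k, hk, rfl⟩ := hsp x
        have h1 : (⟨t, ht⟩ : T) * l * (⟨t, ht⟩ : T)⁻¹ ∈ L := hL.conj_mem l hl ⟨t, ht⟩
        refine ⟨_, h1, ?_⟩
        have hc := hTK (l : M) l.2 k hk
        show t * (l : M) * t⁻¹ = t * k * (l : M) * (t * k)⁻¹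
        calc t * (l : M) * t⁻¹ = t * ((l : M) * k) * k⁻¹ * t⁻¹ := by group
          _ = t * (k * (l : M)) * k⁻¹ * t⁻¹ := by rw [hc]
          _ = t * k * (l : M) * (t * k)⁻¹ := by group
      have hLb' : L.map T.subtype ≠ ⊥ :=
        fun h => hLb ((Subgroup.map_eq_bot_iff_of_injective _ T.subtype_injective).1 h)
      have h1 := hTmin _ hLn hLb'
      have h2 : L.map T.subtype = T :=
        Subgroup.eq_of_le_of_card_ge (Subgroup.map_subtype_le _) h1
      rw [eq_top_iff]
      intro x _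
      have hx : (x : M) ∈ L.map T.subtype := by rw [h2]; exact x.2
      obtain ⟨l, hl, hlx⟩ := hx
      have h3 : l = x := Subtype.ext hlx
      rw [← h3]
      exact hl
  refine ⟨T.map M.subtype, ?_, ?_, Subgroup.map_subtype_le _, ?_, ?_, ?_, ?_, ?_⟩
  · exact (T.equivMapOfInjective M.subtype M.subtype_injective).symm.isSimpleGroup
  · by_contra hcon
    push Not at hcon
    apply hTb
    rw [eq_bot_iff, ← hZ]
    intro t ht
    rw [Subgroup.mem_center_iff]
    intro x
    obtain ⟨t', ht', k, hk, rfl⟩ := hsp x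
    have hc1 : t' * t = t * t' := by
      apply Subtype.ext
      exact hcon t'.1 ⟨t', ht', rfl⟩ t.1 ⟨t, ht, rfl⟩
    have hc2 := hTK t ht k hk
    calc t' * k * t = t' * (k * t) := by group
      _ = t' * (t * k) := by rw [hc2]
      _ = (t' * t) * k := by group
      _ = (t * t') * k := by rw [hc1]
      _ = t * (t' * k) := by group
  · rintro m hm _ ⟨t, ht, rfl⟩
    exact ⟨⟨m, hm⟩ * t * ⟨m, hm⟩⁻¹, hTn.conj_mem t ht ⟨m, hm⟩, rfl⟩
  · exact fun h => hTb ((Subgroup.map_eq_bot_iff_of_injective _ M.subtype_injective).1 h)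
  · intro h
    apply hKb
    have hTtop : T = ⊤ := by
      rw [eq_top_iff]
      intro x _
      have hx : (x : G) ∈ T.map M.subtype := by rw [h]; exact x.2
      obtain ⟨t, ht, htx⟩ := hx
      have h2 : t = x := Subtype.ext htx
      rw [← h2]
      exact ht
    rw [hTtop, top_inf_eq] at hinf
    exact hinf
  · rintro g ⟨_, ⟨t, ht, rfl⟩, ht1, ⟨t', ht', e⟩⟩
    have hmem : t' ∈ T ⊓ T.map (MulAut.conjNormal g : M ≃* M).toMonoidHom := by
      rw [Subgroup.mem_inf]
      refine ⟨ht', t, ht, ?_⟩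
      apply Subtype.ext
      have e' : (t' : G) = g * (t : G) * g⁻¹ := e
      rw [e']
      simp [MulAut.conjNormal_apply]
    have hne : T ⊓ T.map (MulAut.conjNormal g : M ≃* M).toMonoidHom ≠ ⊥ := by
      intro hb
      rw [hb, Subgroup.mem_bot] at hmem
      subst hmem
      apply ht1
      have e' : g * (t : G) * g⁻¹ = 1 := e.symm
      have e'' : (t : G) = g⁻¹ * (g * (t : G) * g⁻¹) * g := by group
      show (t : G) = 1
      rw [e'', e']
      group
    have hle := key5 g hne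
    rintro _ ⟨s, hs, rfl⟩
    have h1 : (MulAut.conjNormal g : M ≃* M) s ∈ T := hle ⟨s, hs, rfl⟩
    exact ⟨_, h1, by simp [MulAut.conjNormal_apply]⟩
  · intro g hg
    have hdisj : T ⊓ T.map (MulAut.conjNormal g : M ≃* M).toMonoidHom = ⊥ := by
      by_contra hne
      apply hg
      have hle := key5 g hne
      rintro _ ⟨s, hs, rfl⟩
      have h1 : (MulAut.conjNormal g : M ≃* M) s ∈ T := hle ⟨s, hs, rfl⟩
      exact ⟨_, h1, by simp [MulAut.conjNormal_apply]⟩
    rintro _ ⟨t, ht, rfl⟩ _ ⟨s, hs, rfl⟩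
    have hc := Subgroup.commute_of_normal_of_disjoint T
      (T.map (MulAut.conjNormal g : M ≃* M).toMonoidHom) hTn (hconjT g) (disjoint_iff.2 hdisj)
      s ((MulAut.conjNormal g : M ≃* M) t) hs ⟨t, ht, rfl⟩
    have hc' := congrArg Subtype.val hc.eq
    simp only [Subgroup.coe_mul, MulAut.conjNormal_apply] at hc'
    exact hc'.symm

end Dec

section Main

/-- a transitive subgroup centralized by `m`: if `m` fixes a point then `m = 1`. -/
theorem semireg_of_commute {G : Type*} [Group G] {Ω : Type*} [MulAction G Ω] [FaithfulSMul G Ω]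
    (C : Subgroup G) [IsPretransitive C Ω] (m : G) (hm : ∀ c ∈ C, m * c = c * m) (β : Ω)
    (hβ : m • β = β) : m = 1 := by
  apply FaithfulSMul.eq_of_smul_eq_smul (α := Ω)
  intro ω
  rw [one_smul]
  obtain ⟨c, hc⟩ := exists_smul_eq C β ω
  have hc' : (c : G) • β = ω := hc
  rw [← hc', ← mul_smul, hm c.1 c.2, mul_smul, hβ]

/-- **Extremely primitive groups are affine or almost simple.** -/
theorem ep_affine_or_almost_simple {G : Type*} [Group G] [Finite G] {Ω : Type*} [Finite Ω]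
    [MulAction G Ω] [FaithfulSMul G Ω] (hΩ : 2 ≤ Nat.card Ω) (hprim : IsPreprimitive G Ω)
    (hep : ∀ (α ω : Ω), IsPreprimitive (stabilizer G α) (orbit (stabilizer G α) ω)) :
    (∃ N : Subgroup G, N.Normal ∧ N ≠ ⊥ ∧ IsMulCommutative N ∧ ∀ ω : Ω, stabilizer N ω = ⊥) ∨
    (∃ T : Subgroup G, T.Normal ∧ IsSimpleGroup T ∧ ¬ IsMulCommutative T ∧
      Subgroup.centralizer (T : Set G) = ⊥) := by
  classical
  have hntΩ : Nontrivial Ω := Finite.one_lt_card_iff_nontrivial.1 (by omega)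
  obtain ⟨α⟩ : Nonempty Ω := inferInstance
  have htr : IsPretransitive G Ω := hprim.toIsPretransitive
  have hnt : ∀ M : Subgroup G, M.Normal → M ≠ ⊥ → IsPretransitive M Ω := by
    intro M hMn hMb
    have hq : IsQuasiPreprimitive G Ω := inferInstance
    apply hq.isPretransitive_of_normal
    intro h
    apply hMb
    rw [eq_bot_iff]
    intro m hm
    rw [Subgroup.mem_bot]
    apply FaithfulSMul.eq_of_smul_eq_smul (α := Ω)
    intro ω
    rw [one_smul]
    have hω : ω ∈ fixedPoints M Ω := by rw [h]; trivial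
    exact hω ⟨m, hm⟩
  have hGb : (⊤ : Subgroup G) ≠ ⊥ := by
    intro h
    obtain ⟨β, hβ⟩ := exists_ne α
    obtain ⟨g, hg⟩ := exists_smul_eq G α β
    have hmem : g ∈ (⊤ : Subgroup G) := trivial
    rw [h, Subgroup.mem_bot] at hmem
    subst hmem
    rw [one_smul] at hg
    exact hβ hg.symm
  have hne1 : Nonempty {M : Subgroup G // M.Normal ∧ M ≠ ⊥} := ⟨⟨⊤, inferInstance, hGb⟩⟩
  obtain ⟨⟨M, hMn, hMb⟩, hMmin0⟩ :=
    Finite.exists_min (fun M : {M : Subgroup G // M.Normal ∧ M ≠ ⊥} => Nat.card M.1)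
  have hMmin : ∀ L : Subgroup G, L.Normal → L ≠ ⊥ → L ≤ M → L = M := by
    intro L hLn hLb hLM
    exact Subgroup.eq_of_le_of_card_ge hLM (hMmin0 ⟨L, hLn, hLb⟩)
  have hMt := hnt M hMn hMb
  have hMtr : ∀ ω : Ω, ∃ m ∈ M, m • α = ω := by
    intro ω
    obtain ⟨m, hm⟩ := exists_smul_eq M α ω
    exact ⟨m.1, m.2, hm⟩
  have hcoG : IsCoatom (stabilizer G α) :=
    IsPreprimitive.isCoatom_stabilizer_of_isPreprimitive G α
  have hB3 := ep_stab_coatom hep α
  by_cases hab : ∀ x ∈ M, ∀ y ∈ M, x * y = y * x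
  · left
    refine ⟨M, hMn, hMb, ⟨⟨fun a b => Subtype.ext (hab a.1 a.2 b.1 b.2)⟩⟩, ?_⟩
    intro ω
    rw [eq_bot_iff]
    intro m hm
    rw [Subgroup.mem_bot]
    apply Subtype.ext
    exact semireg_of_commute M m.1 (fun c hc => hab m.1 m.2 c hc) ω (mem_stabilizer_iff.1 hm)
  · right
    by_cases hsimp : IsSimpleGroup M
    · refine ⟨M, hMn, hsimp, ?_, ?_⟩
      · intro hc
        apply hab
        intro x hx y hy
        exact congrArg Subtype.val (hc.is_comm.comm ⟨x, hx⟩ ⟨y, hy⟩)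
      · by_contra hCb
        have hCn : (Subgroup.centralizer (M : Set G)).Normal := Subgroup.normal_centralizer
        have hCt := hnt _ hCn hCb
        have hMreg : ∀ m ∈ M, m • α = α → m = 1 := by
          intro m hm hmα
          exact semireg_of_commute (Subgroup.centralizer (M : Set G)) m
            (fun c hc => ((Subgroup.mem_centralizer_iff.1 hc) m hm)) α hmα
        have hna : ∃ a ∈ M, ∃ b ∈ M, a * b ≠ b * a := by
          by_contra hcon
          apply hab
          intro x hx y hy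
          by_contra hxy
          exact hcon ⟨x, hx, y, hy, hxy⟩
        apply regular_simple_false α M hna hMtr hMreg
        · intro h hh
          left
          intro t ht
          exact hMn.conj_mem t ht h
        · intro t ht
          obtain ⟨c, hc⟩ := exists_smul_eq (Subgroup.centralizer (M : Set G)) α (t⁻¹ • α)
          have hc' : (c : G) • α = t⁻¹ • α := hc
          refine ⟨t * c.1, ?_, ?_⟩
          · rw [mem_stabilizer_iff, mul_smul, hc', smul_inv_smul]
          · intro s hs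
            have hcs : s * (c : G) = (c : G) * s := (Subgroup.mem_centralizer_iff.1 c.2) s hs
            calc t * (c : G) * s * (t * (c : G))⁻¹
                = t * ((c : G) * s) * (c : G)⁻¹ * t⁻¹ := by group
              _ = t * (s * (c : G)) * (c : G)⁻¹ * t⁻¹ := by rw [hcs]
              _ = t * s * t⁻¹ := by group
        · exact hB3
    · exfalso
      obtain ⟨T₁, hT₁s, hna, ht1, ht2, ht3, ht4, ht5, ht6⟩ :=
        min_normal_structure M hMb hMmin hab hsimp
      by_cases hreg : ∀ m ∈ M, m • α = α → m = 1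
      · exact regular_nonsimple_false α hcoG hB3 M hMtr hreg hab hMmin T₁ ht1 ht2 ht3 ht4 ht5 ht6
      · have hnr : ∃ m ∈ M, m ≠ 1 ∧ m • α = α := by
          by_contra hcon
          apply hreg
          intro m hm hmα
          by_contra hm1
          exact hcon ⟨m, hm, hm1, hmα⟩
        exact nonregular_nonsimple_false hprim hep α hcoG M hMtr hnr hMmin T₁ hna ht1 ht2 ht3
          ht4 ht6

end Main

end Cfsg.Agent.H62
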