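import Mathlib
import Cfsg.Agent.H62.ExtPrim
import Cfsg.Agent.H62.EPMain
import Cfsg.Agent.H62.Unbounded
import Cfsg.Agent.H62.IrrEnd
import Cfsg.Agent.S3495

set_option autoImplicit false
set_option linter.unusedSectionVars false
set_option linter.style.haveILetI false

namespace Cfsg.Agent.H62

open MulAction

section Reg

variable {G : Type*} [Group G] {Ω : Type*} [MulAction G Ω]

/-- a nontrivial normal subgroup of a faithful primitive group is transitive. -/
theorem normal_pretransitive [FaithfulSMul G Ω] (hprim : IsPreprimitive G Ω) (M : Subgroup G)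
    (hMn : M.Normal) (hMb : M ≠ ⊥) : IsPretransitive M Ω := by
  have hq : IsQuasiPreprimitive G Ω := inferInstance
  apply hq.isPretransitive_of_normal
  intro h
  apply hMb
  rw [eq_bot_iff]
  intro m hm
  rw [Subgroup.mem_bot]
  apply FaithfulSMul.eq_of_smul_eq_smul (α := Ω)
  intro ω
  rw [one_smul]
  have hω : ω ∈ fixedPoints M Ω := by rw [h]; trivial
  exact hω ⟨m, hm⟩

/-- a regular subgroup has as many elements as there are points. -/
theorem card_of_regular (N : Subgroup G) (hNt : IsPretransitive N Ω)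
    (hreg : ∀ n ∈ N, ∀ ω : Ω, n • ω = ω → n = 1) (α : Ω) : Nat.card N = Nat.card Ω := by
  apply Nat.card_congr
  refine Equiv.ofBijective (fun n : N => (n : G) • α) ⟨?_, ?_⟩
  · intro a b h
    have h' : (a : G) • α = (b : G) • α := h
    have h2 : ((b : G)⁻¹ * a) • α = α := by rw [mul_smul, h', inv_smul_smul]
    have h1 := hreg _ (N.mul_mem (N.inv_mem b.2) a.2) α h2
    rw [inv_mul_eq_one] at h1
    exact Subtype.ext h1.symm
  · intro ω
    obtain ⟨n, hn⟩ := exists_smul_eq N α ω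
    exact ⟨n, hn⟩

/-- a solvable primitive group of degree `p ^ d` has a regular normal elementary abelian
`p`-subgroup. -/
theorem solv_prim_regular_normal [Finite G] [Fintype Ω] [FaithfulSMul G Ω] [Group.IsSolvable G]
    (p d : ℕ) (hp : p.Prime) (hcard : Fintype.card Ω = p ^ d) (hΩ : Nontrivial Ω)
    (hprim : IsPreprimitive G Ω) :
    ∃ N : Subgroup G, N.Normal ∧ (∀ x ∈ N, ∀ y ∈ N, x * y = y * x) ∧ (∀ n ∈ N, n ^ p = 1) ∧
      IsPretransitive N Ω ∧ (∀ n ∈ N, ∀ ω : Ω, n • ω = ω → n = 1) ∧ Nat.card N = p ^ d := by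
  classical
  have htr : IsPretransitive G Ω := hprim.toIsPretransitive
  obtain ⟨α⟩ : Nonempty Ω := inferInstance
  have hGb : (⊤ : Subgroup G) ≠ ⊥ := by
    intro h
    obtain ⟨β, hβ⟩ := exists_ne α
    obtain ⟨g, hg⟩ := exists_smul_eq G α β
    have hmem : g ∈ (⊤ : Subgroup G) := trivial
    rw [h, Subgroup.mem_bot] at hmem
    subst hmem
    rw [one_smul] at hg
    exact hβ hg.symm
  have hsolv : Group.IsSolvable (⊤ : Subgroup G) :=
    Group.isSolvable_of_isSolvable_injective (f := (⊤ : Subgroup G).subtype)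
      (Subgroup.subtype_injective _)
  obtain ⟨A, hAn, hAb, -, hAc⟩ := exists_normal_abelian (⊤ : Subgroup G) hGb hsolv
  have hAt := normal_pretransitive hprim A hAn hAb
  have hAreg : ∀ a ∈ A, ∀ ω : Ω, a • ω = ω → a = 1 := by
    intro a ha ω hω
    exact semireg_of_commute A a (fun c hc => hAc a ha c hc) ω hω
  have hΩc : Nat.card Ω = p ^ d := by rw [Nat.card_eq_fintype_card, hcard]
  have hAcard : Nat.card A = p ^ d := by rw [card_of_regular A hAt hAreg α, hΩc]
  have hd : d ≠ 0 := by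
    intro h0
    rw [h0, pow_zero] at hΩc
    have h2 : 1 < Nat.card Ω := Finite.one_lt_card
    omega
  have hpd : p ∣ Nat.card A := by rw [hAcard]; exact dvd_pow_self p hd
  have := Fact.mk hp
  obtain ⟨a, ha⟩ := exists_prime_orderOf_dvd_card' p hpd
  let V : Subgroup G :=
    { carrier := {x | x ∈ A ∧ x ^ p = 1}
      mul_mem' := by
        rintro x y ⟨hx, hx'⟩ ⟨hy, hy'⟩
        refine ⟨A.mul_mem hx hy, ?_⟩
        have hc : Commute x y := hAc x hx y hy
        rw [hc.mul_pow, hx', hy', one_mul]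
      one_mem' := ⟨A.one_mem, one_pow _⟩
      inv_mem' := by
        rintro x ⟨hx, hx'⟩
        exact ⟨A.inv_mem hx, by rw [inv_pow, hx', inv_one]⟩ }
  have hVn : V.Normal := by
    constructor
    rintro x ⟨hx, hx'⟩ g
    refine ⟨hAn.conj_mem x hx g, ?_⟩
    rw [conj_pow, hx', mul_one, mul_inv_cancel]
  have hVb : V ≠ ⊥ := by
    intro hV
    have hmem : (a : G) ∈ V := by
      refine ⟨a.2, ?_⟩
      have h1 : a ^ p = 1 := by rw [← ha]; exact pow_orderOf_eq_one a
      have h2 := congrArg Subtype.val h1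
      simpa using h2
    rw [hV, Subgroup.mem_bot] at hmem
    have ha1 : a = 1 := Subtype.ext hmem
    rw [ha1, orderOf_one] at ha
    exact hp.one_lt.ne ha
  have hVt := normal_pretransitive hprim V hVn hVb
  have hVreg : ∀ n ∈ V, ∀ ω : Ω, n • ω = ω → n = 1 := fun n hn ω hω => hAreg n hn.1 ω hω
  refine ⟨V, hVn, fun x hx y hy => hAc x hx.1 y hy.1, fun n hn => hn.2, hVt, hVreg, ?_⟩
  rw [card_of_regular V hVt hVreg α, hΩc]

end Reg

section Cj

open scoped IsMulCommutative

variable {G : Type*} [Group G] (N : Subgroup G) [hNn : N.Normal] [hNc : IsMulCommutative N]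

/-- conjugation on the abelian normal subgroup `N`, as endomorphisms of `Additive N`. -/
def cjEnd : G →* AddMonoid.End (Additive N) where
  toFun g := MonoidHom.toAdditive (MulAut.conjNormal g : N ≃* N).toMonoidHom
  map_one' := by
    apply AddMonoidHom.ext
    intro x
    obtain ⟨y, rfl⟩ : ∃ y : N, Additive.ofMul y = x := ⟨Additive.toMul x, rfl⟩
    show Additive.ofMul ((MulAut.conjNormal (1 : G) : N ≃* N) y) = Additive.ofMul y
    rw [map_one]
    rfl
  map_mul' a b := by
    apply AddMonoidHom.ext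
    intro x
    obtain ⟨y, rfl⟩ : ∃ y : N, Additive.ofMul y = x := ⟨Additive.toMul x, rfl⟩
    show Additive.ofMul ((MulAut.conjNormal (a * b) : N ≃* N) y)
      = Additive.ofMul ((MulAut.conjNormal a : N ≃* N) ((MulAut.conjNormal b : N ≃* N) y))
    rw [map_mul]
    rfl

theorem cjEnd_apply (g : G) (x : N) :
    cjEnd N g (Additive.ofMul x) = Additive.ofMul (MulAut.conjNormal g x) := rfl

theorem cjEnd_eq_iff (g g' : G) :
    cjEnd N g = cjEnd N g' ↔ ∀ n ∈ N, g * n * g⁻¹ = g' * n * g'⁻¹ := by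
  constructor
  · intro h n hn
    have e := DFunLike.congr_fun h (Additive.ofMul (⟨n, hn⟩ : N))
    rw [cjEnd_apply, cjEnd_apply] at e
    have e2 : (MulAut.conjNormal g (⟨n, hn⟩ : N) : N) = MulAut.conjNormal g' (⟨n, hn⟩ : N) := e
    have e3 := congrArg Subtype.val e2
    rw [MulAut.conjNormal_apply, MulAut.conjNormal_apply] at e3
    exact e3
  · intro h
    refine DFunLike.ext _ _ (fun x => ?_)
    obtain ⟨y, rfl⟩ : ∃ y : N, Additive.ofMul y = x := ⟨Additive.toMul x, rfl⟩
    rw [cjEnd_apply, cjEnd_apply]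
    congr 1
    apply Subtype.ext
    rw [MulAut.conjNormal_apply, MulAut.conjNormal_apply]
    exact h y.1 y.2

/-- the set of endomorphisms induced by a subgroup. -/
def cjSet (M : Subgroup G) : Set (AddMonoid.End (Additive N)) := (cjEnd N) '' (M : Set G)

theorem cjSet_comm (M : Subgroup G) (hM : ∀ x ∈ M, ∀ y ∈ M, x * y = y * x) :
    ∀ a ∈ cjSet N M, ∀ b ∈ cjSet N M, a * b = b * a := by
  rintro _ ⟨x, hx, rfl⟩ _ ⟨y, hy, rfl⟩
  rw [← map_mul, ← map_mul, hM x hx y hy]

theorem le_normalizer_of_conj_mem'' {G : Type*} [Group G] (H R : Subgroup G)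
    (h : ∀ a ∈ H, ∀ x ∈ R, a * x * a⁻¹ ∈ R) : H ≤ Subgroup.normalizer (R : Set G) := by
  intro a ha
  rw [Subgroup.mem_normalizer_iff]
  intro x
  constructor
  · exact h a ha x
  · intro hx
    have e := h a⁻¹ (inv_mem ha) _ hx
    simpa [mul_assoc] using e

theorem cjSet_irr (M : Subgroup G)
    (hirr : ∀ L : Subgroup G, L ≤ N → M ≤ Subgroup.normalizer (L : Set G) → L = ⊥ ∨ L = N) :
    IrrSet (cjSet N M) := by
  intro W hW
  let L : Subgroup G :=
    { carrier := {g | ∃ h : g ∈ N, Additive.ofMul (⟨g, h⟩ : N) ∈ W}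
      one_mem' := ⟨N.one_mem, W.zero_mem⟩
      mul_mem' := by
        rintro a b ⟨ha, ha'⟩ ⟨hb, hb'⟩
        exact ⟨N.mul_mem ha hb, W.add_mem ha' hb'⟩
      inv_mem' := by
        rintro a ⟨ha, ha'⟩
        exact ⟨N.inv_mem ha, W.neg_mem ha'⟩ }
  have hLN : L ≤ N := fun g hg => hg.1
  have hML : M ≤ Subgroup.normalizer (L : Set G) := by
    apply le_normalizer_of_conj_mem''
    rintro m hm g ⟨hg, hg'⟩
    refine ⟨hNn.conj_mem g hg m, ?_⟩
    exact hW (cjEnd N m) ⟨m, hm, rfl⟩ _ hg'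
  rcases hirr L hLN hML with h | h
  · left
    rw [eq_bot_iff]
    intro w hw
    obtain ⟨y, rfl⟩ : ∃ y : N, Additive.ofMul y = w := ⟨Additive.toMul w, rfl⟩
    have hyL : (y : G) ∈ L := ⟨y.2, hw⟩
    rw [h, Subgroup.mem_bot] at hyL
    rw [AddSubgroup.mem_bot]
    have hy : y = 1 := Subtype.ext hyL
    rw [hy]
    rfl
  · right
    rw [eq_top_iff]
    intro w _
    obtain ⟨y, rfl⟩ : ∃ y : N, Additive.ofMul y = w := ⟨Additive.toMul w, rfl⟩
    have hyL : (y : G) ∈ L := by rw [h]; exact y.2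
    obtain ⟨_, h2⟩ := hyL
    exact h2

theorem additive_exp (p : ℕ) (hNp : ∀ n ∈ N, n ^ p = 1) (a : Additive N) : p • a = 0 := by
  have h1 : (Additive.toMul a) ^ p = 1 := Subtype.ext (hNp _ (Additive.toMul a).2)
  exact congrArg Additive.ofMul h1

end Cj

section Main

open scoped IsMulCommutative

variable {G : Type*} [Group G] [Finite G] {Ω : Type*} [Fintype Ω] [MulAction G Ω]
  [FaithfulSMul G Ω]

theorem card_orbit_of_free (M : Subgroup G) (ω : Ω) (hfree : ∀ m ∈ M, m • ω = ω → m = 1) :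
    Nat.card (orbit M ω) = Nat.card M := by
  symm
  apply Nat.card_congr
  refine Equiv.ofBijective (fun m : M => (⟨(m : G) • ω, ⟨m, rfl⟩⟩ : orbit M ω)) ⟨?_, ?_⟩
  · intro a b h
    have h' : (a : G) • ω = (b : G) • ω := congrArg Subtype.val h
    have h2 : ((b : G)⁻¹ * a) • ω = ω := by rw [mul_smul, h', inv_smul_smul]
    have h1 := hfree _ (M.mul_mem (M.inv_mem b.2) a.2) h2
    rw [inv_mul_eq_one] at h1
    exact Subtype.ext h1.symm
  · rintro ⟨_, m, rfl⟩
    exact ⟨m, rfl⟩

theorem ep_solvable_main [Group.IsSolvable G] (p d : ℕ) (hp : p.Prime)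
    (hcard : Fintype.card Ω = p ^ d)
    (hprim : IsPreprimitive G Ω) (hH : ∀ α : Ω, stabilizer G α ≠ ⊥)
    (hep : ∀ (α ω : Ω), IsPreprimitive (stabilizer G α) (orbit (stabilizer G α) ω)) (α : Ω) :
    ∃ q : ℕ, q.Prime ∧ (∀ ω : Ω, ω ≠ α → Nat.card (orbit (stabilizer G α) ω) = q) ∧
      q ∣ p ^ d - 1 ∧ (∀ i : ℕ, 0 < i → i < d → ¬ q ∣ p ^ i - 1) ∧
      ∃ T : Subgroup G, T ≤ stabilizer G α ∧
        stabilizer G α ≤ Subgroup.normalizer (T : Set G) ∧ Nat.card T = q ∧
        (∃ h : G, stabilizer G α = T ⊔ Subgroup.zpowers h) ∧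
        Nat.card (stabilizer G α) ∣ q * d := by
  classical
  obtain ⟨ω₀, hω₀⟩ := exists_ne_of_stabilizer_ne_bot α (hH α)
  have hΩ : Nontrivial Ω := ⟨⟨ω₀, α, hω₀⟩⟩
  obtain ⟨N, hNn, hNab, hNp, hNtr, hNreg, hNcard⟩ :=
    solv_prim_regular_normal p d hp hcard hΩ hprim
  haveI := hNn
  haveI hNc : IsMulCommutative N := ⟨⟨fun a b => Subtype.ext (hNab a.1 a.2 b.1 b.2)⟩⟩
  have hNreg' : ∀ ω : Ω, stabilizer N ω = ⊥ := by
    intro ω
    rw [eq_bot_iff]
    intro n hn
    rw [Subgroup.mem_bot]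
    exact Subtype.ext (hNreg n.1 n.2 ω (mem_stabilizer_iff.1 hn))
  -- the abelian normal subgroup of the stabilizer
  have hHb : (⊤ : Subgroup (stabilizer G α)) ≠ ⊥ := by
    intro h
    apply hH α
    rw [eq_bot_iff]
    intro x hx
    have hmem : (⟨x, hx⟩ : stabilizer G α) ∈ (⊤ : Subgroup (stabilizer G α)) := trivial
    rw [h, Subgroup.mem_bot] at hmem
    rw [Subgroup.mem_bot]
    exact congrArg Subtype.val hmem
  have hsolv : Group.IsSolvable (⊤ : Subgroup (stabilizer G α)) :=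
    Group.isSolvable_of_isSolvable_injective (f := (⊤ : Subgroup (stabilizer G α)).subtype)
      (Subgroup.subtype_injective _)
  obtain ⟨B, hBn, hBb, -, hBc⟩ :=
    exists_normal_abelian (⊤ : Subgroup (stabilizer G α)) hHb hsolv
  haveI := hBn
  have hBnil : Group.IsNilpotent B := by
    letI : CommGroup B :=
      { (inferInstance : Group B) with
        mul_comm := fun a b => Subtype.ext (hBc a.1 a.2 b.1 b.2) }
    exact CommGroup.isNilpotent
  obtain ⟨q, hq, hBq⟩ := ep_nilp_exponent hprim hep α ω₀ hω₀ B hBb hBnil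
  let M : Subgroup G := B.map (stabilizer G α).subtype
  have hMle : M ≤ stabilizer G α := by
    rintro _ ⟨b, _, rfl⟩
    exact b.2
  have hMn : stabilizer G α ≤ Subgroup.normalizer (M : Set G) := by
    apply le_normalizer_of_conj_mem''
    rintro h hh _ ⟨b, hb, rfl⟩
    exact ⟨⟨h, hh⟩ * b * ⟨h, hh⟩⁻¹, hBn.conj_mem b hb ⟨h, hh⟩, rfl⟩
  have hMb : M ≠ ⊥ := by
    intro h
    apply hBb
    exact (Subgroup.map_eq_bot_iff_of_injective B (stabilizer G α).subtype_injective).1 h
  have hMab : ∀ x ∈ M, ∀ y ∈ M, x * y = y * x := by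
    rintro _ ⟨a, ha, rfl⟩ _ ⟨b, hb, rfl⟩
    exact congrArg Subtype.val (hBc a ha b hb)
  have hMfree : ∀ ω : Ω, ω ≠ α → ∀ m ∈ M, m • ω = ω → m = 1 := by
    intro ω hω m hm hfix
    obtain ⟨b, hb, rfl⟩ := hm
    have h1 := (ep_nilp_structure hprim hep α ω hω B hBb hBnil).1 b hb hfix
    rw [h1]
    rfl
  have hMq : ∀ m ∈ M, m ^ q = 1 := by
    rintro _ ⟨b, hb, rfl⟩
    have h1 := hBq b hb
    exact congrArg Subtype.val h1
  obtain ⟨horb, hirr⟩ :=
    Cfsg.Agent.S3495.result hprim hH hep N hNc p hp hNp hNtr hNreg' α M hMb hMle hMn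
  have hScomm := cjSet_comm N M hMab
  have hSirr := cjSet_irr N M hirr
  have hAc : Nat.card (Additive N) = p ^ d := by
    rw [← hNcard]
    exact Nat.card_congr Additive.toMul
  haveI hfinA : Finite (Additive N) := Finite.of_equiv N Additive.ofMul
  haveI hntA : Nontrivial (Additive N) := by
    apply Finite.one_lt_card_iff_nontrivial.1
    rw [hAc]
    have hd : d ≠ 0 := by
      intro h0
      rw [h0, pow_zero] at hcard
      have h2 : 1 < Fintype.card Ω := Fintype.one_lt_card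
      omega
    exact Nat.one_lt_pow hd hp.one_lt
  have hA := additive_exp N p hNp
  have hinj : ∀ x ∈ stabilizer G α, ∀ y ∈ stabilizer G α, cjEnd N x = cjEnd N y → x = y := by
    intro x hx y hy h
    rw [cjEnd_eq_iff] at h
    have h1 : y⁻¹ * x = 1 := by
      apply semireg_of_commute N (y⁻¹ * x) _ α _
      · intro c hc
        have e := h c hc
        calc y⁻¹ * x * c = y⁻¹ * (x * c * x⁻¹) * x := by group
          _ = y⁻¹ * (y * c * y⁻¹) * x := by rw [e]
          _ = c * (y⁻¹ * x) := by group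
      · rw [mul_smul, mem_stabilizer_iff.1 hx, inv_smul_eq_iff, mem_stabilizer_iff.1 hy]
    exact (inv_mul_eq_one.1 h1).symm
  have hBcyc : IsCyclic B := by
    let f : B →* AddMonoid.End (Additive N) :=
      (cjEnd N).comp ((stabilizer G α).subtype.comp B.subtype)
    apply irr_cyclic (cjSet N M) hScomm hSirr f
    · intro a b h
      have e := hinj _ a.1.2 _ b.1.2 h
      exact Subtype.ext (Subtype.ext e)
    · intro b
      exact ⟨_, ⟨b.1, b.2, rfl⟩, rfl⟩
  obtain ⟨g, hg⟩ := hBcyc.exists_generator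
  have hgq : g ^ q = 1 := Subtype.ext (hBq g.1 g.2)
  have hg1 : g ≠ 1 := by
    intro h
    apply hBb
    rw [eq_bot_iff]
    intro x hx
    have hmem := hg ⟨x, hx⟩
    rw [h, Subgroup.zpowers_one_eq_bot, Subgroup.mem_bot] at hmem
    rw [Subgroup.mem_bot]
    exact congrArg Subtype.val hmem
  haveI : Fact q.Prime := ⟨hq⟩
  have hgord : orderOf g = q := orderOf_eq_prime hgq hg1
  have hBcard : Nat.card B = q := by
    rw [← hgord]
    exact (orderOf_eq_card_of_forall_mem_zpowers hg).symm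
  have hMcard : Nat.card M = q := by
    rw [← hBcard]
    exact Nat.card_congr (B.equivMapOfInjective _ (stabilizer G α).subtype_injective).symm.toEquiv
  have hqd : q ∣ p ^ d - 1 := by
    have h1 := card_dvd_of_free_off_point (N := M) α
      (fun n => mem_stabilizer_iff.1 (hMle n.2))
      (fun n ω hω hfix => Subtype.ext (hMfree ω hω n.1 n.2 hfix))
    rw [hMcard, Nat.card_eq_fintype_card, hcard] at h1
    exact h1
  -- the structure of the stabilizer
  have hker : (MulAut.conjNormal : stabilizer G α →* MulAut B).ker = B := by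
    ext c
    rw [MonoidHom.mem_ker]
    constructor
    · intro hc
      have hcomm : ∀ k ∈ B, c * k = k * c := by
        intro k hk
        have e := DFunLike.congr_fun hc ⟨k, hk⟩
        have e2 := congrArg Subtype.val e
        rw [MulAut.conjNormal_apply] at e2
        have e3 : c * k * c⁻¹ = k := e2
        calc c * k = c * k * c⁻¹ * c := by group
          _ = k * c := by rw [e3]
      obtain ⟨k, hk, hkc⟩ := ep_normal_trans hprim hep α ω₀ hω₀ B hBb c
      have h1 : k⁻¹ * c = 1 := by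
        apply ep_cent_fix hprim hep α ω₀ hω₀ B hBb (k⁻¹ * c)
        · intro b hb
          have e1 := hcomm b hb
          have e2 : k⁻¹ * b = b * k⁻¹ := hBc _ (inv_mem hk) _ hb
          rw [mul_assoc, e1, ← mul_assoc, e2, mul_assoc]
        · show ((k : G)⁻¹ * (c : G)) • ω₀ = ω₀
          rw [mul_smul, ← hkc, inv_smul_smul]
      rw [inv_mul_eq_one] at h1
      rw [← h1]
      exact hk
    · intro hc
      apply MulEquiv.ext
      intro b
      apply Subtype.ext
      rw [MulAut.conjNormal_apply]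
      show c * (b : stabilizer G α) * c⁻¹ = b
      rw [hBc c hc b.1 b.2]
      group
  have hAutCyc : IsCyclic (MulAut B) := by
    haveI : Fact (Nat.card B).Prime := ⟨hBcard.symm ▸ hq⟩
    exact (MulEquiv.isCyclic (IsCyclic.mulAutMulEquiv B)).2 inferInstance
  haveI hQc : IsCyclic (stabilizer G α ⧸ (MulAut.conjNormal : stabilizer G α →* MulAut B).ker) :=
    (MulEquiv.isCyclic (QuotientGroup.quotientKerEquivRange
      (MulAut.conjNormal : stabilizer G α →* MulAut B))).2 inferInstance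
  obtain ⟨hbar, hgen⟩ := hQc.exists_generator
  obtain ⟨h₀, rfl⟩ := QuotientGroup.mk_surjective hbar
  have hcoset : ∀ x : stabilizer G α, ∃ k : ℤ, x * h₀ ^ k ∈ B := by
    intro x
    obtain ⟨k, hk⟩ := Subgroup.mem_zpowers_iff.1 (hgen (QuotientGroup.mk x))
    refine ⟨-k, ?_⟩
    rw [← hker, ← QuotientGroup.eq_one_iff, QuotientGroup.mk_mul, QuotientGroup.mk_zpow, ← hk,
      zpow_neg, mul_inv_cancel]
  -- conjugation by `h₀` is a power of the Frobenius
  have htM : ((g : stabilizer G α) : G) ∈ M := ⟨g.1, g.2, rfl⟩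
  have hconj : ∃ n : ℕ, (h₀ : G) * ((g : stabilizer G α) : G) * (h₀ : G)⁻¹
      = ((g : stabilizer G α) : G) ^ (p ^ n) := by
    have hu : ∀ s ∈ cjSet N M,
        (((cjEnd N).toHomUnits (h₀ : G) : (AddMonoid.End (Additive N))ˣ) : AddMonoid.End (Additive N))
          * s * ((((cjEnd N).toHomUnits (h₀ : G))⁻¹ : (AddMonoid.End (Additive N))ˣ) :
            AddMonoid.End (Additive N)) ∈ cjSet N M := by
      rintro _ ⟨m, hm, rfl⟩
      rw [← map_inv, MonoidHom.coe_toHomUnits, MonoidHom.coe_toHomUnits, ← map_mul, ← map_mul]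
      refine ⟨_, ?_, rfl⟩
      have hn := hMn h₀.2
      rw [Subgroup.mem_normalizer_iff] at hn
      exact (hn m).1 hm
    obtain ⟨n, hn⟩ := irr_conj_frob (cjSet N M) hScomm hSirr p hp hA
      ((cjEnd N).toHomUnits (h₀ : G)) hu (cjEnd N ((g : stabilizer G α) : G)) ⟨_, htM, rfl⟩
    refine ⟨n, ?_⟩
    rw [← map_inv, MonoidHom.coe_toHomUnits, MonoidHom.coe_toHomUnits, ← map_mul, ← map_mul,
      ← map_pow] at hn
    apply hinj _ _ _ _ hn
    · exact mul_mem (mul_mem h₀.2 g.1.2) (inv_mem h₀.2)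
    · exact pow_mem g.1.2 _
  obtain ⟨n, hn⟩ := hconj
  have hiter : ∀ k : ℕ, (h₀ : G) ^ k * ((g : stabilizer G α) : G) * ((h₀ : G) ^ k)⁻¹
      = ((g : stabilizer G α) : G) ^ ((p ^ n) ^ k) := by
    intro k
    induction k with
    | zero => simp
    | succ k ih =>
      calc (h₀ : G) ^ (k + 1) * ((g : stabilizer G α) : G) * ((h₀ : G) ^ (k + 1))⁻¹
          = (h₀ : G) * ((h₀ : G) ^ k * ((g : stabilizer G α) : G) * ((h₀ : G) ^ k)⁻¹)
            * (h₀ : G)⁻¹ := by
            rw [pow_succ']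
            group
        _ = (h₀ : G) * ((g : stabilizer G α) : G) ^ ((p ^ n) ^ k) * (h₀ : G)⁻¹ := by rw [ih]
        _ = ((h₀ : G) * ((g : stabilizer G α) : G) * (h₀ : G)⁻¹) ^ ((p ^ n) ^ k) := conj_pow.symm
        _ = ((g : stabilizer G α) : G) ^ ((p ^ n) ^ (k + 1)) := by
            rw [hn, ← pow_mul, ← pow_succ']
  have hd_comm : (h₀ : G) ^ d * ((g : stabilizer G α) : G) * ((h₀ : G) ^ d)⁻¹
      = ((g : stabilizer G α) : G) := by
    rw [hiter d]
    have h1 : q ∣ (p ^ d) ^ n - 1 := by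
      have h2 := Nat.sub_dvd_pow_sub_pow (p ^ d) 1 n
      rw [one_pow] at h2
      exact hqd.trans h2
    obtain ⟨c, hc⟩ := h1
    have h3 : (p ^ n) ^ d = q * c + 1 := by
      have h4 : 1 ≤ (p ^ d) ^ n := Nat.one_le_pow _ _ (Nat.pow_pos hp.pos)
      rw [← pow_mul, mul_comm n d, pow_mul]
      omega
    rw [h3, pow_succ, pow_mul, hMq _ htM, one_pow, one_mul]
  have hpow_ker : h₀ ^ d ∈ (MulAut.conjNormal : stabilizer G α →* MulAut B).ker := by
    rw [MonoidHom.mem_ker]
    apply MulEquiv.ext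
    intro b
    apply Subtype.ext
    rw [MulAut.conjNormal_apply]
    show h₀ ^ d * (b : stabilizer G α) * (h₀ ^ d)⁻¹ = b
    obtain ⟨k, hk⟩ := Subgroup.mem_zpowers_iff.1 (hg b)
    have e1 : h₀ ^ d * (g : stabilizer G α) * (h₀ ^ d)⁻¹ = g := Subtype.ext hd_comm
    rw [← hk]
    show h₀ ^ d * (g : stabilizer G α) ^ k * (h₀ ^ d)⁻¹ = (g : stabilizer G α) ^ k
    rw [← conj_zpow, e1]
  have hcardH : Nat.card (stabilizer G α) ∣ q * d := by
    rw [Subgroup.card_eq_card_quotient_mul_card_subgroup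
      (MulAut.conjNormal : stabilizer G α →* MulAut B).ker]
    have e1 : Nat.card (MulAut.conjNormal : stabilizer G α →* MulAut B).ker = q := by
      rw [hker, hBcard]
    have e2 : Nat.card (stabilizer G α ⧸ (MulAut.conjNormal : stabilizer G α →* MulAut B).ker)
        = orderOf (QuotientGroup.mk h₀ :
            stabilizer G α ⧸ (MulAut.conjNormal : stabilizer G α →* MulAut B).ker) :=
      (orderOf_eq_card_of_forall_mem_zpowers hgen).symm
    have e3 : orderOf (QuotientGroup.mk h₀ :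
        stabilizer G α ⧸ (MulAut.conjNormal : stabilizer G α →* MulAut B).ker) ∣ d := by
      apply orderOf_dvd_of_pow_eq_one
      rw [← QuotientGroup.mk_pow, QuotientGroup.eq_one_iff]
      exact hpow_ker
    rw [e1, e2, mul_comm]
    exact Nat.mul_dvd_mul_left q e3
  refine ⟨q, hq, ?_, hqd, ?_, M, hMle, hMn, hMcard, ?_, hcardH⟩
  · intro ω hω
    rw [← horb ω, card_orbit_of_free M ω (hMfree ω hω), hMcard]
  · intro i hi hid hqi
    have hpow : ∀ s ∈ cjSet N M, s ^ (p ^ i) = s := by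
      rintro _ ⟨m, hm, rfl⟩
      rw [← map_pow]
      congr 1
      obtain ⟨c, hc⟩ := hqi
      have h1 : p ^ i = q * c + 1 := by
        have h2 := Nat.one_le_pow i p hp.pos
        omega
      rw [h1, pow_succ, pow_mul, hMq m hm, one_pow, one_mul]
    have hle := irr_card_le_of_pow (cjSet N M) hScomm hSirr p hp hA i hi hpow
    rw [hAc] at hle
    have h3 := (Nat.pow_le_pow_iff_right hp.one_lt).1 hle
    omega
  · refine ⟨(h₀ : G), le_antisymm ?_ ?_⟩
    · intro x hx
      obtain ⟨k, hk⟩ := hcoset ⟨x, hx⟩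
      have e : x = (x * (h₀ : G) ^ k) * ((h₀ : G) ^ k)⁻¹ := by group
      rw [e]
      apply Subgroup.mul_mem_sup
      · exact ⟨_, hk, by simp⟩
      · exact inv_mem (Subgroup.zpow_mem_zpowers _ k)
    · exact sup_le hMle ((Subgroup.zpowers_le).2 h₀.2)

end Main

end Cfsg.Agent.H62
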