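import Cfsg.Agent.H62.SdSpec
import Cfsg.Agent.H62.PSL2Spec

set_option autoImplicit false
set_option linter.unusedSectionVars false
set_option linter.style.haveILetI false

namespace Cfsg.Agent.H62

open SemidirectProduct

/-- multiplication action of the units of a field on its additive group, as multiplicative
automorphisms. -/
def unitsMulAut (E : Type*) [Field E] : Eˣ →* MulAut (Multiplicative E) where
  toFun u :=
    { toFun := fun x => Multiplicative.ofAdd ((u : E) * Multiplicative.toAdd x)
      invFun := fun x => Multiplicative.ofAdd (((u⁻¹ : Eˣ) : E) * Multiplicative.toAdd x)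
      left_inv := fun x => by simp
      right_inv := fun x => by simp
      map_mul' := fun x y => by
        change Multiplicative.ofAdd ((u : E) * (Multiplicative.toAdd x + Multiplicative.toAdd y)) =
          Multiplicative.ofAdd ((u : E) * Multiplicative.toAdd x + (u : E) * Multiplicative.toAdd y)
        rw [mul_add] }
  map_one' := by
    apply MulEquiv.ext
    intro x
    change Multiplicative.ofAdd (((1 : Eˣ) : E) * Multiplicative.toAdd x) = x
    simp
  map_mul' := fun u v => by
    apply MulEquiv.ext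
    intro x
    change Multiplicative.ofAdd (((u * v : Eˣ) : E) * Multiplicative.toAdd x) =
      Multiplicative.ofAdd ((u : E) * ((v : E) * Multiplicative.toAdd x))
    rw [Units.val_mul, mul_assoc]

theorem unitsMulAut_apply (E : Type*) [Field E] (u : Eˣ) (x : Multiplicative E) :
    unitsMulAut E u x = Multiplicative.ofAdd ((u : E) * Multiplicative.toAdd x) := rfl

/-- For a finite field `E` of characteristic `p` and `m ∣ |E| - 1`, there is a finite solvable
group (the Frobenius group `E ⋊ C_m`) whose element orders are the divisors of `p` and of `m`. -/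
theorem frob_field_spectrum (E : Type) [Field E] [Finite E] (p : ℕ) [Fact p.Prime] [CharP E p]
    (m : ℕ) (hm : m ∣ Nat.card E - 1) :
    ∃ (H : Type) (_ : Group H) (_ : Finite H), Group.IsSolvable H ∧
      Set.range (orderOf : H → ℕ) = {n | n ∣ p ∨ n ∣ m} := by
  have hp := (Fact.out : p.Prime)
  haveI : Fintype E := Fintype.ofFinite E
  obtain ⟨θ, hθ⟩ := IsCyclic.exists_generator (α := Eˣ)
  have hcard : Nat.card Eˣ = Nat.card E - 1 := Nat.card_units E
  have hθo : orderOf θ = Nat.card E - 1 := by
    rw [orderOf_eq_card_of_forall_mem_zpowers hθ, hcard]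
  have hpos : 0 < Nat.card E - 1 := by
    have := Finite.one_lt_card (α := E)
    omega
  have hm0 : 0 < m := Nat.pos_of_dvd_of_pos hm hpos
  obtain ⟨g, hgo⟩ : ∃ g : Eˣ, orderOf g = m :=
    exists_orderOf_of_dvd θ m (hθo ▸ hm) (hθo ▸ hpos)
  let U : Subgroup Eˣ := Subgroup.zpowers g
  let φ : U →* MulAut (Multiplicative E) := (unitsMulAut E).comp U.subtype
  have hfin : Finite (Multiplicative E ⋊[φ] U) :=
    Finite.of_equiv _ SemidirectProduct.equivProd.symm
  refine ⟨Multiplicative E ⋊[φ] U, inferInstance, hfin, ?_, ?_⟩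
  · have h1 : Group.IsSolvable (Multiplicative E) :=
      Group.isSolvable_of_comm (fun a b => mul_comm a b)
    have h2 : Group.IsSolvable U :=
      Group.isSolvable_of_comm (fun a b => mul_comm a b)
    exact Group.isSolvable_of_ker_le_range
      (inl : Multiplicative E →* Multiplicative E ⋊[φ] U)
      rightHom (le_of_eq range_inl_eq_ker_rightHom.symm)
  · have hexp : ∀ n : Multiplicative E, n ^ p = 1 := by
      intro n
      change Multiplicative.ofAdd (p • Multiplicative.toAdd n) = Multiplicative.ofAdd 0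
      rw [nsmul_eq_mul, CharP.cast_eq_zero, zero_mul]
    have hN : ∃ n : Multiplicative E, n ≠ 1 :=
      ⟨Multiplicative.ofAdd 1, fun h => one_ne_zero (α := E) (Multiplicative.ofAdd.injective h)⟩
    have hfpf : ∀ h : U, h ≠ 1 → ∀ n : Multiplicative E, φ h n = n → n = 1 := by
      intro h hh n hn
      have e : ((h : Eˣ) : E) * Multiplicative.toAdd n = Multiplicative.toAdd n :=
        Multiplicative.ofAdd.injective hn
      have e2 : (((h : Eˣ) : E) - 1) * Multiplicative.toAdd n = 0 := by
        rw [sub_mul, e, one_mul, sub_self]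
      rcases mul_eq_zero.1 e2 with e3 | e3
      · exfalso
        apply hh
        apply Subtype.ext
        apply Units.ext
        rw [sub_eq_zero] at e3
        exact e3
      · exact Multiplicative.toAdd.injective e3
    rw [frobenius_spectrum φ p hp hexp hN hfpf]
    have hUo : orderOf (⟨g, Subgroup.mem_zpowers g⟩ : U) = m := by
      rw [← Subgroup.orderOf_coe]
      exact hgo
    have hUcard : Nat.card U = m := by
      rw [Nat.card_zpowers, hgo]
    ext n
    constructor
    · rintro (h | ⟨u, rfl⟩)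
      · left
        simp only [Set.mem_insert_iff, Set.mem_singleton_iff] at h
        rcases h with rfl | rfl
        · exact one_dvd _
        · exact dvd_rfl
      · right
        rw [← hUcard]
        exact orderOf_dvd_natCard u
    · rintro (h | h)
      · left
        rcases (Nat.dvd_prime hp).1 h with rfl | rfl
        · exact Set.mem_insert _ _
        · exact Set.mem_insert_of_mem _ rfl
      · right
        exact exists_orderOf_of_dvd _ n (hUo ▸ h) (hUo ▸ hm0)

/-- spectrum of a direct product: pairwise lcm's. -/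
theorem prod_spectrum {G H : Type*} [Monoid G] [Monoid H] :
    Set.range (orderOf : G × H → ℕ) =
      {n | ∃ a ∈ Set.range (orderOf : G → ℕ), ∃ b ∈ Set.range (orderOf : H → ℕ),
        n = Nat.lcm a b} := by
  ext n
  constructor
  · rintro ⟨x, rfl⟩
    exact ⟨_, ⟨x.1, rfl⟩, _, ⟨x.2, rfl⟩, Prod.orderOf x⟩
  · rintro ⟨_, ⟨x, rfl⟩, _, ⟨y, rfl⟩, rfl⟩
    exact ⟨(x, y), Prod.orderOf (x, y)⟩

/-- the combinatorial identity behind the isospectral solvable group for `L × L`. -/
theorem lcm_set_eq (p a b : ℕ) :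
    {n | ∃ x ∈ {n | n ∣ p ∨ n ∣ a ∨ n ∣ b}, ∃ y ∈ {n | n ∣ p ∨ n ∣ a ∨ n ∣ b},
        n = Nat.lcm x y} =
      {n | ∃ x ∈ {n | n ∣ p ∨ n ∣ a}, ∃ y ∈ {n | n ∣ p ∨ n ∣ b}, n = Nat.lcm x y} := by
  ext n
  simp only [Set.mem_ofPred_eq]
  constructor
  · rintro ⟨x, hx, y, hy, rfl⟩
    rcases hx with hx | hx | hx <;> rcases hy with hy | hy | hy
    · exact ⟨Nat.lcm x y, Or.inl (Nat.lcm_dvd hx hy), 1, Or.inl (one_dvd _), by simp⟩
    · exact ⟨y, Or.inr hy, x, Or.inl hx, Nat.lcm_comm _ _⟩
    · exact ⟨x, Or.inl hx, y, Or.inr hy, rfl⟩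
    · exact ⟨x, Or.inr hx, y, Or.inl hy, rfl⟩
    · exact ⟨Nat.lcm x y, Or.inr (Nat.lcm_dvd hx hy), 1, Or.inl (one_dvd _), by simp⟩
    · exact ⟨x, Or.inr hx, y, Or.inr hy, rfl⟩
    · exact ⟨y, Or.inl hy, x, Or.inr hx, Nat.lcm_comm _ _⟩
    · exact ⟨y, Or.inr hy, x, Or.inr hx, Nat.lcm_comm _ _⟩
    · exact ⟨1, Or.inl (one_dvd _), Nat.lcm x y, Or.inr (Nat.lcm_dvd hx hy), by simp⟩
  · rintro ⟨x, hx, y, hy, rfl⟩
    refine ⟨x, ?_, y, ?_, rfl⟩
    · rcases hx with hx | hx
      · exact Or.inl hx
      · exact Or.inr (Or.inl hx)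
    · rcases hy with hy | hy
      · exact Or.inl hy
      · exact Or.inr (Or.inr hy)

/-- **`PSL(2,q) × PSL(2,q)` has a solvable isospectral group** (`q ≥ 4`). -/
theorem psl2_sq_isospectral {F : Type*} [Field F] [Finite F] (hF : 4 ≤ Nat.card F) :
    ∃ (H : Type) (_ : Group H) (_ : Finite H), Group.IsSolvable H ∧
      Set.range (orderOf : H → ℕ) =
        Set.range (orderOf : Matrix.ProjectiveSpecialLinearGroup (Fin 2) F ×
          Matrix.ProjectiveSpecialLinearGroup (Fin 2) F → ℕ) := by
  obtain ⟨p, hpc⟩ := CharP.exists F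
  haveI := hpc
  haveI : Fact p.Prime := ⟨CharP.char_is_prime F p⟩
  have hp := (Fact.out : p.Prime)
  set q := Nat.card F with hq
  set a := (q - 1) / Nat.gcd (q - 1) 2 with ha
  set b := (q + 1) / Nat.gcd (q + 1) 2 with hb
  have hE : Nat.card (FiniteField.Extension F p 2) = q ^ 2 := FiniteField.natCard_extension F p 2
  haveI : CharP (FiniteField.Extension F p 2) p :=
    charP_of_injective_algebraMap (algebraMap F (FiniteField.Extension F p 2)).injective p
  have hfac : q ^ 2 - 1 = (q - 1) * (q + 1) := by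
    have h1 : 1 ≤ q := by omega
    zify [h1, Nat.one_le_pow 2 q h1]
    ring
  have hadvd : a ∣ Nat.card (FiniteField.Extension F p 2) - 1 := by
    rw [hE, hfac]
    exact Dvd.dvd.mul_right (Nat.div_dvd_of_dvd (Nat.gcd_dvd_left _ _)) _
  have hbdvd : b ∣ Nat.card (FiniteField.Extension F p 2) - 1 := by
    rw [hE, hfac]
    exact Dvd.dvd.mul_left (Nat.div_dvd_of_dvd (Nat.gcd_dvd_left _ _)) _
  obtain ⟨X, iX, fX, sX, eX⟩ := frob_field_spectrum (FiniteField.Extension F p 2) p a hadvd
  obtain ⟨Y, iY, fY, sY, eY⟩ := frob_field_spectrum (FiniteField.Extension F p 2) p b hbdvd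
  refine ⟨X × Y, inferInstance, inferInstance, inferInstance, ?_⟩
  rw [prod_spectrum, prod_spectrum, eX, eY, psl2_spectrum p hF]
  exact (lcm_set_eq p a b).symm

end Cfsg.Agent.H62
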