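import Mathlib
import Cfsg.Agent.H91.L34NDefs
import Cfsg.Agent.H73.L34Ea
import Cfsg.Agent.H18.L34Fus

/-!
# S3154-EAB (helper62): the full preimages of `e1`, `e2` in a central extension by a group of
exponent 2 have exponent 2
-/

set_option autoImplicit false
set_option linter.style.haveILetI false
set_option linter.unusedSimpArgs false
set_option linter.unusedSectionVars false
set_option linter.unusedVariables false

namespace Cfsg.Agent.H62.L34N

open Subgroup Cfsg.Agent.H60 Cfsg.Agent.H60.L34 Cfsg.Agent.H91.L34N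

universe u v

/-- Abstract form: a subgroup `E` of exponent 2 of the quotient whose non-identity elements are
fused and which has three independent elements has a full preimage of exponent 2. -/
theorem eab_aux {X : Type u} [Group X] {L : Type v} [Group L] (φ : X →* L)
    (hφ : Function.Surjective φ) (hker : φ.ker ≤ center X) (hexp : ∀ z ∈ φ.ker, z * z = 1)
    (E : Subgroup L) (hE2 : ∀ e ∈ E, e * e = 1)
    (hfus : ∀ x ∈ E, ∀ y ∈ E, x ≠ 1 → y ≠ 1 → ∃ g : L, g * x * g⁻¹ = y)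
    (hind : ∃ x ∈ E, ∃ y ∈ E, ∃ z ∈ E, x ≠ 1 ∧ y ≠ 1 ∧ z ≠ 1 ∧ x * y ≠ 1 ∧ x * z ≠ 1 ∧
      y * z ≠ 1 ∧ x * y * z ≠ 1) :
    ∀ x : X, φ x ∈ E → x * x = 1 := by
  intro w hw
  refine Cfsg.Agent.H73.L34.ea.{u} φ.ker (E.comap φ) hker hexp ?_ ?_ ?_ ?_ w hw
  · intro z hz
    show φ z ∈ E
    rw [MonoidHom.mem_ker.mp hz]
    exact E.one_mem
  · intro x hx
    rw [MonoidHom.mem_ker, map_mul]
    exact hE2 _ hx
  · intro x hx y hy hxK hyK
    have hx1 : φ x ≠ 1 := fun h => hxK (MonoidHom.mem_ker.mpr h)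
    have hy1 : φ y ≠ 1 := fun h => hyK (MonoidHom.mem_ker.mpr h)
    obtain ⟨g, hg⟩ := hfus _ hx _ hy hx1 hy1
    obtain ⟨n, rfl⟩ := hφ g
    refine ⟨n, ?_⟩
    rw [MonoidHom.mem_ker, map_mul, map_mul, map_mul, map_inv, map_inv, hg, mul_inv_cancel]
  · obtain ⟨x, hx, y, hy, z, hz, h1, h2, h3, h4, h5, h6, h7⟩ := hind
    obtain ⟨x', rfl⟩ := hφ x
    obtain ⟨y', rfl⟩ := hφ y
    obtain ⟨z', rfl⟩ := hφ z
    refine ⟨x', hx, y', hy, z', hz, ?_, ?_, ?_, ?_, ?_, ?_, ?_⟩
    · exact fun h => h1 (MonoidHom.mem_ker.mp h)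
    · exact fun h => h2 (MonoidHom.mem_ker.mp h)
    · exact fun h => h3 (MonoidHom.mem_ker.mp h)
    · exact fun h => h4 (by rw [← map_mul]; exact MonoidHom.mem_ker.mp h)
    · exact fun h => h5 (by rw [← map_mul]; exact MonoidHom.mem_ker.mp h)
    · exact fun h => h6 (by rw [← map_mul]; exact MonoidHom.mem_ker.mp h)
    · exact fun h => h7 (by rw [← map_mul, ← map_mul]; exact MonoidHom.mem_ker.mp h)

theorem eab : EabStmt.{u, v} := by
  intro X _ F _ _ hF φ hφ hker hexp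
  classical
  have h2F : (2 : F) = 0 := two_eq_zero_of_card hF
  have h11 : (1 : F) + 1 = 0 := one_add_one_eq_two.trans h2F
  obtain ⟨ω, hω0, hω1⟩ := f4_exists hF
  have hω : (1 : F) + ω ≠ 0 := fun h => hω1 (add_left_cancel (h.trans h11.symm))
  constructor
  · refine eab_aux φ hφ hker hexp (e1 F) ?_ ?_ ?_
    · rintro _ ⟨g, hg, rfl⟩
      rw [← map_mul, sq_of_p h2F g hg, map_one]
    · rintro _ ⟨g, hg, rfl⟩ _ ⟨g', hg', rfl⟩ hx hy
      exact Cfsg.Agent.H18.L34.fus1 g g' hg hg' (fun h => hx (by rw [h, map_one]))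
        (fun h => hy (by rw [h, map_one]))
    · refine ⟨heisPSL ⟨0, 1, 0⟩, Subgroup.mem_map_of_mem _ (mk_mem_sgA _ _),
        heisPSL ⟨0, ω, 0⟩, Subgroup.mem_map_of_mem _ (mk_mem_sgA _ _),
        heisPSL ⟨0, 0, 1⟩, Subgroup.mem_map_of_mem _ (mk_mem_sgA _ _), ?_, ?_, ?_, ?_, ?_, ?_, ?_⟩
      · exact psl_ne_one_of_s (by simp)
      · exact psl_ne_one_of_s (by simpa using hω0)
      · exact psl_ne_one_of_r (by simp)
      · rw [← map_mul]
        exact psl_ne_one_of_s (by simpa using hω)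
      · rw [← map_mul]
        exact psl_ne_one_of_s (by simp)
      · rw [← map_mul]
        exact psl_ne_one_of_s (by simpa using hω0)
      · rw [← map_mul, ← map_mul]
        exact psl_ne_one_of_s (by simpa using hω)
  · refine eab_aux φ hφ hker hexp (e2 F) ?_ ?_ ?_
    · rintro _ ⟨g, hg, rfl⟩
      rw [← map_mul, sq_of_s h2F g hg, map_one]
    · rintro _ ⟨g, hg, rfl⟩ _ ⟨g', hg', rfl⟩ hx hy
      exact Cfsg.Agent.H18.L34.fus2 g g' hg hg' (fun h => hx (by rw [h, map_one]))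
        (fun h => hy (by rw [h, map_one]))
    · refine ⟨heisPSL ⟨1, 0, 0⟩, Subgroup.mem_map_of_mem _ (mk_mem_sgB _ _),
        heisPSL ⟨ω, 0, 0⟩, Subgroup.mem_map_of_mem _ (mk_mem_sgB _ _),
        heisPSL ⟨0, 0, 1⟩, Subgroup.mem_map_of_mem _ (mk_mem_sgB _ _), ?_, ?_, ?_, ?_, ?_, ?_, ?_⟩
      · exact psl_ne_one_of_p (by simp)
      · exact psl_ne_one_of_p (by simpa using hω0)
      · exact psl_ne_one_of_r (by simp)
      · rw [← map_mul]
        exact psl_ne_one_of_p (by simpa using hω)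
      · rw [← map_mul]
        exact psl_ne_one_of_p (by simp)
      · rw [← map_mul]
        exact psl_ne_one_of_p (by simpa using hω0)
      · rw [← map_mul, ← map_mul]
        exact psl_ne_one_of_p (by simpa using hω)

end Cfsg.Agent.H62.L34N
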