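import Mathlib
import Cfsg.Agent.H91.JRDefs
import Cfsg.Agent.H62.L34NEab
import Cfsg.Agent.H73.L34Tr

/-!
# S3206-CE2 (helper62): no perfect central extension by a group of exponent 2 when a subgroup of
odd index, exponent 2 and order at least 8 has all its involutions fused
-/

set_option autoImplicit false
set_option linter.style.haveILetI false
set_option linter.unusedSimpArgs false
set_option linter.unusedSectionVars false
set_option linter.unusedVariables false

namespace Cfsg.Agent.H62.JR

open Subgroup Cfsg.Agent.H91.JR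

universe u v

theorem exists_not_mem_of_card {G : Type u} [Group G] [Finite G] (S : Subgroup G) (l : List G)
    (h : l.length < Nat.card ↥S) : ∃ z ∈ S, z ∉ l := by
  classical
  by_contra hcon
  push Not at hcon
  have h1 : Nat.card ↥S ≤ l.toFinset.card := by
    have hinj : Function.Injective (fun z : ↥S => (⟨z.1, List.mem_toFinset.mpr (hcon z.1 z.2)⟩ :
        {y // y ∈ l.toFinset})) := by
      intro a b hab
      exact Subtype.ext (congrArg (fun t : {y // y ∈ l.toFinset} => t.1) hab)
    have h3 := Nat.card_le_card_of_injective _ hinj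
    have h4 : Nat.card {y // y ∈ l.toFinset} = l.toFinset.card := by
      rw [Nat.card_eq_fintype_card, Fintype.card_coe]
    rwa [h4] at h3
  have h2 := List.toFinset_card_le l
  omega

theorem ce2 : Ce2Stmt.{u, v} := by
  intro G _ _ S hS2 hodd hfus h8 D _ _ ρ hρ hker hexp hperf z hz
  -- three independent elements
  have hinv : ∀ x ∈ S, x⁻¹ = x := by
    intro x hx
    exact inv_eq_of_mul_eq_one_left (hS2 x hx)
  obtain ⟨x, hxS, hx⟩ := exists_not_mem_of_card S [1] (by simp; omega)
  obtain ⟨y, hyS, hy⟩ := exists_not_mem_of_card S [1, x] (by simp; omega)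
  obtain ⟨w, hwS, hw⟩ := exists_not_mem_of_card S [1, x, y, x * y] (by simp; omega)
  simp only [List.mem_cons, List.not_mem_nil, or_false, not_or] at hx hy hw
  have hmul_ne : ∀ a ∈ S, ∀ b ∈ S, b ≠ a → a * b ≠ 1 := by
    intro a ha b hb hba h
    apply hba
    have := eq_inv_of_mul_eq_one_right h
    rw [this, hinv a ha]
  have hind : ∃ x ∈ S, ∃ y ∈ S, ∃ z ∈ S, x ≠ 1 ∧ y ≠ 1 ∧ z ≠ 1 ∧ x * y ≠ 1 ∧ x * z ≠ 1 ∧
      y * z ≠ 1 ∧ x * y * z ≠ 1 :=
    ⟨x, hxS, y, hyS, w, hwS, hx, hy.1, hw.1, hmul_ne x hxS y hyS hy.2, hmul_ne x hxS w hwS hw.2.1,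
      hmul_ne y hyS w hwS hw.2.2.1, hmul_ne (x * y) (S.mul_mem hxS hyS) w hwS hw.2.2.2⟩
  have hP2 : ∀ d : D, ρ d ∈ S → d * d = 1 :=
    Cfsg.Agent.H62.L34N.eab_aux ρ hρ hker hexp S hS2 hfus hind
  -- the preimage of `S` is abelian
  have hcomm : commutator ↥(S.comap ρ) = ⊥ := by
    rw [commutator_def, Subgroup.commutator_eq_bot_iff_le_centralizer]
    intro a _
    rw [Subgroup.mem_centralizer_iff]
    intro b _
    apply Subtype.ext
    have ha : (a : D) * a = 1 := hP2 a a.2
    have hb : (b : D) * b = 1 := hP2 b b.2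
    have hab : ((b : D) * a) * (b * a) = 1 := hP2 _ (Subgroup.mul_mem _ b.2 a.2)
    show (b : D) * a = a * b
    calc (b : D) * a = (a * a) * (b * a) * (b * b) := by rw [ha, hb, one_mul, mul_one]
      _ = a * ((a * b) * (a * b)) * b := by group
      _ = a * b := by
        have hab' : ((a : D) * b) * (a * b) = 1 := hP2 _ (Subgroup.mul_mem _ a.2 b.2)
        rw [hab', mul_one]
  have hidx : (S.comap ρ).index = S.index := Subgroup.index_comap_of_surjective S hρ
  have hzP : z ∈ S.comap ρ := by
    show ρ z ∈ S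
    rw [MonoidHom.mem_ker.mp hz]
    exact S.one_mem
  have h1 := Cfsg.Agent.H73.L34.tr.{v} hperf (S.comap ρ) (by rw [hidx]; exact hodd) z (hker hz)
    (hexp z hz) hzP
  rw [hcomm, Subgroup.map_bot, Subgroup.mem_bot] at h1
  exact h1

end Cfsg.Agent.H62.JR
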