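import Mathlib
import Cfsg.Agent.H91.JRDefs
import Cfsg.Agent.H62.AutPSL2g
import Cfsg.Agent.H62.JRCe2
import Cfsg.Agent.S0276

/-!
# S3206-PSLB (helper62): for `q ≡ 3, 5 (mod 8)` an automorphism of `PSL₂(q)` of 2-power order
fixing a Sylow 2-subgroup `V` pointwise is conjugation by an element of `V`
-/

set_option autoImplicit false
set_option linter.style.haveILetI false
set_option linter.unusedSimpArgs false
set_option linter.unusedSectionVars false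
set_option linter.unusedVariables false

namespace Cfsg.Agent.H62.JR

open Matrix Cfsg.Agent.H62 Cfsg.Agent.H91.JR

universe u

section Mat

variable {F : Type u} [Field F]

theorem comm_entries (A C : Matrix (Fin 2) (Fin 2) F) (h : C * A = A * C)
    (ht : A 1 1 = -A 0 0) :
    C 0 1 * A 1 0 = A 0 1 * C 1 0 ∧ A 0 1 * (C 0 0 - C 1 1) = 2 * A 0 0 * C 0 1 ∧
      A 1 0 * (C 0 0 - C 1 1) = 2 * A 0 0 * C 1 0 := by
  have h00 := congrFun (congrFun h 0) 0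
  have h01 := congrFun (congrFun h 0) 1
  have h10 := congrFun (congrFun h 1) 0
  simp only [Matrix.mul_apply, Fin.sum_univ_two] at h00 h01 h10
  rw [ht] at h01 h10
  refine ⟨?_, ?_, ?_⟩
  · linear_combination h00
  · linear_combination h01
  · linear_combination -h10

/-- a matrix commuting with two anticommuting trace-zero matrices of square `-1` is scalar. -/
theorem scalar_of_comm (h2 : (2 : F) ≠ 0) (A₁ A₂ C : Matrix (Fin 2) (Fin 2) F)
    (ht₁ : A₁ 1 1 = -A₁ 0 0) (hd₁ : A₁ 0 0 * A₁ 0 0 + A₁ 0 1 * A₁ 1 0 = -1)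
    (ht₂ : A₂ 1 1 = -A₂ 0 0) (hd₂ : A₂ 0 0 * A₂ 0 0 + A₂ 0 1 * A₂ 1 0 = -1)
    (hanti : 2 * A₁ 0 0 * A₂ 0 0 + A₁ 0 1 * A₂ 1 0 + A₁ 1 0 * A₂ 0 1 = 0)
    (hc₁ : C * A₁ = A₁ * C) (hc₂ : C * A₂ = A₂ * C) :
    C = C 0 0 • (1 : Matrix (Fin 2) (Fin 2) F) := by
  obtain ⟨e1, e2, e3⟩ := comm_entries A₁ C hc₁ ht₁
  obtain ⟨f1, f2, f3⟩ := comm_entries A₂ C hc₂ ht₂
  -- `t₁ = a δ + q c + r b`
  have hδ1 : 2 * (C 0 0 - C 1 1) = -(2 * A₁ 0 0 *
      (A₁ 0 0 * (C 0 0 - C 1 1) + C 0 1 * A₁ 1 0 + C 1 0 * A₁ 0 1)) := by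
    linear_combination (2 * (C 0 0 - C 1 1)) * hd₁ - A₁ 1 0 * e2 - A₁ 0 1 * e3
  have hq1 : 2 * C 0 1 = -(A₁ 0 1 *
      (A₁ 0 0 * (C 0 0 - C 1 1) + C 0 1 * A₁ 1 0 + C 1 0 * A₁ 0 1)) := by
    linear_combination (2 * C 0 1) * hd₁ + A₁ 0 0 * e2 - A₁ 0 1 * e1
  have hr1 : 2 * C 1 0 = -(A₁ 1 0 *
      (A₁ 0 0 * (C 0 0 - C 1 1) + C 0 1 * A₁ 1 0 + C 1 0 * A₁ 0 1)) := by
    linear_combination (2 * C 1 0) * hd₁ + A₁ 0 0 * e3 + A₁ 1 0 * e1
  have hδ2 : 2 * (C 0 0 - C 1 1) = -(2 * A₂ 0 0 *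
      (A₂ 0 0 * (C 0 0 - C 1 1) + C 0 1 * A₂ 1 0 + C 1 0 * A₂ 0 1)) := by
    linear_combination (2 * (C 0 0 - C 1 1)) * hd₂ - A₂ 1 0 * f2 - A₂ 0 1 * f3
  have hq2 : 2 * C 0 1 = -(A₂ 0 1 *
      (A₂ 0 0 * (C 0 0 - C 1 1) + C 0 1 * A₂ 1 0 + C 1 0 * A₂ 0 1)) := by
    linear_combination (2 * C 0 1) * hd₂ + A₂ 0 0 * f2 - A₂ 0 1 * f1
  have hr2 : 2 * C 1 0 = -(A₂ 1 0 *
      (A₂ 0 0 * (C 0 0 - C 1 1) + C 0 1 * A₂ 1 0 + C 1 0 * A₂ 0 1)) := by
    linear_combination (2 * C 1 0) * hd₂ + A₂ 0 0 * f3 + A₂ 1 0 * f1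
  have ht : A₁ 0 0 * (C 0 0 - C 1 1) + C 0 1 * A₁ 1 0 + C 1 0 * A₁ 0 1 = 0 := by
    have : 2 * (A₁ 0 0 * (C 0 0 - C 1 1) + C 0 1 * A₁ 1 0 + C 1 0 * A₁ 0 1) = 0 := by
      linear_combination A₁ 0 0 * hδ2 + A₁ 1 0 * hq2 + A₁ 0 1 * hr2
        - (A₂ 0 0 * (C 0 0 - C 1 1) + C 0 1 * A₂ 1 0 + C 1 0 * A₂ 0 1) * hanti
    rcases mul_eq_zero.mp this with h | h
    · exact absurd h h2
    · exact h
  rw [ht, mul_zero, neg_zero] at hδ1 hq1 hr1
  have hδ : C 0 0 - C 1 1 = 0 := by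
    rcases mul_eq_zero.mp hδ1 with h | h
    · exact absurd h h2
    · exact h
  have hq : C 0 1 = 0 := by
    rcases mul_eq_zero.mp hq1 with h | h
    · exact absurd h h2
    · exact h
  have hr : C 1 0 = 0 := by
    rcases mul_eq_zero.mp hr1 with h | h
    · exact absurd h h2
    · exact h
  apply mat2_ext'
  · simp
  · simp [hq]
  · simp [hr]
  · simp only [Matrix.smul_apply, Matrix.one_apply_eq, smul_eq_mul, mul_one]
    linear_combination -hδ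

/-- if `B` has the same commutation signs with `A₁`, `A₂` as `M`, then `M * B⁻¹` is scalar. -/
theorem twist_scalar (h2 : (2 : F) ≠ 0) (e₁ e₂ : F) (he₁ : e₁ * e₁ = 1) (he₂ : e₂ * e₂ = 1)
    (M A₁ A₂ B B' : Matrix (Fin 2) (Fin 2) F) (hB : B * B' = 1) (hB' : B' * B = 1)
    (ht₁ : A₁ 1 1 = -A₁ 0 0) (hd₁ : A₁ 0 0 * A₁ 0 0 + A₁ 0 1 * A₁ 1 0 = -1)
    (ht₂ : A₂ 1 1 = -A₂ 0 0) (hd₂ : A₂ 0 0 * A₂ 0 0 + A₂ 0 1 * A₂ 1 0 = -1)
    (hanti : 2 * A₁ 0 0 * A₂ 0 0 + A₁ 0 1 * A₂ 1 0 + A₁ 1 0 * A₂ 0 1 = 0)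
    (hM₁ : M * A₁ = e₁ • (A₁ * M)) (hM₂ : M * A₂ = e₂ • (A₂ * M))
    (hb₁ : B * A₁ = e₁ • (A₁ * B)) (hb₂ : B * A₂ = e₂ • (A₂ * B)) :
    ∃ μ : F, M * B' = μ • (1 : Matrix (Fin 2) (Fin 2) F) := by
  have key : ∀ (e : F) (he : e * e = 1) (A : Matrix (Fin 2) (Fin 2) F),
      M * A = e • (A * M) → B * A = e • (A * B) → (M * B') * A = A * (M * B') := by
    intro e he A hM hb
    have h1 : B' * A = e • (A * B') := by
      have h3 : B' * (B * A) * B' = B' * (e • (A * B)) * B' := by rw [hb]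
      rw [← Matrix.mul_assoc, hB', Matrix.one_mul, Matrix.mul_smul, Matrix.smul_mul,
        Matrix.mul_assoc, Matrix.mul_assoc, hB, Matrix.mul_one] at h3
      rw [h3, smul_smul, he, one_smul]
    calc (M * B') * A = M * (B' * A) := Matrix.mul_assoc _ _ _
      _ = e • (M * A * B') := by rw [h1, Matrix.mul_smul, Matrix.mul_assoc]
      _ = e • ((e • (A * M)) * B') := by rw [hM]
      _ = A * (M * B') := by rw [Matrix.smul_mul, smul_smul, he, one_smul, Matrix.mul_assoc]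
  exact ⟨_, scalar_of_comm h2 A₁ A₂ (M * B') ht₁ hd₁ ht₂ hd₂ hanti (key e₁ he₁ A₁ hM₁ hb₁)
    (key e₂ he₂ A₂ hM₂ hb₂)⟩

end Mat

section Psl

variable {F : Type u} [Field F]

/-- a lift of an involution of `PSL₂(F)` has trace zero. -/
theorem invol_entries (A : SL2 F) (hne : pq A ≠ 1) (hsq : pq A * pq A = 1) :
    A.1 1 1 = -A.1 0 0 ∧ A.1 0 0 * A.1 0 0 + A.1 0 1 * A.1 1 0 = -1 := by
  have h1 : pq (A * A) = pq (1 : SL2 F) := by rw [map_mul, hsq, map_one]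
  obtain ⟨e, he, h00, h01, h10, h11⟩ := (psl_eq_iff (A * A) 1).mp h1
  simp only [sl2_mul_00, sl2_mul_01, sl2_mul_10, sl2_mul_11, sl2_one_00, sl2_one_01, sl2_one_10,
    sl2_one_11] at h00 h01 h10 h11
  have hdet := sl2_det A
  have he0 : e ≠ 0 := by
    rintro rfl
    simp at he
  have htr : A.1 0 0 + A.1 1 1 = 0 := by
    by_contra htr
    have hb : A.1 0 1 = 0 := by
      have : e * (A.1 0 1 * (A.1 0 0 + A.1 1 1)) = 0 := by linear_combination -h01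
      rcases mul_eq_zero.mp this with h | h
      · exact absurd h he0
      · rcases mul_eq_zero.mp h with h | h
        · exact h
        · exact absurd h htr
    have hc : A.1 1 0 = 0 := by
      have : e * (A.1 1 0 * (A.1 0 0 + A.1 1 1)) = 0 := by linear_combination -h10
      rcases mul_eq_zero.mp this with h | h
      · exact absurd h he0
      · rcases mul_eq_zero.mp h with h | h
        · exact h
        · exact absurd h htr
    rw [hb, hc] at h00 h11 hdet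
    have had : A.1 0 0 = A.1 1 1 := by
      have : e * ((A.1 0 0 - A.1 1 1) * (A.1 0 0 + A.1 1 1)) = 0 := by
        linear_combination h11 - h00
      rcases mul_eq_zero.mp this with h | h
      · exact absurd h he0
      · rcases mul_eq_zero.mp h with h | h
        · linear_combination h
        · exact absurd h htr
    apply hne
    have h2 : pq (1 : SL2 F) = pq A := by
      rw [psl_eq_iff]
      refine ⟨A.1 0 0, ?_, ?_, ?_, ?_, ?_⟩
      · rw [← had] at hdet; linear_combination hdet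
      · rw [sl2_one_00, mul_one]
      · rw [sl2_one_01, mul_zero, hb]
      · rw [sl2_one_10, mul_zero, hc]
      · rw [sl2_one_11, mul_one, had]
    rw [← h2, map_one]
  have hd : A.1 1 1 = -A.1 0 0 := by linear_combination htr
  refine ⟨hd, ?_⟩
  rw [hd] at hdet
  linear_combination -hdet

/-- lifts of two distinct commuting involutions anticommute. -/
theorem anti_entries (h2 : (2 : F) ≠ 0) (A₁ A₂ : SL2 F)
    (ht₁ : A₁.1 1 1 = -A₁.1 0 0) (hd₁ : A₁.1 0 0 * A₁.1 0 0 + A₁.1 0 1 * A₁.1 1 0 = -1)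
    (ht₂ : A₂.1 1 1 = -A₂.1 0 0) (hd₂ : A₂.1 0 0 * A₂.1 0 0 + A₂.1 0 1 * A₂.1 1 0 = -1)
    (hne : pq A₁ ≠ pq A₂) (hcomm : pq A₁ * pq A₂ = pq A₂ * pq A₁) :
    2 * A₁.1 0 0 * A₂.1 0 0 + A₁.1 0 1 * A₂.1 1 0 + A₁.1 1 0 * A₂.1 0 1 = 0 := by
  have h1 : pq (A₁ * A₂) = pq (A₂ * A₁) := by rw [map_mul, map_mul, hcomm]
  obtain ⟨ε, hε, h00, h01, h10, h11⟩ := (psl_eq_iff (A₁ * A₂) (A₂ * A₁)).mp h1
  simp only [sl2_mul_00, sl2_mul_01, sl2_mul_10, sl2_mul_11] at h00 h01 h10 h11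
  rw [ht₁, ht₂] at h01 h10 h11
  have hε' : (ε - 1) * (ε + 1) = 0 := by linear_combination hε
  rcases mul_eq_zero.mp hε' with h | h
  · -- `ε = 1`: the lifts are proportional, so the involutions coincide
    exfalso
    have hε1 : ε = 1 := by linear_combination h
    rw [hε1, one_mul] at h00 h01 h10
    have hi : A₂.1 0 1 * A₁.1 1 0 = A₁.1 0 1 * A₂.1 1 0 := by linear_combination h00
    have hii : A₂.1 0 0 * A₁.1 0 1 = A₁.1 0 0 * A₂.1 0 1 := by
      have : 2 * (A₂.1 0 0 * A₁.1 0 1 - A₁.1 0 0 * A₂.1 0 1) = 0 := by linear_combination h01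
      rcases mul_eq_zero.mp this with h | h
      · exact absurd h h2
      · linear_combination h
    have hiii : A₁.1 0 0 * A₂.1 1 0 = A₂.1 0 0 * A₁.1 1 0 := by
      have : 2 * (A₁.1 0 0 * A₂.1 1 0 - A₂.1 0 0 * A₁.1 1 0) = 0 := by linear_combination h10
      rcases mul_eq_zero.mp this with h | h
      · exact absurd h h2
      · linear_combination h
    apply hne
    rw [psl_eq_iff]
    refine ⟨-(A₁.1 0 0 * A₂.1 0 0 + A₁.1 0 1 * A₂.1 1 0), ?_, ?_, ?_, ?_, ?_⟩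
    · linear_combination (A₂.1 0 0 * A₂.1 0 0 + A₂.1 0 1 * A₂.1 1 0) * hd₁ - hd₂
        + (A₁.1 0 0 * A₂.1 1 0) * hii + (A₁.1 0 1 * A₂.1 0 0) * hiii
        - (A₁.1 0 1 * A₂.1 1 0) * hi
    · linear_combination (A₂.1 0 0) * hd₁ + (A₁.1 0 1) * hiii
    · linear_combination (A₂.1 0 1) * hd₁ + (A₁.1 0 0) * hii - (A₁.1 0 1) * hi
    · linear_combination (A₂.1 1 0) * hd₁ - (A₁.1 0 0) * hiii
    · rw [ht₁, ht₂]
      linear_combination -(A₂.1 0 0) * hd₁ - (A₁.1 0 1) * hiii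
  · have hε1 : ε = -1 := by linear_combination h
    rw [hε1] at h00
    linear_combination h00

theorem sl2_mul_inv_val (b : SL2 F) : b.1 * (b⁻¹).1 = 1 := by
  rw [← Matrix.SpecialLinearGroup.coe_mul, mul_inv_cancel, Matrix.SpecialLinearGroup.coe_one]

theorem sl2_inv_mul_val (b : SL2 F) : (b⁻¹).1 * b.1 = 1 := by
  rw [← Matrix.SpecialLinearGroup.coe_mul, inv_mul_cancel, Matrix.SpecialLinearGroup.coe_one]

theorem sq_mod_eight (n : ℕ) : n * n % 8 = 0 ∨ n * n % 8 = 1 ∨ n * n % 8 = 4 := by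
  have h := Nat.mod_lt n (by norm_num : 8 > 0)
  rw [Nat.mul_mod]
  interval_cases (n % 8) <;> simp

theorem pslB : PslBStmt.{u} := by
  intro F _ _ hq V α k hα hfix
  classical
  obtain ⟨p, hpc⟩ := CharP.exists F
  haveI := hpc
  haveI : Fact p.Prime := ⟨CharP.char_is_prime F p⟩
  have hp : p.Prime := Fact.out
  obtain ⟨f, -, hcard⟩ := FiniteField.card F p
  -- `2 ≠ 0`
  have h2 : (2 : F) ≠ 0 := by
    intro h
    have h3 : ((2 : ℕ) : F) = 0 := by exact_mod_cast h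
    have h4 : p ∣ 2 := (CharP.cast_eq_zero_iff F p 2).mp h3
    have h5 : p = 2 := (Nat.prime_dvd_prime_iff_eq hp Nat.prime_two).mp h4
    rw [h5] at hcard
    have h6 : Fintype.card F % 2 = 0 := by
      rw [hcard]
      obtain ⟨j, hj⟩ : ∃ j, (f : ℕ) = j + 1 := ⟨(f : ℕ) - 1, by have := f.pos; omega⟩
      rw [hj, pow_succ]
      omega
    omega
  -- `f` is odd
  have hfodd : Odd (f : ℕ) := by
    by_contra hne
    rw [Nat.not_odd_iff_even] at hne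
    obtain ⟨j, hj⟩ := hne
    have h3 : Fintype.card F = p ^ j * p ^ j := by rw [hcard, hj, pow_add]
    have h4 := sq_mod_eight (p ^ j)
    rw [← h3] at h4
    omega
  -- the field automorphism part is trivial
  have hψ1 : psiHom F α = 1 := by
    have hψ : (psiHom F α) ^ (2 ^ k) = 1 := by rw [← map_pow, hα, map_one]
    have hcyc := ringAut_cyclic_card (F := F) p (f : ℕ) f.pos
      (by rw [Nat.card_eq_fintype_card, hcard])
    have hd1 : orderOf (psiHom F α) ∣ 2 ^ k := orderOf_dvd_of_pow_eq_one hψ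
    have hd2 : orderOf (psiHom F α) ∣ (f : ℕ) := by
      rw [← hcyc.2]; exact orderOf_dvd_natCard _
    have hcop : Nat.Coprime (2 ^ k) (f : ℕ) :=
      Nat.Coprime.pow_left k (Nat.coprime_two_left.mpr hfodd)
    have hd3 : orderOf (psiHom F α) ∣ 1 := by
      have := Nat.dvd_gcd hd1 hd2
      rwa [hcop.gcd_eq_one] at this
    exact orderOf_eq_one_iff.mp (Nat.dvd_one.mp hd3)
  obtain ⟨g, c, σ, h⟩ := aut_structure α
  have hσ : σ = 1 := by
    have h3 := congrArg (psiHom F) h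
    rw [map_mul, psiHom_conj, hψ1, psiHom_autLift, one_mul] at h3
    exact h3.symm
  subst hσ
  obtain ⟨gh, hgh⟩ := pq_surj g
  have hkey : ∀ A : SL2 F, α (pq A) = pq (gh⁻¹ * dsAut c 1 A * gh) := by
    intro A
    have h3 : (MulAut.conj g * α) (pq A) = autLift (dsAut c 1) (pq A) := by rw [h]
    rw [MulAut.mul_apply, MulAut.conj_apply, autLift_pq] at h3
    rw [map_mul, map_mul, map_inv, hgh, ← h3]
    group
  -- the matrices
  obtain ⟨cc, hcc⟩ : ∃ cc : F, cc = (c : F) := ⟨_, rfl⟩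
  obtain ⟨ci, hci⟩ : ∃ ci : F, ci = ((c⁻¹ : Fˣ) : F) := ⟨_, rfl⟩
  have hcci : cc * ci = 1 := by rw [hcc, hci]; exact Units.mul_inv c
  obtain ⟨D, hD⟩ : ∃ D : Matrix (Fin 2) (Fin 2) F, D = !![cc, 0; 0, 1] := ⟨_, rfl⟩
  obtain ⟨D', hD'⟩ : ∃ D' : Matrix (Fin 2) (Fin 2) F, D' = !![ci, 0; 0, 1] := ⟨_, rfl⟩
  have hDD' : D * D' = 1 := by
    rw [hD, hD', Matrix.mul_fin_two, Matrix.one_fin_two]
    simp [hcci]
  have hD'D : D' * D = 1 := by
    rw [hD, hD', Matrix.mul_fin_two, Matrix.one_fin_two]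
    simp [mul_comm ci cc, hcci]
  obtain ⟨M, hM⟩ : ∃ M : Matrix (Fin 2) (Fin 2) F, M = (gh⁻¹).1 * D := ⟨_, rfl⟩
  obtain ⟨N, hN⟩ : ∃ N : Matrix (Fin 2) (Fin 2) F, N = D' * gh.1 := ⟨_, rfl⟩
  have hMN : M * N = 1 := by
    rw [hM, hN, Matrix.mul_assoc, ← Matrix.mul_assoc D, hDD', Matrix.one_mul, sl2_inv_mul_val]
  have hNM : N * M = 1 := by
    rw [hM, hN, Matrix.mul_assoc, ← Matrix.mul_assoc gh.1, sl2_mul_inv_val, Matrix.one_mul, hD'D]
  have hds : ∀ A : SL2 F, (dsAut c 1 A).1 = D * A.1 * D' := by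
    intro A
    rw [dsAut_apply, hD, hD']
    apply mat2_ext'
    · rw [dsFun_00]
      simp only [Matrix.mul_apply, Fin.sum_univ_two]
      simp
      linear_combination (-(A.1 0 0)) * hcci
    · rw [dsFun_01]
      simp only [Matrix.mul_apply, Fin.sum_univ_two]
      simp [hcc]
    · rw [dsFun_10]
      simp only [Matrix.mul_apply, Fin.sum_univ_two]
      simp [hci, mul_comm]
    · rw [dsFun_11]
      simp only [Matrix.mul_apply, Fin.sum_univ_two]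
      simp
  have hΦ : ∀ A : SL2 F, (gh⁻¹ * dsAut c 1 A * gh).1 = M * A.1 * N := by
    intro A
    rw [Matrix.SpecialLinearGroup.coe_mul, Matrix.SpecialLinearGroup.coe_mul, hds, hM, hN]
    simp only [Matrix.mul_assoc]
  -- the Sylow subgroup
  haveI : IsKleinFour ↥(V : Subgroup (PSL2 F)) := Cfsg.Agent.S0276.result rfl hq V
  have hV4 : Nat.card ↥(V : Subgroup (PSL2 F)) = 4 := IsKleinFour.card_four
  have hVexp : ∀ v ∈ (V : Subgroup (PSL2 F)), v * v = 1 := by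
    intro v hv
    have h3 : (⟨v, hv⟩ : ↥(V : Subgroup (PSL2 F))) ^ 2 = 1 := by
      have h5 := Monoid.pow_exponent_eq_one (⟨v, hv⟩ : ↥(V : Subgroup (PSL2 F)))
      rw [IsKleinFour.exponent_two (G := ↥(V : Subgroup (PSL2 F)))] at h5
      exact h5
    have h4 := congrArg Subtype.val h3
    rw [pow_two] at h4
    exact h4
  obtain ⟨v₁, hv₁V, hv₁⟩ := exists_not_mem_of_card (V : Subgroup (PSL2 F)) [1] (by
    rw [hV4]; simp)
  obtain ⟨v₂, hv₂V, hv₂⟩ := exists_not_mem_of_card (V : Subgroup (PSL2 F)) [1, v₁] (by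
    rw [hV4]; simp)
  simp only [List.mem_cons, List.not_mem_nil, or_false, not_or] at hv₁ hv₂
  obtain ⟨A₁, rfl⟩ := pq_surj v₁
  obtain ⟨A₂, rfl⟩ := pq_surj v₂
  obtain ⟨ht₁, hd₁⟩ := invol_entries A₁ hv₁ (hVexp _ hv₁V)
  obtain ⟨ht₂, hd₂⟩ := invol_entries A₂ hv₂.1 (hVexp _ hv₂V)
  have hcomm : pq A₁ * pq A₂ = pq A₂ * pq A₁ := by
    have h3 := hVexp _ (Subgroup.mul_mem _ hv₁V hv₂V)
    have h4 := hVexp _ hv₁V
    have h5 := hVexp _ hv₂V
    calc pq A₁ * pq A₂ = (pq A₂ * pq A₂) * (pq A₁ * pq A₂) * (pq A₁ * pq A₁) := by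
          rw [h4, h5, one_mul, mul_one]
      _ = pq A₂ * ((pq A₂ * pq A₁) * (pq A₂ * pq A₁)) * pq A₁ := by group
      _ = pq A₂ * pq A₁ := by
          rw [hVexp _ (Subgroup.mul_mem _ hv₂V hv₁V), mul_one]
  have hanti := anti_entries h2 A₁ A₂ ht₁ hd₁ ht₂ hd₂ (fun h => hv₂.2 h.symm) hcomm
  have hanti' : A₁.1 * A₂.1 = -(A₂.1 * A₁.1) := by
    apply mat2_ext'
    · simp only [Matrix.mul_apply, Fin.sum_univ_two, Matrix.neg_apply]
      linear_combination hanti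
    · simp only [Matrix.mul_apply, Fin.sum_univ_two, Matrix.neg_apply]
      rw [ht₁, ht₂]; ring
    · simp only [Matrix.mul_apply, Fin.sum_univ_two, Matrix.neg_apply]
      rw [ht₁, ht₂]; ring
    · simp only [Matrix.mul_apply, Fin.sum_univ_two, Matrix.neg_apply]
      rw [ht₁, ht₂]
      linear_combination hanti
  have hanti'' : A₂.1 * A₁.1 = -(A₁.1 * A₂.1) := by rw [hanti', neg_neg]
  -- `α` fixes `V` pointwise
  have hfixM : ∀ A : SL2 F, pq A ∈ (V : Subgroup (PSL2 F)) →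
      ∃ e : F, e * e = 1 ∧ M * A.1 = e • (A.1 * M) := by
    intro A hA
    have h4 := hfix _ hA
    rw [hkey A] at h4
    obtain ⟨e, he, h00, h01, h10, h11⟩ := (psl_eq_iff _ _).mp h4
    have h5 : A.1 = e • (M * A.1 * N) := by
      rw [← hΦ A]
      apply mat2_ext'
      · rw [Matrix.smul_apply, smul_eq_mul]; exact h00
      · rw [Matrix.smul_apply, smul_eq_mul]; exact h01
      · rw [Matrix.smul_apply, smul_eq_mul]; exact h10
      · rw [Matrix.smul_apply, smul_eq_mul]; exact h11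
    refine ⟨e, he, ?_⟩
    have h6 : A.1 * M = e • (M * A.1) := by
      conv_lhs => rw [h5]
      rw [Matrix.smul_mul, Matrix.mul_assoc, hNM, Matrix.mul_one]
    rw [h6, smul_smul, he, one_smul]
  obtain ⟨e₁, he₁, hM₁⟩ := hfixM A₁ hv₁V
  obtain ⟨e₂, he₂, hM₂⟩ := hfixM A₂ hv₂V
  have hsign : ∀ e : F, e * e = 1 → e = 1 ∨ e = -1 := by
    intro e he
    have h3 : (e - 1) * (e + 1) = 0 := by linear_combination he
    rcases mul_eq_zero.mp h3 with h | h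
    · left; linear_combination h
    · right; linear_combination h
  -- choice of the conjugating element
  have hex : ∃ b : SL2 F, pq b ∈ (V : Subgroup (PSL2 F)) ∧
      ∃ μ : F, M * (b⁻¹).1 = μ • (1 : Matrix (Fin 2) (Fin 2) F) := by
    rcases hsign e₁ he₁ with rfl | rfl <;> rcases hsign e₂ he₂ with rfl | rfl
    · refine ⟨1, by rw [map_one]; exact Subgroup.one_mem _, ?_⟩
      exact twist_scalar h2 1 1 he₁ he₂ M A₁.1 A₂.1 (1 : SL2 F).1 ((1 : SL2 F)⁻¹).1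
        (sl2_mul_inv_val 1) (sl2_inv_mul_val 1) ht₁ hd₁ ht₂ hd₂ hanti hM₁ hM₂
        (by rw [Matrix.SpecialLinearGroup.coe_one, Matrix.one_mul, Matrix.mul_one, one_smul])
        (by rw [Matrix.SpecialLinearGroup.coe_one, Matrix.one_mul, Matrix.mul_one, one_smul])
    · refine ⟨A₁, hv₁V, ?_⟩
      exact twist_scalar h2 1 (-1) he₁ he₂ M A₁.1 A₂.1 A₁.1 (A₁⁻¹).1
        (sl2_mul_inv_val A₁) (sl2_inv_mul_val A₁) ht₁ hd₁ ht₂ hd₂ hanti hM₁ hM₂
        (by rw [one_smul]) (by rw [neg_one_smul]; exact hanti')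
    · refine ⟨A₂, hv₂V, ?_⟩
      exact twist_scalar h2 (-1) 1 he₁ he₂ M A₁.1 A₂.1 A₂.1 (A₂⁻¹).1
        (sl2_mul_inv_val A₂) (sl2_inv_mul_val A₂) ht₁ hd₁ ht₂ hd₂ hanti hM₁ hM₂
        (by rw [neg_one_smul]; exact hanti'') (by rw [one_smul])
    · refine ⟨A₁ * A₂, by rw [map_mul]; exact Subgroup.mul_mem _ hv₁V hv₂V, ?_⟩
      exact twist_scalar h2 (-1) (-1) he₁ he₂ M A₁.1 A₂.1 (A₁ * A₂).1 ((A₁ * A₂)⁻¹).1
        (sl2_mul_inv_val _) (sl2_inv_mul_val _) ht₁ hd₁ ht₂ hd₂ hanti hM₁ hM₂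
        (by
          rw [neg_one_smul, Matrix.SpecialLinearGroup.coe_mul, Matrix.mul_assoc, hanti'',
            Matrix.mul_neg])
        (by
          rw [neg_one_smul, Matrix.SpecialLinearGroup.coe_mul, ← Matrix.mul_assoc A₂.1, hanti'',
            Matrix.neg_mul, neg_neg])
  obtain ⟨b, hbV, μ, hμ⟩ := hex
  have hMb : M = μ • b.1 := by
    calc M = (M * (b⁻¹).1) * b.1 := by
          rw [Matrix.mul_assoc, sl2_inv_mul_val, Matrix.mul_one]
      _ = μ • b.1 := by rw [hμ, Matrix.smul_mul, Matrix.one_mul]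
  have hμ0 : μ ≠ 0 := by
    rintro rfl
    rw [zero_smul] at hMb
    rw [hMb, Matrix.zero_mul] at hMN
    have := congrFun (congrFun hMN 0) 0
    simp at this
  have hNb : N = μ⁻¹ • (b⁻¹).1 := by
    have h3 : b.1 * N = μ⁻¹ • (1 : Matrix (Fin 2) (Fin 2) F) := by
      have h4 : μ • (b.1 * N) = 1 := by rw [← Matrix.smul_mul, ← hMb, hMN]
      calc b.1 * N = μ⁻¹ • (μ • (b.1 * N)) := by rw [smul_smul, inv_mul_cancel₀ hμ0, one_smul]
        _ = μ⁻¹ • (1 : Matrix (Fin 2) (Fin 2) F) := by rw [h4]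
    calc N = (b⁻¹).1 * (b.1 * N) := by rw [← Matrix.mul_assoc, sl2_inv_mul_val, Matrix.one_mul]
      _ = μ⁻¹ • (b⁻¹).1 := by rw [h3, Matrix.mul_smul, Matrix.mul_one]
  refine ⟨pq b, hbV, fun x => ?_⟩
  obtain ⟨X, rfl⟩ := pq_surj x
  rw [hkey X, ← map_inv, ← map_mul, ← map_mul]
  congr 1
  apply Subtype.ext
  rw [hΦ X, hMb, hNb, Matrix.SpecialLinearGroup.coe_mul, Matrix.SpecialLinearGroup.coe_mul,
    Matrix.smul_mul, Matrix.smul_mul, Matrix.mul_smul, smul_smul, mul_inv_cancel₀ hμ0, one_smul]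

end Psl

end Cfsg.Agent.H62.JR
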