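import Mathlib
import Cfsg.Agent.H91.L34NDefs

/-!
# S3154-ID (helper62): identification of the two preimages with the preimages of `e1`, `e2`
-/

set_option autoImplicit false
set_option linter.style.haveILetI false
set_option linter.unusedSimpArgs false
set_option linter.unusedSectionVars false
set_option linter.unusedVariables false

namespace Cfsg.Agent.H62.L34N

open Subgroup Cfsg.Agent.H60 Cfsg.Agent.H60.L34 Cfsg.Agent.H91.L34N

universe u v

theorem id_aux (he : E16Stmt.{v}) {X : Type u} [Group X] {F : Type v} [Field F] [Fintype F]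
    (hF : Fintype.card F = 4) (φ' : X →* Matrix.ProjectiveSpecialLinearGroup (Fin 3) F)
    (H : Subgroup X) (hrange : ∀ x ∈ H, φ' x ∈ (heisPSL (F := F)).range) (hker : φ'.ker ≤ H)
    (hexp : ∀ x ∈ H, x * x ∈ φ'.ker) (hcard : Nat.card ↥(H.map φ') = 16) :
    H = (e1 F).comap φ' ∨ H = (e2 F).comap φ' := by
  have hinj := heisPSL_injective (F := F)
  have hle : H.map φ' ≤ (heisPSL (F := F)).range := by
    rintro _ ⟨x, hx, rfl⟩
    exact hrange x hx
  have hmc : ((H.map φ').comap heisPSL).map heisPSL = H.map φ' := Subgroup.map_comap_eq_self hle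
  have hA1 : ∀ a ∈ (H.map φ').comap (heisPSL (F := F)), a * a = 1 := by
    intro a ha
    obtain ⟨x, hx, hxa⟩ := ha
    apply hinj
    rw [map_mul, map_one, ← hxa, ← map_mul]
    exact hexp x hx
  have hA2 : Nat.card ↥((H.map φ').comap (heisPSL (F := F))) = 16 := by
    rw [← Subgroup.card_map_of_injective hinj, hmc, hcard]
  have hH : H = (H.map φ').comap φ' := (Subgroup.comap_map_eq_self hker).symm
  rcases he hF _ hA1 hA2 with h | h
  · left
    rw [hH]
    congr 1
    rw [← hmc, h]
    rfl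
  · right
    rw [hH]
    congr 1
    rw [← hmc, h]
    rfl

theorem id (hs : SylStmt.{v}) (he : E16Stmt.{v}) : IdStmt.{u, v} := by
  intro X _ _ F _ _ hF φ hφ T H K hHK hHT hKT hkH hkK heH heK hcH hcK
  haveI : Fact (Nat.Prime 2) := ⟨Nat.prime_two⟩
  obtain ⟨c, hc⟩ := hs hF (T.mapSurjective hφ)
  obtain ⟨φ', hφ'⟩ : ∃ φ' : X →* Matrix.ProjectiveSpecialLinearGroup (Fin 3) F,
      φ' = (MulAut.conj c).toMonoidHom.comp φ := ⟨_, rfl⟩
  have happ : ∀ x, φ' x = c * φ x * c⁻¹ := by
    intro x; rw [hφ']; rfl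
  have hker : φ'.ker = φ.ker := by
    ext x
    rw [MonoidHom.mem_ker, MonoidHom.mem_ker, happ]
    constructor
    · intro h
      have h1 : c⁻¹ * (c * φ x * c⁻¹) * c = φ x := by group
      rw [← h1, h]; group
    · intro h
      rw [h]; group
  have hsurj : Function.Surjective φ' := by
    intro y
    obtain ⟨x, hx⟩ := hφ (c⁻¹ * y * c)
    refine ⟨x, ?_⟩
    rw [happ, hx]; group
  have hrange : ∀ x ∈ (T : Subgroup X), φ' x ∈ (heisPSL (F := F)).range := by
    intro x hx
    rw [happ]
    apply hc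
    show φ x ∈ ((T.mapSurjective hφ : Sylow 2 _) : Subgroup _)
    rw [Sylow.coe_mapSurjective]
    exact Subgroup.mem_map_of_mem _ hx
  have hcard : ∀ A : Subgroup X, Nat.card ↥(A.map φ) = 16 → Nat.card ↥(A.map φ') = 16 := by
    intro A hA
    have e : A.map φ' = (A.map φ).map (MulAut.conj c).toMonoidHom := by
      rw [Subgroup.map_map, hφ']
    rw [e, Subgroup.card_map_of_injective (MulAut.conj c).injective, hA]
  have h1 := id_aux he hF φ' H (fun x hx => hrange x (hHT hx)) (hker ▸ hkH)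
    (fun x hx => hker ▸ heH x hx) (hcard H hcH)
  have h2 := id_aux he hF φ' K (fun x hx => hrange x (hKT hx)) (hker ▸ hkK)
    (fun x hx => hker ▸ heK x hx) (hcard K hcK)
  refine ⟨φ', hsurj, hker, ?_⟩
  rcases h1 with h1 | h1 <;> rcases h2 with h2 | h2
  · exact absurd (h1.trans h2.symm) hHK
  · exact Or.inl ⟨h1, h2⟩
  · exact Or.inr ⟨h1, h2⟩
  · exact absurd (h1.trans h2.symm) hHK

end Cfsg.Agent.H62.L34N
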