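import Mathlib
import Cfsg.Agent.H85.McLDefs

set_option autoImplicit false
set_option linter.style.haveILetI false
set_option linter.unusedSimpArgs false
set_option linter.unusedSectionVars false
set_option linter.unusedVariables false

namespace Cfsg.Agent.H62.McL

open Module Cfsg.Agent.H85.McL

variable {p : ℕ} [Fact p.Prime] {V : Type*} [AddCommGroup V] [Module (ZMod p) V]

/-- the centers in the annihilator of `Y` that form a root with every non-zero member of `Y`. -/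
def xiSub (G : Subgroup (V ≃ₗ[ZMod p] V)) (Y : Submodule (ZMod p) (Dual (ZMod p) V)) :
    Submodule (ZMod p) V where
  carrier := {c' | (∀ y ∈ Y, y c' = 0) ∧ (c' = 0 ∨ ∀ y ∈ Y, y ≠ 0 → Root G c' y)}
  add_mem' := by
    rintro u w ⟨hu1, hu2⟩ ⟨hw1, hw2⟩
    refine ⟨fun y hy => by rw [map_add, hu1 y hy, hw1 y hy, add_zero], ?_⟩
    by_cases huw : u + w = 0
    · exact Or.inl huw
    · right
      intro y hy hy0
      rcases hu2 with hu0 | hu2
      · rw [hu0, zero_add]
        rcases hw2 with hw0 | hw2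
        · exact absurd (by rw [hu0, hw0, add_zero]) huw
        · exact hw2 y hy hy0
      · rcases hw2 with hw0 | hw2
        · rw [hw0, add_zero]; exact hu2 y hy hy0
        · exact (hu2 y hy hy0).add_left (hw2 y hy hy0) huw
  zero_mem' := ⟨fun y _ => map_zero y, Or.inl rfl⟩
  smul_mem' := by
    rintro k u ⟨hu1, hu2⟩
    refine ⟨fun y hy => by rw [map_smul, hu1 y hy, smul_zero], ?_⟩
    by_cases hk : k = 0
    · left; rw [hk, zero_smul]
    · rcases hu2 with hu0 | hu2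
      · left; rw [hu0, smul_zero]
      · right; intro y hy hy0; exact (hu2 y hy hy0).smul_left hk

theorem mem_xiSub {G : Subgroup (V ≃ₗ[ZMod p] V)} {Y : Submodule (ZMod p) (Dual (ZMod p) V)}
    {c' : V} : c' ∈ xiSub G Y ↔
      (∀ y ∈ Y, y c' = 0) ∧ (c' = 0 ∨ ∀ y ∈ Y, y ≠ 0 → Root G c' y) := Iff.rfl

/-- the axes in the annihilator of `X` that form a root with every non-zero member of `X`. -/
def psiSub (G : Subgroup (V ≃ₗ[ZMod p] V)) (X : Submodule (ZMod p) V) :
    Submodule (ZMod p) (Dual (ZMod p) V) where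
  carrier := {χ' | (∀ x ∈ X, χ' x = 0) ∧ (χ' = 0 ∨ ∀ x ∈ X, x ≠ 0 → Root G x χ')}
  add_mem' := by
    rintro u w ⟨hu1, hu2⟩ ⟨hw1, hw2⟩
    refine ⟨fun x hx => by rw [LinearMap.add_apply, hu1 x hx, hw1 x hx, add_zero], ?_⟩
    by_cases huw : u + w = 0
    · exact Or.inl huw
    · right
      intro x hx hx0
      rcases hu2 with hu0 | hu2
      · rw [hu0, zero_add]
        rcases hw2 with hw0 | hw2
        · exact absurd (by rw [hu0, hw0, add_zero]) huw
        · exact hw2 x hx hx0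
      · rcases hw2 with hw0 | hw2
        · rw [hw0, add_zero]; exact hu2 x hx hx0
        · exact (hu2 x hx hx0).add_right (hw2 x hx hx0) huw
  zero_mem' := ⟨fun x _ => LinearMap.zero_apply x, Or.inl rfl⟩
  smul_mem' := by
    rintro k u ⟨hu1, hu2⟩
    refine ⟨fun x hx => by rw [LinearMap.smul_apply, hu1 x hx, smul_zero], ?_⟩
    by_cases hk : k = 0
    · left; rw [hk, zero_smul]
    · rcases hu2 with hu0 | hu2
      · left; rw [hu0, smul_zero]
      · right; intro x hx hx0; exact (hu2 x hx hx0).smul_right hk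

theorem mem_psiSub {G : Subgroup (V ≃ₗ[ZMod p] V)} {X : Submodule (ZMod p) V}
    {χ' : Dual (ZMod p) V} : χ' ∈ psiSub G X ↔
      (∀ x ∈ X, χ' x = 0) ∧ (χ' = 0 ∨ ∀ x ∈ X, x ≠ 0 → Root G x χ') := Iff.rfl

/-- the evaluation pairing `X → Dual Y`. -/
def pairL (X : Submodule (ZMod p) V) (Y : Submodule (ZMod p) (Dual (ZMod p) V)) :
    ↥X →ₗ[ZMod p] Dual (ZMod p) ↥Y :=
  (Y.subtype.dualMap ∘ₗ Dual.eval (ZMod p) V) ∘ₗ X.subtype

/-- the evaluation pairing `Y → Dual X`. -/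
def pairR (X : Submodule (ZMod p) V) (Y : Submodule (ZMod p) (Dual (ZMod p) V)) :
    ↥Y →ₗ[ZMod p] Dual (ZMod p) ↥X :=
  X.subtype.dualMap ∘ₗ Y.subtype

theorem pairL_injective {X : Submodule (ZMod p) V} {Y : Submodule (ZMod p) (Dual (ZMod p) V)}
    (hND1 : ∀ x ∈ X, (∀ y ∈ Y, y x = 0) → x = 0) : Function.Injective (pairL X Y) := by
  rw [injective_iff_map_eq_zero]
  intro x hx
  apply Subtype.ext
  apply hND1 x.1 x.2
  intro y hy
  exact LinearMap.congr_fun hx ⟨y, hy⟩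

theorem pairR_injective {X : Submodule (ZMod p) V} {Y : Submodule (ZMod p) (Dual (ZMod p) V)}
    (hND2 : ∀ y ∈ Y, (∀ x ∈ X, y x = 0) → y = 0) : Function.Injective (pairR X Y) := by
  rw [injective_iff_map_eq_zero]
  intro y hy
  apply Subtype.ext
  apply hND2 y.1 y.2
  intro x hx
  exact LinearMap.congr_fun hy ⟨x, hx⟩

theorem pair_finrank [Finite V] {X : Submodule (ZMod p) V}
    {Y : Submodule (ZMod p) (Dual (ZMod p) V)}
    (hND1 : ∀ x ∈ X, (∀ y ∈ Y, y x = 0) → x = 0)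
    (hND2 : ∀ y ∈ Y, (∀ x ∈ X, y x = 0) → y = 0) :
    finrank (ZMod p) ↥Y = finrank (ZMod p) ↥X := by
  haveI : Module.Finite (ZMod p) V := Module.Finite.of_finite
  have h1 := LinearMap.finrank_le_finrank_of_injective (pairL_injective hND1)
  have h2 := LinearMap.finrank_le_finrank_of_injective (pairR_injective hND2)
  rw [Subspace.dual_finrank_eq] at h1 h2
  omega

theorem pair_decomp_left [Finite V] {X : Submodule (ZMod p) V}
    {Y : Submodule (ZMod p) (Dual (ZMod p) V)}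
    (hND1 : ∀ x ∈ X, (∀ y ∈ Y, y x = 0) → x = 0)
    (hND2 : ∀ y ∈ Y, (∀ x ∈ X, y x = 0) → y = 0) (v : V) :
    ∃ x ∈ X, ∀ y ∈ Y, y (v - x) = 0 := by
  haveI : Module.Finite (ZMod p) V := Module.Finite.of_finite
  have hfr := pair_finrank hND1 hND2
  have hsL : Function.Surjective (pairL X Y) :=
    (LinearMap.injective_iff_surjective_of_finrank_eq_finrank
      (by rw [Subspace.dual_finrank_eq, hfr])).mp (pairL_injective hND1)
  obtain ⟨x, hx⟩ := hsL (Y.subtype.dualMap (Dual.eval (ZMod p) V v))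
  refine ⟨x.1, x.2, ?_⟩
  intro y hy
  have h1 := LinearMap.congr_fun hx ⟨y, hy⟩
  have e1 : pairL X Y x ⟨y, hy⟩ = y x.1 := rfl
  have e2 : (Y.subtype.dualMap (Dual.eval (ZMod p) V v)) ⟨y, hy⟩ = y v := rfl
  rw [e1, e2] at h1
  rw [map_sub, h1, sub_self]

theorem pair_decomp_right [Finite V] {X : Submodule (ZMod p) V}
    {Y : Submodule (ZMod p) (Dual (ZMod p) V)}
    (hND1 : ∀ x ∈ X, (∀ y ∈ Y, y x = 0) → x = 0)
    (hND2 : ∀ y ∈ Y, (∀ x ∈ X, y x = 0) → y = 0) (χ : Dual (ZMod p) V) :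
    ∃ y ∈ Y, ∀ x ∈ X, (χ - y) x = 0 := by
  haveI : Module.Finite (ZMod p) V := Module.Finite.of_finite
  have hfr := pair_finrank hND1 hND2
  have hsR : Function.Surjective (pairR X Y) :=
    (LinearMap.injective_iff_surjective_of_finrank_eq_finrank
      (by rw [Subspace.dual_finrank_eq, hfr])).mp (pairR_injective hND2)
  obtain ⟨y, hy⟩ := hsR (X.subtype.dualMap χ)
  refine ⟨y.1, y.2, ?_⟩
  intro x hx
  have h1 := LinearMap.congr_fun hy ⟨x, hx⟩
  have e1 : pairR X Y y ⟨x, hx⟩ = y.1 x := rfl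
  have e2 : (X.subtype.dualMap χ) ⟨x, hx⟩ = χ x := rfl
  rw [e1, e2] at h1
  rw [LinearMap.sub_apply, h1, sub_self]

theorem exists_common_ker_left [Finite V] {X : Submodule (ZMod p) V}
    (h3 : 3 ≤ finrank (ZMod p) ↥X) (f g : Dual (ZMod p) V) :
    ∃ x ∈ X, x ≠ 0 ∧ f x = 0 ∧ g x = 0 := by
  haveI : Module.Finite (ZMod p) V := Module.Finite.of_finite
  obtain ⟨T, hT⟩ : ∃ T : ↥X →ₗ[ZMod p] ZMod p × ZMod p, T = (f.prod g) ∘ₗ X.subtype :=
    ⟨_, rfl⟩
  have hlt : finrank (ZMod p) (ZMod p × ZMod p) < finrank (ZMod p) ↥X := by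
    rw [Module.finrank_prod, Module.finrank_self]; omega
  have hne := LinearMap.ker_ne_bot_of_finrank_lt hlt (f := T)
  obtain ⟨x, hx, hx0⟩ := (Submodule.ne_bot_iff _).mp hne
  rw [LinearMap.mem_ker, hT] at hx
  refine ⟨x.1, x.2, fun h => hx0 (Subtype.ext h), ?_, ?_⟩
  · exact congrArg Prod.fst hx
  · exact congrArg Prod.snd hx

theorem exists_common_ker_right [Finite V] {Y : Submodule (ZMod p) (Dual (ZMod p) V)}
    (h3 : 3 ≤ finrank (ZMod p) ↥Y) (u w : V) :
    ∃ y ∈ Y, y ≠ 0 ∧ y u = 0 ∧ y w = 0 := by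
  haveI : Module.Finite (ZMod p) V := Module.Finite.of_finite
  obtain ⟨T, hT⟩ : ∃ T : ↥Y →ₗ[ZMod p] ZMod p × ZMod p,
      T = ((Dual.eval (ZMod p) V u).prod (Dual.eval (ZMod p) V w)) ∘ₗ Y.subtype := ⟨_, rfl⟩
  have hlt : finrank (ZMod p) (ZMod p × ZMod p) < finrank (ZMod p) ↥Y := by
    rw [Module.finrank_prod, Module.finrank_self]; omega
  have hne := LinearMap.ker_ne_bot_of_finrank_lt hlt (f := T)
  obtain ⟨y, hy, hy0⟩ := (Submodule.ne_bot_iff _).mp hne
  rw [LinearMap.mem_ker, hT] at hy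
  refine ⟨y.1, y.2, fun h => hy0 (Subtype.ext h), ?_, ?_⟩
  · exact congrArg Prod.fst hy
  · exact congrArg Prod.snd hy

theorem pair_prop_left {X : Submodule (ZMod p) V} {Y : Submodule (ZMod p) (Dual (ZMod p) V)}
    (hND1 : ∀ x ∈ X, (∀ y ∈ Y, y x = 0) → x = 0) {u w : V} (hu : u ∈ X) (hw : w ∈ X)
    (h : ∀ y ∈ Y, y w = 0 → y u = 0) : ∃ m : ZMod p, u = m • w := by
  by_cases hw0 : w = 0
  · refine ⟨0, ?_⟩
    rw [zero_smul]
    apply hND1 u hu
    intro y hy
    exact h y hy (by rw [hw0, map_zero])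
  · obtain ⟨y₁, hy₁, hy₁w⟩ : ∃ y₁ ∈ Y, y₁ w ≠ 0 := by
      by_contra hcon
      push Not at hcon
      exact hw0 (hND1 w hw hcon)
    refine ⟨y₁ u / y₁ w, ?_⟩
    have h0 : u - (y₁ u / y₁ w) • w = 0 := by
      apply hND1 _ (X.sub_mem hu (X.smul_mem _ hw))
      intro y hy
      have h1 := h (y - (y w / y₁ w) • y₁) (Y.sub_mem hy (Y.smul_mem _ hy₁)) (by
        rw [LinearMap.sub_apply, LinearMap.smul_apply, smul_eq_mul, div_mul_cancel₀ _ hy₁w,
          sub_self])
      rw [LinearMap.sub_apply, LinearMap.smul_apply, smul_eq_mul] at h1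
      rw [map_sub, map_smul, smul_eq_mul]
      have h2 : y u = y w / y₁ w * y₁ u := sub_eq_zero.mp h1
      rw [h2]
      field_simp
      ring
    exact sub_eq_zero.mp h0

theorem pair_prop_right {X : Submodule (ZMod p) V} {Y : Submodule (ZMod p) (Dual (ZMod p) V)}
    (hND2 : ∀ y ∈ Y, (∀ x ∈ X, y x = 0) → y = 0) {f g : Dual (ZMod p) V} (hf : f ∈ Y)
    (hg : g ∈ Y) (h : ∀ x ∈ X, g x = 0 → f x = 0) : ∃ m : ZMod p, f = m • g := by
  by_cases hg0 : g = 0
  · refine ⟨0, ?_⟩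
    rw [zero_smul]
    apply hND2 f hf
    intro x hx
    exact h x hx (by rw [hg0, LinearMap.zero_apply])
  · obtain ⟨x₁, hx₁, hgx₁⟩ : ∃ x₁ ∈ X, g x₁ ≠ 0 := by
      by_contra hcon
      push Not at hcon
      exact hg0 (hND2 g hg hcon)
    refine ⟨f x₁ / g x₁, ?_⟩
    have h0 : f - (f x₁ / g x₁) • g = 0 := by
      apply hND2 _ (Y.sub_mem hf (Y.smul_mem _ hg))
      intro x hx
      have h1 := h (x - (g x / g x₁) • x₁) (X.sub_mem hx (X.smul_mem _ hx₁)) (by
        rw [map_sub, map_smul, smul_eq_mul, div_mul_cancel₀ _ hgx₁, sub_self])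
      rw [map_sub, map_smul, smul_eq_mul] at h1
      rw [LinearMap.sub_apply, LinearMap.smul_apply, smul_eq_mul]
      have h2 : f x = g x / g x₁ * f x₁ := sub_eq_zero.mp h1
      rw [h2]
      field_simp
      ring
    exact sub_eq_zero.mp h0

/-- a root with non-zero `X`-part of the center has its `X⁰`-part of the axis in `psiSub`. -/
theorem grow_G [Finite V] {G : Subgroup (V ≃ₗ[ZMod p] V)} {X : Submodule (ZMod p) V}
    {Y : Submodule (ZMod p) (Dual (ZMod p) V)} (h : Full G X Y)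
    (h3 : 3 ≤ finrank (ZMod p) ↥X) {c c₁ c₀ : V} {χ χ₁ χ₀ : Dual (ZMod p) V}
    (hr : Root G c χ) (hc : c = c₁ + c₀) (hχ : χ = χ₁ + χ₀) (hc₁ : c₁ ∈ X)
    (hc₀ : ∀ y ∈ Y, y c₀ = 0) (hχ₁ : χ₁ ∈ Y) (hχ₀ : ∀ x ∈ X, χ₀ x = 0) (hc₁0 : c₁ ≠ 0) :
    χ₀ ∈ psiSub G X := by
  obtain ⟨hND1, hND2, hfull⟩ := h
  refine ⟨hχ₀, ?_⟩
  by_cases hχ₀0 : χ₀ = 0
  · exact Or.inl hχ₀0
  right
  obtain ⟨y, hy, hyc₁⟩ : ∃ y ∈ Y, y c₁ ≠ 0 := by
    by_contra hcon
    push Not at hcon
    exact hc₁0 (hND1 c₁ hc₁ hcon)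
  obtain ⟨x, hx, hx0, hyx, hχ₁x⟩ := exists_common_ker_left h3 y χ₁
  have hy0 : y ≠ 0 := by
    rintro rfl; exact hyc₁ (LinearMap.zero_apply _)
  have hxy : Root G x y := hfull x hx y hy hx0 hy0 hyx
  have hyc : y c ≠ 0 := by
    rw [hc, map_add, hc₀ y hy, add_zero]; exact hyc₁
  have hχx : χ x = 0 := by
    rw [hχ, LinearMap.add_apply, hχ₁x, hχ₀ x hx, add_zero]
  have hxχ : Root G x χ := hxy.swap_axis hr hyc hχx
  have hxχ₀ : Root G x χ₀ := by
    by_cases hχ₁0 : χ₁ = 0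
    · rw [hχ, hχ₁0, zero_add] at hxχ; exact hxχ
    · have h1 : Root G x χ₁ := hfull x hx χ₁ hχ₁ hx0 hχ₁0 hχ₁x
      have e : χ + -χ₁ = χ₀ := by rw [hχ]; abel
      have h2 := hxχ.add_right h1.neg_right (by rw [e]; exact hχ₀0)
      rwa [e] at h2
  intro x' hx' hx'0
  by_cases hsep : ∃ y' ∈ Y, y' (x' - x) = 0 ∧ y' x ≠ 0
  · obtain ⟨y', hy', hy'1, hy'2⟩ := hsep
    by_cases hd : x' - x = 0
    · rw [sub_eq_zero.mp hd]; exact hxχ₀
    · have hy'0 : y' ≠ 0 := by
        rintro rfl; exact hy'2 (LinearMap.zero_apply _)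
      have hb : Root G (x' - x) y' := hfull _ (X.sub_mem hx' hx) y' hy' hd hy'0 hy'1
      have hb' := hb.smul_left (k := (y' x)⁻¹) (inv_ne_zero hy'2)
      have hcj := hxχ₀.conj hb'
      have e1 : x + y' x • ((y' x)⁻¹ • (x' - x)) = x' := by
        rw [smul_smul, mul_inv_cancel₀ hy'2, one_smul]; abel
      have e2 : χ₀ - χ₀ ((y' x)⁻¹ • (x' - x)) • y' = χ₀ := by
        rw [hχ₀ _ (X.smul_mem _ (X.sub_mem hx' hx)), zero_smul, sub_zero]
      rwa [e1, e2] at hcj
  · push Not at hsep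
    obtain ⟨m, hm⟩ := pair_prop_left hND1 hx (X.sub_mem hx' hx) hsep
    have hm0 : m ≠ 0 := by
      rintro rfl; rw [zero_smul] at hm; exact hx0 hm
    have e0 : m⁻¹ • x = x' - x := by
      have := congrArg (fun t => m⁻¹ • t) hm
      simp only [smul_smul, inv_mul_cancel₀ hm0, one_smul] at this
      exact this
    have e : x' = (1 + m⁻¹) • x := by
      rw [add_smul, one_smul, e0]; abel
    have hk : (1 + m⁻¹ : ZMod p) ≠ 0 := by
      intro hk; rw [hk, zero_smul] at e; exact hx'0 e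
    rw [e]; exact hxχ₀.smul_left hk

/-- a root with non-zero `Y`-part of the axis has its `Y₀`-part of the center in `xiSub`. -/
theorem grow_G' [Finite V] {G : Subgroup (V ≃ₗ[ZMod p] V)} {X : Submodule (ZMod p) V}
    {Y : Submodule (ZMod p) (Dual (ZMod p) V)} (h : Full G X Y)
    (h3 : 3 ≤ finrank (ZMod p) ↥Y) {c c₁ c₀ : V} {χ χ₁ χ₀ : Dual (ZMod p) V}
    (hr : Root G c χ) (hc : c = c₁ + c₀) (hχ : χ = χ₁ + χ₀) (hc₁ : c₁ ∈ X)
    (hc₀ : ∀ y ∈ Y, y c₀ = 0) (hχ₁ : χ₁ ∈ Y) (hχ₀ : ∀ x ∈ X, χ₀ x = 0) (hχ₁0 : χ₁ ≠ 0) :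
    c₀ ∈ xiSub G Y := by
  obtain ⟨hND1, hND2, hfull⟩ := h
  refine ⟨hc₀, ?_⟩
  by_cases hc₀0 : c₀ = 0
  · exact Or.inl hc₀0
  right
  obtain ⟨x, hx, hχ₁x⟩ : ∃ x ∈ X, χ₁ x ≠ 0 := by
    by_contra hcon
    push Not at hcon
    exact hχ₁0 (hND2 χ₁ hχ₁ hcon)
  obtain ⟨y, hy, hy0, hyx, hyc₁⟩ := exists_common_ker_right h3 x c₁
  have hx0 : x ≠ 0 := by
    rintro rfl; exact hχ₁x (map_zero _)
  have hxy : Root G x y := hfull x hx y hy hx0 hy0 hyx
  have hχx : χ x ≠ 0 := by
    rw [hχ, LinearMap.add_apply, hχ₀ x hx, add_zero]; exact hχ₁x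
  have hyc : y c = 0 := by
    rw [hc, map_add, hyc₁, hc₀ y hy, add_zero]
  have hcy : Root G c y := hr.swap_axis hxy hχx hyc
  have hc₀y : Root G c₀ y := by
    by_cases hc₁0 : c₁ = 0
    · rw [hc, hc₁0, zero_add] at hcy; exact hcy
    · have h1 : Root G c₁ y := hfull c₁ hc₁ y hy hc₁0 hy0 hyc₁
      have e : c + -c₁ = c₀ := by rw [hc]; abel
      have h2 := hcy.add_left h1.neg_left (by rw [e]; exact hc₀0)
      rwa [e] at h2
  intro y' hy' hy'0
  by_cases hsep : ∃ x'' ∈ X, (y - y') x'' = 0 ∧ y x'' ≠ 0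
  · obtain ⟨x'', hx'', h1, h2⟩ := hsep
    by_cases hd : y - y' = 0
    · rw [← sub_eq_zero.mp hd]; exact hc₀y
    · have hx''0 : x'' ≠ 0 := by
        rintro rfl; exact h2 (map_zero _)
      have hb : Root G x'' (y - y') := hfull x'' hx'' _ (Y.sub_mem hy hy') hx''0 hd h1
      have hb' := hb.smul_right (k := (y x'')⁻¹) (inv_ne_zero h2)
      have hcj := hc₀y.conj hb'
      have e1 : c₀ + ((y x'')⁻¹ • (y - y')) c₀ • x'' = c₀ := by
        rw [LinearMap.smul_apply, LinearMap.sub_apply, hc₀ y hy, hc₀ y' hy', sub_zero,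
          smul_zero, zero_smul, add_zero]
      have e2 : y - y x'' • ((y x'')⁻¹ • (y - y')) = y' := by
        rw [smul_smul, mul_inv_cancel₀ h2, one_smul]; abel
      rwa [e1, e2] at hcj
  · push Not at hsep
    obtain ⟨m, hm⟩ := pair_prop_right hND2 hy (Y.sub_mem hy hy') hsep
    have hm0 : m ≠ 0 := by
      rintro rfl; rw [zero_smul] at hm; exact hy0 hm
    have e0 : m⁻¹ • y = y - y' := by
      have := congrArg (fun t => m⁻¹ • t) hm
      simp only [smul_smul, inv_mul_cancel₀ hm0, one_smul] at this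
      exact this
    have e1 : (1 - m⁻¹) • y = y - m⁻¹ • y := by module
    have e : y' = (1 - m⁻¹) • y := by
      rw [e1, e0]; abel
    have hk : (1 - m⁻¹ : ZMod p) ≠ 0 := by
      intro hk; rw [hk, zero_smul] at e; exact hy'0 e
    rw [e]; exact hc₀y.smul_right hk

theorem full_grow [Finite V] {G : Subgroup (V ≃ₗ[ZMod p] V)}
    (hinvL : ∀ U : Submodule (ZMod p) V,
      (∀ c χ, Root G c χ → c ∈ U ∨ ∀ u ∈ U, χ u = 0) → U = ⊥ ∨ U = ⊤)
    (hinvR : ∀ Θ : Submodule (ZMod p) (Dual (ZMod p) V),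
      (∀ c χ, Root G c χ → χ ∈ Θ ∨ ∀ θ ∈ Θ, θ c = 0) → Θ = ⊥ ∨ Θ = ⊤)
    (hext : ∀ (X : Submodule (ZMod p) V) (Y : Submodule (ZMod p) (Dual (ZMod p) V)) (c' : V)
      (χ' : Dual (ZMod p) V), Full G X Y → (∀ y ∈ Y, y c' = 0) → (∀ x ∈ X, χ' x = 0) →
      χ' c' ≠ 0 → (∀ x ∈ X, x ≠ 0 → Root G x χ') → (∀ y ∈ Y, y ≠ 0 → Root G c' y) →
      Full G (X ⊔ Submodule.span (ZMod p) {c'}) (Y ⊔ Submodule.span (ZMod p) {χ'}))
    {X : Submodule (ZMod p) V} {Y : Submodule (ZMod p) (Dual (ZMod p) V)} (h : Full G X Y)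
    (h3 : 3 ≤ Module.finrank (ZMod p) ↥X) :
    ∀ a φ, a ≠ 0 → φ ≠ 0 → φ a = 0 → Root G a φ := by
  haveI : Module.Finite (ZMod p) V := Module.Finite.of_finite
  suffices H : ∀ n : ℕ, ∀ (X : Submodule (ZMod p) V)
      (Y : Submodule (ZMod p) (Dual (ZMod p) V)), Full G X Y →
      3 ≤ finrank (ZMod p) ↥X → finrank (ZMod p) V - finrank (ZMod p) ↥X = n →
      ∀ a φ, a ≠ 0 → φ ≠ 0 → φ a = 0 → Root G a φ from H _ X Y h h3 rfl
  intro n
  induction n using Nat.strong_induction_on with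
  | _ n ih =>
    intro X Y h h3 hn
    obtain ⟨hND1, hND2, hfull⟩ := id h
    have hfr : finrank (ZMod p) ↥Y = finrank (ZMod p) ↥X := pair_finrank hND1 hND2
    have h3Y : 3 ≤ finrank (ZMod p) ↥Y := by rw [hfr]; exact h3
    by_cases hA : ∃ c' ∈ xiSub G Y, ∃ χ' ∈ psiSub G X, χ' c' ≠ 0
    · obtain ⟨c', ⟨hc'1, hc'2⟩, χ', ⟨hχ'1, hχ'2⟩, hne⟩ := hA
      have hc'0 : c' ≠ 0 := by
        rintro rfl; exact hne (map_zero _)
      have hχ'0 : χ' ≠ 0 := by
        rintro rfl; exact hne (LinearMap.zero_apply _)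
      have hα : ∀ x ∈ X, x ≠ 0 → Root G x χ' := hχ'2.resolve_left hχ'0
      have hβ : ∀ y ∈ Y, y ≠ 0 → Root G c' y := hc'2.resolve_left hc'0
      have hF' := hext X Y c' χ' h hc'1 hχ'1 hne hα hβ
      have hc'X : c' ∉ X := fun hmem => hc'0 (hND1 c' hmem hc'1)
      have hlt : X < X ⊔ Submodule.span (ZMod p) {c'} := by
        refine lt_of_le_of_ne le_sup_left ?_
        intro heq
        apply hc'X
        rw [heq]
        exact Submodule.mem_sup_right (Submodule.mem_span_singleton_self c')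
      have hfl := Submodule.finrank_lt_finrank_of_lt hlt
      have hle : finrank (ZMod p) ↥(X ⊔ Submodule.span (ZMod p) {c'}) ≤ finrank (ZMod p) V :=
        Submodule.finrank_le _
      exact ih (finrank (ZMod p) V - finrank (ZMod p) ↥(X ⊔ Submodule.span (ZMod p) {c'}))
        (by omega) _ _ hF' (by omega) rfl
    · push Not at hA
      have hdecL := pair_decomp_left hND1 hND2
      have hdecR := pair_decomp_right hND1 hND2
      have hXne : X ≠ ⊥ := by
        rintro rfl; rw [finrank_bot] at h3; omega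
      have hYne : Y ≠ ⊥ := by
        rintro rfl; rw [finrank_bot] at h3Y; omega
      have hU : X ⊔ xiSub G Y = ⊤ := by
        rcases hinvL (X ⊔ xiSub G Y) (by
          intro c χ hr
          obtain ⟨c₁, hc₁, hc₀⟩ := hdecL c
          obtain ⟨χ₁, hχ₁, hχ₀⟩ := hdecR χ
          have hc : c = c₁ + (c - c₁) := by abel
          have hχ : χ = χ₁ + (χ - χ₁) := by abel
          by_cases hχ₁0 : χ₁ = 0
          · by_cases hc₁0 : c₁ = 0
            · by_cases hkill : ∃ ξ ∈ xiSub G Y, χ ξ ≠ 0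
              · left
                obtain ⟨ξ, ⟨hξ1, hξ2⟩, hξne⟩ := hkill
                have hξ0 : ξ ≠ 0 := by
                  rintro rfl; exact hξne (map_zero _)
                have hξr := hξ2.resolve_left hξ0
                have hcY : ∀ y ∈ Y, y c = 0 := by
                  intro y hy
                  have := hc₀ y hy
                  rwa [hc₁0, sub_zero] at this
                apply Submodule.mem_sup_right
                refine ⟨hcY, Or.inr ?_⟩
                intro y hy hy0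
                exact hr.swap_axis (hξr y hy hy0) hξne (hcY y hy)
              · right
                push Not at hkill
                intro u hu
                obtain ⟨x, hx, ξ, hξ, rfl⟩ := Submodule.mem_sup.mp hu
                have hχX : ∀ x ∈ X, χ x = 0 := by
                  intro x hx
                  have := hχ₀ x hx
                  rwa [hχ₁0, sub_zero] at this
                rw [map_add, hχX x hx, hkill ξ hξ, add_zero]
            · right
              have hχΨ : χ - χ₁ ∈ psiSub G X :=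
                grow_G h h3 hr hc hχ hc₁ hc₀ hχ₁ hχ₀ hc₁0
              rw [hχ₁0, sub_zero] at hχΨ
              intro u hu
              obtain ⟨x, hx, ξ, hξ, rfl⟩ := Submodule.mem_sup.mp hu
              rw [map_add, hχΨ.1 x hx, hA ξ hξ χ hχΨ, add_zero]
          · left
            have hcΞ : c - c₁ ∈ xiSub G Y :=
              grow_G' h h3Y hr hc hχ hc₁ hc₀ hχ₁ hχ₀ hχ₁0
            rw [hc]
            exact Submodule.add_mem _ (Submodule.mem_sup_left hc₁)
              (Submodule.mem_sup_right hcΞ)) with hbot | htop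
        · have hle : X ≤ ⊥ := by rw [← hbot]; exact le_sup_left
          exact absurd (le_bot_iff.mp hle) hXne
        · exact htop
      have hΘ : Y ⊔ psiSub G X = ⊤ := by
        rcases hinvR (Y ⊔ psiSub G X) (by
          intro c χ hr
          obtain ⟨c₁, hc₁, hc₀⟩ := hdecL c
          obtain ⟨χ₁, hχ₁, hχ₀⟩ := hdecR χ
          have hc : c = c₁ + (c - c₁) := by abel
          have hχ : χ = χ₁ + (χ - χ₁) := by abel
          by_cases hc₁0 : c₁ = 0
          · by_cases hχ₁0 : χ₁ = 0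
            · by_cases hkill : ∃ ψ' ∈ psiSub G X, ψ' c ≠ 0
              · left
                obtain ⟨ψ', ⟨hψ1, hψ2⟩, hψne⟩ := hkill
                have hψ0 : ψ' ≠ 0 := by
                  rintro rfl; exact hψne (LinearMap.zero_apply _)
                have hψr := hψ2.resolve_left hψ0
                have hχX : ∀ x ∈ X, χ x = 0 := by
                  intro x hx
                  have := hχ₀ x hx
                  rwa [hχ₁0, sub_zero] at this
                apply Submodule.mem_sup_right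
                refine ⟨hχX, Or.inr ?_⟩
                intro x hx hx0
                exact (hψr x hx hx0).swap_axis hr hψne (hχX x hx)
              · right
                push Not at hkill
                intro θ hθ
                obtain ⟨y, hy, ψ', hψ', rfl⟩ := Submodule.mem_sup.mp hθ
                have hcY : ∀ y ∈ Y, y c = 0 := by
                  intro y hy
                  have := hc₀ y hy
                  rwa [hc₁0, sub_zero] at this
                rw [LinearMap.add_apply, hcY y hy, hkill ψ' hψ', add_zero]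
            · right
              have hcΞ : c - c₁ ∈ xiSub G Y :=
                grow_G' h h3Y hr hc hχ hc₁ hc₀ hχ₁ hχ₀ hχ₁0
              rw [hc₁0, sub_zero] at hcΞ
              intro θ hθ
              obtain ⟨y, hy, ψ', hψ', rfl⟩ := Submodule.mem_sup.mp hθ
              rw [LinearMap.add_apply, hcΞ.1 y hy, hA c hcΞ ψ' hψ', add_zero]
          · left
            have hχΨ : χ - χ₁ ∈ psiSub G X :=
              grow_G h h3 hr hc hχ hc₁ hc₀ hχ₁ hχ₀ hc₁0
            rw [hχ]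
            exact Submodule.add_mem _ (Submodule.mem_sup_left hχ₁)
              (Submodule.mem_sup_right hχΨ)) with hbot | htop
        · have hle : Y ≤ ⊥ := by rw [← hbot]; exact le_sup_left
          exact absurd (le_bot_iff.mp hle) hYne
        · exact htop
      have hΞ : xiSub G Y = ⊥ := by
        rw [Submodule.eq_bot_iff]
        intro ξ hξ
        by_contra hξ0
        obtain ⟨f, hf⟩ : ∃ f : Dual (ZMod p) V, f ξ ≠ 0 := by
          by_contra hcon
          push Not at hcon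
          exact hξ0 ((Module.forall_dual_apply_eq_zero_iff (ZMod p) ξ).mp hcon)
        have hfΘ : f ∈ Y ⊔ psiSub G X := by rw [hΘ]; exact Submodule.mem_top
        obtain ⟨y, hy, ψ', hψ', rfl⟩ := Submodule.mem_sup.mp hfΘ
        apply hf
        rw [LinearMap.add_apply, hξ.1 y hy, hA ξ hξ ψ' hψ', add_zero]
      have hΨ : psiSub G X = ⊥ := by
        rw [Submodule.eq_bot_iff]
        intro ψ' hψ'
        by_contra hψ'0
        obtain ⟨v, hv⟩ : ∃ v, ψ' v ≠ 0 := by
          by_contra hcon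
          push Not at hcon
          exact hψ'0 (LinearMap.ext hcon)
        have hvU : v ∈ X ⊔ xiSub G Y := by rw [hU]; exact Submodule.mem_top
        obtain ⟨x, hx, ξ, hξ, rfl⟩ := Submodule.mem_sup.mp hvU
        apply hv
        rw [map_add, hψ'.1 x hx, hA ξ hξ ψ' hψ', add_zero]
      rw [hΞ, sup_bot_eq] at hU
      rw [hΨ, sup_bot_eq] at hΘ
      intro a φ ha hφ h0
      exact hfull a (by rw [hU]; exact Submodule.mem_top) φ
        (by rw [hΘ]; exact Submodule.mem_top) ha hφ h0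

/-! Verbatim restatement of the posted piece statement. -/

example [Finite V] {G : Subgroup (V ≃ₗ[ZMod p] V)}
    (hinvL : ∀ U : Submodule (ZMod p) V,
      (∀ c χ, Root G c χ → c ∈ U ∨ ∀ u ∈ U, χ u = 0) → U = ⊥ ∨ U = ⊤)
    (hinvR : ∀ Θ : Submodule (ZMod p) (Dual (ZMod p) V),
      (∀ c χ, Root G c χ → χ ∈ Θ ∨ ∀ θ ∈ Θ, θ c = 0) → Θ = ⊥ ∨ Θ = ⊤)
    (hext : ∀ (X : Submodule (ZMod p) V) (Y : Submodule (ZMod p) (Dual (ZMod p) V)) (c' : V)
      (χ' : Dual (ZMod p) V), Full G X Y → (∀ y ∈ Y, y c' = 0) → (∀ x ∈ X, χ' x = 0) →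
      χ' c' ≠ 0 → (∀ x ∈ X, x ≠ 0 → Root G x χ') → (∀ y ∈ Y, y ≠ 0 → Root G c' y) →
      Full G (X ⊔ Submodule.span (ZMod p) {c'}) (Y ⊔ Submodule.span (ZMod p) {χ'}))
    {X : Submodule (ZMod p) V} {Y : Submodule (ZMod p) (Dual (ZMod p) V)} (h : Full G X Y)
    (h3 : 3 ≤ Module.finrank (ZMod p) ↥X) :
    ∀ a φ, a ≠ 0 → φ ≠ 0 → φ a = 0 → Root G a φ :=
  full_grow hinvL hinvR hext h h3

end Cfsg.Agent.H62.McL
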