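import Mathlib
import Cfsg.Agent.H85.McLDefs

set_option autoImplicit false
set_option linter.style.haveILetI false
set_option linter.unusedSimpArgs false
set_option linter.unusedSectionVars false
set_option linter.unusedVariables false

namespace Cfsg.Agent.H62.McL

open Module Cfsg.Agent.H85.McL

variable {p : ℕ} [Fact p.Prime] {V : Type*} [AddCommGroup V] [Module (ZMod p) V]

theorem spFull_base {G : Subgroup (V ≃ₗ[ZMod p] V)} {a b : V} {φ ψ : Dual (ZMod p) V}
    (h : Root G a φ) (h' : Root G b ψ) (h1 : φ b ≠ 0) (h2 : ψ a ≠ 0) :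
    ∃ (X : Submodule (ZMod p) V) (J : V →ₗ[ZMod p] Dual (ZMod p) V), SpFull G X J ∧ a ∈ X := by
  obtain ⟨c, hc⟩ : ∃ c : ZMod p, c = (ψ a * φ b)⁻¹ := ⟨_, rfl⟩
  have hcmul : c * (ψ a * φ b) = 1 := by rw [hc]; exact inv_mul_cancel₀ (mul_ne_zero h2 h1)
  obtain ⟨J, hJ⟩ : ∃ J : V →ₗ[ZMod p] Dual (ZMod p) V,
      J = c • (LinearMap.smulRight ψ φ - LinearMap.smulRight φ ψ) := ⟨_, rfl⟩
  have hJapp : ∀ v w, J v w = c * (ψ v * φ w - φ v * ψ w) := by
    intro v w
    rw [hJ]
    simp only [LinearMap.smul_apply, LinearMap.sub_apply, LinearMap.smulRight_apply,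
      smul_eq_mul]
  have ha0 := h.2.2.1
  have hb0 := h'.2.2.1
  have hψx : ∀ l m : ZMod p, ψ (l • a + m • b) = l * ψ a := by
    intro l m
    rw [map_add, map_smul, map_smul, hb0, smul_eq_mul, smul_eq_mul, mul_zero, add_zero]
  have hφx : ∀ l m : ZMod p, φ (l • a + m • b) = m * φ b := by
    intro l m
    rw [map_add, map_smul, map_smul, ha0, smul_eq_mul, smul_eq_mul, mul_zero, zero_add]
  have haX : a ∈ Submodule.span (ZMod p) ({a, b} : Set V) := Submodule.subset_span (by simp)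
  have hbX : b ∈ Submodule.span (ZMod p) ({a, b} : Set V) := Submodule.subset_span (by simp)
  refine ⟨Submodule.span (ZMod p) {a, b}, J, ⟨?_, ?_, ?_, ?_, ?_⟩, haX⟩
  · intro x _
    rw [hJapp]; ring
  · intro x hx hx0
    obtain ⟨l, m, rfl⟩ := Submodule.mem_span_pair.mp hx
    by_contra hcon
    push Not at hcon
    have hA := hcon a haX
    have hB := hcon b hbX
    rw [hJapp, hψx, hφx, ha0] at hA
    rw [hJapp, hψx, hφx, hb0] at hB
    have hm : m = 0 := by
      have : m * (c * (ψ a * φ b)) = 0 := by linear_combination (-1 : ZMod p) * hA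
      rw [hcmul, mul_one] at this; exact this
    have hl : l = 0 := by
      have : l * (c * (ψ a * φ b)) = 0 := by linear_combination hB
      rw [hcmul, mul_one] at this; exact this
    apply hx0
    rw [hl, hm, zero_smul, zero_smul, add_zero]
  · intro x hx hx0
    obtain ⟨l, m, rfl⟩ := Submodule.mem_span_pair.mp hx
    have hJx : J (l • a + m • b) = (l / φ b) • φ - (m / ψ a) • ψ := by
      ext w
      rw [hJapp, hψx, hφx, LinearMap.sub_apply, LinearMap.smul_apply, LinearMap.smul_apply,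
        smul_eq_mul, smul_eq_mul, hc]
      field_simp
    rw [hJx]
    by_cases hm : m = 0
    · have hl : l ≠ 0 := by
        rintro rfl; apply hx0; rw [hm, zero_smul, zero_smul, add_zero]
      rw [hm, zero_smul, add_zero, zero_div, zero_smul, sub_zero]
      exact h.smul_smul hl (div_ne_zero hl h1)
    · by_cases hl : l = 0
      · rw [hl, zero_smul, zero_add, zero_div, zero_smul, zero_sub]
        exact (h'.smul_smul hm (div_ne_zero hm h2)).neg_right
      · have hk : m / (l * ψ a) ≠ 0 := div_ne_zero hm (mul_ne_zero hl h2)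
        have hcj := h.conj (h'.smul_right hk)
        have hs := hcj.smul_smul hl (div_ne_zero hl h1)
        have e1 : l • (a + ((m / (l * ψ a)) • ψ) a • b) = l • a + m • b := by
          have e : l * (m / (l * ψ a) * ψ a) = m := by field_simp
          rw [LinearMap.smul_apply, smul_eq_mul, smul_add, smul_smul, e]
        have e2 : (l / φ b) • (φ - φ b • (m / (l * ψ a)) • ψ) =
            (l / φ b) • φ - (m / ψ a) • ψ := by
          have e : l / φ b * φ b * (m / (l * ψ a)) = m / ψ a := by field_simp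
          rw [smul_sub, smul_smul, smul_smul, e]
        rwa [e1, e2] at hs
  · intro v
    refine ⟨(ψ v / ψ a) • a + (φ v / φ b) • b, Submodule.mem_span_pair.mpr ⟨_, _, rfl⟩, ?_⟩
    intro y _
    rw [hJapp]
    have e1 : φ (v - ((ψ v / ψ a) • a + (φ v / φ b) • b)) = 0 := by
      rw [map_sub, hφx, div_mul_cancel₀ _ h1, sub_self]
    have e2 : ψ (v - ((ψ v / ψ a) • a + (φ v / φ b) • b)) = 0 := by
      rw [map_sub, hψx, div_mul_cancel₀ _ h2, sub_self]
    rw [e1, e2]; ring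
  · intro w hw
    have hA := hw a haX
    have hB := hw b hbX
    rw [hJapp, ha0] at hA
    rw [hJapp, hb0] at hB
    have hφw : φ w = 0 := by
      have : φ w * (c * (ψ a * φ b)) = 0 := by linear_combination φ b * hA
      rw [hcmul, mul_one] at this; exact this
    have hψw : ψ w = 0 := by
      have : ψ w * (c * (ψ a * φ b)) = 0 := by linear_combination (-ψ a) * hB
      rw [hcmul, mul_one] at this; exact this
    ext v
    rw [hJapp, hφw, hψw]; simp

theorem sp_types {G : Subgroup (V ≃ₗ[ZMod p] V)}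
    (h1 : ∀ a φ φ', Root G a φ → Root G a φ' → ∃ k : ZMod p, φ' = k • φ)
    {X : Submodule (ZMod p) V} {J : V →ₗ[ZMod p] Dual (ZMod p) V} (h : SpFull G X J)
    {c : V} {χ : Dual (ZMod p) V} (hc : Root G c χ) :
    (c ∈ X ∧ ∃ k : ZMod p, k ≠ 0 ∧ χ = k • J c) ∨
    ((∀ y ∈ X, J y c = 0) ∧ ∀ x ∈ X, χ x = 0) ∨
    (∃ c₁ ∈ X, ∃ k : ZMod p, c₁ ≠ 0 ∧ k ≠ 0 ∧ c - c₁ ≠ 0 ∧ χ - k • J c₁ ≠ 0 ∧
      (∀ y ∈ X, J y (c - c₁) = 0) ∧ ∀ x ∈ X, (χ - k • J c₁) x = 0) := by
  have hskew : ∀ x ∈ X, ∀ y ∈ X, J x y = -J y x := by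
    intro x hx y hy
    have := h.alt (x + y) (X.add_mem hx hy)
    simp only [map_add, LinearMap.add_apply] at this
    linear_combination this - h.alt x hx - h.alt y hy
  obtain ⟨c₁, hc₁, hc₀⟩ := h.compl c
  have hχ0 : χ ≠ 0 := hc.2.1
  have hχc : χ c = 0 := hc.2.2.1
  by_cases hc₁0 : c₁ = 0
  · right; left
    rw [hc₁0, sub_zero] at hc₀
    refine ⟨hc₀, ?_⟩
    intro x hx
    by_contra hχx
    have hx0 : x ≠ 0 := by rintro rfl; exact hχx (map_zero _)
    have hxr := h.root x hx hx0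
    have hcJ : Root G c (J x) := hc.swap_axis hxr hχx (hc₀ x hx)
    obtain ⟨k', hk'⟩ := h1 c χ (J x) hc hcJ
    have h3 : J x x = k' * χ x := by rw [hk', LinearMap.smul_apply, smul_eq_mul]
    rw [h.alt x hx] at h3
    have hk'0 : k' = 0 := by
      rcases mul_eq_zero.mp h3.symm with h4 | h4
      · exact h4
      · exact absurd h4 hχx
    rw [hk'0, zero_smul] at hk'
    exact hxr.2.1 hk'
  · by_cases hc₀0 : c - c₁ = 0
    · left
      have hcX : c = c₁ := sub_eq_zero.mp hc₀0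
      rw [hcX]
      refine ⟨hc₁, ?_⟩
      have hcr := h.root c₁ hc₁ hc₁0
      rw [hcX] at hc
      obtain ⟨k, hk⟩ := h1 c₁ (J c₁) χ hcr hc
      refine ⟨k, ?_, hk⟩
      rintro rfl
      rw [zero_smul] at hk
      exact hχ0 hk
    · right; right
      have hker : ∀ x ∈ X, χ x = 0 → J x c₁ = 0 := by
        intro x hx hχx
        by_contra hJ
        have hx0 : x ≠ 0 := by
          rintro rfl; apply hJ; rw [map_zero, LinearMap.zero_apply]
        have hxr := h.root x hx hx0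
        have hJxc : J x c ≠ 0 := by
          have e : c = c₁ + (c - c₁) := by abel
          rw [e, map_add, hc₀ x hx, add_zero]; exact hJ
        have hxχ : Root G x χ := hxr.swap_axis hc hJxc hχx
        obtain ⟨k', hk'⟩ := h1 x (J x) χ hxr hxχ
        have h3 : χ c = k' * J x c := by rw [hk', LinearMap.smul_apply, smul_eq_mul]
        rw [hχc] at h3
        rcases mul_eq_zero.mp h3.symm with h4 | h4
        · rw [h4, zero_smul] at hk'; exact hχ0 hk'
        · exact hJxc h4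
      obtain ⟨x', hx', hJx'⟩ := h.nondeg c₁ hc₁ hc₁0
      have hχx' : χ x' ≠ 0 := by
        intro h0
        have h3 := hker x' hx' h0
        rw [hskew x' hx' c₁ hc₁, neg_eq_zero] at h3
        exact hJx' h3
      obtain ⟨k, hk⟩ : ∃ k : ZMod p, k = χ x' / J c₁ x' := ⟨_, rfl⟩
      have hk0 : k ≠ 0 := by rw [hk]; exact div_ne_zero hχx' hJx'
      have hprop : ∀ x ∈ X, χ x = k * J c₁ x := by
        intro x hx
        have hx'' : x - (χ x / χ x') • x' ∈ X := X.sub_mem hx (X.smul_mem _ hx')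
        have h0 : χ (x - (χ x / χ x') • x') = 0 := by
          rw [map_sub, map_smul, smul_eq_mul, div_mul_cancel₀ _ hχx', sub_self]
        have h3 := hker _ hx'' h0
        rw [hskew _ hx'' c₁ hc₁, neg_eq_zero, map_sub, map_smul, smul_eq_mul] at h3
        rw [hk, sub_eq_zero.mp h3]
        field_simp
      refine ⟨c₁, hc₁, k, hc₁0, hk0, hc₀0, ?_, hc₀, ?_⟩
      · intro hχ₀
        have hχeq : χ = k • J c₁ := sub_eq_zero.mp hχ₀
        have hc₁r := h.root c₁ hc₁ hc₁0
        have h2 : Root G (-c₁) (k • J c₁) := (hc₁r.smul_right hk0).neg_left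
        rw [hχeq] at hc
        have h3 : Root G (c + -c₁) (k • J c₁) :=
          hc.add_left h2 (by rw [← sub_eq_add_neg]; exact hc₀0)
        rw [← sub_eq_add_neg] at h3
        have hx'0 : x' ≠ 0 := by rintro rfl; exact hJx' (map_zero _)
        have hx'r := h.root x' hx' hx'0
        have h4 : Root G (c - c₁) (J x') := h3.swap_axis hx'r (by
          rw [LinearMap.smul_apply, smul_eq_mul]; exact mul_ne_zero hk0 hJx') (hc₀ x' hx')
        obtain ⟨k', hk'⟩ := h1 (c - c₁) (k • J c₁) (J x') h3 h4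
        have h5 : J x' c₁ = 0 := by
          rw [hk', LinearMap.smul_apply, LinearMap.smul_apply, h.alt c₁ hc₁]; simp
        rw [hskew x' hx' c₁ hc₁, neg_eq_zero] at h5
        exact hJx' h5
      · intro x hx
        rw [LinearMap.sub_apply, LinearMap.smul_apply, smul_eq_mul, hprop x hx, sub_self]

theorem sp_fin {G : Subgroup (V ≃ₗ[ZMod p] V)}
    (h1 : ∀ a φ φ', Root G a φ → Root G a φ' → ∃ k : ZMod p, φ' = k • φ)
    {X : Submodule (ZMod p) V} {J : V →ₗ[ZMod p] Dual (ZMod p) V} (h : SpFull G X J)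
    (hX : X = ⊤) :
    ∃ B : LinearMap.BilinForm (ZMod p) V, B.IsAlt ∧ B.Nondegenerate ∧
      ∀ a φ, Root G a φ ↔ a ≠ 0 ∧ ∃ k : ZMod p, k ≠ 0 ∧ φ = k • B a := by
  subst hX
  have hskew : ∀ x y, J x y = -J y x := by
    intro x y
    have := h.alt (x + y) Submodule.mem_top
    simp only [map_add, LinearMap.add_apply] at this
    linear_combination this - h.alt x Submodule.mem_top - h.alt y Submodule.mem_top
  refine ⟨J, fun x => h.alt x Submodule.mem_top, ⟨?_, ?_⟩, ?_⟩
  · intro x hx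
    by_contra hx0
    obtain ⟨x', -, hx'⟩ := h.nondeg x Submodule.mem_top hx0
    exact hx' (hx x')
  · intro y hy
    by_contra hy0
    obtain ⟨x', -, hx'⟩ := h.nondeg y Submodule.mem_top hy0
    apply hx'
    rw [hskew, hy x', neg_zero]
  · intro a φ
    constructor
    · intro hr
      refine ⟨hr.1, ?_⟩
      obtain ⟨k, hk⟩ := h1 a (J a) φ (h.root a Submodule.mem_top hr.1) hr
      refine ⟨k, ?_, hk⟩
      rintro rfl
      rw [zero_smul] at hk
      exact hr.2.1 hk
    · rintro ⟨ha, k, hk, rfl⟩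
      exact (h.root a Submodule.mem_top ha).smul_right hk

/-! Verbatim restatements of the posted piece statements. -/

example {G : Subgroup (V ≃ₗ[ZMod p] V)} {a b : V} {φ ψ : Dual (ZMod p) V}
    (h : Root G a φ) (h' : Root G b ψ) (h1 : φ b ≠ 0) (h2 : ψ a ≠ 0) :
    ∃ (X : Submodule (ZMod p) V) (J : V →ₗ[ZMod p] Dual (ZMod p) V), SpFull G X J ∧ a ∈ X :=
  spFull_base h h' h1 h2

example {G : Subgroup (V ≃ₗ[ZMod p] V)}
    (h1 : ∀ a φ φ', Root G a φ → Root G a φ' → ∃ k : ZMod p, φ' = k • φ)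
    {X : Submodule (ZMod p) V} {J : V →ₗ[ZMod p] Dual (ZMod p) V} (h : SpFull G X J)
    {c : V} {χ : Dual (ZMod p) V} (hc : Root G c χ) :
    (c ∈ X ∧ ∃ k : ZMod p, k ≠ 0 ∧ χ = k • J c) ∨
    ((∀ y ∈ X, J y c = 0) ∧ ∀ x ∈ X, χ x = 0) ∨
    (∃ c₁ ∈ X, ∃ k : ZMod p, c₁ ≠ 0 ∧ k ≠ 0 ∧ c - c₁ ≠ 0 ∧ χ - k • J c₁ ≠ 0 ∧
      (∀ y ∈ X, J y (c - c₁) = 0) ∧ ∀ x ∈ X, (χ - k • J c₁) x = 0) :=
  sp_types h1 h hc

example {G : Subgroup (V ≃ₗ[ZMod p] V)}
    (h1 : ∀ a φ φ', Root G a φ → Root G a φ' → ∃ k : ZMod p, φ' = k • φ)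
    {X : Submodule (ZMod p) V} {J : V →ₗ[ZMod p] Dual (ZMod p) V} (h : SpFull G X J)
    (hX : X = ⊤) :
    ∃ B : LinearMap.BilinForm (ZMod p) V, B.IsAlt ∧ B.Nondegenerate ∧
      ∀ a φ, Root G a φ ↔ a ≠ 0 ∧ ∃ k : ZMod p, k ≠ 0 ∧ φ = k • B a :=
  sp_fin h1 h hX

end Cfsg.Agent.H62.McL
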