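import Mathlib
import Cfsg.Agent.H64.MgDefs

/-!
helper62: piece MG-DB of helper64's project S3620.  Induction through the setwise stabilizer of
`Δ` acting on `Δ`.
-/

set_option autoImplicit false
set_option linter.style.haveILetI false
set_option linter.unusedVariables false

namespace Cfsg.Agent.H62.Mg

open scoped Pointwise
open MulAction Cfsg.Agent.H64.Mg

universe u v

section

variable (M : Type u) {α : Type v} [Group M] [MulAction M α] [DecidableEq α] (Δ : Finset α)

/-- the setwise stabilizer of `Δ` acts on `Δ` -/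
@[reducible] def actD : MulAction (MulAction.stabilizer M Δ) {x // x ∈ Δ} where
  smul h x := ⟨(h : M) • (x : α), by
    have h1 : (h : M) • Δ = Δ := MulAction.mem_stabilizer_iff.mp h.2
    have h2 : (h : M) • (x : α) ∈ (h : M) • Δ := Finset.smul_mem_smul_finset x.2
    rw [h1] at h2
    exact h2⟩
  one_smul x := Subtype.ext (one_smul M (x : α))
  mul_smul g h x := Subtype.ext (mul_smul (g : M) (h : M) (x : α))

end

theorem db : Cfsg.Agent.H64.Mg.DBStmt.{u, v} := by
  intro M α _ _ _ _ Δ W hM hWΔ hW2 hΔW h2t hJW T hTΔ hT3 x hx hxT y hy hyT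
  by_cases hxy : x = y
  · exact ⟨1, fun z _ => one_smul M z, by rw [one_smul]; exact hxy⟩
  letI act : MulAction (MulAction.stabilizer M Δ) {x // x ∈ Δ} := actD M Δ
  have hval : ∀ (h : MulAction.stabilizer M Δ) (w : {x // x ∈ Δ}),
      ((h • w : {x // x ∈ Δ}) : α) = (h : M) • (w : α) := fun h w => rfl
  have hprim : IsPreprimitive (MulAction.stabilizer M Δ) {x // x ∈ Δ} := by
    apply MulAction.isPreprimitive_of_is_two_pretransitive
    rw [MulAction.is_two_pretransitive_iff]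
    intro a b c d hab hcd
    obtain ⟨h, hΔ, h1, h2⟩ := h2t a.1 a.2 b.1 b.2 c.1 c.2 d.1 d.2
      (fun e => hab (Subtype.ext e)) (fun e => hcd (Subtype.ext e))
    refine ⟨⟨h, MulAction.mem_stabilizer_iff.mpr hΔ⟩, Subtype.ext ?_, Subtype.ext ?_⟩
    · rw [hval]; exact h1
    · rw [hval]; exact h2
  obtain ⟨W', hW'⟩ : ∃ W' : Finset {x // x ∈ Δ}, W' = Finset.subtype (· ∈ Δ) W := ⟨_, rfl⟩
  have hmemW' : ∀ w : {x // x ∈ Δ}, w ∈ W' ↔ (w : α) ∈ W := by
    intro w; rw [hW', Finset.mem_subtype]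
  have hcardW' : W'.card = W.card := by
    rw [hW', Finset.card_subtype, Finset.filter_true_of_mem (fun w hw => hWΔ hw)]
  have hJC' : JC (MulAction.stabilizer M Δ) W' := by
    intro a ha b hb
    rw [hmemW'] at ha hb
    obtain ⟨h, hΔ, hfix, hab⟩ := hJW a.1 a.2 ha b.1 b.2 hb
    refine ⟨⟨h, MulAction.mem_stabilizer_iff.mpr hΔ⟩, ?_, Subtype.ext ?_⟩
    · intro z hz
      rw [hmemW'] at hz
      exact Subtype.ext (by rw [hval]; exact hfix z.1 hz)
    · rw [hval]; exact hab
  have hAE : AllEven (MulAction.stabilizer M Δ) {x // x ∈ Δ} :=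
    hM (MulAction.stabilizer M Δ) {x // x ∈ Δ} (by simp) hprim W'
      (by rw [hcardW']; exact hΔW) (by rw [hcardW']; exact hW2) hJC'
  obtain ⟨z, hzΔ, hz⟩ : ∃ z ∈ Δ, z ∉ insert x (insert y T) := by
    apply Finset.exists_mem_notMem_of_card_lt_card
    calc (insert x (insert y T)).card ≤ (insert y T).card + 1 := Finset.card_insert_le _ _
      _ ≤ T.card + 1 + 1 := by have := Finset.card_insert_le y T; omega
      _ < Δ.card := by omega
  simp only [Finset.mem_insert, not_or] at hz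
  obtain ⟨hzx, hzy, hzT⟩ := hz
  obtain ⟨x', hx'⟩ : ∃ x' : {x // x ∈ Δ}, (x' : α) = x := ⟨⟨x, hx⟩, rfl⟩
  obtain ⟨y', hy'⟩ : ∃ y' : {x // x ∈ Δ}, (y' : α) = y := ⟨⟨y, hy⟩, rfl⟩
  obtain ⟨z', hz'⟩ : ∃ z' : {x // x ∈ Δ}, (z' : α) = z := ⟨⟨z, hzΔ⟩, rfl⟩
  have hxy' : x' ≠ y' := by
    intro e; apply hxy; rw [← hx', ← hy', e]
  have hyz' : y' ≠ z' := by
    intro e; apply hzy; rw [← hz', ← hy', e]
  have hxz' : x' ≠ z' := by
    intro e; apply hzx; rw [← hz', ← hx', e]
  obtain ⟨g, hg⟩ := hAE (Equiv.swap x' y' * Equiv.swap y' z') (by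
    rw [Equiv.Perm.sign_mul, Equiv.Perm.sign_swap hxy', Equiv.Perm.sign_swap hyz']
    norm_num)
  refine ⟨(g : M), ?_, ?_⟩
  · intro t ht
    obtain ⟨t', ht'⟩ : ∃ t' : {x // x ∈ Δ}, (t' : α) = t := ⟨⟨t, hTΔ ht⟩, rfl⟩
    have htx : t' ≠ x' := by
      intro e; apply hxT; rw [← hx', ← e, ht']; exact ht
    have hty : t' ≠ y' := by
      intro e; apply hyT; rw [← hy', ← e, ht']; exact ht
    have htz : t' ≠ z' := by
      intro e; apply hzT; rw [← hz', ← e, ht']; exact ht
    have h1 := hg t'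
    have h2 : (Equiv.swap x' y' * Equiv.swap y' z') t' = t' := by
      rw [Equiv.Perm.mul_apply, Equiv.swap_apply_of_ne_of_ne hty htz,
        Equiv.swap_apply_of_ne_of_ne htx hty]
    rw [h2] at h1
    have h3 := congrArg Subtype.val h1
    rw [hval, ht'] at h3
    exact h3
  · have h1 := hg x'
    have h2 : (Equiv.swap x' y' * Equiv.swap y' z') x' = y' := by
      rw [Equiv.Perm.mul_apply, Equiv.swap_apply_of_ne_of_ne hxy' hxz',
        Equiv.swap_apply_left]
    rw [h2] at h1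
    have h3 := congrArg Subtype.val h1
    rw [hval, hx', hy'] at h3
    exact h3

end Cfsg.Agent.H62.Mg
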