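import Mathlib
import Cfsg.Agent.H64.MgDefs

/-!
helper62: piece MG-JT2 of helper64's project S3620.  Weak Jordan: a primitive group with a proper
Jordan set is 2-transitive (assuming the conversion pieces CONV1 and M2K).
-/

set_option autoImplicit false
set_option linter.style.haveILetI false
set_option linter.unusedVariables false

namespace Cfsg.Agent.H62.Mg

open scoped Pointwise
open MulAction Cfsg.Agent.H64.Mg

universe u v

theorem jt2 : CONV1Stmt.{u, v} → M2KStmt.{u, v} → JT2Stmt.{u, v} := by
  intro hconv hm2k M α _ _ _ _ hprim Δ h1 h2 hJC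
  have hpt := (hconv M α Δ).mp hJC
  have h2t : IsMultiplyPretransitive M α 2 :=
    MulAction.IsPreprimitive.is_two_pretransitive hprim (s := (Δ : Set α)) (n := Δ.card - 1)
      (by rw [Set.ncard_coe_finset]; omega) (by rw [Nat.card_eq_fintype_card]; omega) hpt
  exact hm2k M α 2 (by omega) h2t

end Cfsg.Agent.H62.Mg
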