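import Mathlib
import Cfsg.Agent.H64.MgDefs

/-!
helper62: piece MG-M2K of helper64's project S3620.  Mathlib multiple transitivity gives `KT`.
-/

set_option autoImplicit false
set_option linter.style.haveILetI false
set_option linter.unusedVariables false

namespace Cfsg.Agent.H62.Mg

open scoped Pointwise
open MulAction Cfsg.Agent.H64.Mg

universe u v

theorem m2k : Cfsg.Agent.H64.Mg.M2KStmt.{u, v} := by
  intro M α _ _ _ k hk hmp S hS x hx y hy
  classical
  haveI : IsMultiplyPretransitive M α k := hmp
  have hmp' : IsMultiplyPretransitive M α (S.card + 1) :=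
    MulAction.isMultiplyPretransitive_of_le (n := k) (by omega)
      (by rw [Nat.card_eq_fintype_card]; exact hk)
  obtain ⟨e0, he0⟩ : ∃ e0 : Fin S.card ↪ α, e0 =
      (S.equivFin.symm.toEmbedding).trans (Function.Embedding.subtype _) := ⟨_, rfl⟩
  have hr : ∀ w, w ∈ Set.range e0 ↔ w ∈ S := by
    intro w
    constructor
    · rintro ⟨i, rfl⟩
      rw [he0]
      exact (S.equivFin.symm i).2
    · intro hw
      refine ⟨S.equivFin ⟨w, hw⟩, ?_⟩
      rw [he0]
      simp
  have hx' : x ∉ Set.range e0 := fun h => hx ((hr x).mp h)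
  have hy' : y ∉ Set.range e0 := fun h => hy ((hr y).mp h)
  obtain ⟨g, hg⟩ := (MulAction.isMultiplyPretransitive_iff.mp hmp')
    (Fin.Embedding.snoc e0 hx') (Fin.Embedding.snoc e0 hy')
  refine ⟨g, ?_, ?_⟩
  · intro z hz
    obtain ⟨i, rfl⟩ := (hr z).mpr hz
    have h1 := congrArg (fun f : Fin (S.card + 1) ↪ α => f i.castSucc) hg
    simp only [Function.Embedding.smul_apply, Fin.Embedding.snoc_castSucc] at h1
    exact h1
  · have h1 := congrArg (fun f : Fin (S.card + 1) ↪ α => f (Fin.last _)) hg
    simp only [Function.Embedding.smul_apply, Fin.Embedding.snoc_last] at h1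
    exact h1

end Cfsg.Agent.H62.Mg
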