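import Mathlib

set_option autoImplicit false
set_option linter.style.haveILetI false
set_option linter.unusedSimpArgs false
set_option linter.unusedSectionVars false
set_option linter.unusedVariables false

namespace Cfsg.Agent.H62

open Polynomial

/-- stabilisation of the spectra of direct powers: if some tuple has order the exponent. -/
theorem pow_spec_stab {G : Type*} [Group G] [Finite G] {k₀ k : ℕ} (hk : k₀ ≤ k) (x : Fin k₀ → G)
    (hx : ∀ g : G, g ^ orderOf x = 1) :
    Set.range (orderOf : (Fin k → G) → ℕ) = Set.range (orderOf : (Fin k₀ → G) → ℕ) := by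
  have hpos : 0 < orderOf x := orderOf_pos x
  have key : ∀ j : ℕ, k₀ ≤ j →
      Set.range (orderOf : (Fin j → G) → ℕ) = {d | d ∣ orderOf x} := by
    intro j hj
    ext d
    constructor
    · rintro ⟨y, rfl⟩
      apply orderOf_dvd_of_pow_eq_one
      funext i
      simp [hx]
    · intro hd
      obtain ⟨y₀, hy₀⟩ : ∃ y₀ : Fin j → G, orderOf y₀ = orderOf x := by
        refine ⟨fun i => if h : i.val < k₀ then x ⟨i.val, h⟩ else 1, ?_⟩
        apply orderOf_eq_orderOf_iff.mpr
        intro m
        constructor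
        · intro h
          funext i
          have := congrFun h ⟨i.val, lt_of_lt_of_le i.isLt hj⟩
          simpa using this
        · intro h
          funext i
          by_cases hi : i.val < k₀
          · have := congrFun h ⟨i.val, hi⟩
            simpa [hi] using this
          · simp [hi]
      have hd' : d ∣ orderOf y₀ := hy₀ ▸ hd
      have hpos' : 0 < orderOf y₀ := hy₀ ▸ hpos
      have hn : 0 < d := Nat.pos_of_dvd_of_pos hd' hpos'
      refine ⟨y₀ ^ (orderOf y₀ / d), ?_⟩
      rw [orderOf_pow_of_dvd, Nat.div_div_self hd' hpos'.ne']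
      · exact (Nat.div_pos (Nat.le_of_dvd hpos' hd') hn).ne'
      · exact Nat.div_dvd_of_dvd hd'
  rw [key k hk, key k₀ le_rfl]

section Two

variable {F : Type*} [Field F] [Fintype F]

theorem two_elt (hF : Fintype.card F = 2) (r : F) : r = 0 ∨ r = 1 := by
  classical
  by_contra h
  push Not at h
  have h3 : ({0, 1, r} : Finset F).card = 3 := by
    rw [Finset.card_insert_of_notMem, Finset.card_insert_of_notMem, Finset.card_singleton]
    · simpa using h.2.symm
    · simp only [Finset.mem_insert, Finset.mem_singleton, not_or]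
      exact ⟨zero_ne_one, h.1.symm⟩
  have := Finset.card_le_univ ({0, 1, r} : Finset F)
  omega

theorem two_charP (hF : Fintype.card F = 2) : CharP F 2 := by
  apply CharTwo.of_one_ne_zero_of_two_eq_zero one_ne_zero
  rcases two_elt hF (2 : F) with h | h
  · exact h
  · exfalso
    have : (1 : F) + 1 = 1 := by rw [one_add_one_eq_two]; exact h
    simp at this

/-- an irreducible polynomial of degree `d` with nonzero constant term divides
`X ^ m - 1` when `2 ^ d - 1 ∣ m`. -/
theorem irr_dvd_X_pow_sub_one (hF : Fintype.card F = 2) (f : F[X]) (hf : Irreducible f)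
    (h0 : f.coeff 0 ≠ 0) (m : ℕ) (hm : 2 ^ f.natDegree - 1 ∣ m) :
    f ∣ X ^ m - 1 := by
  haveI : Fact (Irreducible f) := ⟨hf⟩
  have hfne : f ≠ 0 := hf.ne_zero
  let pb := AdjoinRoot.powerBasis hfne
  haveI : Module.Finite F (AdjoinRoot f) := pb.finite
  haveI : Finite (AdjoinRoot f) := Module.finite_of_finite F
  haveI : Fintype (AdjoinRoot f) := Fintype.ofFinite _
  have hcard : Fintype.card (AdjoinRoot f) = 2 ^ f.natDegree := by
    rw [Module.card_eq_pow_finrank (K := F) (V := AdjoinRoot f), hF, pb.finrank]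
    rfl
  have hroot : AdjoinRoot.root f ≠ 0 := by
    intro h
    have h1 : Polynomial.eval₂ (AdjoinRoot.of f) (AdjoinRoot.root f) f = 0 :=
      AdjoinRoot.eval₂_root f
    rw [h, Polynomial.eval₂_at_zero] at h1
    exact h0 ((map_eq_zero (AdjoinRoot.of f)).mp h1)
  have h2 : AdjoinRoot.root f ^ (2 ^ f.natDegree - 1) = 1 := by
    have := FiniteField.pow_card_sub_one_eq_one (AdjoinRoot.root f) hroot
    rwa [hcard] at this
  obtain ⟨c, rfl⟩ := hm
  have h3 : AdjoinRoot.root f ^ ((2 ^ f.natDegree - 1) * c) = 1 := by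
    rw [pow_mul, h2, one_pow]
  rw [← AdjoinRoot.mk_eq_zero]
  simp only [map_sub, map_pow, AdjoinRoot.mk_X, map_one]
  rw [h3, sub_self]

/-- a polynomial with nonzero constant term divides a power of `X ^ m - 1`. -/
theorem dvd_X_pow_sub_one_pow (hF : Fintype.card F = 2) (n m : ℕ)
    (hm : ∀ d, 1 ≤ d → d ≤ n → 2 ^ d - 1 ∣ m) :
    ∀ (N : ℕ) (P : F[X]), P.natDegree = N → P ≠ 0 → P.coeff 0 ≠ 0 → P.natDegree ≤ n →
      P ∣ (X ^ m - 1) ^ P.natDegree := by
  intro N
  induction N using Nat.strong_induction_on with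
  | _ N ih =>
    intro P hN hP h0 hn
    by_cases hu : IsUnit P
    · exact hu.dvd
    · obtain ⟨f, hf, g, rfl⟩ := WfDvdMonoid.exists_irreducible_factor hu hP
      have hfne : f ≠ 0 := left_ne_zero_of_mul hP
      have hgne : g ≠ 0 := right_ne_zero_of_mul hP
      have hdeg : (f * g).natDegree = f.natDegree + g.natDegree := natDegree_mul hfne hgne
      have hc : f.coeff 0 * g.coeff 0 ≠ 0 := by
        rw [← Polynomial.mul_coeff_zero]; exact h0
      have hf0 : f.coeff 0 ≠ 0 := left_ne_zero_of_mul hc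
      have hg0 : g.coeff 0 ≠ 0 := right_ne_zero_of_mul hc
      have hfpos : 1 ≤ f.natDegree := hf.natDegree_pos
      have h1 : f ∣ X ^ m - 1 :=
        irr_dvd_X_pow_sub_one hF f hf hf0 m (hm _ hfpos (by omega))
      have h2 : g ∣ (X ^ m - 1) ^ g.natDegree :=
        ih g.natDegree (by omega) g rfl hgne hg0 (by omega)
      rw [hdeg, pow_add]
      exact mul_dvd_mul (dvd_trans h1 (dvd_pow_self _ (by omega))) h2

/-- exponent bound for invertible matrices over the field with two elements. -/
theorem mat_pow_eq_one (hF : Fintype.card F = 2) (n T m : ℕ) (hT : n ≤ 2 ^ T)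
    (hm : ∀ d, 1 ≤ d → d ≤ n → 2 ^ d - 1 ∣ m)
    (A : Matrix (Fin n) (Fin n) F) (hA : A.det ≠ 0) : A ^ (2 ^ T * m) = 1 := by
  haveI := two_charP hF
  haveI : Fact (Nat.Prime 2) := ⟨Nat.prime_two⟩
  have hdeg : A.charpoly.natDegree = n := by
    rw [Matrix.charpoly_natDegree_eq_dim, Fintype.card_fin]
  have hne : A.charpoly ≠ 0 := (Matrix.charpoly_monic A).ne_zero
  have h0 : A.charpoly.coeff 0 ≠ 0 := by
    intro h
    apply hA
    rw [Matrix.det_eq_sign_charpoly_coeff, h, mul_zero]
  have h1 : A.charpoly ∣ (X ^ m - 1) ^ A.charpoly.natDegree :=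
    dvd_X_pow_sub_one_pow hF n m hm _ A.charpoly rfl hne h0 hdeg.le
  rw [hdeg] at h1
  have h2 : A.charpoly ∣ (X ^ m - 1 : F[X]) ^ 2 ^ T := dvd_trans h1 (pow_dvd_pow _ hT)
  rw [sub_pow_char_pow, one_pow, ← pow_mul] at h2
  obtain ⟨Q, hQ⟩ := h2
  have h3 := congrArg (aeval A) hQ
  rw [map_mul, Matrix.aeval_self_charpoly, zero_mul] at h3
  simp only [map_sub, map_pow, aeval_X, map_one] at h3
  rw [mul_comm]
  exact sub_eq_zero.mp h3

end Two

end Cfsg.Agent.H62
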