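import Mathlib
import Cfsg.Agent.H62.PowSpecA

set_option autoImplicit false
set_option linter.style.haveILetI false
set_option linter.unusedSimpArgs false
set_option linter.unusedSectionVars false
set_option linter.unusedVariables false

namespace Cfsg.Agent.H62

section Unip

variable {F : Type*} [Field F]

/-- the nilpotent shift matrix. -/
def shiftN (F : Type*) [Field F] (n : ℕ) : Matrix (Fin n) (Fin n) F :=
  fun i j => if j.val = i.val + 1 then 1 else 0

theorem shiftN_pow (n k : ℕ) (i j : Fin n) :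
    (shiftN F n ^ k) i j = if j.val = i.val + k then 1 else 0 := by
  induction k generalizing i j with
  | zero =>
    simp [Matrix.one_apply, Fin.ext_iff, eq_comm]
  | succ k ih =>
    rw [pow_succ, Matrix.mul_apply]
    simp only [ih, shiftN]
    by_cases h : j.val = i.val + (k + 1)
    · rw [if_pos h]
      rw [Finset.sum_eq_single ⟨i.val + k, by omega⟩]
      · simp; omega
      · intro b _ hb
        have : b.val ≠ i.val + k := fun h' => hb (Fin.ext h')
        simp [this]
      · simp
    · rw [if_neg h]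
      apply Finset.sum_eq_zero
      intro b _
      by_cases hb : b.val = i.val + k
      · have : j.val ≠ b.val + 1 := by omega
        simp [this]
      · simp [hb]

theorem unip_pow (hF : CharP F 2) (n t : ℕ) :
    (1 + shiftN F n) ^ (2 ^ t) = 1 + shiftN F n ^ (2 ^ t) := by
  have key : ∀ M : Matrix (Fin n) (Fin n) F, (1 + M) ^ 2 = 1 + M ^ 2 := by
    intro M
    have h2 : M + M = 0 := by
      ext i j
      simp [CharTwo.add_self_eq_zero]
    rw [sq, sq, add_mul, mul_add, mul_add, one_mul, mul_one, one_mul]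
    rw [add_assoc, ← add_assoc M M, h2, zero_add]
  induction t with
  | zero => simp
  | succ t ih =>
    rw [pow_succ, pow_mul, ih, pow_mul, key]

theorem shiftN_pow_eq_zero_iff (n k : ℕ) (hn : 1 ≤ n) : shiftN F n ^ k = 0 ↔ n ≤ k := by
  constructor
  · intro h
    by_contra hk
    push Not at hk
    have := congrFun (congrFun h ⟨0, by omega⟩) ⟨k, hk⟩
    rw [shiftN_pow] at this
    simp at this
  · intro h
    ext i j
    rw [shiftN_pow]
    have : j.val ≠ i.val + k := by omega
    simp [this]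

theorem unip_orderOf (hF : CharP F 2) (n : ℕ) (hn : 2 ≤ n) :
    orderOf (1 + shiftN F n) = 2 ^ Nat.clog 2 n := by
  haveI : Fact (Nat.Prime 2) := ⟨Nat.prime_two⟩
  have hT1 : n ≤ 2 ^ Nat.clog 2 n := Nat.le_pow_clog (by norm_num) n
  have hT2 : 2 ^ (Nat.clog 2 n).pred < n := Nat.pow_pred_clog_lt_self (by norm_num) (by omega)
  obtain ⟨T', hT'⟩ : ∃ T', Nat.clog 2 n = T' + 1 := by
    refine ⟨(Nat.clog 2 n).pred, ?_⟩
    have : 0 < Nat.clog 2 n := Nat.clog_pos (by norm_num) hn
    have h2 := Nat.succ_pred_eq_of_pos this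
    omega
  rw [hT'] at hT1 hT2 ⊢
  simp only [Nat.pred_succ] at hT2
  apply orderOf_eq_prime_pow
  · rw [unip_pow hF]
    intro h
    have h' : shiftN F n ^ 2 ^ T' = 0 := by simpa using h
    rw [shiftN_pow_eq_zero_iff _ _ (by omega)] at h'
    omega
  · rw [unip_pow hF, (shiftN_pow_eq_zero_iff _ _ (by omega)).mpr hT1, add_zero]

end Unip

section Singer

variable {F : Type*} [Field F] [Fintype F]

theorem singer_exists (hF : Fintype.card F = 2) (n d : ℕ) (hd1 : 1 ≤ d) (hdn : d ≤ n) :
    ∃ A : Matrix (Fin n) (Fin n) F, orderOf A = 2 ^ d - 1 := by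
  classical
  haveI := two_charP hF
  haveI : Fact (Nat.Prime 2) := ⟨Nat.prime_two⟩
  haveI : NeZero d := ⟨by omega⟩
  have hcard : Nat.card (FiniteField.Extension F 2 d) = 2 ^ d := by
    rw [FiniteField.natCard_extension, Nat.card_eq_fintype_card, hF]
  have hfr : Module.finrank F (FiniteField.Extension F 2 d) = d :=
    FiniteField.finrank_extension F 2 d
  obtain ⟨g, hg⟩ := IsCyclic.exists_generator (α := (FiniteField.Extension F 2 d)ˣ)
  have hog : orderOf g = 2 ^ d - 1 := by
    rw [orderOf_eq_card_of_forall_mem_zpowers hg, Nat.card_units, hcard]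
  have hoz : orderOf (g : FiniteField.Extension F 2 d) = 2 ^ d - 1 := by
    rw [orderOf_units, hog]
  have hV : Module.finrank F (FiniteField.Extension F 2 d × (Fin (n - d) → F)) = n := by
    rw [Module.finrank_prod, hfr, Module.finrank_fin_fun]; omega
  let b : Module.Basis (Fin n) F (FiniteField.Extension F 2 d × (Fin (n - d) → F)) :=
    Module.finBasisOfFinrankEq F _ hV
  let ψ : FiniteField.Extension F 2 d →* Matrix (Fin n) (Fin n) F :=
    { toFun := fun a => LinearMap.toMatrixAlgEquiv b
        ((LinearMap.mulLeft F a).prodMap (LinearMap.id : (Fin (n - d) → F) →ₗ[F] _))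
      map_one' := by
        rw [LinearMap.mulLeft_one, LinearMap.prodMap_id]
        exact map_one _
      map_mul' := by
        intro a a'
        rw [← map_mul]
        congr 1
        rw [LinearMap.mulLeft_mul, Module.End.mul_eq_comp]
        apply LinearMap.ext
        intro v
        simp [LinearMap.prodMap_apply] }
  have hψ : Function.Injective ψ := by
    intro a a' h
    have h1 : (LinearMap.mulLeft F a).prodMap (LinearMap.id : (Fin (n - d) → F) →ₗ[F] _) =
        (LinearMap.mulLeft F a').prodMap LinearMap.id :=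
      (LinearMap.toMatrixAlgEquiv b).injective h
    have h2 := congrArg (fun φ => (φ (1, 0)).1) h1
    simpa using h2
  exact ⟨ψ g, by rw [orderOf_injective ψ hψ, hoz]⟩

end Singer

/-- the spectrum of direct powers of `PSL(n, 2)` stabilises. -/
theorem psl_two_stab {F : Type*} [Field F] [Fintype F] (hF : Fintype.card F = 2) (n k : ℕ)
    (hn : 2 ≤ n) (hk : (n + 3) / 2 ≤ k) :
    Set.range (orderOf : (Fin k → Matrix.ProjectiveSpecialLinearGroup (Fin n) F) → ℕ) =
      Set.range (orderOf :
        (Fin ((n + 3) / 2) → Matrix.ProjectiveSpecialLinearGroup (Fin n) F) → ℕ) := by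
  classical
  haveI := two_charP hF
  have hcen : Subgroup.center (Matrix.SpecialLinearGroup (Fin n) F) = ⊥ := by
    rw [eq_bot_iff]
    intro A hA
    rw [Matrix.SpecialLinearGroup.mem_center_iff] at hA
    obtain ⟨r, hr, hrA⟩ := hA
    rcases two_elt hF r with rfl | rfl
    · rw [zero_pow (by rw [Fintype.card_fin]; omega)] at hr
      exact absurd hr zero_ne_one
    · rw [Subgroup.mem_bot]
      ext i j
      rw [← hrA]
      simp
  have hπ : Function.Injective
      (QuotientGroup.mk' (Subgroup.center (Matrix.SpecialLinearGroup (Fin n) F))) := by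
    intro a b h
    have h1 : a⁻¹ * b ∈ Subgroup.center _ := QuotientGroup.eq.mp h
    rw [hcen, Subgroup.mem_bot] at h1
    exact inv_mul_eq_one.mp h1
  have hSL : ∀ A : Matrix (Fin n) (Fin n) F, 0 < orderOf A →
      ∃ s : Matrix.ProjectiveSpecialLinearGroup (Fin n) F, orderOf s = orderOf A := by
    intro A hA
    have hpow : A ^ orderOf A = 1 := pow_orderOf_eq_one A
    have hdet : A.det = 1 := by
      rcases two_elt hF A.det with h | h
      · exfalso
        have := congrArg Matrix.det hpow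
        rw [Matrix.det_pow, h, zero_pow hA.ne', Matrix.det_one] at this
        exact zero_ne_one this
      · exact h
    obtain ⟨s, hs⟩ : ∃ s : Matrix.SpecialLinearGroup (Fin n) F, s.1 = A := ⟨⟨A, hdet⟩, rfl⟩
    refine ⟨QuotientGroup.mk' _ s, ?_⟩
    refine (orderOf_injective (QuotientGroup.mk' _) hπ _).trans ?_
    apply orderOf_eq_orderOf_iff.mpr
    intro m
    rw [← hs, ← Matrix.SpecialLinearGroup.coe_pow]
    constructor
    · intro h; rw [h]; rfl
    · intro h; exact Subtype.ext h
  have hT1 : n ≤ 2 ^ Nat.clog 2 n := Nat.le_pow_clog (by norm_num) n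
  obtain ⟨u, hu⟩ : ∃ u : Matrix.ProjectiveSpecialLinearGroup (Fin n) F,
      orderOf u = 2 ^ Nat.clog 2 n := by
    have h := unip_orderOf (F := F) inferInstance n hn
    obtain ⟨s, hs⟩ := hSL (1 + shiftN F n) (by rw [h]; positivity)
    exact ⟨s, hs.trans h⟩
  have hS : ∀ d, 1 ≤ d → d ≤ n →
      ∃ s : Matrix.ProjectiveSpecialLinearGroup (Fin n) F, orderOf s = 2 ^ d - 1 := by
    intro d hd1 hdn
    obtain ⟨A, hA⟩ := singer_exists hF n d hd1 hdn
    have hpos : 0 < 2 ^ d - 1 := by
      have : 2 ^ 1 ≤ 2 ^ d := Nat.pow_le_pow_right (by norm_num) hd1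
      omega
    obtain ⟨s, hs⟩ := hSL A (by rw [hA]; exact hpos)
    exact ⟨s, hs.trans hA⟩
  choose! H hH using hS
  obtain ⟨x, hx⟩ : ∃ x : Fin ((n + 3) / 2) → Matrix.ProjectiveSpecialLinearGroup (Fin n) F,
      ∀ i, x i = if i.val = 0 then u else H (n / 2 + i.val) :=
    ⟨fun i => if i.val = 0 then u else H (n / 2 + i.val), fun i => rfl⟩
  have hcomp : ∀ i, orderOf (x i) ∣ orderOf x := fun i =>
    orderOf_map_dvd (Pi.evalMonoidHom (fun _ => Matrix.ProjectiveSpecialLinearGroup (Fin n) F) i) x
  have h2T : 2 ^ Nat.clog 2 n ∣ orderOf x := by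
    have := hcomp ⟨0, by omega⟩
    rw [hx] at this
    simpa [hu] using this
  have hdd : ∀ d, 1 ≤ d → d ≤ n → 2 ^ d - 1 ∣ orderOf x := by
    intro d hd1 hdn
    obtain ⟨d', hd'1, hd'2, hdvd⟩ : ∃ d', n / 2 < d' ∧ d' ≤ n ∧ d ∣ d' := by
      refine ⟨d * (n / d), ?_, Nat.mul_div_le n d, dvd_mul_right _ _⟩
      have h1 := Nat.div_add_mod n d
      have h2 := Nat.mod_lt n hd1
      have h3 : 1 ≤ n / d := Nat.div_pos hdn hd1
      have h4 : d ≤ d * (n / d) := Nat.le_mul_of_pos_right d h3
      omega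
    have h1 := hcomp ⟨d' - n / 2, by omega⟩
    have h2 : x ⟨d' - n / 2, by omega⟩ = H d' := by
      rw [hx]
      simp only
      rw [if_neg (by omega)]
      congr 1
      omega
    rw [h2, hH d' (by omega) hd'2] at h1
    obtain ⟨c, rfl⟩ := hdvd
    refine dvd_trans ?_ h1
    rw [pow_mul]
    simpa only [one_pow] using Nat.sub_dvd_pow_sub_pow (2 ^ d) 1 c
  obtain ⟨m, hm⟩ := h2T
  have hm' : ∀ d, 1 ≤ d → d ≤ n → 2 ^ d - 1 ∣ m := by
    intro d hd1 hdn
    have h := hdd d hd1 hdn
    rw [hm] at h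
    apply Nat.Coprime.dvd_of_dvd_mul_left _ h
    apply Nat.Coprime.pow_right
    rw [Nat.coprime_comm, Nat.coprime_two_left]
    obtain ⟨e, rfl⟩ : ∃ e, d = e + 1 := ⟨d - 1, by omega⟩
    refine ⟨2 ^ e - 1, ?_⟩
    have := Nat.one_le_two_pow (n := e)
    rw [pow_succ]
    omega
  apply pow_spec_stab hk x
  intro g
  obtain ⟨s, rfl⟩ := QuotientGroup.mk'_surjective _ g
  rw [hm, ← map_pow]
  have h1 := mat_pow_eq_one hF n (Nat.clog 2 n) m hT1 hm' s.1 (by rw [s.2]; exact one_ne_zero)
  have hs : s ^ (2 ^ Nat.clog 2 n * m) = 1 := by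
    apply Subtype.ext
    rw [Matrix.SpecialLinearGroup.coe_pow]
    exact h1
  rw [hs, map_one]

end Cfsg.Agent.H62
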