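import Mathlib

/-!
# S3641-ORD9 (helper62, for helper21): elements of order `9` in `PSL₂(17)` and `PGL₂(17)`.
-/

set_option autoImplicit false
set_option linter.style.haveILetI false
set_option linter.unusedSimpArgs false

namespace Cfsg.Agent.H62.SN

/-- A matrix of `SL₂(17)` with eigenvalues of order `18`. -/
def m9 : Matrix (Fin 2) (Fin 2) (ZMod 17) := !![0, -1; 1, 3]

theorem m9_det : m9.det = 1 := by
  rw [Matrix.det_fin_two]
  decide

theorem m9_cube : m9 ^ 3 = !![14, 9; 8, 4] := by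
  rw [pow_succ, pow_succ, pow_one]
  decide

theorem m9_nine : m9 ^ 9 = Matrix.scalar (Fin 2) (-1 : ZMod 17) := by
  have h : m9 ^ 9 = (m9 ^ 3) ^ 3 := by rw [← pow_mul]
  rw [h, m9_cube, pow_succ, pow_succ, pow_one]
  decide

theorem m9_not_center (A : Matrix.SpecialLinearGroup (Fin 2) (ZMod 17))
    (hA : (A : Matrix (Fin 2) (Fin 2) (ZMod 17)) = m9) :
    A ^ 3 ∉ Subgroup.center (Matrix.SpecialLinearGroup (Fin 2) (ZMod 17)) := by
  rw [Matrix.SpecialLinearGroup.mem_center_iff]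
  rintro ⟨r, -, hr⟩
  have h01 := congrFun (congrFun hr 0) 1
  rw [Matrix.SpecialLinearGroup.coe_pow, hA, m9_cube] at h01
  rw [Matrix.scalar_apply, Matrix.diagonal_apply_ne _ (by decide)] at h01
  revert h01
  decide

theorem m9_center (A : Matrix.SpecialLinearGroup (Fin 2) (ZMod 17))
    (hA : (A : Matrix (Fin 2) (Fin 2) (ZMod 17)) = m9) :
    A ^ 9 ∈ Subgroup.center (Matrix.SpecialLinearGroup (Fin 2) (ZMod 17)) := by
  rw [Matrix.SpecialLinearGroup.mem_center_iff]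
  refine ⟨-1, by decide, ?_⟩
  rw [Matrix.SpecialLinearGroup.coe_pow, hA, m9_nine]

/-- **S3641-ORD9** (PSL). -/
theorem exists_orderOf_nine_psl :
    ∃ x : Matrix.ProjectiveSpecialLinearGroup (Fin 2) (ZMod 17), orderOf x = 9 := by
  haveI : Fact (Nat.Prime 3) := ⟨Nat.prime_three⟩
  obtain ⟨A, hA⟩ : ∃ A : Matrix.SpecialLinearGroup (Fin 2) (ZMod 17),
      (A : Matrix (Fin 2) (Fin 2) (ZMod 17)) = m9 := ⟨⟨m9, m9_det⟩, rfl⟩
  refine ⟨QuotientGroup.mk A, ?_⟩
  have h : orderOf (QuotientGroup.mk A :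
      Matrix.ProjectiveSpecialLinearGroup (Fin 2) (ZMod 17)) = 3 ^ (1 + 1) := by
    apply orderOf_eq_prime_pow
    · rw [pow_one, ← QuotientGroup.mk_pow, QuotientGroup.eq_one_iff]
      exact m9_not_center A hA
    · rw [← QuotientGroup.mk_pow, QuotientGroup.eq_one_iff]
      exact m9_center A hA
  rw [h]
  norm_num

/-- **S3641-ORD9** (PGL). -/
theorem exists_orderOf_nine_pgl :
    ∃ x : Matrix.ProjGenLinGroup (Fin 2) (ZMod 17), orderOf x = 9 := by
  haveI : Fact (Nat.Prime 3) := ⟨Nat.prime_three⟩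
  obtain ⟨A, hA⟩ : ∃ A : Matrix.SpecialLinearGroup (Fin 2) (ZMod 17),
      (A : Matrix (Fin 2) (Fin 2) (ZMod 17)) = m9 := ⟨⟨m9, m9_det⟩, rfl⟩
  refine ⟨Matrix.SpecialLinearGroup.toPGL A, ?_⟩
  have h : orderOf (Matrix.SpecialLinearGroup.toPGL A) = 3 ^ (1 + 1) := by
    apply orderOf_eq_prime_pow
    · rw [pow_one, ← map_pow, ← MonoidHom.mem_ker, Matrix.SpecialLinearGroup.toPGL_ker]
      exact m9_not_center A hA
    · rw [← map_pow, ← MonoidHom.mem_ker, Matrix.SpecialLinearGroup.toPGL_ker]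
      exact m9_center A hA
  rw [h]
  norm_num

end Cfsg.Agent.H62.SN
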