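import Mathlib
import Cfsg.Agent.H97.Sp4Defs

/-!
# S2460 piece C1A (helper97's team project): upper block-triangular elements are conjugate to `x`

`isConjX_upper`: for `M` with characteristic polynomial `X^2 - τ X + δ`, not scalar, and `S`
symmetric, `fromBlocks M (M * S) 0 (M⁻¹)ᵀ` is conjugate to `xm τ δ` in the symplectic group.
-/

set_option autoImplicit false
set_option linter.style.haveILetI false
set_option linter.unusedSimpArgs false
set_option linter.unusedSectionVars false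
set_option linter.unusedVariables false

namespace Cfsg.Agent.H62.Sp4

open Matrix Cfsg.Agent.H97.Sp4

variable {F : Type*} [Field F]

/-- the Sylvester-type equation `W - M W Mᵀ = R` on symmetric matrices. -/
theorem exists_sym_sol (M R : Matrix (Fin 2) (Fin 2) F) (hR : Rᵀ = R)
    (hD : (M.det - 1) * ((M.det + 1) ^ 2 - M.trace ^ 2) ≠ 0) :
    ∃ W : Matrix (Fin 2) (Fin 2) F, Wᵀ = W ∧ W - M * W * Mᵀ = R := by
  obtain ⟨a, ha⟩ : ∃ a : F, a = M 0 0 := ⟨_, rfl⟩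
  obtain ⟨b, hb⟩ : ∃ b : F, b = M 0 1 := ⟨_, rfl⟩
  obtain ⟨c, hc⟩ : ∃ c : F, c = M 1 0 := ⟨_, rfl⟩
  obtain ⟨d, hd⟩ : ∃ d : F, d = M 1 1 := ⟨_, rfl⟩
  have hMe : M = !![a, b; c, d] := by
    rw [ha, hb, hc, hd]; exact Matrix.eta_fin_two M
  obtain ⟨A, hA⟩ : ∃ A : Matrix (Fin 3) (Fin 3) F,
      A = !![1 - a ^ 2, -(2 * a * b), -b ^ 2; -(a * c), 1 - a * d - b * c, -(b * d);
        -c ^ 2, -(2 * c * d), 1 - d ^ 2] := ⟨_, rfl⟩
  have hdet : A.det = -((M.det - 1) * ((M.det + 1) ^ 2 - M.trace ^ 2)) := by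
    rw [hA, hMe, Matrix.det_fin_three, Matrix.det_fin_two, Matrix.trace_fin_two]
    simp
    ring
  have hdet0 : A.det ≠ 0 := by
    rw [hdet]; exact neg_ne_zero.mpr hD
  have hu : IsUnit A.det := isUnit_iff_ne_zero.mpr hdet0
  obtain ⟨w, hw⟩ : ∃ w : Fin 3 → F, w = A⁻¹ *ᵥ ![R 0 0, R 0 1, R 1 1] := ⟨_, rfl⟩
  have hAw : A *ᵥ w = ![R 0 0, R 0 1, R 1 1] := by
    rw [hw, Matrix.mulVec_mulVec, Matrix.mul_nonsing_inv A hu, Matrix.one_mulVec]
  have h0 := congrFun hAw 0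
  have h1 := congrFun hAw 1
  have h2 := congrFun hAw 2
  rw [hA] at h0 h1 h2
  simp [Matrix.mulVec, dotProduct, Fin.sum_univ_three] at h0 h1 h2
  have hR10 : R 1 0 = R 0 1 := by
    have := congrFun (congrFun hR 0) 1
    rwa [Matrix.transpose_apply] at this
  refine ⟨!![w 0, w 1; w 1, w 2], ?_, ?_⟩
  · ext i j
    fin_cases i <;> fin_cases j <;> simp [Matrix.transpose_apply]
  · have hT : (!![a, b; c, d] : Matrix (Fin 2) (Fin 2) F)ᵀ = !![a, c; b, d] := by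
      ext i j
      fin_cases i <;> fin_cases j <;> rfl
    rw [hMe, hT, Matrix.mul_fin_two, Matrix.mul_fin_two]
    ext i j
    fin_cases i <;> fin_cases j
    · simp
      linear_combination h0
    · simp
      linear_combination h1
    · simp
      rw [hR10]
      linear_combination h1
    · simp
      linear_combination h2

/-- a non-scalar `2 × 2` matrix is similar to its companion matrix. -/
theorem exists_P {τ δ : F} (M : Matrix (Fin 2) (Fin 2) F) (hM : Good2 τ δ M) :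
    ∃ P : Matrix (Fin 2) (Fin 2) F, P.det ≠ 0 ∧ M * P = P * Cm τ δ := by
  obtain ⟨hτ, hδ, hns⟩ := hM
  obtain ⟨a, ha⟩ : ∃ a : F, a = M 0 0 := ⟨_, rfl⟩
  obtain ⟨b, hb⟩ : ∃ b : F, b = M 0 1 := ⟨_, rfl⟩
  obtain ⟨c, hc⟩ : ∃ c : F, c = M 1 0 := ⟨_, rfl⟩
  obtain ⟨d, hd⟩ : ∃ d : F, d = M 1 1 := ⟨_, rfl⟩
  have hMe : M = !![a, b; c, d] := by
    rw [ha, hb, hc, hd]; exact Matrix.eta_fin_two M
  have hτ' : τ = a + d := by
    rw [← hτ, hMe, Matrix.trace_fin_two]; simp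
  have hδ' : δ = a * d - b * c := by
    rw [← hδ, hMe, Matrix.det_fin_two]; simp
  have key : ∀ e₁ e₂ : F, M * !![e₁, a * e₁ + b * e₂; e₂, c * e₁ + d * e₂] =
      !![e₁, a * e₁ + b * e₂; e₂, c * e₁ + d * e₂] * Cm τ δ := by
    intro e₁ e₂
    rw [hMe, Cm, hτ', hδ']
    ext i j
    fin_cases i <;> fin_cases j <;> simp [Matrix.mul_apply, Fin.sum_univ_two] <;> ring
  have hdetP : ∀ e₁ e₂ : F, (!![e₁, a * e₁ + b * e₂; e₂, c * e₁ + d * e₂] : Matrix _ _ F).det =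
      c * e₁ ^ 2 + (d - a) * e₁ * e₂ - b * e₂ ^ 2 := by
    intro e₁ e₂
    rw [Matrix.det_fin_two]; simp; ring
  by_cases hc0 : c = 0
  · by_cases hb0 : b = 0
    · have had : a ≠ d := by
        intro had
        apply hns a
        rw [hMe, hc0, hb0, ← had]
        ext i j
        fin_cases i <;> fin_cases j <;> simp
      refine ⟨_, ?_, key 1 1⟩
      rw [hdetP, hc0, hb0]
      intro h
      apply had
      have : d - a = 0 := by linear_combination h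
      exact (sub_eq_zero.mp this).symm
    · refine ⟨_, ?_, key 0 1⟩
      rw [hdetP]
      intro h
      apply hb0
      linear_combination -h
  · refine ⟨_, ?_, key 1 0⟩
    rw [hdetP]
    intro h
    apply hc0
    linear_combination h

theorem upper_mem (W : Matrix (Fin 2) (Fin 2) F) (hW : Wᵀ = W) :
    fromBlocks 1 W 0 1 ∈ symplecticGroup (Fin 2) F := by
  rw [SymplecticGroup.mem_iff, Matrix.J, Matrix.fromBlocks_multiply, Matrix.fromBlocks_transpose,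
    Matrix.fromBlocks_multiply]
  simp [hW]

theorem lower_mem (L : Matrix (Fin 2) (Fin 2) F) (hL : Lᵀ = L) :
    fromBlocks 1 0 L 1 ∈ symplecticGroup (Fin 2) F := by
  rw [SymplecticGroup.mem_iff, Matrix.J, Matrix.fromBlocks_multiply, Matrix.fromBlocks_transpose,
    Matrix.fromBlocks_multiply]
  simp [hL]

theorem diag_mem (P : Matrix (Fin 2) (Fin 2) F) (hP : P.det ≠ 0) :
    fromBlocks P 0 0 (P⁻¹)ᵀ ∈ symplecticGroup (Fin 2) F := by
  have hu : IsUnit P.det := isUnit_iff_ne_zero.mpr hP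
  have h1 : P * P⁻¹ = 1 := Matrix.mul_nonsing_inv P hu
  have h2 : (P⁻¹)ᵀ * Pᵀ = 1 := by
    rw [← Matrix.transpose_mul, h1, Matrix.transpose_one]
  rw [SymplecticGroup.mem_iff, Matrix.J, Matrix.fromBlocks_multiply, Matrix.fromBlocks_transpose,
    Matrix.fromBlocks_multiply]
  simp [h1, h2]

theorem diag_conj (M P C : Matrix (Fin 2) (Fin 2) F) (h : M * P = P * C) :
    fromBlocks M 0 0 (M⁻¹)ᵀ * fromBlocks P 0 0 (P⁻¹)ᵀ =
      fromBlocks P 0 0 (P⁻¹)ᵀ * fromBlocks C 0 0 (C⁻¹)ᵀ := by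
  have h2 : (M⁻¹)ᵀ * (P⁻¹)ᵀ = (P⁻¹)ᵀ * (C⁻¹)ᵀ := by
    rw [← Matrix.transpose_mul, ← Matrix.transpose_mul, ← Matrix.mul_inv_rev,
      ← Matrix.mul_inv_rev, h]
  rw [Matrix.fromBlocks_multiply, Matrix.fromBlocks_multiply]
  simp [h, h2]

theorem upper_conj (M S W : Matrix (Fin 2) (Fin 2) F) (hM : M.det ≠ 0)
    (hW : W - M * W * Mᵀ = M * S * Mᵀ) :
    fromBlocks M (M * S) 0 (M⁻¹)ᵀ * fromBlocks 1 W 0 1 =
      fromBlocks 1 W 0 1 * fromBlocks M 0 0 (M⁻¹)ᵀ := by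
  have hu : IsUnit M.det := isUnit_iff_ne_zero.mpr hM
  have h1 : Mᵀ * (M⁻¹)ᵀ = 1 := by
    rw [← Matrix.transpose_mul, Matrix.nonsing_inv_mul M hu, Matrix.transpose_one]
  have h2 : M * W + M * S = W * (M⁻¹)ᵀ := by
    have hW' : W = M * W * Mᵀ + M * S * Mᵀ := by
      rw [← hW]; abel
    calc M * W + M * S = M * W * (Mᵀ * (M⁻¹)ᵀ) + M * S * (Mᵀ * (M⁻¹)ᵀ) := by
          rw [h1, Matrix.mul_one, Matrix.mul_one]
      _ = (M * W * Mᵀ + M * S * Mᵀ) * (M⁻¹)ᵀ := by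
          rw [Matrix.add_mul, Matrix.mul_assoc (M * W), Matrix.mul_assoc (M * S)]
      _ = W * (M⁻¹)ᵀ := by rw [← hW']
  rw [Matrix.fromBlocks_multiply, Matrix.fromBlocks_multiply]
  simp [h2]

theorem isConjX_upper {τ δ : F} (hN : N1 τ δ) (M S : Matrix (Fin 2) (Fin 2) F)
    (hM : Good2 τ δ M) (hS : Sᵀ = S) : IsConjX τ δ (fromBlocks M (M * S) 0 (M⁻¹)ᵀ) := by
  obtain ⟨hδ0, hD⟩ := hN
  obtain ⟨P, hPdet, hMP⟩ := exists_P M hM
  obtain ⟨hτ, hδ, hns⟩ := hM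
  have hR : (M * S * Mᵀ)ᵀ = M * S * Mᵀ := by
    rw [Matrix.transpose_mul, Matrix.transpose_mul, Matrix.transpose_transpose, hS,
      Matrix.mul_assoc]
  obtain ⟨W, hWs, hW⟩ := exists_sym_sol M (M * S * Mᵀ) hR (by rw [hδ, hτ]; exact hD)
  have hMdet : M.det ≠ 0 := by rw [hδ]; exact hδ0
  refine ⟨fromBlocks 1 W 0 1 * fromBlocks P 0 0 (P⁻¹)ᵀ,
    mul_mem (upper_mem W hWs) (diag_mem P hPdet), ?_⟩
  rw [← Matrix.mul_assoc, upper_conj M S W hMdet hW, Matrix.mul_assoc,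
    diag_conj M P (Cm τ δ) hMP, ← Matrix.mul_assoc]
  rfl

/-! Verbatim restatement of the posted piece statement. -/

example {τ δ : F} (hN : N1 τ δ) (M S : Matrix (Fin 2) (Fin 2) F)
    (hM : Good2 τ δ M) (hS : Sᵀ = S) : IsConjX τ δ (fromBlocks M (M * S) 0 (M⁻¹)ᵀ) :=
  isConjX_upper hN M S hM hS

end Cfsg.Agent.H62.Sp4
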