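import Mathlib
import Cfsg.Agent.H97.Sp4Defs
import Cfsg.Agent.H62.Sp4C1A

/-!
# S2460 piece C1B (helper97's team project): lower block-triangular elements are conjugate to `x`
-/

set_option autoImplicit false
set_option linter.style.haveILetI false
set_option linter.unusedSimpArgs false
set_option linter.unusedSectionVars false
set_option linter.unusedVariables false

namespace Cfsg.Agent.H62.Sp4

open Matrix Cfsg.Agent.H97.Sp4

variable {F : Type*} [Field F]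

theorem lower_conj (M S L : Matrix (Fin 2) (Fin 2) F) (hM : M.det ≠ 0)
    (hL : L - Mᵀ * L * M = -(Mᵀ * S * M)) :
    fromBlocks M 0 (S * M) (M⁻¹)ᵀ * fromBlocks 1 0 L 1 =
      fromBlocks 1 0 L 1 * fromBlocks M 0 0 (M⁻¹)ᵀ := by
  have hu : IsUnit M.det := isUnit_iff_ne_zero.mpr hM
  have h1 : (M⁻¹)ᵀ * Mᵀ = 1 := by
    rw [← Matrix.transpose_mul, Matrix.mul_nonsing_inv M hu, Matrix.transpose_one]
  have h2 : S * M + (M⁻¹)ᵀ * L = L * M := by
    have hL' : L = Mᵀ * L * M - Mᵀ * S * M := by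
      calc L = (L - Mᵀ * L * M) + Mᵀ * L * M := by abel
        _ = Mᵀ * L * M - Mᵀ * S * M := by rw [hL]; abel
    calc S * M + (M⁻¹)ᵀ * L = S * M + (M⁻¹)ᵀ * (Mᵀ * L * M - Mᵀ * S * M) := by rw [← hL']
      _ = S * M + ((M⁻¹)ᵀ * Mᵀ * (L * M) - (M⁻¹)ᵀ * Mᵀ * (S * M)) := by
          rw [Matrix.mul_sub, Matrix.mul_assoc Mᵀ L M, Matrix.mul_assoc Mᵀ S M,
            ← Matrix.mul_assoc (M⁻¹)ᵀ Mᵀ, ← Matrix.mul_assoc (M⁻¹)ᵀ Mᵀ]
      _ = L * M := by rw [h1, Matrix.one_mul, Matrix.one_mul]; abel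
  rw [Matrix.fromBlocks_multiply, Matrix.fromBlocks_multiply]
  simp [h2]

theorem isConjX_lower {τ δ : F} (hN : N1 τ δ) (M S : Matrix (Fin 2) (Fin 2) F)
    (hM : Good2 τ δ M) (hS : Sᵀ = S) : IsConjX τ δ (fromBlocks M 0 (S * M) (M⁻¹)ᵀ) := by
  obtain ⟨hδ0, hD⟩ := hN
  obtain ⟨P, hPdet, hMP⟩ := exists_P M hM
  obtain ⟨hτ, hδ, hns⟩ := hM
  have hR : (-(Mᵀ * S * M))ᵀ = -(Mᵀ * S * M) := by
    rw [Matrix.transpose_neg, Matrix.transpose_mul, Matrix.transpose_mul,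
      Matrix.transpose_transpose, hS, Matrix.mul_assoc]
  obtain ⟨L, hLs, hL⟩ := exists_sym_sol Mᵀ (-(Mᵀ * S * M)) hR
    (by rw [Matrix.det_transpose, Matrix.trace_transpose, hδ, hτ]; exact hD)
  rw [Matrix.transpose_transpose] at hL
  have hMdet : M.det ≠ 0 := by rw [hδ]; exact hδ0
  refine ⟨fromBlocks 1 0 L 1 * fromBlocks P 0 0 (P⁻¹)ᵀ,
    mul_mem (lower_mem L hLs) (diag_mem P hPdet), ?_⟩
  rw [← Matrix.mul_assoc, lower_conj M S L hMdet hL, Matrix.mul_assoc,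
    diag_conj M P (Cm τ δ) hMP, ← Matrix.mul_assoc]
  rfl

/-! Verbatim restatement of the posted piece statement. -/

example {τ δ : F} (hN : N1 τ δ) (M S : Matrix (Fin 2) (Fin 2) F)
    (hM : Good2 τ δ M) (hS : Sᵀ = S) : IsConjX τ δ (fromBlocks M 0 (S * M) (M⁻¹)ᵀ) :=
  isConjX_lower hN M S hM hS

end Cfsg.Agent.H62.Sp4
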