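import Mathlib
import Cfsg.Agent.H62.SpA

set_option autoImplicit false
set_option linter.style.haveILetI false
set_option linter.unusedSimpArgs false
set_option linter.unusedSectionVars false
set_option linter.unusedVariables false

namespace Cfsg.Agent.H62

open Matrix

section Block

variable {F : Type*} [Field F] (m d : ℕ)

/-- the index equivalence for block sums. -/
def spIdx : (Fin m ⊕ Fin m) ⊕ (Fin d ⊕ Fin d) ≃ Fin (m + d) ⊕ Fin (m + d) :=
  (Equiv.sumSumSumComm (Fin m) (Fin m) (Fin d) (Fin d)).trans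
    (Equiv.sumCongr finSumFinEquiv finSumFinEquiv)

/-- block sum of two matrices. -/
def spSum (A : Matrix (Fin m ⊕ Fin m) (Fin m ⊕ Fin m) F)
    (B : Matrix (Fin d ⊕ Fin d) (Fin d ⊕ Fin d) F) :
    Matrix (Fin (m + d) ⊕ Fin (m + d)) (Fin (m + d) ⊕ Fin (m + d)) F :=
  Matrix.reindex (spIdx m d) (spIdx m d) (fromBlocks A 0 0 B)

theorem spSum_mul (A A' : Matrix (Fin m ⊕ Fin m) (Fin m ⊕ Fin m) F)
    (B B' : Matrix (Fin d ⊕ Fin d) (Fin d ⊕ Fin d) F) :
    spSum m d A B * spSum m d A' B' = spSum m d (A * A') (B * B') := by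
  unfold spSum
  rw [Matrix.reindex_apply, Matrix.reindex_apply, Matrix.submatrix_mul_equiv,
    fromBlocks_multiply]
  simp

theorem spSum_one : spSum m d (1 : Matrix (Fin m ⊕ Fin m) (Fin m ⊕ Fin m) F) 1 = 1 := by
  unfold spSum
  rw [fromBlocks_one]
  simp

theorem spSum_neg (A : Matrix (Fin m ⊕ Fin m) (Fin m ⊕ Fin m) F)
    (B : Matrix (Fin d ⊕ Fin d) (Fin d ⊕ Fin d) F) :
    spSum m d (-A) (-B) = -spSum m d A B := by
  unfold spSum
  have h : fromBlocks (-A) 0 0 (-B) = -fromBlocks A 0 0 B := by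
    rw [fromBlocks_neg]; simp
  rw [h]
  ext i j
  simp

theorem spSum_transpose (A : Matrix (Fin m ⊕ Fin m) (Fin m ⊕ Fin m) F)
    (B : Matrix (Fin d ⊕ Fin d) (Fin d ⊕ Fin d) F) :
    (spSum m d A B)ᵀ = spSum m d Aᵀ Bᵀ := by
  unfold spSum
  rw [Matrix.reindex_apply, Matrix.reindex_apply, Matrix.transpose_submatrix,
    fromBlocks_transpose]
  simp

theorem spSum_inj (A A' : Matrix (Fin m ⊕ Fin m) (Fin m ⊕ Fin m) F)
    (B B' : Matrix (Fin d ⊕ Fin d) (Fin d ⊕ Fin d) F)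
    (h : spSum m d A B = spSum m d A' B') : A = A' ∧ B = B' := by
  unfold spSum at h
  have h1 := (Matrix.reindex (spIdx m d) (spIdx m d)).injective h
  obtain ⟨h2, -, -, h3⟩ := fromBlocks_inj.mp h1
  exact ⟨h2, h3⟩

theorem spSum_pow (A : Matrix (Fin m ⊕ Fin m) (Fin m ⊕ Fin m) F)
    (B : Matrix (Fin d ⊕ Fin d) (Fin d ⊕ Fin d) F) (k : ℕ) :
    spSum m d A B ^ k = spSum m d (A ^ k) (B ^ k) := by
  induction k with
  | zero => rw [pow_zero, pow_zero, pow_zero, spSum_one]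
  | succ k ih => rw [pow_succ, ih, spSum_mul, pow_succ, pow_succ]

theorem spSum_J : spSum m d (J (Fin m) F) (J (Fin d) F) = J (Fin (m + d)) F := by
  unfold spSum
  rw [Matrix.reindex_apply]
  have key : fromBlocks (J (Fin m) F) 0 0 (J (Fin d) F) =
      (J (Fin (m + d)) F).submatrix (spIdx m d) (spIdx m d) := by
    ext ((i | i) | (i | i)) ((j | j) | (j | j)) <;>
      simp [spIdx, J, Matrix.one_apply, Fin.ext_iff] <;> omega
  rw [key]
  simp

theorem spSum_mem (A : Matrix (Fin m ⊕ Fin m) (Fin m ⊕ Fin m) F)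
    (B : Matrix (Fin d ⊕ Fin d) (Fin d ⊕ Fin d) F)
    (hA : A ∈ symplecticGroup (Fin m) F) (hB : B ∈ symplecticGroup (Fin d) F) :
    spSum m d A B ∈ symplecticGroup (Fin (m + d)) F := by
  rw [SymplecticGroup.mem_iff] at hA hB ⊢
  rw [← spSum_J, spSum_transpose, spSum_mul, spSum_mul, hA, hB]

theorem spSum_eq_one (A : Matrix (Fin m ⊕ Fin m) (Fin m ⊕ Fin m) F)
    (B : Matrix (Fin d ⊕ Fin d) (Fin d ⊕ Fin d) F) (h : spSum m d A B = 1) :
    A = 1 ∧ B = 1 := by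
  rw [← spSum_one] at h
  exact spSum_inj m d _ _ _ _ h

theorem spSum_eq_neg_one (A : Matrix (Fin m ⊕ Fin m) (Fin m ⊕ Fin m) F)
    (B : Matrix (Fin d ⊕ Fin d) (Fin d ⊕ Fin d) F) (h : spSum m d A B = -1) :
    A = -1 ∧ B = -1 := by
  rw [← spSum_one, ← spSum_neg] at h
  exact spSum_inj m d _ _ _ _ h

end Block

end Cfsg.Agent.H62
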