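import Mathlib
import Cfsg.Agent.H62.SpA
import Cfsg.Agent.H62.PowSpecB

set_option autoImplicit false
set_option linter.style.haveILetI false
set_option linter.unusedSimpArgs false
set_option linter.unusedSectionVars false
set_option linter.unusedVariables false

namespace Cfsg.Agent.H62

open Matrix

section RegUnip

variable {F : Type*} [Field F]

/-- the nilpotent element of the symplectic Lie algebra along a Hamiltonian path. -/
def spNil (F : Type*) [Field F] (a : ℕ) (ha : 1 ≤ a) :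
    Matrix (Fin a ⊕ Fin a) (Fin a ⊕ Fin a) F :=
  fromBlocks (shiftN F a)ᵀ 0 (Matrix.single ⟨a - 1, by omega⟩ ⟨a - 1, by omega⟩ 1)
    (-(shiftN F a))

theorem spNil_adj (a : ℕ) (ha : 1 ≤ a) : spAdj (spNil F a ha) = -spNil F a ha := by
  unfold spAdj spNil J
  rw [fromBlocks_transpose, fromBlocks_neg, fromBlocks_multiply, fromBlocks_multiply,
    fromBlocks_neg]
  simp [Matrix.transpose_single]

theorem spNil_pow_blocks (a : ℕ) (ha : 1 ≤ a) (k : ℕ) :
    ∃ Z : Matrix (Fin a) (Fin a) F,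
      spNil F a ha ^ k = fromBlocks ((shiftN F a)ᵀ ^ k) 0 Z ((-(shiftN F a)) ^ k) := by
  induction k with
  | zero => exact ⟨0, by rw [pow_zero, pow_zero, pow_zero, fromBlocks_one]⟩
  | succ k ih =>
    obtain ⟨Z, hZ⟩ := ih
    refine ⟨Z * (shiftN F a)ᵀ + (-(shiftN F a)) ^ k *
      Matrix.single ⟨a - 1, by omega⟩ ⟨a - 1, by omega⟩ 1, ?_⟩
    have hdef : spNil F a ha = fromBlocks (shiftN F a)ᵀ 0
        (Matrix.single ⟨a - 1, by omega⟩ ⟨a - 1, by omega⟩ 1) (-(shiftN F a)) := rfl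
    rw [pow_succ, hZ, hdef, fromBlocks_multiply]
    simp [pow_succ]

theorem spNil_pow_two_mul (a : ℕ) (ha : 1 ≤ a) : spNil F a ha ^ (2 * a) = 0 := by
  obtain ⟨Z, hZ⟩ := spNil_pow_blocks (F := F) a ha a
  have h1 : (shiftN F a)ᵀ ^ a = 0 := by
    rw [← transpose_pow, (shiftN_pow_eq_zero_iff a a ha).mpr le_rfl, transpose_zero]
  have h2 : (-(shiftN F a)) ^ a = 0 := by
    rw [neg_pow, (shiftN_pow_eq_zero_iff a a ha).mpr le_rfl, mul_zero]
  rw [h1, h2] at hZ
  rw [two_mul, pow_add, hZ, fromBlocks_multiply]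
  simp

theorem spNil_step_inl (a : ℕ) (ha : 1 ≤ a) (t : ℕ) (ht : t + 1 < a) :
    spNil F a ha *ᵥ Pi.single (Sum.inl ⟨t, by omega⟩) 1 =
      Pi.single (Sum.inl ⟨t + 1, ht⟩) 1 := by
  rw [Matrix.mulVec_single_one]
  funext x
  rcases x with i | i
  · simp [spNil, shiftN, Pi.single_apply, Fin.ext_iff]
  · simp [spNil, Matrix.single_apply, Pi.single_apply, Fin.ext_iff]
    omega

theorem spNil_step_mid (a : ℕ) (ha : 1 ≤ a) :
    spNil F a ha *ᵥ Pi.single (Sum.inl ⟨a - 1, by omega⟩) 1 =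
      Pi.single (Sum.inr ⟨a - 1, by omega⟩) 1 := by
  rw [Matrix.mulVec_single_one]
  funext x
  rcases x with i | i
  · simp [spNil, shiftN, Pi.single_apply, Fin.ext_iff]
    omega
  · simp [spNil, Matrix.single_apply, Pi.single_apply, Fin.ext_iff]
    simp only [eq_comm]

theorem spNil_step_inr (a : ℕ) (ha : 1 ≤ a) (s : ℕ) (hs : s + 1 < a) :
    spNil F a ha *ᵥ Pi.single (Sum.inr ⟨s + 1, hs⟩) 1 =
      -Pi.single (Sum.inr ⟨s, by omega⟩) 1 := by
  rw [Matrix.mulVec_single_one]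
  funext x
  rcases x with i | i
  · simp [spNil, Pi.single_apply]
  · simp [spNil, shiftN, Pi.single_apply, Fin.ext_iff]
    by_cases h : s = i.val
    · simp [h]
    · have h' : ¬ (i.val = s) := fun h'' => h h''.symm
      simp [h, h']

theorem spNil_chain_inl (a : ℕ) (ha : 1 ≤ a) (t : ℕ) (ht : t < a) :
    (spNil F a ha ^ t) *ᵥ Pi.single (Sum.inl ⟨0, by omega⟩) 1 =
      Pi.single (Sum.inl ⟨t, ht⟩) 1 := by
  induction t with
  | zero => rw [pow_zero, Matrix.one_mulVec]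
  | succ t ih =>
    rw [pow_succ', ← Matrix.mulVec_mulVec, ih (by omega)]
    exact spNil_step_inl a ha t ht

theorem spNil_chain_inr (a : ℕ) (ha : 1 ≤ a) (s : ℕ) (hs : s < a) :
    (spNil F a ha ^ s) *ᵥ Pi.single (Sum.inr ⟨a - 1, by omega⟩) 1 =
      (-1 : F) ^ s • Pi.single (Sum.inr ⟨a - 1 - s, by omega⟩) 1 := by
  induction s with
  | zero => rw [pow_zero, Matrix.one_mulVec, pow_zero, one_smul]; rfl
  | succ s ih =>
    rw [pow_succ', ← Matrix.mulVec_mulVec, ih (by omega), Matrix.mulVec_smul]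
    have h1 : (⟨a - 1 - s, by omega⟩ : Fin a) = ⟨(a - 1 - (s + 1)) + 1, by omega⟩ := by
      apply Fin.ext
      show a - 1 - s = a - 1 - (s + 1) + 1
      omega
    rw [h1, spNil_step_inr a ha (a - 1 - (s + 1)) (by omega), pow_succ]
    simp

theorem spNil_pow_ne_zero (a : ℕ) (ha : 1 ≤ a) : spNil F a ha ^ (2 * a - 1) ≠ 0 := by
  intro h
  have e : 2 * a - 1 = (a - 1) + (1 + (a - 1)) := by omega
  have h1 : (spNil F a ha ^ (2 * a - 1)) *ᵥ Pi.single (Sum.inl ⟨0, by omega⟩) 1 =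
      (-1 : F) ^ (a - 1) • Pi.single (Sum.inr ⟨a - 1 - (a - 1), by omega⟩) 1 := by
    rw [e, pow_add, pow_add, pow_one, ← Matrix.mulVec_mulVec, ← Matrix.mulVec_mulVec,
      spNil_chain_inl a ha (a - 1) (by omega), spNil_step_mid a ha,
      spNil_chain_inr a ha (a - 1) (by omega)]
  rw [h, Matrix.zero_mulVec] at h1
  have h2 := congrFun h1 (Sum.inr ⟨a - 1 - (a - 1), by omega⟩)
  simp at h2
  exact absurd h2.symm (pow_ne_zero _ (neg_ne_zero.mpr one_ne_zero))

theorem spNil_pow_eq_zero_iff (a : ℕ) (ha : 1 ≤ a) (k : ℕ) :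
    spNil F a ha ^ k = 0 ↔ 2 * a ≤ k := by
  constructor
  · intro h
    by_contra hk
    push Not at hk
    apply spNil_pow_ne_zero (F := F) a ha
    have e : 2 * a - 1 = k + (2 * a - 1 - k) := by omega
    rw [e, pow_add, h, Matrix.zero_mul]
  · intro h
    obtain ⟨j, rfl⟩ := Nat.exists_eq_add_of_le h
    rw [pow_add, spNil_pow_two_mul, Matrix.zero_mul]

/-- a regular unipotent element of the symplectic group. -/
theorem sp_reg_unip (p : ℕ) [Fact p.Prime] [CharP F p] (hp2 : p ≠ 2) (a : ℕ) (ha : 1 ≤ a) :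
    ∃ U : Matrix (Fin a ⊕ Fin a) (Fin a ⊕ Fin a) F, U ∈ symplecticGroup (Fin a) F ∧
      ∀ c : ℕ, U ^ (p ^ c) = 1 ↔ 2 * a ≤ p ^ c := by
  haveI : Nonempty (Fin a ⊕ Fin a) := ⟨Sum.inl ⟨0, ha⟩⟩
  obtain ⟨N, hN⟩ : ∃ N, N = spNil F a ha := ⟨_, rfl⟩
  have hNz : N ^ (2 * a) = 0 := hN ▸ spNil_pow_two_mul a ha
  have hNk : ∀ k, N ^ k = 0 ↔ 2 * a ≤ k := fun k => hN ▸ spNil_pow_eq_zero_iff a ha k
  have hNadj : spAdj N = -N := hN ▸ spNil_adj a ha
  obtain ⟨Wi, hWi⟩ : ∃ Wi, Wi = ∑ i ∈ Finset.range (2 * a), N ^ i := ⟨_, rfl⟩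
  obtain ⟨Wi', hWi'⟩ : ∃ Wi', Wi' = ∑ i ∈ Finset.range (2 * a), (-N) ^ i := ⟨_, rfl⟩
  have h1 : (1 - N) * Wi = 1 := by rw [hWi, mul_neg_geom_sum, hNz, sub_zero]
  have h2 : Wi * (1 - N) = 1 := by rw [hWi, geom_sum_mul_neg, hNz, sub_zero]
  have h3 : (1 + N) * Wi' = 1 := by
    have : (1 + N) = 1 - (-N) := by rw [sub_neg_eq_add]
    rw [this, hWi', mul_neg_geom_sum, neg_pow, hNz, mul_zero, sub_zero]
  have hadjW : spAdj Wi = Wi' := by
    rw [hWi, hWi']
    have := map_sum (AddMonoidHom.mk' (spAdj (l := Fin a) (F := F)) spAdj_add)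
      (fun i => N ^ i) (Finset.range (2 * a))
    simp only [AddMonoidHom.mk'_apply] at this
    rw [this]
    apply Finset.sum_congr rfl
    intro i _
    rw [spAdj_pow, hNadj]
  have hcWW : Commute Wi Wi' := by
    rw [hWi, hWi']
    apply Commute.sum_left
    intro i _
    apply Commute.sum_right
    intro j _
    exact ((Commute.refl N).neg_right).pow_pow i j
  have hcNW : Commute N Wi := by
    rw [hWi]
    apply Commute.sum_right
    intro j _
    exact (Commute.refl N).pow_right j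
  refine ⟨(1 + N) * Wi, ?_, ?_⟩
  · rw [sp_mem_iff_adj, spAdj_mul, hadjW, spAdj_add, spAdj_one, hNadj, ← sub_eq_add_neg]
    calc (1 + N) * Wi * (Wi' * (1 - N)) = (1 + N) * (Wi * Wi') * (1 - N) := by
          simp only [Matrix.mul_assoc]
      _ = (1 + N) * (Wi' * Wi) * (1 - N) := by rw [hcWW.eq]
      _ = ((1 + N) * Wi') * (Wi * (1 - N)) := by simp only [Matrix.mul_assoc]
      _ = 1 := by rw [h3, h2, Matrix.mul_one]
  · intro c
    have hU1 : (1 + N) * Wi - 1 = (N + N) * Wi := by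
      nth_rewrite 2 [← h1]
      rw [← Matrix.sub_mul]
      congr 1
      abel
    have hcomm : Commute (N + N) Wi := hcNW.add_left hcNW
    have hpow : ((1 + N) * Wi - 1) ^ (p ^ c) = ((1 + N) * Wi) ^ (p ^ c) - 1 := by
      rw [sub_pow_char_pow_of_commute p c (Commute.one_right _), one_pow]
    have h2F : (2 : F) ≠ 0 := by
      intro h
      have h' : ((2 : ℕ) : F) = 0 := by exact_mod_cast h
      rw [CharP.cast_eq_zero_iff F p 2] at h'
      have := (Nat.prime_dvd_prime_iff_eq (Fact.out : p.Prime) Nat.prime_two).mp h'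
      exact hp2 this
    have hNN : N + N = (2 : F) • N := by rw [two_smul]
    have key : ∀ k : ℕ, ((N + N) * Wi) ^ k = 0 ↔ N ^ k = 0 := by
      intro k
      rw [hcomm.mul_pow, hNN, smul_pow]
      constructor
      · intro h
        have h4 : ((2 : F) ^ k • N ^ k * Wi ^ k) * (1 - N) ^ k = 0 := by rw [h, Matrix.zero_mul]
        have hcW1 : Commute Wi (1 - N) := (Commute.one_right Wi).sub_right hcNW.symm
        rw [Matrix.mul_assoc, ← hcW1.mul_pow, h2, one_pow, Matrix.mul_one] at h4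
        rcases smul_eq_zero.mp h4 with h5 | h5
        · exact absurd h5 (pow_ne_zero _ h2F)
        · exact h5
      · intro h
        rw [h, smul_zero, Matrix.zero_mul]
    rw [← hNk, ← key, ← hU1, hpow, sub_eq_zero]

end RegUnip

end Cfsg.Agent.H62
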