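import Mathlib
import Cfsg.Agent.H62.SpA
import Cfsg.Agent.H62.PSL2Spec

set_option autoImplicit false
set_option linter.style.haveILetI false
set_option linter.unusedSimpArgs false
set_option linter.unusedSectionVars false
set_option linter.unusedVariables false

namespace Cfsg.Agent.H62

open Matrix

/-- powers of a root of `x ^ 2 = τ x - 1`. -/
theorem quad_pow {E R : Type*} [CommRing E] [Ring R] (φ : E →+* R) (x : R) (τ : E)
    (hx : x * x = φ τ * x - 1) (k : ℕ) :
    x ^ (k + 1) = φ (chebU τ (k + 1)) * x - φ (chebU τ k) := by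
  induction k with
  | zero => simp [chebU_one, chebU_zero]
  | succ k ih =>
    rw [pow_succ, ih, chebU_succ_succ, sub_mul, mul_assoc, hx, map_sub, map_mul, mul_sub,
      mul_one, ← mul_assoc, sub_mul, ← map_mul, ← map_mul, mul_comm (chebU τ (k + 1)) τ]
    abel

theorem fromBlocks_sub_h62 {n m R : Type*} [Sub R]
    (A A' : Matrix n n R) (B B' : Matrix n m R) (C C' : Matrix m n R) (D D' : Matrix m m R) :
    fromBlocks A B C D - fromBlocks A' B' C' D' =
      fromBlocks (A - A') (B - B') (C - C') (D - D') := by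
  ext (i | i) (j | j) <;> simp

section TorusGen

variable {F : Type*} [Field F] [Fintype F]
variable {E : Type*} [Field E] [Algebra F E] [Finite E] {d : ℕ}

theorem sp_torus_plus_gen (b : Module.Basis (Fin d) F E) :
    ∃ S : Matrix (Fin d ⊕ Fin d) (Fin d ⊕ Fin d) F, S ∈ symplecticGroup (Fin d) F ∧
      (∀ k : ℕ, S ^ k = 1 → (Nat.card E - 1) ∣ k) ∧
      (∀ k : ℕ, S ^ k = -1 → (Nat.card E - 1) ∣ 2 * k) := by
  classical
  obtain ⟨g, hg⟩ := IsCyclic.exists_generator (α := Eˣ)
  have hog : orderOf g = Nat.card E - 1 := by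
    rw [orderOf_eq_card_of_forall_mem_zpowers hg, Nat.card_units]
  have hoz : orderOf (g : E) = Nat.card E - 1 := by rw [orderOf_units, hog]
  have hinj : Function.Injective (Algebra.leftMulMatrix b) := Algebra.leftMulMatrix_injective b
  obtain ⟨A, hA⟩ : ∃ A, A = Algebra.leftMulMatrix b (g : E) := ⟨_, rfl⟩
  obtain ⟨B, hB⟩ : ∃ B, B = Algebra.leftMulMatrix b ((g⁻¹ : Eˣ) : E) := ⟨_, rfl⟩
  have hBA : B * A = 1 := by rw [hA, hB, ← map_mul, Units.inv_mul, map_one]
  have hpow : ∀ k : ℕ, (fromBlocks A 0 0 Bᵀ) ^ k = fromBlocks (A ^ k) 0 0 (Bᵀ ^ k) := by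
    intro k
    induction k with
    | zero => simp [fromBlocks_one]
    | succ k ih =>
      rw [pow_succ, ih, fromBlocks_multiply]
      simp [pow_succ]
  refine ⟨fromBlocks A 0 0 Bᵀ, ?_, ?_, ?_⟩
  · rw [SymplecticGroup.fromBlocks_mem_iff]
    refine ⟨by simp, by simp, ?_⟩
    rw [Matrix.transpose_zero, Matrix.zero_mul, sub_zero, ← transpose_mul, hBA, transpose_one]
  · intro k hk
    rw [hpow, ← fromBlocks_one] at hk
    obtain ⟨h1, -, -, -⟩ := fromBlocks_inj.mp hk
    rw [hA, ← map_pow] at h1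
    have h2 : (g : E) ^ k = 1 := hinj (by rw [h1, map_one])
    rw [← hoz]; exact orderOf_dvd_of_pow_eq_one h2
  · intro k hk
    have hneg : (-1 : Matrix (Fin d ⊕ Fin d) (Fin d ⊕ Fin d) F) = fromBlocks (-1) 0 0 (-1) := by
      rw [← fromBlocks_one, fromBlocks_neg]; simp
    rw [hpow, hneg] at hk
    obtain ⟨h1, -, -, -⟩ := fromBlocks_inj.mp hk
    rw [hA, ← map_pow] at h1
    have h2 : (g : E) ^ k = -1 := hinj (by rw [h1, map_neg, map_one])
    have h3 : (g : E) ^ (2 * k) = 1 := by
      rw [mul_comm, pow_mul, h2]; simp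
    rw [← hoz]; exact orderOf_dvd_of_pow_eq_one h3

theorem sp_torus_minus_gen (p : ℕ) [Fact p.Prime] [CharP F p] (b : Module.Basis (Fin d) F E) :
    ∃ S : Matrix (Fin d ⊕ Fin d) (Fin d ⊕ Fin d) F, S ∈ symplecticGroup (Fin d) F ∧
      (∀ k : ℕ, S ^ k = 1 → (Nat.card E + 1) ∣ k) ∧
      (∀ k : ℕ, S ^ k = -1 → (Nat.card E + 1) ∣ 2 * k) := by
  classical
  haveI : CharP E p := charP_of_injective_algebraMap (algebraMap F E).injective p
  haveI : Module.Finite F E := Module.Finite.of_basis b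
  have hQ2 : 2 ≤ Nat.card E := Finite.one_lt_card
  have hcardE2 : Nat.card (FiniteField.Extension E p 2) = Nat.card E ^ 2 :=
    FiniteField.natCard_extension E p 2
  haveI : CharP (FiniteField.Extension E p 2) p :=
    charP_of_injective_algebraMap (algebraMap E (FiniteField.Extension E p 2)).injective p
  obtain ⟨θ0, hθ0⟩ := IsCyclic.exists_generator (α := (FiniteField.Extension E p 2)ˣ)
  have hfac : Nat.card E ^ 2 - 1 = (Nat.card E - 1) * (Nat.card E + 1) := by
    obtain ⟨k, hk⟩ : ∃ k, Nat.card E = k + 1 := ⟨Nat.card E - 1, by omega⟩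
    rw [hk]
    have e : (k + 1) ^ 2 = k * (k + 1 + 1) + 1 := by ring
    rw [e]
    simp
  have hoθ0 : orderOf (θ0 : FiniteField.Extension E p 2) =
      (Nat.card E - 1) * (Nat.card E + 1) := by
    rw [orderOf_units, orderOf_eq_card_of_forall_mem_zpowers hθ0, Nat.card_units, hcardE2, hfac]
  obtain ⟨θ, hθdef⟩ : ∃ θ, θ = (θ0 : FiniteField.Extension E p 2) ^ (Nat.card E - 1) :=
    ⟨_, rfl⟩
  have hoθ : orderOf θ = Nat.card E + 1 := by
    rw [hθdef, orderOf_pow_of_dvd (by omega) (by rw [hoθ0]; exact dvd_mul_right _ _), hoθ0,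
      Nat.mul_div_cancel_left _ (by omega)]
  have hθne : θ ≠ 0 := by rw [hθdef]; exact pow_ne_zero _ (Units.ne_zero θ0)
  have hθQ : θ ^ Nat.card E * θ = 1 := by rw [← pow_succ, ← hoθ, pow_orderOf_eq_one]
  have hθinv : θ ^ Nat.card E = θ⁻¹ := eq_inv_of_mul_eq_one_left hθQ
  obtain ⟨s, hs⟩ : ∃ s : ℕ, Nat.card E = p ^ s := by
    haveI := Fintype.ofFinite E
    obtain ⟨n, -, hn⟩ := FiniteField.card E p
    exact ⟨n, by rw [Nat.card_eq_fintype_card, hn]⟩
  have hτQ : (θ + θ⁻¹) ^ Nat.card E = θ + θ⁻¹ := by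
    have h1 : (θ + θ⁻¹) ^ Nat.card E = θ ^ Nat.card E + (θ⁻¹) ^ Nat.card E := by
      rw [hs]; exact add_pow_char_pow θ θ⁻¹ p s
    rw [h1, inv_pow, hθinv, inv_inv, add_comm]
  obtain ⟨τ, hτ⟩ := ext2_mem_range E p (θ + θ⁻¹) hτQ
  have hquad2 : θ * θ = algebraMap E (FiniteField.Extension E p 2) τ * θ - 1 := by
    rw [hτ]; field_simp; ring
  -- matrices
  obtain ⟨G, hGdef⟩ : ∃ G, G = Algebra.traceMatrix F b := ⟨_, rfl⟩
  have hGdet : G.det ≠ 0 := by
    rw [hGdef, Algebra.traceMatrix_of_basis]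
    exact det_traceForm_ne_zero b
  have hGu : IsUnit G.det := isUnit_iff_ne_zero.mpr hGdet
  have hGsymm : Gᵀ = G := by
    rw [hGdef]
    ext i j
    simp [Algebra.traceMatrix_apply, Algebra.traceForm_apply, mul_comm]
  have hG1 : G * G⁻¹ = 1 := Matrix.mul_nonsing_inv G hGu
  have hG2 : G⁻¹ * G = 1 := Matrix.nonsing_inv_mul G hGu
  have key : ∀ (y z : E), ∑ j, Algebra.trace F E (y * b j) * b.repr z j =
      Algebra.trace F E (y * z) := by
    intro y z
    conv_rhs => rw [← b.sum_repr z]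
    rw [Finset.mul_sum, map_sum]
    apply Finset.sum_congr rfl
    intro j _
    rw [mul_smul_comm, map_smul, smul_eq_mul, mul_comm]
  have R1 : ∀ x : E, G * Algebra.leftMulMatrix b x = (Algebra.leftMulMatrix b x)ᵀ * G := by
    intro x
    rw [hGdef]
    ext i k
    rw [Matrix.mul_apply, Matrix.mul_apply]
    simp only [Algebra.traceMatrix_apply, Algebra.traceForm_apply,
      Algebra.leftMulMatrix_eq_repr_mul, transpose_apply]
    rw [key (b i) (x * b k)]
    have h1 : ∑ j, b.repr (x * b i) j * Algebra.trace F E (b j * b k) =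
        ∑ j, Algebra.trace F E (b k * b j) * b.repr (x * b i) j := by
      apply Finset.sum_congr rfl
      intro j _
      rw [mul_comm (b j) (b k), mul_comm]
    rw [h1, key (b k) (x * b i)]
    congr 1
    ring
  have R2 : ∀ x : E, Algebra.leftMulMatrix b x * G⁻¹ = G⁻¹ * (Algebra.leftMulMatrix b x)ᵀ := by
    intro x
    calc Algebra.leftMulMatrix b x * G⁻¹
        = G⁻¹ * (G * Algebra.leftMulMatrix b x) * G⁻¹ := by
          rw [← Matrix.mul_assoc, hG2, Matrix.one_mul]
      _ = G⁻¹ * (Algebra.leftMulMatrix b x)ᵀ := by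
          rw [R1, Matrix.mul_assoc, Matrix.mul_assoc, hG1, Matrix.mul_one]
  have hMcomm : ∀ x y : E, (Algebra.leftMulMatrix b x)ᵀ * (Algebra.leftMulMatrix b y)ᵀ =
      (Algebra.leftMulMatrix b (x * y))ᵀ := by
    intro x y
    rw [← transpose_mul, ← map_mul, mul_comm]
  let hat : E →+* Matrix (Fin d ⊕ Fin d) (Fin d ⊕ Fin d) F :=
    { toFun := fun x => fromBlocks (Algebra.leftMulMatrix b x) 0 0 (Algebra.leftMulMatrix b x)ᵀ
      map_one' := by simp [fromBlocks_one]
      map_mul' := by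
        intro x y
        rw [fromBlocks_multiply, hMcomm, ← map_mul]
        simp only [Matrix.mul_zero, Matrix.zero_mul, add_zero, zero_add]
      map_zero' := by simp [fromBlocks_zero]
      map_add' := by
        intro x y
        rw [fromBlocks_add]
        simp }
  have hhat : ∀ x, hat x =
      fromBlocks (Algebra.leftMulMatrix b x) 0 0 (Algebra.leftMulMatrix b x)ᵀ := fun x => rfl
  obtain ⟨S, hSdef⟩ : ∃ S, S = fromBlocks (0 : Matrix (Fin d) (Fin d) F) (-G⁻¹) G
      (Algebra.leftMulMatrix b τ)ᵀ := ⟨_, rfl⟩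
  have hx : S * S = hat τ * S - 1 := by
    rw [hhat, hSdef, fromBlocks_multiply, fromBlocks_multiply, ← fromBlocks_one,
      fromBlocks_sub_h62]
    congr 1
    · simp [hG2]
    · simp [R2]
    · simp
    · simp [hG1]
      abel
  have hSpow := quad_pow hat S τ hx
  have hθpow := quad_pow (algebraMap E (FiniteField.Extension E p 2)) θ τ hquad2
  have hinj : Function.Injective (Algebra.leftMulMatrix b) := Algebra.leftMulMatrix_injective b
  have hscal : ∀ (k : ℕ) (c : E), S ^ (k + 1) = hat c →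
      θ ^ (k + 1) = algebraMap E (FiniteField.Extension E p 2) c := by
    intro k c hk
    rw [hSpow, hhat, hhat, hhat, hSdef, fromBlocks_multiply, fromBlocks_sub_h62] at hk
    obtain ⟨h1, h2, -, -⟩ := fromBlocks_inj.mp hk
    simp only [Matrix.mul_zero, Matrix.zero_mul, add_zero, zero_add, zero_sub, sub_zero] at h1 h2
    have hu : chebU τ (k + 1) = 0 := by
      apply hinj
      rw [map_zero]
      have h3 : Algebra.leftMulMatrix b (chebU τ (k + 1)) * (-G⁻¹) * G = 0 := by
        rw [h2, Matrix.zero_mul]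
      rw [Matrix.mul_assoc, Matrix.neg_mul, hG2, Matrix.mul_neg, Matrix.mul_one,
        neg_eq_zero] at h3
      exact h3
    have hv : chebU τ k = -c := by
      apply hinj
      rw [map_neg, ← h1, neg_neg]
    rw [hθpow, hu, hv, map_zero, zero_mul, zero_sub, map_neg, neg_neg]
  have hone : hat 1 = 1 := map_one hat
  refine ⟨S, ?_, ?_, ?_⟩
  · rw [hSdef, SymplecticGroup.fromBlocks_mem_iff]
    refine ⟨by simp, ?_, ?_⟩
    · rw [transpose_neg, Matrix.transpose_nonsing_inv, hGsymm, transpose_transpose,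
        Matrix.neg_mul, Matrix.mul_neg, R2]
    · rw [Matrix.transpose_zero, Matrix.zero_mul, zero_sub, hGsymm, Matrix.mul_neg, neg_neg,
        hG1]
  · intro k hk
    rw [← hoθ]
    apply orderOf_dvd_of_pow_eq_one
    cases k with
    | zero => simp
    | succ k =>
      have := hscal k 1 (by rw [hk, hone])
      rw [this, map_one]
  · intro k hk
    rw [← hoθ]
    apply orderOf_dvd_of_pow_eq_one
    cases k with
    | zero => simp
    | succ k =>
      have := hscal k (-1) (by rw [hk, map_neg, hone])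
      rw [mul_comm, pow_mul, this, map_neg, map_one]
      simp

end TorusGen

section Torus

variable {F : Type*} [Field F] [Fintype F]

theorem sp_torus_plus (p : ℕ) [Fact p.Prime] [CharP F p] (d : ℕ) (hd : 1 ≤ d) :
    ∃ S : Matrix (Fin d ⊕ Fin d) (Fin d ⊕ Fin d) F, S ∈ symplecticGroup (Fin d) F ∧
      (∀ k : ℕ, S ^ k = 1 → (Fintype.card F ^ d - 1) ∣ k) ∧
      (∀ k : ℕ, S ^ k = -1 → (Fintype.card F ^ d - 1) ∣ 2 * k) := by
  haveI : NeZero d := ⟨by omega⟩
  have hcard : Nat.card (FiniteField.Extension F p d) = Fintype.card F ^ d := by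
    rw [FiniteField.natCard_extension, Nat.card_eq_fintype_card]
  have hfr : Module.finrank F (FiniteField.Extension F p d) = d :=
    FiniteField.finrank_extension F p d
  have := sp_torus_plus_gen (F := F) (Module.finBasisOfFinrankEq F _ hfr)
  rwa [hcard] at this

theorem sp_torus_minus (p : ℕ) [Fact p.Prime] [CharP F p] (d : ℕ) (hd : 1 ≤ d) :
    ∃ S : Matrix (Fin d ⊕ Fin d) (Fin d ⊕ Fin d) F, S ∈ symplecticGroup (Fin d) F ∧
      (∀ k : ℕ, S ^ k = 1 → (Fintype.card F ^ d + 1) ∣ k) ∧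
      (∀ k : ℕ, S ^ k = -1 → (Fintype.card F ^ d + 1) ∣ 2 * k) := by
  haveI : NeZero d := ⟨by omega⟩
  have hcard : Nat.card (FiniteField.Extension F p d) = Fintype.card F ^ d := by
    rw [FiniteField.natCard_extension, Nat.card_eq_fintype_card]
  have hfr : Module.finrank F (FiniteField.Extension F p d) = d :=
    FiniteField.finrank_extension F p d
  have := sp_torus_minus_gen (F := F) p (Module.finBasisOfFinrankEq F _ hfr)
  rwa [hcard] at this

end Torus

end Cfsg.Agent.H62
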