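import Mathlib
import Cfsg.Agent.H62.SpA

set_option autoImplicit false
set_option linter.style.haveILetI false
set_option linter.unusedSimpArgs false
set_option linter.unusedSectionVars false
set_option linter.unusedVariables false

namespace Cfsg.Agent.H62

open Matrix Polynomial

section Dich

variable {l : Type*} [DecidableEq l] [Fintype l] {F : Type*} [Field F]

/-- a self-adjoint idempotent other than `0`, `1` gives a non-central involution. -/
theorem sp_idem_invol (A e : Matrix (l ⊕ l) (l ⊕ l) F) (h2 : (2 : F) ≠ 0) (he : e * e = e)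
    (hs : spAdj e = e) (h0 : e ≠ 0) (h1 : e ≠ 1) (hc : Commute A e) :
    ∃ t ∈ symplecticGroup l F, t * t = 1 ∧ t ≠ 1 ∧ t ≠ -1 ∧ Commute A t := by
  have htt : (1 - e - e) * (1 - e - e) = 1 := by
    have : (1 - e - e) * (1 - e - e) =
        1 - e - e - e - e + (e * e + e * e + e * e + e * e) := by
      noncomm_ring
    rw [this, he]; abel
  refine ⟨1 - e - e, ?_, htt, ?_, ?_, ?_⟩
  · rw [sp_mem_iff_adj, spAdj_sub, spAdj_sub, spAdj_one, hs]; exact htt
  · intro h
    apply h0
    have h3 : e + e = 1 - (1 - e - e) := by abel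
    have h4 : (2 : F) • e = 0 := by rw [two_smul, h3, h, sub_self]
    exact (smul_eq_zero.mp h4).resolve_left h2
  · intro h
    apply h1
    have h3 : (e - 1) + (e - 1) = -1 - (1 - e - e) := by abel
    have h4 : (2 : F) • (e - 1) = 0 := by rw [two_smul, h3, h, sub_self]
    exact sub_eq_zero.mp ((smul_eq_zero.mp h4).resolve_left h2)
  · exact ((Commute.one_right A).sub_right hc).sub_right hc

/-- the structure of an element of odd order in a symplectic group. -/
theorem sp_dichotomy [Fintype F] [Nonempty l] (h2 : (2 : F) ≠ 0)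
    (A : Matrix (l ⊕ l) (l ⊕ l) F) (hA : A ∈ symplecticGroup l F) (o : ℕ) (ho : Odd o)
    (hAo : A ^ o = 1) :
    (∃ t ∈ symplecticGroup l F, t * t = 1 ∧ t ≠ 1 ∧ t ≠ -1 ∧ Commute A t) ∨
    (∃ k, k ≤ 2 * Fintype.card l ∧ (A - 1) ^ k = 0) ∨
    (∃ j k, 1 ≤ j ∧ 1 ≤ k ∧ j * k ≤ Fintype.card l ∧
      (A ^ (Fintype.card F ^ j + 1) - 1) ^ k = 0) ∨
    (∃ D k, 1 ≤ D ∧ 1 ≤ k ∧ D * k ≤ Fintype.card l ∧
      (A ^ (Fintype.card F ^ D - 1) - 1) ^ k = 0) := by
  classical
  have hint : IsIntegral F A := Matrix.isIntegral A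
  have hne : minpoly F A ≠ 0 := minpoly.ne_zero hint
  have hnu : ¬ IsUnit (minpoly F A) := minpoly.not_isUnit F A
  have hdeg : (minpoly F A).natDegree ≤ 2 * Fintype.card l := by
    have := Polynomial.natDegree_le_of_dvd (Matrix.minpoly_dvd_charpoly A)
      (Matrix.charpoly_monic A).ne_zero
    rwa [Matrix.charpoly_natDegree_eq_dim, Fintype.card_sum, ← two_mul] at this
  have hμo : minpoly F A ∣ X ^ o - 1 := minpoly.dvd F A (by simp [hAo])
  obtain ⟨f, hf, hfd⟩ := WfDvdMonoid.exists_irreducible_factor hnu hne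
  obtain ⟨k, h, hfh, hμ⟩ := WfDvdMonoid.max_power_factor hne hf
  have hk : k ≠ 0 := by
    rintro rfl
    rw [pow_zero, one_mul] at hμ
    exact hfh (hμ ▸ hfd)
  have hfne : f ≠ 0 := hf.ne_zero
  have hD : 1 ≤ f.natDegree := hf.natDegree_pos
  have hhne : h ≠ 0 := by rintro rfl; rw [mul_zero] at hμ; exact hne hμ
  have hdegμ : (minpoly F A).natDegree = k * f.natDegree + h.natDegree := by
    rw [hμ, natDegree_mul (pow_ne_zero _ hfne) hhne, natDegree_pow]
  have hkD : k * f.natDegree ≤ 2 * Fintype.card l := by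
    rw [hdegμ] at hdeg
    exact (Nat.le_add_right _ _).trans hdeg
  obtain ⟨a, b, hab⟩ : IsCoprime (f ^ k) h :=
    ((Irreducible.coprime_iff_not_dvd hf).mpr hfh).pow_left
  -- the residue field
  haveI : Fact (Irreducible f) := ⟨hf⟩
  let pb := AdjoinRoot.powerBasis hfne
  haveI : Module.Finite F (AdjoinRoot f) := pb.finite
  haveI : Finite (AdjoinRoot f) := Module.finite_of_finite F
  haveI : Fintype (AdjoinRoot f) := Fintype.ofFinite _
  have hfr : Module.finrank F (AdjoinRoot f) = f.natDegree := by rw [pb.finrank]; rfl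
  have hcard : Fintype.card (AdjoinRoot f) = Fintype.card F ^ f.natDegree := by
    rw [Module.card_eq_pow_finrank (K := F) (V := AdjoinRoot f), hfr]
  have hρo : AdjoinRoot.root f ^ o = 1 := by
    have h1 : AdjoinRoot.mk f (X ^ o - 1) = 0 := AdjoinRoot.mk_eq_zero.mpr (hfd.trans hμo)
    simp only [map_sub, map_pow, AdjoinRoot.mk_X, map_one] at h1
    exact sub_eq_zero.mp h1
  have hρne : AdjoinRoot.root f ≠ 0 := by
    intro h0
    rw [h0, zero_pow (Nat.ne_of_gt ho.pos)] at hρo
    exact zero_ne_one hρo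
  have hfm : ∀ m : ℕ, AdjoinRoot.root f ^ m = 1 → minpoly F A ∣ (X ^ m - 1) ^ k * h := by
    intro m hm
    have h1 : f ∣ X ^ m - 1 := by
      rw [← AdjoinRoot.mk_eq_zero]
      simp only [map_sub, map_pow, AdjoinRoot.mk_X, map_one]
      rw [hm, sub_self]
    rw [hμ]
    exact mul_dvd_mul_right (pow_dvd_pow_of_dvd h1 k) h
  have hAm : ∀ m : ℕ, AdjoinRoot.root f ^ m = 1 → (A ^ m - 1) ^ k * aeval A h = 0 := by
    intro m hm
    obtain ⟨g, hg⟩ := hfm m hm
    have := congrArg (aeval A) hg
    rw [map_mul, map_mul (aeval A) (minpoly F A), minpoly.aeval, zero_mul] at this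
    simpa using this
  -- the inverse
  obtain ⟨B, hBdef⟩ : ∃ B, B = spAdj A := ⟨_, rfl⟩
  have hAB : A * B = 1 := by rw [hBdef]; exact (sp_mem_iff_adj A).mp hA
  have hBA : B * A = 1 := by rw [hBdef]; exact sp_adj_mul_self A hA
  obtain ⟨o', ho'⟩ : ∃ o', o = o' + 1 := ⟨o - 1, by have := ho.pos; omega⟩
  have hBpow : B = A ^ o' := by
    calc B = A ^ o' * A * B := by rw [← pow_succ, ← ho', hAo, one_mul]
      _ = A ^ o' := by rw [mul_assoc, hAB, mul_one]
  have hcAB : Commute A B := by rw [hBpow]; exact (Commute.refl A).pow_right o'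
  have hadj : ∀ P : F[X], spAdj (aeval A P) = aeval A (P.comp (X ^ o')) := by
    intro P
    rw [spAdj_aeval, ← hBdef, hBpow, aeval_comp]
    simp
  have hcomm : ∀ P Q : F[X], aeval A P * aeval A Q = aeval A Q * aeval A P := by
    intro P Q
    rw [← map_mul, ← map_mul, mul_comm]
  have hcommA : ∀ P : F[X], Commute A (aeval A P) := by
    intro P
    have := hcomm X P
    rwa [aeval_X] at this
  -- idempotents
  obtain ⟨P1, hP1⟩ : ∃ P1 : F[X], P1 = b * h := ⟨_, rfl⟩
  obtain ⟨P1', hP1'⟩ : ∃ P1' : F[X], P1' = P1.comp (X ^ o') := ⟨_, rfl⟩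
  obtain ⟨e1, he1⟩ : ∃ e1, e1 = aeval A P1 := ⟨_, rfl⟩
  obtain ⟨e2, he2⟩ : ∃ e2, e2 = aeval A (a * f ^ k) := ⟨_, rfl⟩
  obtain ⟨e1', he1'⟩ : ∃ e1', e1' = aeval A P1' := ⟨_, rfl⟩
  have hadj1 : spAdj e1 = e1' := by rw [he1, hadj, he1', hP1']
  have hadj1' : spAdj e1' = e1 := by rw [← hadj1, spAdj_spAdj]
  have hsum : e2 + e1 = 1 := by rw [he1, he2, hP1, ← map_add, hab, map_one]
  have hprod : e1 * e2 = 0 := by
    rw [he1, he2, hP1, ← map_mul]
    have : b * h * (a * f ^ k) = (a * b) * minpoly F A := by rw [hμ]; ring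
    rw [this, map_mul, minpoly.aeval, mul_zero]
  have hidem : e1 * e1 = e1 := by
    have : e1 * (e2 + e1) = e1 := by rw [hsum, mul_one]
    rw [mul_add, hprod, zero_add] at this
    exact this
  have hidem' : e1' * e1' = e1' := by rw [← hadj1, ← spAdj_mul, hidem]
  have hc11 : e1 * e1' = e1' * e1 := by rw [he1, he1']; exact hcomm _ _
  have he1ne : e1 ≠ 0 := by
    intro h0
    rw [he1, hP1] at h0
    have h1 : minpoly F A ∣ b * h := minpoly.dvd F A h0
    rw [hμ] at h1
    have h2' : f ^ k ∣ b := (mul_dvd_mul_iff_right hhne).mp h1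
    have h3 : f ∣ 1 := by
      rw [← hab]
      exact dvd_add (Dvd.dvd.mul_left (dvd_pow_self f hk) a)
        (Dvd.dvd.mul_right ((dvd_pow_self f hk).trans h2') h)
    exact hf.not_isUnit (isUnit_of_dvd_one h3)
  by_cases hep1 : e1 * e1' = 1
  · -- the primary self-dual case
    have he11 : e1 = 1 := by
      calc e1 = e1 * (e1 * e1') := by rw [hep1, mul_one]
        _ = 1 := by rw [← mul_assoc, hidem, hep1]
    have he20 : e2 = 0 := by
      rw [he11] at hsum
      simpa using hsum
    have hhu : IsUnit h := by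
      rw [he2] at he20
      have h1 : minpoly F A ∣ a * f ^ k := minpoly.dvd F A he20
      rw [hμ, mul_comm a (f ^ k)] at h1
      have h2' : h ∣ a := (mul_dvd_mul_iff_left (pow_ne_zero k hfne)).mp h1
      apply isUnit_of_dvd_one
      rw [← hab]
      exact dvd_add (Dvd.dvd.mul_right h2' _) (Dvd.dvd.mul_left dvd_rfl b)
    obtain ⟨h', hh'⟩ : ∃ h', h * h' = 1 := by
      obtain ⟨u, hu⟩ := hhu
      exact ⟨↑u⁻¹, by rw [← hu]; exact Units.mul_inv u⟩
    have hAm' : ∀ m : ℕ, AdjoinRoot.root f ^ m = 1 → (A ^ m - 1) ^ k = 0 := by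
      intro m hm
      have := hAm m hm
      calc (A ^ m - 1) ^ k = (A ^ m - 1) ^ k * aeval A (h * h') := by
            rw [hh', map_one, mul_one]
        _ = 0 := by rw [map_mul, ← mul_assoc, this, zero_mul]
    have hfk0 : aeval A (f ^ k) = 0 := by
      calc aeval A (f ^ k) = aeval A (minpoly F A * h') := by
            rw [hμ, mul_assoc, hh', mul_one]
        _ = 0 := by rw [map_mul, minpoly.aeval, zero_mul]
    have hdual : aeval (AdjoinRoot.root f ^ o') f = 0 := by
      have h1 : spAdj (aeval A (f ^ k)) = 0 := by rw [hfk0, spAdj_zero]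
      rw [hadj] at h1
      have h2' : minpoly F A ∣ (f ^ k).comp (X ^ o') := minpoly.dvd F A h1
      rw [pow_comp] at h2'
      have h3 : f ∣ f.comp (X ^ o') := hf.prime.dvd_of_dvd_pow (hfd.trans h2')
      have h4 : AdjoinRoot.mk f (f.comp (X ^ o')) = 0 := AdjoinRoot.mk_eq_zero.mpr h3
      rw [← AdjoinRoot.aeval_eq, aeval_comp] at h4
      simpa using h4
    let σ : AdjoinRoot f →ₐ[F] AdjoinRoot f :=
      AdjoinRoot.liftAlgHom f (Algebra.ofId F (AdjoinRoot f)) (AdjoinRoot.root f ^ o') hdual
    have hσρ : σ (AdjoinRoot.root f) = AdjoinRoot.root f ^ o' :=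
      AdjoinRoot.liftAlgHom_root _ _ _ _
    have hσρ1 : σ (AdjoinRoot.root f) * AdjoinRoot.root f = 1 := by
      rw [hσρ, ← pow_succ, ← ho', hρo]
    have hσσ : σ * σ = 1 := by
      apply AdjoinRoot.algHom_ext
      rw [AlgHom.mul_apply, AlgHom.one_apply]
      have h1 : σ (AdjoinRoot.root f) = (AdjoinRoot.root f)⁻¹ :=
        eq_inv_of_mul_eq_one_left hσρ1
      rw [h1, map_inv₀, h1, inv_inv]
    obtain ⟨⟨i, hi⟩, hiσ⟩ := (FiniteField.bijective_frobeniusAlgHom_pow F (AdjoinRoot f)).2 σ
    replace hiσ : FiniteField.frobeniusAlgHom F (AdjoinRoot f) ^ i = σ := hiσ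
    rw [hfr] at hi
    have hDi : f.natDegree ∣ 2 * i := by
      rw [← hfr, ← FiniteField.orderOf_frobeniusAlgHom F (AdjoinRoot f)]
      apply orderOf_dvd_of_pow_eq_one
      rw [mul_comm, pow_mul, hiσ, pow_two, hσσ]
    have hσfun : ⇑σ = (· ^ (Fintype.card F ^ i)) := by
      rw [← hiσ, AlgHom.coe_pow, FiniteField.coe_frobeniusAlgHom, pow_iterate]
    have hρi : AdjoinRoot.root f ^ (Fintype.card F ^ i + 1) = 1 := by
      rw [hσfun] at hσρ1
      rw [pow_succ]
      exact hσρ1
    rcases Nat.eq_zero_or_pos i with hi0 | hi0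
    · right; left
      rw [hi0, pow_zero] at hρi
      have hρ1 : AdjoinRoot.root f ^ 1 = 1 := by
        have h1 : orderOf (AdjoinRoot.root f) ∣ 2 := orderOf_dvd_of_pow_eq_one hρi
        have h2' : orderOf (AdjoinRoot.root f) ∣ o := orderOf_dvd_of_pow_eq_one hρo
        have h3 : Odd (orderOf (AdjoinRoot.root f)) := Odd.of_dvd_nat ho h2'
        rcases (Nat.dvd_prime Nat.prime_two).mp h1 with h4 | h4
        · rw [pow_one, ← orderOf_eq_one_iff]; exact h4
        · rw [h4] at h3
          exact absurd h3 (by decide)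
      refine ⟨k, ?_, ?_⟩
      · calc k = k * 1 := (mul_one k).symm
          _ ≤ k * f.natDegree := Nat.mul_le_mul_left k hD
          _ ≤ _ := hkD
      · have := hAm' 1 hρ1
        rwa [pow_one] at this
    · right; right; left
      obtain ⟨c, hc⟩ := hDi
      have hc1 : c = 1 := by
        have h1 : f.natDegree * c < f.natDegree * 2 := by rw [← hc]; omega
        have h2' : 0 < f.natDegree * c := by rw [← hc]; omega
        have h3 : c < 2 := lt_of_mul_lt_mul_left h1 (Nat.zero_le _)
        have h4 : c ≠ 0 := by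
          rintro rfl
          simp at h2'
        omega
      rw [hc1, mul_one] at hc
      refine ⟨i, k, hi0, Nat.pos_of_ne_zero hk, ?_, hAm' _ hρi⟩
      have : 2 * (i * k) ≤ 2 * Fintype.card l := by
        calc 2 * (i * k) = k * (2 * i) := by ring
          _ = k * f.natDegree := by rw [hc]
          _ ≤ _ := hkD
      omega
  · by_cases hep0 : e1 * e1' = 0
    · obtain ⟨es, hes⟩ : ∃ es, es = e1 + e1' := ⟨_, rfl⟩
      have hep0' : e1' * e1 = 0 := by rw [← hc11]; exact hep0
      have hes_idem : es * es = es := by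
        rw [hes, mul_add, add_mul, add_mul, hidem, hidem', hep0, hep0']
        abel
      have hes_adj : spAdj es = es := by rw [hes, spAdj_add, hadj1, hadj1', add_comm]
      have hes0 : es ≠ 0 := by
        intro h0
        apply he1ne
        have : e1 * es = e1 := by rw [hes, mul_add, hidem, hep0, add_zero]
        rw [← this, h0, mul_zero]
      have hesc : Commute A es := by
        rw [hes, he1, he1']
        exact (hcommA _).add_right (hcommA _)
      by_cases hes1 : es = 1
      · right; right; right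
        have he1'2 : e1' = e2 := by
          have : e1 + e1' = e2 + e1 := by rw [← hes, hes1, hsum]
          rw [add_comm e2 e1] at this
          exact add_left_cancel this
        have hρD : AdjoinRoot.root f ^ (Fintype.card F ^ f.natDegree - 1) = 1 := by
          have := FiniteField.pow_card_sub_one_eq_one (AdjoinRoot.root f) hρne
          rwa [hcard] at this
        obtain ⟨M, hM⟩ : ∃ M, M = Fintype.card F ^ f.natDegree - 1 := ⟨_, rfl⟩
        rw [← hM] at hρD
        have hz1 : (A ^ M - 1) ^ k * e1 = 0 := by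
          rw [he1, hP1, mul_comm b h, map_mul, ← mul_assoc, hAm M hρD, zero_mul]
        have hz2 : e1' * (B ^ M - 1) ^ k = 0 := by
          have := congrArg spAdj hz1
          rwa [spAdj_mul, spAdj_pow, spAdj_sub, spAdj_pow, spAdj_one, hadj1, spAdj_zero,
            ← hBdef] at this
        have hce1'B : Commute e1' B := by
          rw [hBpow, he1']
          exact ((hcommA P1').symm).pow_right o'
        have hz2' : (B ^ M - 1) ^ k * e1' = 0 := by
          have hc' : Commute e1' ((B ^ M - 1) ^ k) :=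
            ((hce1'B.pow_right M).sub_right (Commute.one_right _)).pow_right k
          rw [← hc'.eq]; exact hz2
        have hAMBM : A ^ M * B ^ M = 1 := by rw [← hcAB.mul_pow, hAB, one_pow]
        have hz3 : (A ^ M - 1) ^ k * e1' = 0 := by
          have h1 : A ^ M - 1 = -(A ^ M * (B ^ M - 1)) := by
            rw [mul_sub, mul_one, hAMBM]; abel
          have hc' : Commute (A ^ M) (B ^ M - 1) :=
            (hcAB.pow_pow M M).sub_right (Commute.one_right _)
          calc (A ^ M - 1) ^ k * e1'
              = (-1) ^ k * ((A ^ M) ^ k * (B ^ M - 1) ^ k) * e1' := by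
                rw [h1, neg_pow, hc'.mul_pow]
            _ = (-1) ^ k * (A ^ M) ^ k * ((B ^ M - 1) ^ k * e1') := by
                simp only [mul_assoc]
            _ = 0 := by rw [hz2', mul_zero]
        have hfinal : (A ^ M - 1) ^ k = 0 := by
          calc (A ^ M - 1) ^ k = (A ^ M - 1) ^ k * es := by rw [hes1, mul_one]
            _ = 0 := by rw [hes, mul_add, hz1, hz3, add_zero]
        -- the degree bound
        obtain ⟨Nh, hNh⟩ : ∃ Nh, Nh = h.natDegree := ⟨_, rfl⟩
        obtain ⟨Prev, hPrev⟩ : ∃ Prev : F[X],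
            Prev = ∑ i ∈ Finset.range (Nh + 1), C (h.coeff i) * X ^ (Nh - i) := ⟨_, rfl⟩
        have hPrev_deg : Prev.natDegree ≤ Nh := by
          rw [hPrev]
          apply natDegree_sum_le_of_forall_le
          intro i _
          exact (natDegree_C_mul_X_pow_le _ _).trans (Nat.sub_le _ _)
        have hPrev0 : Prev.coeff 0 = h.leadingCoeff := by
          rw [hPrev, finsetSum_coeff, Finset.sum_eq_single Nh]
          · simp [hNh]
          · intro i hi hne'
            rw [Finset.mem_range] at hi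
            rw [coeff_C_mul_X_pow, if_neg (by omega)]
          · intro hh
            simp at hh
        have hPrevne : Prev ≠ 0 := by
          intro h0
          rw [h0, coeff_zero, eq_comm, leadingCoeff_eq_zero] at hPrev0
          exact hhne hPrev0
        have hPrevA : aeval A Prev = A ^ Nh * aeval B h := by
          rw [hPrev, map_sum, aeval_eq_sum_range, Finset.mul_sum, ← hNh]
          apply Finset.sum_congr rfl
          intro i hi
          rw [Finset.mem_range] at hi
          rw [map_mul, aeval_C, map_pow, aeval_X, Algebra.algebraMap_eq_smul_one,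
            smul_mul_assoc, one_mul, mul_smul_comm]
          congr 1
          have : A ^ Nh = A ^ (Nh - i) * A ^ i := by
            rw [← pow_add]; congr 1; omega
          rw [this, mul_assoc, ← hcAB.mul_pow, hAB, one_pow, mul_one]
        have hz4 : aeval A h * e1' = 0 := by
          rw [he1'2, he2, ← map_mul]
          have : h * (a * f ^ k) = a * minpoly F A := by rw [hμ]; ring
          rw [this, map_mul, minpoly.aeval, mul_zero]
        have hz5 : e1 * aeval B h = 0 := by
          have := congrArg spAdj hz4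
          rwa [spAdj_mul, hadj1', spAdj_aeval, ← hBdef, spAdj_zero] at this
        have hz6 : aeval A (P1 * Prev) = 0 := by
          have hc' : Commute e1 (A ^ Nh) := by
            rw [he1]; exact ((hcommA P1).symm).pow_right Nh
          rw [map_mul, hPrevA, ← he1, ← mul_assoc, hc'.eq, mul_assoc, hz5, mul_zero]
        have hz7 : f ^ k ∣ Prev := by
          have h1 : minpoly F A ∣ P1 * Prev := minpoly.dvd F A hz6
          have h2' : f ^ k ∣ P1 * Prev := (Dvd.intro h hμ.symm).trans h1
          have hcop : IsCoprime (f ^ k) P1 := by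
            rw [hP1]; exact ⟨a, 1, by rw [one_mul]; exact hab⟩
          exact hcop.dvd_of_dvd_mul_left h2'
        have hbound : f.natDegree * k ≤ Fintype.card l := by
          have h1 := natDegree_le_of_dvd hz7 hPrevne
          rw [natDegree_pow] at h1
          rw [hdegμ, ← hNh] at hdeg
          have h2' : k * f.natDegree ≤ Nh := h1.trans hPrev_deg
          rw [mul_comm]
          obtain ⟨x, hx⟩ : ∃ x, x = k * f.natDegree := ⟨_, rfl⟩
          rw [← hx] at h2' hdeg ⊢
          omega
        refine ⟨f.natDegree, k, hD, Nat.pos_of_ne_zero hk, hbound, ?_⟩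
        rw [← hM]; exact hfinal
      · left
        exact sp_idem_invol A es h2 hes_idem hes_adj hes0 hes1 hesc
    · left
      refine sp_idem_invol A (e1 * e1') h2 ?_ ?_ hep0 hep1 ?_
      · calc e1 * e1' * (e1 * e1') = e1 * (e1' * e1) * e1' := by simp only [mul_assoc]
          _ = e1 * (e1 * e1') * e1' := by rw [hc11]
          _ = (e1 * e1) * (e1' * e1') := by simp only [mul_assoc]
          _ = e1 * e1' := by rw [hidem, hidem']
      · rw [spAdj_mul, hadj1, hadj1']
      · rw [he1, he1']
        exact (hcommA _).mul_right (hcommA _)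

end Dich

end Cfsg.Agent.H62
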