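import Mathlib
import Cfsg.Prelude
import Cfsg.Agent.H62.SpA
import Cfsg.Agent.H62.SpB
import Cfsg.Agent.H62.SpC
import Cfsg.Agent.H62.SpD
import Cfsg.Agent.H62.SpE
import Cfsg.Agent.H62.AbsorbA

set_option autoImplicit false
set_option linter.style.haveILetI false
set_option linter.unusedSimpArgs false
set_option linter.unusedSectionVars false
set_option linter.unusedVariables false

namespace Cfsg.Agent.H62

open Matrix

section SpAbsorb

variable {F : Type*} [Field F]

theorem sp_one_ne_neg_one {l : Type*} [DecidableEq l] [Nonempty l] (h2 : (2 : F) ≠ 0) :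
    (1 : Matrix (l ⊕ l) (l ⊕ l) F) ≠ -1 := by
  intro h
  obtain ⟨i⟩ := ‹Nonempty l›
  have h1 := congrFun (congrFun h (Sum.inl i)) (Sum.inl i)
  simp only [Matrix.one_apply_eq, Matrix.neg_apply] at h1
  apply h2
  have : (2 : F) = 1 + 1 := by norm_num
  rw [this]
  nth_rewrite 1 [h1]
  exact neg_add_cancel 1

/-- a block element of the symplectic group. -/
theorem sp_block_elt (n m d : ℕ) (h : n = m + d)
    (U : Matrix (Fin m ⊕ Fin m) (Fin m ⊕ Fin m) F) (hU : U ∈ symplecticGroup (Fin m) F)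
    (S : Matrix (Fin d ⊕ Fin d) (Fin d ⊕ Fin d) F) (hS : S ∈ symplecticGroup (Fin d) F) :
    ∃ s : symplecticGroup (Fin n) F, ∀ k : ℕ,
      (s.1 ^ k = 1 → U ^ k = 1 ∧ S ^ k = 1) ∧ (s.1 ^ k = -1 → U ^ k = -1 ∧ S ^ k = -1) := by
  subst h
  refine ⟨⟨spSum m d U S, spSum_mem m d U S hU hS⟩, fun k => ⟨fun hk => ?_, fun hk => ?_⟩⟩
  · exact spSum_eq_one m d _ _ (by rw [← spSum_pow]; exact hk)
  · exact spSum_eq_neg_one m d _ _ (by rw [← spSum_pow]; exact hk)

/-- the order of a regular unipotent element. -/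
theorem sp_unip_facts (p : ℕ) [Fact p.Prime] [CharP F p] (h2 : (2 : F) ≠ 0) (hpo : Odd p)
    (a : ℕ) (ha : 1 ≤ a) (U : Matrix (Fin a ⊕ Fin a) (Fin a ⊕ Fin a) F)
    (hU : ∀ c : ℕ, U ^ (p ^ c) = 1 ↔ 2 * a ≤ p ^ c) (t : ℕ) (ht1 : p ^ t < 2 * a)
    (ht2 : 2 * a ≤ p ^ (t + 1)) :
    orderOf U = p ^ (t + 1) ∧ ∀ k : ℕ, U ^ k ≠ -1 := by
  haveI : Nonempty (Fin a) := ⟨⟨0, ha⟩⟩
  have h1 : U ^ p ^ (t + 1) = 1 := (hU (t + 1)).mpr ht2
  refine ⟨orderOf_eq_prime_pow (fun h => ?_) h1, fun k hk => ?_⟩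
  · have := (hU t).mp h
    omega
  · have h3 : (U ^ k) ^ p ^ (t + 1) = 1 := by
      rw [← pow_mul, mul_comm, pow_mul, h1, one_pow]
    rw [hk, Odd.neg_one_pow (hpo.pow)] at h3
    exact sp_one_ne_neg_one h2 h3.symm

theorem sp_exists_t (p : ℕ) (hp : p.Prime) (N : ℕ) (hN : 2 ≤ N) :
    ∃ t, p ^ t < N ∧ N ≤ p ^ (t + 1) := by
  have h1 : N ≤ p ^ Nat.clog p N := Nat.le_pow_clog hp.one_lt N
  have h2 : p ^ (Nat.clog p N).pred < N := Nat.pow_pred_clog_lt_self hp.one_lt (by omega)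
  have h3 : 0 < Nat.clog p N := Nat.clog_pos hp.one_lt hN
  refine ⟨(Nat.clog p N).pred, h2, ?_⟩
  have h4 : (Nat.clog p N).pred + 1 = Nat.clog p N := Nat.succ_pred_eq_of_pos h3
  rw [h4]; exact h1

variable [Fintype F]

/-- an element with a small Jordan-type block structure is dominated by a block element. -/
theorem psp_block_case (p : ℕ) [Fact p.Prime] [CharP F p] (h2F : (2 : F) ≠ 0) (hpo : Odd p)
    (n j k N : ℕ) (hj : 1 ≤ j) (hjn : j < n) (hk1 : 1 ≤ k) (hjk : j * k ≤ n)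
    (hN2 : 2 ∣ N) (hNp : Nat.Coprime p N)
    (S : Matrix (Fin j ⊕ Fin j) (Fin j ⊕ Fin j) F) (hS : S ∈ symplecticGroup (Fin j) F)
    (hS1 : ∀ k : ℕ, S ^ k = 1 → N ∣ k)
    (s' : symplecticGroup (Fin n) F) (hA : (s'.1 ^ N - 1) ^ k = 0) :
    ∃ h : Cfsg.PSp n F, Nat.lcm (orderOf (QuotientGroup.mk'
      (Subgroup.center (symplecticGroup (Fin n) F)) s')) 2 ∣ orderOf h := by
  classical
  have hp : p.Prime := Fact.out
  have hp2 : p ≠ 2 := by rintro rfl; exact absurd hpo (by decide)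
  haveI : Nonempty (Fin n ⊕ Fin n) := ⟨Sum.inl ⟨0, by omega⟩⟩
  obtain ⟨m, hm⟩ : ∃ m, m = n - j := ⟨_, rfl⟩
  have hm1 : 1 ≤ m := by omega
  obtain ⟨U, hUmem, hUc⟩ := sp_reg_unip (F := F) p hp2 m hm1
  obtain ⟨t', ht1, ht2⟩ := sp_exists_t p hp (2 * m) (by omega)
  obtain ⟨hUo, hUneg⟩ := sp_unip_facts p h2F hpo m hm1 U hUc t' ht1 ht2
  obtain ⟨w, hw⟩ := sp_block_elt n m j (by omega) U hUmem S hS
  have hwo : p ^ (t' + 1) * N ∣ orderOf (QuotientGroup.mk'
      (Subgroup.center (symplecticGroup (Fin n) F)) w) := by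
    apply psp_dvd_order
    intro k' hk'
    rcases hk' with hk' | hk'
    · obtain ⟨h1, h2⟩ := (hw k').1 hk'
      apply Nat.Coprime.mul_dvd_of_dvd_of_dvd (Nat.Coprime.pow_left _ hNp)
      · rw [← hUo]; exact orderOf_dvd_of_pow_eq_one h1
      · exact hS1 k' h2
    · exact absurd ((hw k').2 hk').1 (hUneg k')
  have hk2m : k ≤ 2 * m := by
    rcases Nat.lt_or_ge k 2 with h | h
    · omega
    · have h1 : j * 2 ≤ j * k := Nat.mul_le_mul_left j h
      have h3 : k ≤ j * k := Nat.le_mul_of_pos_left k hj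
      obtain ⟨x, hx⟩ : ∃ x, x = j * k := ⟨_, rfl⟩
      rw [← hx] at h1 h3 hjk
      omega
  have hz : (s'.1 ^ N - 1) ^ p ^ (t' + 1) = 0 :=
    pow_eq_zero_of_le (hk2m.trans ht2) hA
  rw [sub_pow_char_pow_of_commute p (t' + 1) (Commute.one_right _), one_pow, sub_eq_zero,
    ← pow_mul] at hz
  have ho : orderOf (QuotientGroup.mk' (Subgroup.center (symplecticGroup (Fin n) F)) s') ∣
      N * p ^ (t' + 1) := psp_order_dvd s' _ (Or.inl hz)
  refine ⟨_, dvd_trans (Nat.lcm_dvd ?_ ?_) hwo⟩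
  · rw [mul_comm]; exact ho
  · exact Dvd.dvd.mul_left hN2 _

/-- the two absorption statements for `PSp(2n, q)`, `q` odd. -/
theorem psp_absorb (p a n m : ℕ) (hp : p.Prime)
    (ha : 1 ≤ a) (hF : Fintype.card F = p ^ a) (hodd : Odd (Fintype.card F)) (hn : 2 ≤ n) :
    Set.range (orderOf : Cfsg.PSp n F × Cfsg.PSp n F × Cfsg.PSp n F ×
        Multiplicative (Fin m → ZMod 2) → ℕ) =
      Set.range (orderOf : Cfsg.PSp n F × Cfsg.PSp n F × Cfsg.PSp n F → ℕ) ∧
    ((¬ ∃ j : ℕ, 2 * n - 1 = p ^ j) →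
      Set.range (orderOf : Cfsg.PSp n F × Cfsg.PSp n F × Multiplicative (Fin m → ZMod 2) → ℕ) =
        Set.range (orderOf : Cfsg.PSp n F × Cfsg.PSp n F → ℕ)) := by
  classical
  haveI : Fact p.Prime := ⟨hp⟩
  have hq2 : 2 ≤ Fintype.card F := Fintype.one_lt_card
  have hpq : p ∣ Fintype.card F := by rw [hF]; exact dvd_pow_self p (by omega)
  haveI : CharP F p := by
    obtain ⟨n', hp', hcard⟩ := FiniteField.card F (ringChar F)
    have hpp : p = ringChar F := by
      have h1 : p ∣ ringChar F ^ (n' : ℕ) := by rw [← hcard]; exact hpq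
      exact (Nat.prime_dvd_prime_iff_eq hp hp').mp (hp.dvd_of_dvd_pow h1)
    exact hpp ▸ ringChar.charP F
  have hpo : Odd p := Odd.of_dvd_nat hodd hpq
  have hp2 : p ≠ 2 := by rintro rfl; exact absurd hpo (by decide)
  have h2F : (2 : F) ≠ 0 := by
    intro h
    have h1 : ((2 : ℕ) : F) = 0 := by exact_mod_cast h
    rw [CharP.cast_eq_zero_iff F p] at h1
    exact hp2 ((Nat.prime_dvd_prime_iff_eq hp Nat.prime_two).mp h1)
  have hn1 : 1 ≤ n := by omega
  haveI : Nonempty (Fin n) := ⟨⟨0, hn1⟩⟩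
  haveI : Nonempty (Fin n ⊕ Fin n) := ⟨Sum.inl ⟨0, hn1⟩⟩
  have hne1 : (1 : Matrix (Fin n ⊕ Fin n) (Fin n ⊕ Fin n) F) ≠ -1 := sp_one_ne_neg_one h2F
  -- the exponent t
  obtain ⟨t, ht1, ht2⟩ := sp_exists_t p hp (2 * n) (by omega)
  -- the regular unipotent element
  obtain ⟨U, hUmem, hUc⟩ := sp_reg_unip (F := F) p hp2 n hn1
  obtain ⟨hUo, hUneg⟩ := sp_unip_facts p h2F hpo n hn1 U hUc t ht1 ht2
  obtain ⟨hU, hUdef⟩ : ∃ hU : Cfsg.PSp n F,
      hU = QuotientGroup.mk' (Subgroup.center (symplecticGroup (Fin n) F)) ⟨U, hUmem⟩ :=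
    ⟨_, rfl⟩
  have hUord : orderOf hU = p ^ (t + 1) := by
    rw [hUdef]
    apply Nat.dvd_antisymm
    · apply psp_order_dvd
      left
      rw [← hUo]; exact pow_orderOf_eq_one U
    · apply psp_dvd_order
      intro k hk
      rcases hk with hk | hk
      · rw [← hUo]; exact orderOf_dvd_of_pow_eq_one hk
      · exact absurd hk (hUneg k)
  -- the tori
  have hqodd : ∀ j : ℕ, Odd (Fintype.card F ^ j) := fun j => hodd.pow
  have hpqj : ∀ j : ℕ, 1 ≤ j → p ∣ Fintype.card F ^ j := fun j hj =>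
    dvd_trans hpq (dvd_pow_self _ (by omega))
  obtain ⟨Mp, hMp⟩ := hqodd n
  obtain ⟨Sp, hSpmem, hSp1, hSp2⟩ := sp_torus_plus (F := F) p n hn1
  obtain ⟨Sm, hSmmem, hSm1, hSm2⟩ := sp_torus_minus (F := F) p n hn1
  have hSpo : Mp ∣ orderOf (QuotientGroup.mk' (Subgroup.center (symplecticGroup (Fin n) F))
      ⟨Sp, hSpmem⟩) := by
    apply psp_dvd_order
    intro k hk
    rcases hk with hk | hk
    · have := hSp1 k hk
      rw [hMp] at this
      exact dvd_trans ⟨2, by omega⟩ this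
    · have := hSp2 k hk
      rw [hMp] at this
      have h1 : 2 * Mp ∣ 2 * k := by
        have h0 : 2 * Mp + 1 - 1 = 2 * Mp := by omega
        rwa [h0] at this
      exact (Nat.mul_dvd_mul_iff_left (by norm_num)).mp h1
  have hSmo : Mp + 1 ∣ orderOf (QuotientGroup.mk'
      (Subgroup.center (symplecticGroup (Fin n) F)) ⟨Sm, hSmmem⟩) := by
    apply psp_dvd_order
    intro k hk
    rcases hk with hk | hk
    · have := hSm1 k hk
      rw [hMp] at this
      exact dvd_trans ⟨2, by omega⟩ this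
    · have := hSm2 k hk
      rw [hMp] at this
      have h1 : 2 * (Mp + 1) ∣ 2 * k := by
        have h0 : 2 * Mp + 1 + 1 = 2 * (Mp + 1) := by omega
        rwa [h0] at this
      exact (Nat.mul_dvd_mul_iff_left (by norm_num)).mp h1
  have hodd_dvd : ∀ o M : ℕ, Odd o → o ∣ 2 * M → o ∣ M := by
    intro o M ho h
    exact (Nat.Coprime.dvd_mul_left (Nat.coprime_two_right.mpr ho)).mp h
  obtain ⟨hS, hSprop1, hSprop2⟩ : ∃ hS : Cfsg.PSp n F,
      (∀ o : ℕ, Odd o → o ∣ Fintype.card F ^ n + 1 →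
        (∃ h : Cfsg.PSp n F, Nat.lcm o 2 ∣ orderOf h) ∨ o ∣ orderOf hS) ∧
      (∀ o : ℕ, Odd o → o ∣ Fintype.card F ^ n - 1 →
        (∃ h : Cfsg.PSp n F, Nat.lcm o 2 ∣ orderOf h) ∨ o ∣ orderOf hS) := by
    have e1 : Fintype.card F ^ n + 1 = 2 * (Mp + 1) := by omega
    have e2 : Fintype.card F ^ n - 1 = 2 * Mp := by omega
    rw [e1, e2]
    rcases Nat.even_or_odd Mp with hev | hod
    · refine ⟨_, fun o ho h => Or.inr (dvd_trans (hodd_dvd o _ ho h) hSmo), fun o ho h => ?_⟩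
      left
      exact ⟨_, dvd_trans (Nat.lcm_dvd (hodd_dvd o _ ho h) (even_iff_two_dvd.mp hev)) hSpo⟩
    · refine ⟨_, fun o ho h => ?_, fun o ho h => Or.inr (dvd_trans (hodd_dvd o _ ho h) hSpo)⟩
      left
      have hev : 2 ∣ Mp + 1 := by
        obtain ⟨c, hc⟩ := hod
        exact ⟨c + 1, by omega⟩
      exact ⟨_, dvd_trans (Nat.lcm_dvd (hodd_dvd o _ ho h) hev) hSmo⟩
  -- the mixed element
  have hn1' : 1 ≤ n - 1 := by omega
  obtain ⟨U', hU'mem, hU'c⟩ := sp_reg_unip (F := F) p hp2 (n - 1) hn1'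
  obtain ⟨t', ht1', ht2'⟩ := sp_exists_t p hp (2 * (n - 1)) (by omega)
  have hU'facts := fun t' h1 h2 => sp_unip_facts p h2F hpo (n - 1) hn1' U' hU'c t' h1 h2
  obtain ⟨w, hw⟩ := sp_block_elt n (n - 1) 1 (by omega) U' hU'mem
    (-1 : Matrix (Fin 1 ⊕ Fin 1) (Fin 1 ⊕ Fin 1) F) sp_neg_one_mem
  have hwk : ∀ k : ℕ, (QuotientGroup.mk' (Subgroup.center (symplecticGroup (Fin n) F)) w) ^ k
      = 1 → U' ^ k = 1 ∧ 2 ∣ k := by
    intro k hk
    rw [psp_pow_eq_one_iff] at hk
    rcases hk with hk | hk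
    · obtain ⟨h1, h2⟩ := (hw k).1 hk
      refine ⟨h1, ?_⟩
      by_contra hk2
      have hko : Odd k := Nat.not_even_iff_odd.mp (fun h => hk2 (even_iff_two_dvd.mp h))
      rw [Odd.neg_one_pow hko] at h2
      exact sp_one_ne_neg_one (l := Fin 1) h2F h2.symm
    · exact absurd ((hw k).2 hk).1 ((hU'facts t' ht1' ht2').2 k)
  obtain ⟨hW, hWdef⟩ : ∃ hW : Cfsg.PSp n F,
      hW = QuotientGroup.mk' (Subgroup.center (symplecticGroup (Fin n) F)) w := ⟨_, rfl⟩
  have hW2 : 2 ∣ orderOf hW := by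
    rw [hWdef]; exact (hwk _ (pow_orderOf_eq_one _)).2
  -- the dichotomy
  have hd : ∀ g : Cfsg.PSp n F,
      (∃ h : Cfsg.PSp n F, Nat.lcm (orderOf g) 2 ∣ orderOf h) ∨
      orderOf g ∣ Nat.lcm (orderOf hU) (orderOf hS) := by
    intro g
    by_cases hg2 : 2 ∣ orderOf g
    · left; exact ⟨g, Nat.lcm_dvd dvd_rfl hg2⟩
    have hgo : Odd (orderOf g) := Nat.not_even_iff_odd.mp (fun h => hg2 (even_iff_two_dvd.mp h))
    obtain ⟨s, rfl⟩ := QuotientGroup.mk'_surjective _ g
    obtain ⟨o, ho⟩ : ∃ o, o = orderOf (QuotientGroup.mk'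
      (Subgroup.center (symplecticGroup (Fin n) F)) s) := ⟨_, rfl⟩
    rw [← ho] at hgo hg2 ⊢
    obtain ⟨s', hs's, hs'o⟩ : ∃ s' : symplecticGroup (Fin n) F,
        QuotientGroup.mk' (Subgroup.center (symplecticGroup (Fin n) F)) s' =
          QuotientGroup.mk' (Subgroup.center (symplecticGroup (Fin n) F)) s ∧ s'.1 ^ o = 1 := by
      have h1 := (psp_pow_eq_one_iff s o).mp (by rw [ho]; exact pow_orderOf_eq_one _)
      rcases h1 with h1 | h1
      · exact ⟨s, rfl, h1⟩
      · obtain ⟨z, hz⟩ : ∃ z : symplecticGroup (Fin n) F, z.1 = -1 :=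
          ⟨⟨-1, sp_neg_one_mem⟩, rfl⟩
        refine ⟨z * s, ?_, ?_⟩
        · rw [map_mul]
          have : QuotientGroup.mk' (Subgroup.center (symplecticGroup (Fin n) F)) z = 1 :=
            (QuotientGroup.eq_one_iff z).mpr (sp_scalar_center z (Or.inr hz))
          rw [this, one_mul]
        · have hmul : (z * s).1 = z.1 * s.1 := rfl
          rw [hmul, hz, neg_one_mul, Odd.neg_pow hgo, h1, neg_neg]
    have ho' : o = orderOf (QuotientGroup.mk'
      (Subgroup.center (symplecticGroup (Fin n) F)) s') := by rw [hs's]; exact ho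
    have hdich := sp_dichotomy h2F s'.1 s'.2 o hgo hs'o
    rw [Fintype.card_fin] at hdich
    rcases hdich with ⟨tm, htm, htt, htm1, htm2, hcomm⟩ | ⟨k, hk, hAk⟩ |
      ⟨j, k, hj, hk1, hjk, hAk⟩ | ⟨j, k, hj, hk1, hjk, hAk⟩
    · -- a commuting involution
      left
      obtain ⟨z, hz⟩ : ∃ z : symplecticGroup (Fin n) F, z.1 = tm := ⟨⟨tm, htm⟩, rfl⟩
      have hzo : orderOf (QuotientGroup.mk'
          (Subgroup.center (symplecticGroup (Fin n) F)) z) = 2 := by
        apply orderOf_eq_prime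
        · rw [psp_pow_eq_one_iff]
          left
          rw [hz, pow_two, htt]
        · intro h
          have h1 := (psp_pow_eq_one_iff z 1).mp (by rw [pow_one]; exact h)
          rw [pow_one, hz] at h1
          rcases h1 with h1 | h1
          · exact htm1 h1
          · exact htm2 h1
      have hcz : Commute s' z := by
        apply Subtype.ext
        have h1 : (s' * z).1 = s'.1 * z.1 := rfl
        have h2 : (z * s').1 = z.1 * s'.1 := rfl
        rw [h1, h2, hz]
        exact hcomm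
      refine ⟨QuotientGroup.mk' _ s' * QuotientGroup.mk' _ z, ?_⟩
      have hco' : Nat.Coprime (orderOf (QuotientGroup.mk'
          (Subgroup.center (symplecticGroup (Fin n) F)) s'))
          (orderOf (QuotientGroup.mk'
          (Subgroup.center (symplecticGroup (Fin n) F)) z)) := by
        rw [hzo, ← ho']
        exact Nat.coprime_two_right.mpr hgo
      rw [(hcz.map (QuotientGroup.mk' _)).orderOf_mul_eq_mul_orderOf_of_coprime hco', hzo,
        ← ho']
      exact Nat.lcm_dvd (dvd_mul_right _ _) (dvd_mul_left _ _)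
    · -- unipotent
      right
      have hz : (s'.1 - 1) ^ p ^ (t + 1) = 0 := pow_eq_zero_of_le (hk.trans ht2) hAk
      rw [sub_pow_char_pow_of_commute p (t + 1) (Commute.one_right _), one_pow, sub_eq_zero]
        at hz
      have h1 := psp_order_dvd s' _ (Or.inl hz)
      rw [← ho'] at h1
      rw [hUord]
      exact dvd_trans h1 (Nat.dvd_lcm_left _ _)
    · -- minus type
      have hjn : j ≤ n := (Nat.le_mul_of_pos_right j hk1).trans hjk
      rcases Nat.lt_or_ge j n with hlt | hge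
      · left
        obtain ⟨S, hSmem', hS1, -⟩ := sp_torus_minus (F := F) p j hj
        have hN2 : 2 ∣ Fintype.card F ^ j + 1 := by
          obtain ⟨c, hc⟩ := hqodd j
          exact ⟨c + 1, by omega⟩
        have hNp : Nat.Coprime p (Fintype.card F ^ j + 1) := by
          rw [Nat.Prime.coprime_iff_not_dvd hp]
          intro h
          have h1 : p ∣ 1 := (Nat.dvd_add_right (hpqj j hj)).mp h
          exact hp.one_lt.ne' (Nat.dvd_one.mp h1)
        have := psp_block_case p h2F hpo n j k _ hj hlt hk1 hjk hN2 hNp S hSmem' hS1 s' hAk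
        rw [← ho'] at this
        exact this
      · have hjeq : j = n := le_antisymm hjn hge
        subst hjeq
        have hk1' : k = 1 := by
          have : j * k ≤ j * 1 := by rw [mul_one]; exact hjk
          have := Nat.le_of_mul_le_mul_left this (by omega)
          omega
        rw [hk1', pow_one, sub_eq_zero] at hAk
        have h1 := psp_order_dvd s' _ (Or.inl hAk)
        rw [← ho'] at h1
        rcases hSprop1 o hgo h1 with h | h
        · left; exact h
        · right; exact dvd_trans h (Nat.dvd_lcm_right _ _)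
    · -- plus type
      have hjn : j ≤ n := (Nat.le_mul_of_pos_right j hk1).trans hjk
      rcases Nat.lt_or_ge j n with hlt | hge
      · left
        obtain ⟨S, hSmem', hS1, -⟩ := sp_torus_plus (F := F) p j hj
        have hN2 : 2 ∣ Fintype.card F ^ j - 1 := by
          obtain ⟨c, hc⟩ := hqodd j
          exact ⟨c, by omega⟩
        have hNp : Nat.Coprime p (Fintype.card F ^ j - 1) := by
          rw [Nat.Prime.coprime_iff_not_dvd hp]
          intro h
          have h0 : 1 ≤ Fintype.card F ^ j := Nat.one_le_pow _ _ (by omega)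
          have h1 : p ∣ 1 := by
            have := Nat.dvd_sub (hpqj j hj) h
            rwa [Nat.sub_sub_self h0] at this
          exact hp.one_lt.ne' (Nat.dvd_one.mp h1)
        have := psp_block_case p h2F hpo n j k _ hj hlt hk1 hjk hN2 hNp S hSmem' hS1 s' hAk
        rw [← ho'] at this
        exact this
      · have hjeq : j = n := le_antisymm hjn hge
        subst hjeq
        have hk1' : k = 1 := by
          have : j * k ≤ j * 1 := by rw [mul_one]; exact hjk
          have := Nat.le_of_mul_le_mul_left this (by omega)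
          omega
        rw [hk1', pow_one, sub_eq_zero] at hAk
        have h1 := psp_order_dvd s' _ (Or.inl hAk)
        rw [← ho'] at h1
        rcases hSprop2 o hgo h1 with h | h
        · left; exact h
        · right; exact dvd_trans h (Nat.dvd_lcm_right _ _)
  refine ⟨?_, ?_⟩
  · exact absorb3 2 (elem_ab_pow 2 m) (tri_absorb 2 hU hS hW hW2 hd)
  · intro hj
    have hpt_odd : Odd (p ^ t) := hpo.pow
    have ht3 : p ^ t < 2 * (n - 1) := by
      have h1 : p ^ t ≠ 2 * n - 1 := fun h => hj ⟨t, h.symm⟩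
      obtain ⟨c, hc⟩ := hpt_odd
      omega
    have hU'o : orderOf U' = p ^ (t + 1) := (hU'facts t ht3 (by omega)).1
    have hURo : Nat.lcm (orderOf hU) 2 ∣ orderOf hW := by
      rw [hUord, hWdef]
      have := hwk _ (pow_orderOf_eq_one _)
      apply Nat.lcm_dvd
      · rw [← hU'o]; exact orderOf_dvd_of_pow_eq_one this.1
      · exact this.2
    exact absorb2 2 (elem_ab_pow 2 m) (bi_absorb 2 hU hS hW hURo hd)

end SpAbsorb

end Cfsg.Agent.H62
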