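import Mathlib
import Cfsg.Agent.H78.StODefs

/-!
# S2548-SYLA: at least `q ^ ((m+1) m)` unitriangular isometries of the hyperbolic form (helper62)
-/

set_option autoImplicit false
set_option linter.style.haveILetI false
set_option linter.unusedSimpArgs false
set_option linter.unusedSectionVars false
set_option linter.unusedVariables false

namespace Cfsg.Agent.H62.StO62

open Matrix Cfsg.Agent.H78.StO

variable {F : Type*} [Field F]

/-- The data: one field element for each ordered pair of distinct indices. -/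
abbrev Dat (m : ℕ) (F : Type*) : Type _ :=
  {p : Fin (m + 1) × Fin (m + 1) // p ∈ (Finset.univ : Finset (Fin (m + 1))).offDiag} → F

theorem dat_mem {m : ℕ} {i j : Fin (m + 1)} (h : i ≠ j) :
    (i, j) ∈ (Finset.univ : Finset (Fin (m + 1))).offDiag := by
  rw [Finset.mem_offDiag]
  exact ⟨Finset.mem_univ _, Finset.mem_univ _, h⟩

/-- The upper unitriangular matrix of the data. -/
def upA (m : ℕ) (d : Dat m F) : Matrix (Fin (m + 1)) (Fin (m + 1)) F :=
  fun i j => if h : i < j then d ⟨(i, j), dat_mem h.ne⟩ else if i = j then 1 else 0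

/-- The strictly lower triangular matrix of the data. -/
def lowN (m : ℕ) (d : Dat m F) : Matrix (Fin (m + 1)) (Fin (m + 1)) F :=
  fun i j => if h : j < i then d ⟨(i, j), dat_mem h.ne'⟩ else 0

theorem upA_upper (m : ℕ) (d : Dat m F) : (upA m d).IsUpperTriangular := by
  intro i j hij
  have hij' : j < i := hij
  unfold upA
  rw [dif_neg (not_lt.mpr hij'.le), if_neg hij'.ne']

theorem upA_diag (m : ℕ) (d : Dat m F) (i : Fin (m + 1)) : upA m d i i = 1 := by
  unfold upA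
  rw [dif_neg (lt_irrefl i), if_pos rfl]

theorem upA_det (m : ℕ) (d : Dat m F) : (upA m d).det = 1 := by
  rw [Matrix.det_of_isUpperTriangular (upA_upper m d)]
  simp [upA_diag]

theorem upA_inv_mul (m : ℕ) (d : Dat m F) : (upA m d)⁻¹ * upA m d = 1 :=
  Matrix.nonsing_inv_mul _ (by rw [upA_det]; exact isUnit_one)

theorem upA_inv_upper (m : ℕ) (d : Dat m F) (i j : Fin (m + 1)) (h : j < i) :
    (upA m d)⁻¹ i j = 0 := by
  haveI : Invertible (upA m d) :=
    Matrix.invertibleOfIsUnitDet _ (by rw [upA_det]; exact isUnit_one)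
  exact Matrix.blockTriangular_inv_of_blockTriangular (upA_upper m d) h

theorem upA_inv_diag (m : ℕ) (d : Dat m F) (i : Fin (m + 1)) : (upA m d)⁻¹ i i = 1 := by
  have h1 : ((upA m d)⁻¹ * upA m d) i i = 1 := by rw [upA_inv_mul]; simp
  rw [Matrix.mul_apply, Finset.sum_eq_single i] at h1
  · rwa [upA_diag, mul_one] at h1
  · intro k _ hk
    rcases lt_or_gt_of_ne hk with h | h
    · rw [upA_inv_upper m d i k h, zero_mul]
    · have : upA m d k i = 0 := upA_upper m d h
      rw [this, mul_zero]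
  · intro h; exact absurd (Finset.mem_univ i) h

/-- The quadratic form is preserved by `[[A, A (N - Nᵀ)], [0, Bᵀ]]` when `B A = 1`. -/
theorem quad_block (m : ℕ) (A B N : Matrix (Fin (m + 1)) (Fin (m + 1)) F) (hBA : B * A = 1)
    (v : Fin (m + 1) ⊕ Fin (m + 1) → F) :
    Cfsg.quadFormPlus (m + 1) F (fromBlocks A (A * (N - Nᵀ)) 0 Bᵀ *ᵥ v)
      = Cfsg.quadFormPlus (m + 1) F v := by
  have e : ∀ i, (fromBlocks A (A * (N - Nᵀ)) 0 Bᵀ *ᵥ v) (Sum.inl i)
      * (fromBlocks A (A * (N - Nᵀ)) 0 Bᵀ *ᵥ v) (Sum.inr i)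
      = (A *ᵥ (v ∘ Sum.inl + (N - Nᵀ) *ᵥ (v ∘ Sum.inr))) i * (Bᵀ *ᵥ (v ∘ Sum.inr)) i := by
    intro i
    rw [Matrix.fromBlocks_mulVec]
    simp only [Sum.elim_inl, Sum.elim_inr, Matrix.zero_mulVec, zero_add, Matrix.mulVec_add,
      Matrix.mulVec_mulVec]
  show ∑ i, (fromBlocks A (A * (N - Nᵀ)) 0 Bᵀ *ᵥ v) (Sum.inl i)
      * (fromBlocks A (A * (N - Nᵀ)) 0 Bᵀ *ᵥ v) (Sum.inr i) = ∑ i, v (Sum.inl i) * v (Sum.inr i)
  simp only [e]
  show (A *ᵥ (v ∘ Sum.inl + (N - Nᵀ) *ᵥ (v ∘ Sum.inr))) ⬝ᵥ (Bᵀ *ᵥ (v ∘ Sum.inr))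
    = (v ∘ Sum.inl) ⬝ᵥ (v ∘ Sum.inr)
  rw [Matrix.mulVec_transpose, dotProduct_comm, Matrix.dotProduct_mulVec, Matrix.vecMul_vecMul,
    hBA, Matrix.vecMul_one, dotProduct_comm, add_dotProduct, Matrix.sub_mulVec, sub_dotProduct,
    Matrix.mulVec_transpose]
  have h1 : (v ∘ Sum.inr) ᵥ* N ⬝ᵥ (v ∘ Sum.inr) = N *ᵥ (v ∘ Sum.inr) ⬝ᵥ (v ∘ Sum.inr) := by
    rw [← Matrix.dotProduct_mulVec, dotProduct_comm]
  rw [h1, sub_self, add_zero]

/-- The isometry attached to the data. -/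
theorem exists_uni (m : ℕ) (d : Dat m F) :
    ∃ g : OG m F, mat g = fromBlocks (upA m d) (upA m d * (lowN m d - (lowN m d)ᵀ)) 0
      ((upA m d)⁻¹)ᵀ := by
  have hdet : (fromBlocks (upA m d) (upA m d * (lowN m d - (lowN m d)ᵀ)) 0
      ((upA m d)⁻¹)ᵀ).det ≠ 0 := by
    rw [Matrix.det_fromBlocks_zero₂₁, Matrix.det_transpose, Matrix.det_nonsing_inv, upA_det]
    simp
  refine ⟨⟨Matrix.GeneralLinearGroup.mkOfDetNeZero _ hdet, ?_⟩, rfl⟩
  intro u v
  exact quad_block m _ _ _ (upA_inv_mul m d) u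

theorem isUniO_of_mat (m : ℕ) (d : Dat m F) (g : OG m F)
    (hg : mat g = fromBlocks (upA m d) (upA m d * (lowN m d - (lowN m d)ᵀ)) 0 ((upA m d)⁻¹)ᵀ) :
    IsUniO g := by
  refine ⟨?_, ?_, ?_, ?_, ?_⟩
  · intro i j
    rw [hg, Matrix.fromBlocks_apply₂₁]; rfl
  · intro i j hij
    rw [hg, Matrix.fromBlocks_apply₁₁]
    exact upA_upper m d hij
  · intro i
    rw [hg, Matrix.fromBlocks_apply₁₁, upA_diag]
  · intro i j hij
    rw [hg, Matrix.fromBlocks_apply₂₂, Matrix.transpose_apply]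
    exact upA_inv_upper m d j i hij
  · intro i
    rw [hg, Matrix.fromBlocks_apply₂₂, Matrix.transpose_apply, upA_inv_diag]

theorem dat_eq_of_blocks (m : ℕ) (d d' : Dat m F) (hA : upA m d = upA m d')
    (hS : upA m d * (lowN m d - (lowN m d)ᵀ) = upA m d' * (lowN m d' - (lowN m d')ᵀ)) :
    d = d' := by
  have hS' : lowN m d - (lowN m d)ᵀ = lowN m d' - (lowN m d')ᵀ := by
    have h1 : (upA m d)⁻¹ * (upA m d * (lowN m d - (lowN m d)ᵀ))
        = (upA m d)⁻¹ * (upA m d' * (lowN m d' - (lowN m d')ᵀ)) := by rw [hS]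
    rw [← hA, ← Matrix.mul_assoc, ← Matrix.mul_assoc, upA_inv_mul, Matrix.one_mul,
      Matrix.one_mul] at h1
    exact h1
  funext ⟨⟨i, j⟩, hp⟩
  have hne : i ≠ j := (Finset.mem_offDiag.mp hp).2.2
  rcases lt_or_gt_of_ne hne with h | h
  · have h2 := congrFun (congrFun hA i) j
    unfold upA at h2
    rw [dif_pos h, dif_pos h] at h2
    exact h2
  · have h2 := congrFun (congrFun hS' i) j
    simp only [Matrix.sub_apply, Matrix.transpose_apply] at h2
    unfold lowN at h2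
    rw [dif_pos h, dif_pos h, dif_neg (not_lt.mpr h.le), dif_neg (not_lt.mpr h.le), sub_zero,
      sub_zero] at h2
    exact h2

theorem oplus_uni_card [Fintype F] (m : ℕ) (U' : Subgroup (OG m F))
    (hU : ∀ g : OG m F, IsUniO g → g ∈ U') :
    Fintype.card F ^ ((m + 1) * m) ≤ Nat.card U' := by
  classical
  let Φ : Dat m F → U' := fun d =>
    ⟨(exists_uni m d).choose, hU _ (isUniO_of_mat m d _ (exists_uni m d).choose_spec)⟩
  have hΦ : Function.Injective Φ := by
    intro d d' hdd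
    have h1 : (exists_uni m d).choose = (exists_uni m d').choose := congrArg Subtype.val hdd
    have h2 : mat (exists_uni m d).choose = mat (exists_uni m d').choose := by rw [h1]
    rw [(exists_uni m d).choose_spec, (exists_uni m d').choose_spec] at h2
    obtain ⟨hA, hS, -, -⟩ := Matrix.fromBlocks_inj.mp h2
    exact dat_eq_of_blocks m d d' hA hS
  haveI : Finite (OG m F) := inferInstance
  have h3 := Nat.card_le_card_of_injective Φ hΦ
  have h4 : Nat.card (Dat m F) = Fintype.card F ^ ((m + 1) * m) := by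
    rw [Nat.card_eq_fintype_card, Fintype.card_fun, Fintype.card_coe, Finset.offDiag_card,
      Finset.card_univ, Fintype.card_fin]
    congr 1
    rw [Nat.mul_succ, Nat.add_sub_cancel]
  rw [← h4]
  exact h3

end Cfsg.Agent.H62.StO62
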