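import Mathlib
import Cfsg.Agent.H49.Plus
import Cfsg.Agent.H49.Summand
import Cfsg.Agent.S0287

/-!
# S2548-SYLB: a `p`-subgroup of `Ω⁺_{2(m+1)}(q)` of order at least `q ^ ((m+1) m)` has
index prime to `p` (helper62)
-/

set_option autoImplicit false
set_option linter.style.haveILetI false
set_option linter.unusedSimpArgs false
set_option linter.unusedSectionVars false
set_option linter.unusedVariables false

namespace Cfsg.Agent.H62.StO62

open Matrix

variable {F : Type*} [Field F]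

theorem not_dvd_pow_sub_one (p q k : ℕ) (hp : p.Prime) (hq : p ∣ q) (hq0 : 0 < q) (hk : 1 ≤ k) :
    ¬ p ∣ q ^ k - 1 := by
  intro hd
  have h1 : p ∣ q ^ k := dvd_trans hq (dvd_pow_self q (by omega))
  have h2 : 1 ≤ q ^ k := Nat.one_le_pow _ _ hq0
  have h3 : q ^ k = (q ^ k - 1) + 1 := by omega
  rw [h3] at h1
  have h4 : p ∣ 1 := (Nat.dvd_add_right hd).mp h1
  exact hp.one_lt.ne' (Nat.dvd_one.mp h4)

theorem not_dvd_oplus_factor (p q M : ℕ) (hp : p.Prime) (hq : p ∣ q) (hq0 : 0 < q)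
    (hM : 1 ≤ M) :
    ¬ p ∣ (q ^ M - 1) * ∏ i ∈ Finset.range (M - 1), (q ^ (2 * (i + 1)) - 1) := by
  intro hd
  rcases (Nat.Prime.dvd_mul hp).mp hd with h | h
  · exact not_dvd_pow_sub_one p q M hp hq hq0 hM h
  · obtain ⟨i, -, hi⟩ := (Prime.dvd_finsetProd_iff hp.prime _).mp h
    exact not_dvd_pow_sub_one p q _ hp hq hq0 (by omega) hi

/-- In characteristic two the commutator subgroup of `O⁺` has order dividing `|O⁺| / 2`. -/
theorem card_omega_dvd_two (h2 : (2 : F) = 0) [Fintype F] (M : ℕ) (hM : 1 ≤ M) (N : ℕ)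
    (hN : Nat.card ↥(Cfsg.isometryGroup F (Cfsg.quadFormPlus M F)) = 2 * N) :
    Nat.card ↥(Cfsg.Omega F (Cfsg.quadFormPlus M F)) ∣ N := by
  classical
  obtain ⟨f, hf⟩ : ∃ f : ↥(Cfsg.isometryGroup F (Cfsg.quadFormPlus M F)) →* ℤˣ,
      ∃ g, f g = -1 := by
    obtain ⟨k, rfl⟩ : ∃ k, M = k + 1 := ⟨M - 1, by omega⟩
    refine ⟨Cfsg.Agent.H49.dicksonHom (Cfsg.Agent.H49.QP (k + 1) F) h2
      (Cfsg.Agent.H49.QP_nondeg (k + 1) F),
      Cfsg.Agent.H49.reflG (Cfsg.Agent.H49.QP (k + 1) F)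
        (Pi.single (Sum.inl 0) 1 + Pi.single (Sum.inr 0) 1), ?_⟩
    apply Cfsg.Agent.H49.dicksonHom_reflG
    rw [Cfsg.Agent.H49.QP_apply, Finset.sum_eq_single (0 : Fin (k + 1))]
    · simp
    · intro j _ hj
      simp [Pi.single_apply, hj]
    · intro h; exact absurd (Finset.mem_univ _) h
  obtain ⟨g, hg⟩ := hf
  have hrange : f.range = ⊤ := by
    rw [eq_top_iff]
    intro u _
    rcases Int.units_eq_one_or u with h | h
    · rw [h]; exact one_mem _
    · rw [h]; exact ⟨g, hg⟩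
  have hidx : f.ker.index = 2 := by
    rw [Subgroup.index_ker, hrange, Nat.card_congr (Subgroup.topEquiv (G := ℤˣ)).toEquiv]
    simp
  have hker : Nat.card f.ker = N := by
    have h1 := Subgroup.card_mul_index f.ker
    rw [hidx, hN] at h1
    omega
  have hle : Cfsg.Omega F (Cfsg.quadFormPlus M F) ≤ f.ker :=
    Abelianization.commutator_subset_ker f
  rw [← hker]
  exact Subgroup.card_dvd_of_le hle

theorem oplus_sylow [Fintype F] (p : ℕ) [Fact p.Prime] [CharP F p] (m : ℕ) (hm : 1 ≤ m)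
    (h : Fintype.card F ≠ 2 ∨ m ≠ 1)
    (U' : Subgroup ↥(Cfsg.Omega F (Cfsg.quadFormPlus (m + 1) F))) (hU' : IsPGroup p U')
    (hcard : Fintype.card F ^ ((m + 1) * m) ≤ Nat.card U') : ¬ p ∣ U'.index := by
  classical
  have hp : p.Prime := Fact.out
  intro hdvd
  obtain ⟨f, -, hq⟩ := FiniteField.card F p
  obtain ⟨q, hqdef⟩ : ∃ q, q = Fintype.card F := ⟨_, rfl⟩
  rw [← hqdef] at hq hcard
  have hpq : p ∣ q := by rw [hq]; exact dvd_pow_self p f.ne_zero
  have hq0 : 0 < q := by rw [hq]; exact pos_of_gt (Nat.one_lt_pow f.ne_zero hp.one_lt)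
  obtain ⟨R, hRdef⟩ : ∃ R, R = (q ^ (m + 1) - 1)
      * ∏ i ∈ Finset.range (m + 1 - 1), (q ^ (2 * (i + 1)) - 1) := ⟨_, rfl⟩
  have hR : ¬ p ∣ R := by
    rw [hRdef]; exact not_dvd_oplus_factor p q (m + 1) hp hpq hq0 (by omega)
  have hO : Nat.card ↥(Cfsg.isometryGroup F (Cfsg.quadFormPlus (m + 1) F))
      = 2 * (q ^ ((m + 1) * m) * R) := by
    rw [Cfsg.Agent.S0287.result hqdef.symm (m + 1) (by omega), hRdef, Nat.add_sub_cancel]
    ring
  haveI : Finite ↥(Cfsg.isometryGroup F (Cfsg.quadFormPlus (m + 1) F)) := inferInstance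
  haveI : Finite ↥(Cfsg.Omega F (Cfsg.quadFormPlus (m + 1) F)) := inferInstance
  obtain ⟨a, ha⟩ := IsPGroup.iff_card.mp hU'
  -- `q ^ E * p` divides `|Ω|`
  have hE : f * ((m + 1) * m) ≤ a := by
    rw [ha, hq, ← pow_mul] at hcard
    exact (Nat.pow_le_pow_iff_right hp.one_lt).mp hcard
  have h1 : q ^ ((m + 1) * m) * p ∣ Nat.card ↥(Cfsg.Omega F (Cfsg.quadFormPlus (m + 1) F)) := by
    rw [← Subgroup.card_mul_index U', ha]
    refine mul_dvd_mul ?_ hdvd
    rw [hq, ← pow_mul]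
    exact pow_dvd_pow p hE
  have hΩO : Nat.card ↥(Cfsg.Omega F (Cfsg.quadFormPlus (m + 1) F))
      ∣ Nat.card ↥(Cfsg.isometryGroup F (Cfsg.quadFormPlus (m + 1) F)) :=
    Subgroup.card_subgroup_dvd_card _
  have hqE : 0 < q ^ ((m + 1) * m) := Nat.pow_pos hq0
  by_cases hp2 : p = 2
  · have h2 : (2 : F) = 0 := by
      have := CharP.cast_eq_zero F p
      rw [hp2] at this
      exact_mod_cast this
    have h3 := card_omega_dvd_two h2 (m + 1) (by omega) _ hO
    have h4 : q ^ ((m + 1) * m) * p ∣ q ^ ((m + 1) * m) * R := dvd_trans h1 h3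
    exact hR (Nat.dvd_of_mul_dvd_mul_left hqE h4)
  · have h4 : q ^ ((m + 1) * m) * p ∣ q ^ ((m + 1) * m) * (2 * R) := by
      have := dvd_trans h1 hΩO
      rw [hO] at this
      have e : 2 * (q ^ ((m + 1) * m) * R) = q ^ ((m + 1) * m) * (2 * R) := by ring
      rwa [e] at this
    have h5 : p ∣ 2 * R := Nat.dvd_of_mul_dvd_mul_left hqE h4
    rcases (Nat.Prime.dvd_mul hp).mp h5 with h6 | h6
    · exact hp2 ((Nat.prime_dvd_prime_iff_eq hp Nat.prime_two).mp h6)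
    · exact hR h6

end Cfsg.Agent.H62.StO62
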