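import Mathlib
import Cfsg.Agent.H90.TRDefs
import Cfsg.Agent.H88.Constrained
import Cfsg.Agent.H89.Series
import Cfsg.Agent.H86.FusExt
import Cfsg.Agent.S5255

/-!
# S5156-Y2 (helper62): `Q C_S(Q)` is normal in `F` (series argument)
-/

set_option autoImplicit false
set_option linter.style.haveILetI false
set_option linter.unusedSimpArgs false
set_option linter.unusedSectionVars false
set_option linter.unusedVariables false

namespace Cfsg.Agent.H62.TR

open Cfsg Cfsg.FusionSystem Cfsg.Agent.H86 Cfsg.Agent.H87 Cfsg.Agent.H90.TR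
open scoped commutatorElement

universe u

variable {Ω : Type u} [Group Ω]

theorem le_normalizer_of_conj (S T : Subgroup Ω)
    (h : ∀ s ∈ S, ∀ t ∈ T, s * t * s⁻¹ ∈ T) : S ≤ Subgroup.normalizer (T : Set Ω) := by
  intro g hg
  rw [Subgroup.mem_normalizer_iff]
  intro x
  constructor
  · intro hx
    exact h g hg x hx
  · intro hx
    have h1 := h g⁻¹ (S.inv_mem hg) _ hx
    have e : g⁻¹ * (g * x * g⁻¹) * g⁻¹⁻¹ = x := by group
    rwa [e] at h1

theorem sup_conj_mem (S T L : Subgroup Ω) (hLS : L ≤ S)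
    (hT : ∀ s ∈ S, ∀ t ∈ T, s * t * s⁻¹ ∈ T)
    (hL : ∀ s ∈ S, ∀ t ∈ L, s * t * s⁻¹ ∈ L) :
    ∀ s ∈ S, ∀ x ∈ T ⊔ L, s * x * s⁻¹ ∈ T ⊔ L := by
  intro s hs x hx
  have hcoe := Subgroup.coe_mul_of_right_le_normalizer_left T L
    (hLS.trans (le_normalizer_of_conj S T hT))
  have hx' : x ∈ ((T ⊔ L : Subgroup Ω) : Set Ω) := hx
  rw [hcoe] at hx'
  obtain ⟨t, ht, g, hg, rfl⟩ := Set.mem_mul.1 hx'
  have e : s * (t * g) * s⁻¹ = (s * t * s⁻¹) * (s * g * s⁻¹) := by group
  rw [e]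
  exact Subgroup.mul_mem _ (Subgroup.mem_sup_left (hT s hs t ht))
    (Subgroup.mem_sup_right (hL s hs g hg))

theorem comm_sup_le (S T L L' : Subgroup Ω) (hLS : L ≤ S)
    (hT : ∀ s ∈ S, ∀ t ∈ T, s * t * s⁻¹ ∈ T) (hLL : ⁅L, S⁆ ≤ L') :
    ⁅T ⊔ L, S⁆ ≤ T ⊔ L' := by
  rw [Subgroup.commutator_le]
  intro x hx s hs
  have hcoe := Subgroup.coe_mul_of_right_le_normalizer_left T L
    (hLS.trans (le_normalizer_of_conj S T hT))
  have hx' : x ∈ ((T ⊔ L : Subgroup Ω) : Set Ω) := hx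
  rw [hcoe] at hx'
  obtain ⟨t, ht, g, hg, rfl⟩ := Set.mem_mul.1 hx'
  have ht' : t ∈ T := ht
  have hg' : g ∈ L := hg
  have e : ⁅t * g, s⁆ = t * ⁅g, s⁆ * (s * t⁻¹ * s⁻¹) := by
    rw [commutatorElement_def, commutatorElement_def]; group
  rw [e]
  exact Subgroup.mul_mem _ (Subgroup.mul_mem _ (Subgroup.mem_sup_left ht')
    (Subgroup.mem_sup_right (hLL (Subgroup.commutator_mem_commutator hg' hs))))
    (Subgroup.mem_sup_left (hT s hs _ (T.inv_mem ht')))

theorem y2 : Cfsg.Agent.H90.TR.Y2Stmt.{u} := by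
  intro Ω _ S _ p _ hS F hF T Q hQT hTS hTn hchar hCT hTT
  -- `Q` is strongly closed
  have hQQ : (Q.subgroupOf Q).Characteristic := by
    rw [Subgroup.subgroupOf_self]; infer_instance
  have hQcl : F.StronglyClosed Q := hchar Q le_rfl hQQ
  have hQS : Q ≤ S := hQT.trans hTS
  have hWcl : F.StronglyClosed (Q ⊔ centralizerIn S Q) :=
    Cfsg.Agent.S5255.result p hS F hF Q hQcl
  have hWS : Q ⊔ centralizerIn S Q ≤ S := hWcl.1
  have hfinQ : Finite Q := finite_of_le hQS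
  have hnil : Group.IsNilpotent Q := (hS.to_le hQS).isNilpotent
  have hnilS : Group.IsNilpotent S := hS.isNilpotent
  obtain ⟨c, hc⟩ := (Subgroup.isNilpotent_iff_lowerCentralSeries S).mp hnilS
  have hcoeW := Subgroup.coe_mul_of_right_le_normalizer_left Q (centralizerIn S Q)
    ((inf_le_left : centralizerIn S Q ≤ S).trans (stronglyClosed_le_normalizer hQcl))
  -- `W ⊓ T ≤ Q`
  have hWT : (Q ⊔ centralizerIn S Q) ⊓ T ≤ Q := by
    rintro x ⟨hxW, hxT⟩
    have hxW' : x ∈ ((Q ⊔ centralizerIn S Q : Subgroup Ω) : Set Ω) := hxW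
    rw [hcoeW] at hxW'
    obtain ⟨q, hq, z, hz, rfl⟩ := Set.mem_mul.1 hxW'
    have hq' : q ∈ Q := hq
    have hz' : z ∈ centralizerIn S Q := hz
    have hzT : z ∈ T := by
      have h1 : q⁻¹ * (q * z) ∈ T := T.mul_mem (T.inv_mem (hQT hq')) hxT
      rwa [inv_mul_cancel_left] at h1
    have hzQ : z ∈ Q := hCT (mem_centralizerIn_iff.2 ⟨hzT, (mem_centralizerIn_iff.1 hz').2⟩)
    exact Q.mul_mem hq' hzQ
  rw [isNormal_iff_stronglyClosed hS hF]
  refine ⟨hWcl, fun U hUc hUr => ?_⟩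
  have hD0 : ∀ i, (Subgroup.upperCentralSeries Q i).map Q.subtype ≤ Q := by
    intro i
    rintro _ ⟨x, -, rfl⟩
    exact x.2
  have htop : (Subgroup.upperCentralSeries Q (Group.nilpotencyClass Q)).map Q.subtype = Q := by
    rw [Subgroup.upperCentralSeries_nilpotencyClass, Cfsg.Agent.H88.map_subtype_top']
  have hLS : ∀ k, S.lowerCentralSeries k ≤ S := fun k => Subgroup.lowerCentralSeries_le_self S k
  have hLn : ∀ k, ∀ s ∈ S, ∀ t ∈ S.lowerCentralSeries k, s * t * s⁻¹ ∈ S.lowerCentralSeries k := by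
    intro k s hs t ht
    exact (Subgroup.mem_normalizer_iff.mp (S.self_le_normalizer_lowerCentralSeries k hs) t).mp ht
  obtain ⟨c₀, hc₀⟩ : ∃ c₀, c₀ = Group.nilpotencyClass Q := ⟨_, rfl⟩
  rw [← hc₀] at htop
  refine Cfsg.Agent.H89.le_centric_radical_of_series hS hWcl
    (fun i => if i ≤ c₀ then (Subgroup.upperCentralSeries Q i).map Q.subtype
      else (Q ⊔ centralizerIn S Q) ⊓ (T ⊔ S.lowerCentralSeries (c₀ + 1 + c - i)))
    (c₀ + 1 + c) ?_ ?_ ?_ ?_ ?_ hUc hUr
  · show (if 0 ≤ c₀ then (Subgroup.upperCentralSeries Q 0).map Q.subtype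
      else (Q ⊔ centralizerIn S Q) ⊓ (T ⊔ S.lowerCentralSeries (c₀ + 1 + c - 0))) = ⊥
    rw [if_pos (Nat.zero_le _), Subgroup.upperCentralSeries_zero, Subgroup.map_bot]
  · show (if c₀ + 1 + c ≤ c₀ then (Subgroup.upperCentralSeries Q (c₀ + 1 + c)).map Q.subtype
      else (Q ⊔ centralizerIn S Q) ⊓ (T ⊔ S.lowerCentralSeries (c₀ + 1 + c - (c₀ + 1 + c))))
      = Q ⊔ centralizerIn S Q
    rw [if_neg (by omega), Nat.sub_self, Subgroup.lowerCentralSeries_zero, sup_eq_right.mpr hTS,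
      inf_eq_left.mpr hWS]
  · intro i hi
    show (if i ≤ c₀ then (Subgroup.upperCentralSeries Q i).map Q.subtype
      else (Q ⊔ centralizerIn S Q) ⊓ (T ⊔ S.lowerCentralSeries (c₀ + 1 + c - i)))
      ≤ (if i + 1 ≤ c₀ then (Subgroup.upperCentralSeries Q (i + 1)).map Q.subtype
      else (Q ⊔ centralizerIn S Q) ⊓ (T ⊔ S.lowerCentralSeries (c₀ + 1 + c - (i + 1))))
    by_cases hic : i + 1 ≤ c₀
    · rw [if_pos hic, if_pos (by omega)]
      exact Subgroup.map_mono (Subgroup.upperCentralSeries_mono Q (Nat.le_succ i))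
    · rw [if_neg hic]
      by_cases hi0 : i ≤ c₀
      · rw [if_pos hi0]
        exact (hD0 i).trans (le_inf le_sup_left (hQT.trans le_sup_left))
      · rw [if_neg hi0]
        exact inf_le_inf_left _ (sup_le_sup_left
          (Subgroup.lowerCentralSeries_antitone S (by omega)) T)
  · intro i hi
    show ⁅(if i + 1 ≤ c₀ then (Subgroup.upperCentralSeries Q (i + 1)).map Q.subtype
      else (Q ⊔ centralizerIn S Q) ⊓ (T ⊔ S.lowerCentralSeries (c₀ + 1 + c - (i + 1)))),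
        Q ⊔ centralizerIn S Q⁆
      ≤ (if i ≤ c₀ then (Subgroup.upperCentralSeries Q i).map Q.subtype
      else (Q ⊔ centralizerIn S Q) ⊓ (T ⊔ S.lowerCentralSeries (c₀ + 1 + c - i)))
    by_cases hic : i + 1 ≤ c₀
    · rw [if_pos hic, if_pos (by omega), Subgroup.commutator_le]
      rintro _ ⟨x, hx, rfl⟩ w hw
      have hw' : w ∈ ((Q ⊔ centralizerIn S Q : Subgroup Ω) : Set Ω) := hw
      rw [hcoeW] at hw'
      obtain ⟨q, hq, z, hz, rfl⟩ := Set.mem_mul.1 hw'
      have hq' : q ∈ Q := hq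
      have hz' : z ∈ centralizerIn S Q := hz
      have hzx : (x : Ω)⁻¹ * z = z * (x : Ω)⁻¹ := (mem_centralizerIn_iff.1 hz').2 _ (Q.inv_mem x.2)
      have h1 := Subgroup.mem_upperCentralSeries_succ_iff.1 hx ⟨q, hq'⟩
      refine ⟨⁅x, ⟨q, hq'⟩⁆, h1, ?_⟩
      show (x : Ω) * q * (x : Ω)⁻¹ * q⁻¹ = ⁅(x : Ω), q * z⁆
      rw [commutatorElement_def]
      have e : (x : Ω) * (q * z) * (x : Ω)⁻¹ * (q * z)⁻¹ =
          (x : Ω) * q * (z * (x : Ω)⁻¹) * z⁻¹ * q⁻¹ := by group
      rw [e, ← hzx]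
      group
    · rw [if_neg hic]
      by_cases hi0 : i ≤ c₀
      · rw [if_pos hi0]
        have hiq : i = c₀ := by omega
        have hk : c₀ + 1 + c - (i + 1) = c := by omega
        rw [hk, hc, sup_bot_eq, hiq, htop]
        refine (Subgroup.commutator_mono hWT hWS).trans ?_
        rw [Subgroup.commutator_le]
        intro x hx s hs
        rw [commutatorElement_def]
        have h1 : s * x⁻¹ * s⁻¹ ∈ Q := stronglyClosed_conj_mem hQcl hs (Q.inv_mem hx)
        have e : x * s * x⁻¹ * s⁻¹ = x * (s * x⁻¹ * s⁻¹) := by group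
        rw [e]
        exact Q.mul_mem hx h1
      · rw [if_neg hi0]
        obtain ⟨k, hk⟩ : ∃ k, k = c₀ + 1 + c - (i + 1) := ⟨_, rfl⟩
        have hk1 : c₀ + 1 + c - i = k + 1 := by omega
        rw [← hk, hk1]
        refine le_inf ?_ ?_
        · rw [Subgroup.commutator_le]
          intro x hx y hy
          rw [commutatorElement_def]
          exact Subgroup.mul_mem _ (Subgroup.mul_mem _ (Subgroup.mul_mem _ hx.1 hy)
            (Subgroup.inv_mem _ hx.1)) (Subgroup.inv_mem _ hy)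
        · refine (Subgroup.commutator_mono inf_le_right hWS).trans ?_
          exact comm_sup_le S T (S.lowerCentralSeries k) (S.lowerCentralSeries (k + 1)) (hLS k)
            hTn le_rfl
  · intro i hi
    show F.WeaklyClosed (if i ≤ c₀ then (Subgroup.upperCentralSeries Q i).map Q.subtype
      else (Q ⊔ centralizerIn S Q) ⊓ (T ⊔ S.lowerCentralSeries (c₀ + 1 + c - i)))
    by_cases hi0 : i ≤ c₀
    · rw [if_pos hi0]
      have hsub : ((Subgroup.upperCentralSeries Q i).map Q.subtype).subgroupOf Q =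
          Subgroup.upperCentralSeries Q i :=
        Subgroup.comap_map_eq_self_of_injective Q.subtype_injective _
      have hch : (((Subgroup.upperCentralSeries Q i).map Q.subtype).subgroupOf Q).Characteristic := by
        rw [hsub]
        infer_instance
      exact Cfsg.Agent.H89.weaklyClosed_of_stronglyClosed (hchar _ (hD0 i) hch)
    · rw [if_neg hi0]
      refine Cfsg.Agent.H89.weaklyClosed_of_stronglyClosed
        (Cfsg.Agent.H88.stronglyClosed_inf hWcl ?_)
      exact hTT _ le_sup_left (sup_le hTS (hLS _))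
        (sup_conj_mem S T _ (hLS _) hTn (hLn _))

end Cfsg.Agent.H62.TR
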