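import Mathlib
import Cfsg.Agent.H64.TtDefs2
import Cfsg.Agent.H7.S4Gen

/-!
# TT-ISO3 (helper62, for helper64, S3685): `k = 3`, `X[0,3] ≅ S₄`.
-/

set_option autoImplicit false
set_option linter.unusedVariables false

namespace Cfsg.Agent.H62.Tt

open Cfsg.Agent.H64.Tt

universe u

/-- `x 0 ≠ 1` in Tutte data with `k ≥ 1` -/
theorem x0_ne_one {G : Type u} [Group G] {x : ℤ → G} {g : G} {k : ℕ} (T : TData x g k)
    (hk : 1 ≤ k) : x 0 ≠ 1 := by
  intro h
  have h1 := T.card 1 (le_refl 1) hk
  have h2 : X x 0 (((1 : ℕ) : ℤ) - 1) = ⊥ := by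
    rw [eq_bot_iff, X_le_iff]
    intro i hi1 hi2
    have hi : i = 0 := by omega
    rw [hi, h]
    exact Subgroup.one_mem _
  rw [h2, Subgroup.card_bot] at h1
  norm_num at h1

/-- the abstract form: four involutions with the relations of `k = 3` -/
theorem s4_of_rel {G : Type u} [Group G] [Finite G] (a b c d : G)
    (ha2 : a * a = 1) (hb2 : b * b = 1) (hc2 : c * c = 1) (hd2 : d * d = 1)
    (hab : a * b = b * a) (hbc : b * c = c * b)
    (h1 : a * c * a * c = b) (h2 : b * d * b * d = c) (hbr : d * a * d = a * d * a)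
    (hb1 : b ≠ 1) :
    Nonempty (↥(Subgroup.closure ({a, d, a * b} : Set G)) ≃* Equiv.Perm (Fin 4)) ∧
      b ∈ Subgroup.closure ({a, d, a * b} : Set G) ∧
      c ∈ Subgroup.closure ({a, d, a * b} : Set G) := by
  have r5 : a * (a * b) = b := by rw [← mul_assoc, ha2, one_mul]
  have hcac : c * a * c = a * b := by
    rw [← h1]
    simp only [← mul_assoc, ha2, one_mul]
  have hbmem : b ∈ Subgroup.closure ({a, d, a * b} : Set G) := by
    have h3 : a * (a * b) ∈ Subgroup.closure ({a, d, a * b} : Set G) :=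
      mul_mem (Subgroup.subset_closure (by simp)) (Subgroup.subset_closure (by simp))
    rw [r5] at h3
    exact h3
  have hdmem : d ∈ Subgroup.closure ({a, d, a * b} : Set G) :=
    Subgroup.subset_closure (by simp)
  refine ⟨?_, hbmem, ?_⟩
  · refine Cfsg.Agent.H7.closure_equiv_S4 a (a * b) d b (b * c) c ha2 ?_ hd2 hc2 r5 ?_ ?_ ?_ ?_
      hcac hbr hb1
    · calc a * b * (a * b) = a * b * (b * a) := by rw [hab]
        _ = 1 := by rw [mul_assoc, ← mul_assoc b, hb2, one_mul, ha2]
    · rw [hab, mul_assoc, ha2, mul_one]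
    · rw [← h2]
      simp only [← mul_assoc, hb2, one_mul]
    · have e : b * c * a * (b * c) = b * (c * a * c) * b := by
        simp only [mul_assoc]
        rw [hbc]
      rw [e, hcac, mul_assoc, mul_assoc, hb2, mul_one, hab]
    · rw [hbc, mul_assoc, hb2, mul_one]
  · rw [← h2]
    exact mul_mem (mul_mem (mul_mem hbmem hdmem) hbmem) hdmem

/-- **TT-ISO3**. -/
theorem iso3 (hK3 : K3Stmt.{u}) : Iso3Stmt.{u} := by
  intro G _ _ x g T hcard
  obtain ⟨ha, hb, hc⟩ := hK3 x g T hcard
  have e1 : x 1 = MulAut.conj g (x 0) := by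
    have h := T.shift 0
    rw [zero_add] at h
    exact h.symm
  have e2 : x 2 = MulAut.conj g (x 1) := by
    have h := T.shift 1
    norm_num at h
    exact h.symm
  have e3 : x 3 = MulAut.conj g (x 2) := by
    have h := T.shift 2
    norm_num at h
    exact h.symm
  have ha1 : x 1 * x 2 = x 2 * x 1 :=
    calc x 1 * x 2 = MulAut.conj g (x 0) * MulAut.conj g (x 1) := by rw [← e1, ← e2]
      _ = MulAut.conj g (x 0 * x 1) := (map_mul _ _ _).symm
      _ = MulAut.conj g (x 1 * x 0) := by rw [ha]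
      _ = MulAut.conj g (x 1) * MulAut.conj g (x 0) := map_mul _ _ _
      _ = x 2 * x 1 := by rw [← e1, ← e2]
  have hb1 : x 1 * x 3 * x 1 * x 3 = x 2 :=
    calc x 1 * x 3 * x 1 * x 3
        = MulAut.conj g (x 0) * MulAut.conj g (x 2) * MulAut.conj g (x 0) *
          MulAut.conj g (x 2) := by rw [← e1, ← e3]
      _ = MulAut.conj g (x 0 * x 2 * x 0 * x 2) := by simp only [map_mul]
      _ = MulAut.conj g (x 1) := by rw [hb]
      _ = x 2 := e2.symm
  have hx1 : x 1 ≠ 1 := by
    intro h
    rw [e1] at h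
    exact x0_ne_one T (by norm_num) ((MulAut.conj g).map_eq_one_iff.mp h)
  obtain ⟨⟨e⟩, hm1, hm2⟩ := s4_of_rel (x 0) (x 1) (x 2) (x 3) (T.inv 0) (T.inv 1) (T.inv 2)
    (T.inv 3) ha ha1 hb hb1 hc hx1
  have hEq : Subgroup.closure ({x 0, x 3, x 0 * x 1} : Set G) = X x 0 3 := by
    apply le_antisymm
    · rw [Subgroup.closure_le]
      intro y hy
      simp only [Set.mem_insert_iff, Set.mem_singleton_iff] at hy
      rcases hy with rfl | rfl | rfl
      · exact mem_X x (by norm_num) (by norm_num)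
      · exact mem_X x (by norm_num) (by norm_num)
      · exact mul_mem (mem_X x (by norm_num) (by norm_num)) (mem_X x (by norm_num) (by norm_num))
    · rw [X_le_iff]
      intro i hi1 hi2
      interval_cases i
      · exact Subgroup.subset_closure (by simp)
      · exact hm1
      · exact hm2
      · exact Subgroup.subset_closure (by simp)
  exact ⟨(MulEquiv.subgroupCongr hEq).symm.trans e⟩

end Cfsg.Agent.H62.Tt
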