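import Mathlib
import Cfsg.Agent.H62.PSL2Spec
import Cfsg.Agent.H62.SdSpec
import Cfsg.Agent.H62.Cusp2a

set_option autoImplicit false
set_option linter.unusedSectionVars false
set_option linter.style.haveILetI false
set_option linter.unusedSimpArgs false
set_option linter.unusedVariables false

namespace Cfsg.Agent.H62

open SemidirectProduct Matrix

section TwMat

/-- a trace identity for `2 × 2` matrices of determinant one intertwined by a nonzero matrix. -/
theorem twist_tr {R : Type*} [Field R] (g s X : Matrix (Fin 2) (Fin 2) R) (hg : g.det = 1)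
    (hs : s.det = 1) (e : R) (he : e * e = 1) (h : g * X * s = e • X) (hX : X ≠ 0) :
    g 0 0 + g 1 1 = e * (s 0 0 + s 1 1) := by
  obtain ⟨T, hT⟩ : ∃ T : R, T = s 0 0 + s 1 1 := ⟨_, rfl⟩
  obtain ⟨U, hU⟩ : ∃ U : R, U = g 0 0 + g 1 1 := ⟨_, rfl⟩
  obtain ⟨s', hs'⟩ : ∃ s' : Matrix (Fin 2) (Fin 2) R, s' = T • 1 - s := ⟨_, rfl⟩
  have hgg : g * g = U • g - 1 := by rw [hU]; exact mat2_sq g hg
  have hss : s * s = T • s - 1 := by rw [hT]; exact mat2_sq s hs
  have h1 : s * s' = 1 := by
    rw [hs', mul_sub, Matrix.mul_smul, mul_one, hss, sub_sub_cancel]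
  have h1' : s' * s = 1 := by
    rw [hs', sub_mul, Matrix.smul_mul, one_mul, hss, sub_sub_cancel]
  have h2 : s' * s' = T • s' - 1 := by
    have e1 : s' * s' = s' * (T • 1 - s) := by rw [← hs']
    rw [e1, mul_sub, Matrix.mul_smul, mul_one, h1']
  have h3 : g * X = e • (X * s') := by
    have h0 : g * X * s * s' = e • X * s' := by rw [h]
    rw [mul_assoc, h1, mul_one, Matrix.smul_mul] at h0
    exact h0
  have h4 : g * (g * X) = X * (s' * s') := by
    rw [h3, Matrix.mul_smul, ← mul_assoc, h3, Matrix.smul_mul, smul_smul, he, one_smul, mul_assoc]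
  have h6 : g * (g * X) = U • (e • (X * s')) - X := by
    rw [← mul_assoc, hgg, sub_mul, Matrix.smul_mul, one_mul, h3]
  have h5 : (U * e - T) • (X * s') = 0 := by
    rw [h4, h2, mul_sub, Matrix.mul_smul, mul_one] at h6
    have h7 := sub_left_inj.1 h6
    rw [sub_smul, ← smul_smul, ← h7, sub_self]
  have h7 : (U * e - T) • X = 0 := by
    have h0 : (U * e - T) • (X * s') * s = 0 * s := by rw [h5]
    rw [Matrix.smul_mul, mul_assoc, h1', mul_one, zero_mul] at h0
    exact h0
  rcases smul_eq_zero.1 h7 with h8 | h8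
  · rw [← hU, ← hT]
    linear_combination e * h8 - U * he
  · exact absurd h8 hX

end TwMat

section TwDef

variable {F : Type*} [Field F] [CharP F 3]

/-- the transpose of the entrywise cube of a matrix. -/
def frobT (M : Matrix (Fin 2) (Fin 2) F) : Matrix (Fin 2) (Fin 2) F :=
  (M.map (frobenius F 3))ᵀ

theorem frobT_apply (M : Matrix (Fin 2) (Fin 2) F) (i j : Fin 2) : frobT M i j = (M j i) ^ 3 :=
  rfl

theorem frobT_mul (A B : Matrix (Fin 2) (Fin 2) F) : frobT (A * B) = frobT B * frobT A := by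
  unfold frobT
  rw [Matrix.map_mul, Matrix.transpose_mul]

theorem frobT_one : frobT (1 : Matrix (Fin 2) (Fin 2) F) = 1 := by
  unfold frobT
  rw [Matrix.map_one _ (map_zero _) (map_one _), Matrix.transpose_one]

theorem frobT_det (M : Matrix (Fin 2) (Fin 2) F) : (frobT M).det = M.det ^ 3 := by
  unfold frobT
  rw [Matrix.det_transpose, ← RingHom.mapMatrix_apply, ← RingHom.map_det]
  rfl

theorem frobT_trace (M : Matrix (Fin 2) (Fin 2) F) :
    frobT M 0 0 + frobT M 1 1 = (M 0 0 + M 1 1) ^ 3 := by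
  rw [frobT_apply, frobT_apply, add_pow_char]

theorem tw_cancel (P Q X : Matrix (Fin 2) (Fin 2) F) (h : P * Q = 1) :
    P * (Q * X * frobT Q) * frobT P = X := by
  calc P * (Q * X * frobT Q) * frobT P = (P * Q) * X * (frobT Q * frobT P) := by
        simp only [mul_assoc]
    _ = X := by rw [← frobT_mul, h, frobT_one, one_mul, mul_one]

theorem tw_inv_mul (g : Matrix.SpecialLinearGroup (Fin 2) F) :
    ((g⁻¹ : Matrix.SpecialLinearGroup (Fin 2) F) : Matrix (Fin 2) (Fin 2) F)
      * (g : Matrix (Fin 2) (Fin 2) F) = 1 := by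
  rw [← Matrix.SpecialLinearGroup.coe_mul, inv_mul_cancel]
  rfl

theorem tw_mul_inv (g : Matrix.SpecialLinearGroup (Fin 2) F) :
    (g : Matrix (Fin 2) (Fin 2) F)
      * ((g⁻¹ : Matrix.SpecialLinearGroup (Fin 2) F) : Matrix (Fin 2) (Fin 2) F) = 1 := by
  rw [← Matrix.SpecialLinearGroup.coe_mul, mul_inv_cancel]
  rfl

/-- the twisted action of `SL(2, F)` on the `2 × 2` matrices. -/
def twHom : Matrix.SpecialLinearGroup (Fin 2) F →*
    MulAut (Multiplicative (Matrix (Fin 2) (Fin 2) F)) where
  toFun g :=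
    { toFun := fun v => Multiplicative.ofAdd ((g : Matrix (Fin 2) (Fin 2) F)
        * Multiplicative.toAdd v * frobT (g : Matrix (Fin 2) (Fin 2) F))
      invFun := fun v => Multiplicative.ofAdd
        (((g⁻¹ : Matrix.SpecialLinearGroup (Fin 2) F) : Matrix (Fin 2) (Fin 2) F)
          * Multiplicative.toAdd v
          * frobT ((g⁻¹ : Matrix.SpecialLinearGroup (Fin 2) F) : Matrix (Fin 2) (Fin 2) F))
      left_inv := by
        intro v
        show Multiplicative.ofAdd
          (((g⁻¹ : Matrix.SpecialLinearGroup (Fin 2) F) : Matrix (Fin 2) (Fin 2) F)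
            * ((g : Matrix (Fin 2) (Fin 2) F) * Multiplicative.toAdd v
              * frobT (g : Matrix (Fin 2) (Fin 2) F))
            * frobT ((g⁻¹ : Matrix.SpecialLinearGroup (Fin 2) F) : Matrix (Fin 2) (Fin 2) F)) = v
        rw [tw_cancel _ _ _ (tw_inv_mul g)]
        rfl
      right_inv := by
        intro v
        show Multiplicative.ofAdd
          ((g : Matrix (Fin 2) (Fin 2) F)
            * (((g⁻¹ : Matrix.SpecialLinearGroup (Fin 2) F) : Matrix (Fin 2) (Fin 2) F)
              * Multiplicative.toAdd v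
              * frobT ((g⁻¹ : Matrix.SpecialLinearGroup (Fin 2) F) : Matrix (Fin 2) (Fin 2) F))
            * frobT (g : Matrix (Fin 2) (Fin 2) F)) = v
        rw [tw_cancel _ _ _ (tw_mul_inv g)]
        rfl
      map_mul' := by
        intro v w
        show Multiplicative.ofAdd ((g : Matrix (Fin 2) (Fin 2) F)
            * (Multiplicative.toAdd v + Multiplicative.toAdd w)
            * frobT (g : Matrix (Fin 2) (Fin 2) F))
          = Multiplicative.ofAdd ((g : Matrix (Fin 2) (Fin 2) F)
            * Multiplicative.toAdd v * frobT (g : Matrix (Fin 2) (Fin 2) F)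
            + (g : Matrix (Fin 2) (Fin 2) F)
            * Multiplicative.toAdd w * frobT (g : Matrix (Fin 2) (Fin 2) F))
        rw [mul_add, add_mul] }
  map_one' := by
    apply MulEquiv.ext
    intro v
    show Multiplicative.ofAdd (((1 : Matrix.SpecialLinearGroup (Fin 2) F) :
        Matrix (Fin 2) (Fin 2) F) * Multiplicative.toAdd v
        * frobT ((1 : Matrix.SpecialLinearGroup (Fin 2) F) : Matrix (Fin 2) (Fin 2) F)) = v
    rw [Matrix.SpecialLinearGroup.coe_one, frobT_one, one_mul, mul_one]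
    rfl
  map_mul' := by
    intro g h
    apply MulEquiv.ext
    intro v
    show Multiplicative.ofAdd (((g * h : Matrix.SpecialLinearGroup (Fin 2) F) :
        Matrix (Fin 2) (Fin 2) F) * Multiplicative.toAdd v
        * frobT ((g * h : Matrix.SpecialLinearGroup (Fin 2) F) : Matrix (Fin 2) (Fin 2) F))
      = Multiplicative.ofAdd ((g : Matrix (Fin 2) (Fin 2) F)
        * ((h : Matrix (Fin 2) (Fin 2) F) * Multiplicative.toAdd v
          * frobT (h : Matrix (Fin 2) (Fin 2) F)) * frobT (g : Matrix (Fin 2) (Fin 2) F))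
    rw [Matrix.SpecialLinearGroup.coe_mul, frobT_mul]
    simp only [mul_assoc]

theorem twHom_apply (g : Matrix.SpecialLinearGroup (Fin 2) F)
    (v : Multiplicative (Matrix (Fin 2) (Fin 2) F)) :
    twHom g v = Multiplicative.ofAdd ((g : Matrix (Fin 2) (Fin 2) F)
        * Multiplicative.toAdd v * frobT (g : Matrix (Fin 2) (Fin 2) F)) := rfl

theorem twHom_center (g : Matrix.SpecialLinearGroup (Fin 2) F)
    (hg : g ∈ Subgroup.center (Matrix.SpecialLinearGroup (Fin 2) F)) : twHom g = 1 := by
  rw [Matrix.SpecialLinearGroup.mem_center_iff] at hg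
  obtain ⟨r, hr1, hr⟩ := hg
  simp only [Fintype.card_fin] at hr1
  apply MulEquiv.ext
  intro v
  rw [twHom_apply, ← hr]
  show Multiplicative.ofAdd _ = v
  have e : (Matrix.scalar (Fin 2) r) * Multiplicative.toAdd v * frobT (Matrix.scalar (Fin 2) r)
      = Multiplicative.toAdd v := by
    ext i j
    fin_cases i <;> fin_cases j <;>
      simp [frobT_apply, Matrix.mul_apply, Fin.sum_univ_two, Matrix.scalar_apply] <;>
      linear_combination (Multiplicative.toAdd v _ _) * (r ^ 2 + 1) * hr1
  rw [e]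
  rfl

/-- the twisted action of `PSL(2, F)` on the `2 × 2` matrices. -/
def twPhi : Matrix.ProjectiveSpecialLinearGroup (Fin 2) F →*
    MulAut (Multiplicative (Matrix (Fin 2) (Fin 2) F)) :=
  QuotientGroup.lift _ twHom (fun g hg => by
    rw [MonoidHom.mem_ker]
    exact twHom_center g hg)

theorem twPhi_mk (g : Matrix.SpecialLinearGroup (Fin 2) F) :
    twPhi (QuotientGroup.mk g) = twHom g := rfl

end TwDef

section SignAut

/-- the action of the units of `ℤ` on a commutative group by powers. -/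
def signAut (N : Type*) [CommGroup N] : ℤˣ →* MulAut N where
  toFun ε :=
    { toFun := fun v => v ^ (ε : ℤ)
      invFun := fun v => v ^ ((ε⁻¹ : ℤˣ) : ℤ)
      left_inv := by
        intro v
        show (v ^ (ε : ℤ)) ^ ((ε⁻¹ : ℤˣ) : ℤ) = v
        rw [← _root_.zpow_mul, ← Units.val_mul, mul_inv_cancel, Units.val_one, zpow_one]
      right_inv := by
        intro v
        show (v ^ ((ε⁻¹ : ℤˣ) : ℤ)) ^ (ε : ℤ) = v
        rw [← _root_.zpow_mul, ← Units.val_mul, inv_mul_cancel, Units.val_one, zpow_one]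
      map_mul' := fun a b => mul_zpow a b _ }
  map_one' := by
    apply MulEquiv.ext
    intro v
    show v ^ ((1 : ℤˣ) : ℤ) = v
    rw [Units.val_one, zpow_one]
  map_mul' := by
    intro a b
    apply MulEquiv.ext
    intro v
    show v ^ ((a * b : ℤˣ) : ℤ) = (v ^ (b : ℤ)) ^ (a : ℤ)
    rw [Units.val_mul, mul_comm, _root_.zpow_mul]

theorem signAut_apply (N : Type*) [CommGroup N] (ε : ℤˣ) (v : N) :
    signAut N ε v = v ^ (ε : ℤ) := rfl

end SignAut

section TwAct

variable {F : Type*} [Field F] [CharP F 3]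

/-- the action of `2 × PSL(2, F)` on the `2 × 2` matrices. -/
def twAct : ℤˣ × Matrix.ProjectiveSpecialLinearGroup (Fin 2) F →*
    MulAut (Multiplicative (Matrix (Fin 2) (Fin 2) F)) :=
  MonoidHom.noncommCoprod (signAut _) twPhi (by
    intro ε x
    obtain ⟨g, rfl⟩ := QuotientGroup.mk_surjective x
    apply MulEquiv.ext
    intro v
    show signAut _ ε (twPhi (QuotientGroup.mk g) v) = twPhi (QuotientGroup.mk g) (signAut _ ε v)
    rw [signAut_apply, signAut_apply, map_zpow])

theorem twAct_apply (ε : ℤˣ) (g : Matrix.SpecialLinearGroup (Fin 2) F)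
    (v : Multiplicative (Matrix (Fin 2) (Fin 2) F)) :
    twAct (ε, (QuotientGroup.mk g : Matrix.ProjectiveSpecialLinearGroup (Fin 2) F)) v
      = (Multiplicative.ofAdd ((g : Matrix (Fin 2) (Fin 2) F)
        * Multiplicative.toAdd v * frobT (g : Matrix (Fin 2) (Fin 2) F))) ^ (ε : ℤ) := rfl

theorem twAct_neg_one (v : Multiplicative (Matrix (Fin 2) (Fin 2) F)) :
    twAct ((-1 : ℤˣ), (1 : Matrix.ProjectiveSpecialLinearGroup (Fin 2) F)) v = v⁻¹ := by
  show signAut _ (-1) (twPhi 1 v) = v⁻¹
  rw [map_one, signAut_apply]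
  show v ^ (-1 : ℤ) = v⁻¹
  rw [_root_.zpow_neg_one]

theorem twV_exp (v : Multiplicative (Matrix (Fin 2) (Fin 2) F)) : v ^ 3 = 1 := by
  rw [← ofAdd_toAdd v, ← ofAdd_nsmul]
  have h : (3 : ℕ) • Multiplicative.toAdd v = 0 := by
    ext i j
    simp only [Matrix.smul_apply, Matrix.zero_apply, nsmul_eq_mul]
    have h3 : ((3 : ℕ) : F) = 0 := CharP.cast_eq_zero F 3
    rw [h3, zero_mul]
  rw [h]
  rfl

end TwAct

section TwFpf

variable {F : Type*} [Field F] [Fintype F] [CharP F 3]

/-- elements of `2 × PSL(2, F)` whose second component has order not dividing `2` or `3` act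
fixed-point-freely, when `|F| ≡ 3 mod 4`. -/
theorem twAct_fpf (hcard : Fintype.card F % 4 = 3) (ε : ℤˣ)
    (x : Matrix.ProjectiveSpecialLinearGroup (Fin 2) F) (h2 : x ^ 2 ≠ 1) (h3 : x ^ 3 ≠ 1)
    (v : Multiplicative (Matrix (Fin 2) (Fin 2) F)) (hv : twAct (ε, x) v = v) : v = 1 := by
  obtain ⟨g, rfl⟩ := QuotientGroup.mk_surjective x
  by_contra hv1
  have hX : Multiplicative.toAdd v ≠ 0 := by
    intro h
    apply hv1
    rw [← ofAdd_toAdd v, h]
    rfl
  rw [twAct_apply] at hv
  obtain ⟨e, he, hrel⟩ : ∃ e : F, (e = 1 ∨ e = -1) ∧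
      (g : Matrix (Fin 2) (Fin 2) F) * Multiplicative.toAdd v
        * frobT (g : Matrix (Fin 2) (Fin 2) F) = e • Multiplicative.toAdd v := by
    rcases Int.units_eq_one_or ε with rfl | rfl
    · refine ⟨1, Or.inl rfl, ?_⟩
      rw [Units.val_one, zpow_one] at hv
      have := congrArg Multiplicative.toAdd hv
      rw [one_smul]
      exact this
    · refine ⟨-1, Or.inr rfl, ?_⟩
      have h0 : ((-1 : ℤˣ) : ℤ) = -1 := rfl
      rw [h0, _root_.zpow_neg_one] at hv
      have := congrArg Multiplicative.toAdd hv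
      rw [toAdd_inv, toAdd_ofAdd] at this
      rw [neg_smul, one_smul]
      exact neg_eq_iff_eq_neg.1 this
  have hee : e * e = 1 := by rcases he with rfl | rfl <;> ring
  have hdet : (frobT (g : Matrix (Fin 2) (Fin 2) F)).det = 1 := by
    rw [frobT_det, Matrix.SpecialLinearGroup.det_coe, one_pow]
  have htr := twist_tr (g : Matrix (Fin 2) (Fin 2) F) (frobT (g : Matrix (Fin 2) (Fin 2) F))
    (Multiplicative.toAdd v) (Matrix.SpecialLinearGroup.det_coe g) hdet e hee hrel hX
  rw [frobT_trace] at htr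
  obtain ⟨t, ht⟩ : ∃ t : F, t = sl2tr g := ⟨_, rfl⟩
  have htr' : t = e * t ^ 3 := by rw [ht]; exact htr
  by_cases ht0 : t = 0
  · apply h2
    apply psl2_pow_eq_one_of_cheb g 1
    rw [← ht, ht0]
    show chebU (0 : F) (0 + 2) = 0
    rw [chebU_succ_succ, chebU_one, chebU_zero]
    ring
  · have h0 : t * (1 - e * t ^ 2) = 0 := by linear_combination htr'
    have h5 : e * t ^ 2 = 1 := by
      rcases mul_eq_zero.1 h0 with h | h
      · exact absurd h ht0
      · linear_combination -h
    rcases he with rfl | rfl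
    · apply h3
      apply psl2_pow_eq_one_of_cheb g 2
      rw [← ht]
      show chebU t (1 + 2) = 0
      rw [chebU_succ_succ]
      show t * chebU t (0 + 2) - chebU t 1 = 0
      rw [chebU_succ_succ, chebU_one, chebU_zero]
      linear_combination h5
    · have h6 : IsSquare (-1 : F) := ⟨t, by linear_combination h5⟩
      rw [FiniteField.isSquare_neg_one_iff] at h6
      exact h6 hcard

end TwFpf

end Cfsg.Agent.H62
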