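import Mathlib
import Cfsg.Agent.H62.Tw3a
import Cfsg.Agent.H62.Z24c

set_option autoImplicit false
set_option linter.unusedSectionVars false
set_option linter.style.haveILetI false
set_option linter.unusedSimpArgs false
set_option linter.unusedVariables false

namespace Cfsg.Agent.H62

open SemidirectProduct Matrix

theorem orderOf_neg_one_units : orderOf (-1 : ℤˣ) = 2 :=
  orderOf_eq_prime (by decide) (by decide)

/-- the arithmetic behind the maximal element orders `6, 9, q - 1, (q + 1) / 2`. -/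
theorem tw_arith (q : ℕ) (hq4 : q % 4 = 3) (hq3 : q % 3 = 0) (hq27 : 27 ≤ q) (n m : ℕ)
    (hn : n = 6 ∨ n = 9 ∨ n = q - 1 ∨ n = (q + 1) / 2)
    (hm : m = 6 ∨ m = 9 ∨ m = q - 1 ∨ m = (q + 1) / 2) (h : n ∣ m) : m = n := by
  rcases hn with rfl | rfl | rfl | rfl
  · rcases hm with rfl | rfl | rfl | rfl
    · rfl
    · omega
    · omega
    · omega
  · rcases hm with rfl | rfl | rfl | rfl
    · omega
    · rfl
    · omega
    · omega
  · rcases hm with rfl | rfl | rfl | rfl
    · have := Nat.le_of_dvd (by norm_num) h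
      omega
    · have := Nat.le_of_dvd (by norm_num) h
      omega
    · rfl
    · have := Nat.le_of_dvd (by omega) h
      omega
  · rcases hm with rfl | rfl | rfl | rfl
    · have := Nat.le_of_dvd (by norm_num) h
      omega
    · have := Nat.le_of_dvd (by norm_num) h
      omega
    · obtain ⟨c, hc⟩ := h
      rcases Nat.lt_or_ge c 2 with hc2 | hc2
      · interval_cases c
        · omega
        · omega
      · have h1 := Nat.mul_le_mul_left ((q + 1) / 2) hc2
        omega
    · rfl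

section Tw3

variable {F : Type*} [Field F] [Fintype F] [CharP F 3]

/-- the group `M₂(F) : (2 × PSL(2, F))`. -/
abbrev TwG (F : Type*) [Field F] [CharP F 3] : Type _ :=
  Multiplicative (Matrix (Fin 2) (Fin 2) F) ⋊[twAct (F := F)]
    (ℤˣ × Matrix.ProjectiveSpecialLinearGroup (Fin 2) F)

theorem tw_order_dvd (q : ℕ) (hq : Fintype.card F = q) (hq4 : q % 4 = 3) (h : TwG F) :
    orderOf h ∣ 6 ∨ orderOf h ∣ 9 ∨ orderOf h ∣ q - 1 ∨ orderOf h ∣ (q + 1) / 2 := by
  obtain ⟨k, hk⟩ : ∃ k, k = orderOf h.right.2 := ⟨_, rfl⟩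
  have hγ : orderOf h.right = Nat.lcm (orderOf h.right.1) k := by
    rw [hk]
    exact Prod.orderOf _
  have hε : orderOf h.right.1 ∣ 2 := orderOf_dvd_of_pow_eq_one (Int.units_sq _)
  have hcases := sd_orderOf_cases (twAct (F := F)) 3 Nat.prime_three twV_exp h (orderOf_pos _)
  by_cases hx2 : h.right.2 ^ 2 = 1
  · left
    have hk2 : k ∣ 2 := hk ▸ orderOf_dvd_of_pow_eq_one hx2
    have hγ2 : orderOf h.right ∣ 2 := hγ ▸ Nat.lcm_dvd hε hk2
    rcases hcases with e | e
    · rw [e]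
      exact hγ2.trans (by norm_num)
    · rw [e]
      exact Nat.mul_dvd_mul_left 3 hγ2
  by_cases hx3 : h.right.2 ^ 3 = 1
  · have hk3 : k ∣ 3 := hk ▸ orderOf_dvd_of_pow_eq_one hx3
    rcases Int.units_eq_one_or h.right.1 with he | he
    · right; left
      have h3 : orderOf h.right ∣ 3 := by
        rw [hγ, he, orderOf_one, Nat.lcm_one_left]
        exact hk3
      rcases hcases with e | e
      · rw [e]
        exact h3.trans (by norm_num)
      · rw [e]
        exact Nat.mul_dvd_mul_left 3 h3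
    · left
      have hk13 : k = 1 ∨ k = 3 := (Nat.dvd_prime Nat.prime_three).1 hk3
      have ho : orderOf h.right = 2 * k := by
        rw [hγ, he, orderOf_neg_one_units]
        rcases hk13 with h1 | h1 <;> rw [h1] <;> rfl
      have hpow : h.right ^ k = ((-1 : ℤˣ), 1) := by
        apply Prod.ext
        · show h.right.1 ^ k = -1
          rw [he]
          rcases hk13 with h1 | h1 <;> rw [h1] <;> rfl
        · show h.right.2 ^ k = 1
          rw [hk]
          exact pow_orderOf_eq_one _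
      have h6 := sd_orderOf_even (twAct (F := F)) h k ho (by
        intro n
        rw [hpow]
        exact twAct_neg_one n)
      rw [h6, ho]
      rcases hk13 with h1 | h1 <;> rw [h1] <;> norm_num
  · have hfpf := twAct_fpf (F := F) (by rw [hq]; exact hq4) h.right.1 h.right.2 hx2 hx3
    have e : orderOf h = orderOf h.right :=
      sd_orderOf_of_fpf (twAct (F := F)) h.right hfpf h.left
    have hd := psl2_order_dvd (F := F) 3 h.right.2
    rw [Nat.card_eq_fintype_card, hq] at hd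
    have g1 : Nat.gcd (q - 1) 2 = 2 := Nat.gcd_eq_right ⟨(q - 1) / 2, by omega⟩
    have g2 : Nat.gcd (q + 1) 2 = 2 := Nat.gcd_eq_right ⟨(q + 1) / 2, by omega⟩
    rw [g1, g2, ← hk] at hd
    rcases hd with h' | h' | h'
    · exfalso
      apply hx3
      rw [hk] at h'
      exact orderOf_dvd_iff_pow_eq_one.1 h'
    · right; right; left
      rw [e, hγ]
      exact Nat.lcm_dvd (hε.trans ⟨(q - 1) / 2, by omega⟩) (h'.trans ⟨2, by omega⟩)
    · right; right; right
      rw [e, hγ]
      exact Nat.lcm_dvd (hε.trans ⟨(q + 1) / 4, by omega⟩) h'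

theorem tw_exists_six : ∃ h : TwG F, orderOf h = 6 := by
  obtain ⟨x, hx⟩ := psl2_exists_orderOf_p (F := F) 3
  refine ⟨inr ((-1 : ℤˣ), x), ?_⟩
  rw [orderOf_injective (inr : _ →* TwG F) inr_injective, Prod.orderOf, hx]
  show Nat.lcm (orderOf (-1 : ℤˣ)) 3 = 6
  rw [orderOf_neg_one_units]
  rfl

theorem tw_exists_qm1 (q : ℕ) (hq : Fintype.card F = q) (hq4 : q % 4 = 3) (hq7 : 7 ≤ q) :
    ∃ h : TwG F, orderOf h = q - 1 := by
  obtain ⟨x, hx⟩ := psl2_exists_orderOf (F := F) 3 (Nat.card F - 1)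
    (by rw [Nat.card_eq_fintype_card, hq]; omega) (Or.inl rfl) Nat.prime_three
  have g1 : Nat.gcd (q - 1) 2 = 2 := Nat.gcd_eq_right ⟨(q - 1) / 2, by omega⟩
  rw [Nat.card_eq_fintype_card, hq, g1] at hx
  refine ⟨inr ((-1 : ℤˣ), x), ?_⟩
  rw [orderOf_injective (inr : _ →* TwG F) inr_injective, Prod.orderOf, hx]
  show Nat.lcm (orderOf (-1 : ℤˣ)) ((q - 1) / 2) = q - 1
  rw [orderOf_neg_one_units]
  have hc : Nat.Coprime 2 ((q - 1) / 2) := by
    rw [Nat.coprime_two_left]
    exact Nat.odd_iff.2 (by omega)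
  rw [Nat.Coprime.lcm_eq_mul hc]
  omega

theorem tw_exists_qp1 (q : ℕ) (hq : Fintype.card F = q) (hq4 : q % 4 = 3) :
    ∃ h : TwG F, orderOf h = (q + 1) / 2 := by
  obtain ⟨x, hx⟩ := psl2_exists_orderOf (F := F) 3 (Nat.card F + 1)
    (by rw [Nat.card_eq_fintype_card, hq]; omega) (Or.inr rfl) Nat.prime_three
  have g2 : Nat.gcd (q + 1) 2 = 2 := Nat.gcd_eq_right ⟨(q + 1) / 2, by omega⟩
  rw [Nat.card_eq_fintype_card, hq, g2] at hx
  refine ⟨inr ((1 : ℤˣ), x), ?_⟩
  rw [orderOf_injective (inr : _ →* TwG F) inr_injective, Prod.orderOf, hx]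
  show Nat.lcm (orderOf (1 : ℤˣ)) ((q + 1) / 2) = (q + 1) / 2
  rw [orderOf_one, Nat.lcm_one_left]

theorem sl2unip_cube : (sl2unip F) ^ 3 = 1 := by
  have h30 : (3 : F) = 0 := by exact_mod_cast CharP.cast_eq_zero F 3
  apply Subtype.ext
  rw [Matrix.SpecialLinearGroup.coe_pow, Matrix.SpecialLinearGroup.coe_one]
  ext i j
  fin_cases i <;> fin_cases j <;>
    simp [sl2unip, pow_succ, Matrix.mul_apply, Fin.sum_univ_two] <;>
    linear_combination h30

theorem tw_exists_nine : ∃ h : TwG F, orderOf h = 9 := by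
  have h30 : (3 : F) = 0 := by exact_mod_cast CharP.cast_eq_zero F 3
  obtain ⟨h, hh⟩ : ∃ h : TwG F, h = ⟨Multiplicative.ofAdd !![0, 0; 0, 1],
      ((1 : ℤˣ), (QuotientGroup.mk (sl2unip F) :
        Matrix.ProjectiveSpecialLinearGroup (Fin 2) F))⟩ := ⟨_, rfl⟩
  refine ⟨h, ?_⟩
  have h9 : h ^ 3 ^ (1 + 1) = 1 := by
    have hr : (h ^ 3).right = 1 := by
      rw [sd_pow_right, hh]
      show ((1 : ℤˣ), (QuotientGroup.mk (sl2unip F) :
        Matrix.ProjectiveSpecialLinearGroup (Fin 2) F)) ^ 3 = 1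
      apply Prod.ext
      · show (1 : ℤˣ) ^ 3 = 1
        rw [one_pow]
      · show (QuotientGroup.mk (sl2unip F) :
          Matrix.ProjectiveSpecialLinearGroup (Fin 2) F) ^ 3 = 1
        rw [← QuotientGroup.mk_pow, sl2unip_cube]
        rfl
    rw [pow_succ, pow_one, pow_mul, sd_eq_inl _ _ hr, ← map_pow, twV_exp, map_one]
  have h3 : ¬ h ^ 3 ^ 1 = 1 := by
    rw [pow_one]
    intro h1
    have hl : (h ^ 3).left = 1 := by rw [h1]; rfl
    have e3 : h ^ 3 = h * h * h := by rw [pow_succ, pow_two]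
    rw [e3, mul_left, mul_left, mul_right, hh] at hl
    have hl2 : Multiplicative.ofAdd (!![0, 0; 0, 1] : Matrix (Fin 2) (Fin 2) F)
        * twAct ((1 : ℤˣ), (QuotientGroup.mk (sl2unip F) :
            Matrix.ProjectiveSpecialLinearGroup (Fin 2) F))
          (Multiplicative.ofAdd (!![0, 0; 0, 1] : Matrix (Fin 2) (Fin 2) F))
        * twAct ((1 : ℤˣ), (QuotientGroup.mk (sl2unip F * sl2unip F) :
            Matrix.ProjectiveSpecialLinearGroup (Fin 2) F))
          (Multiplicative.ofAdd (!![0, 0; 0, 1] : Matrix (Fin 2) (Fin 2) F)) = 1 := hl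
    rw [twAct_apply, twAct_apply, Units.val_one, zpow_one, zpow_one] at hl2
    have hl3 := congrArg Multiplicative.toAdd hl2
    have hu : (sl2unip F : Matrix (Fin 2) (Fin 2) F) = !![1, 1; 0, 1] := rfl
    have hf : frobT (!![1, 1; 0, 1] : Matrix (Fin 2) (Fin 2) F) = !![1, 0; 1, 1] := by
      ext i j
      fin_cases i <;> fin_cases j <;> simp [frobT_apply]
    have huu : (!![1, 1; 0, 1] : Matrix (Fin 2) (Fin 2) F) * !![1, 1; 0, 1]
        = !![1, 2; 0, 1] := by
      ext i j
      fin_cases i <;> fin_cases j <;> simp [Matrix.mul_apply, Fin.sum_univ_two] <;> norm_num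
    have hf2 : frobT (!![1, 2; 0, 1] : Matrix (Fin 2) (Fin 2) F) = !![1, 0; 8, 1] := by
      ext i j
      fin_cases i <;> fin_cases j <;> simp [frobT_apply] <;> norm_num
    rw [toAdd_mul, toAdd_mul, toAdd_ofAdd, toAdd_ofAdd, toAdd_ofAdd, toAdd_one,
      Matrix.SpecialLinearGroup.coe_mul, hu, hf, huu, hf2] at hl3
    have hl4 := congrFun (congrFun hl3 0) 0
    simp [Matrix.mul_apply, Fin.sum_univ_two] at hl4
    have h10 : (1 : F) = 0 := by linear_combination 6 * h30 - hl4
    exact one_ne_zero h10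
  exact orderOf_eq_prime_pow h3 h9

end Tw3

/-- a finite group with a nontrivial normal `3`-subgroup whose maximal element orders are
`6, 9, q - 1, (q + 1) / 2`. -/
theorem tw3_main (F : Type) [Field F] [Fintype F] [CharP F 3] (q : ℕ)
    (hq : Fintype.card F = q) (hq4 : q % 4 = 3) (hq3 : q % 3 = 0) (hq27 : 27 ≤ q) :
    ∃ (H : Type) (_ : Group H) (_ : Fintype H),
      (∃ P : Subgroup H, P.Normal ∧ P ≠ ⊥ ∧ IsPGroup 3 ↥P) ∧
      {n : ℕ | n ∈ Set.range (orderOf : H → ℕ) ∧
        ∀ m ∈ Set.range (orderOf : H → ℕ), n ∣ m → m = n}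
        = ({6, 9, q - 1, (q + 1) / 2} : Set ℕ) := by
  have hfin : Finite (TwG F) := sd_finite _
  refine ⟨TwG F, inferInstance, Fintype.ofFinite _,
    ⟨(rightHom : TwG F →* _).ker, inferInstance, ?_, ?_⟩, ?_⟩
  · intro hbot
    have h1 : (inl (Multiplicative.ofAdd (1 : Matrix (Fin 2) (Fin 2) F)) : TwG F)
        ∈ (rightHom : TwG F →* _).ker := by
      rw [MonoidHom.mem_ker]
      simp
    rw [hbot, Subgroup.mem_bot] at h1
    have h2 := congrArg SemidirectProduct.left h1
    have h3 : (1 : Matrix (Fin 2) (Fin 2) F) = 0 := by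
      have h4 := congrArg Multiplicative.toAdd h2
      simp at h4
    have h5 := congrFun (congrFun h3 0) 0
    simp at h5
  · intro g
    refine ⟨1, ?_⟩
    apply Subtype.ext
    have hg : (g : TwG F).right = 1 := g.2
    rw [pow_one, Subgroup.coe_pow, sd_eq_inl _ _ hg, ← map_pow, twV_exp, map_one]
    rfl
  · have hup := tw_order_dvd (F := F) q hq hq4
    obtain ⟨a6, ha6⟩ := tw_exists_six (F := F)
    obtain ⟨a9, ha9⟩ := tw_exists_nine (F := F)
    obtain ⟨am, ham⟩ := tw_exists_qm1 (F := F) q hq hq4 (by omega)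
    obtain ⟨ap, hap⟩ := tw_exists_qp1 (F := F) q hq hq4
    ext n
    constructor
    · rintro ⟨⟨h, rfl⟩, hmax⟩
      rcases hup h with h' | h' | h' | h'
      · left
        exact (hmax 6 ⟨a6, ha6⟩ h').symm
      · right; left
        exact (hmax 9 ⟨a9, ha9⟩ h').symm
      · right; right; left
        exact (hmax (q - 1) ⟨am, ham⟩ h').symm
      · right; right; right
        exact (hmax ((q + 1) / 2) ⟨ap, hap⟩ h').symm
    · intro hn
      have hn' : n = 6 ∨ n = 9 ∨ n = q - 1 ∨ n = (q + 1) / 2 := hn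
      refine ⟨?_, ?_⟩
      · rcases hn' with rfl | rfl | rfl | rfl
        · exact ⟨a6, ha6⟩
        · exact ⟨a9, ha9⟩
        · exact ⟨am, ham⟩
        · exact ⟨ap, hap⟩
      · rintro m ⟨h, rfl⟩ hdiv
        obtain ⟨M', hM', hd⟩ : ∃ M', (M' = 6 ∨ M' = 9 ∨ M' = q - 1 ∨ M' = (q + 1) / 2) ∧
            orderOf h ∣ M' := by
          rcases hup h with h' | h' | h' | h'
          · exact ⟨6, Or.inl rfl, h'⟩
          · exact ⟨9, Or.inr (Or.inl rfl), h'⟩
          · exact ⟨q - 1, Or.inr (Or.inr (Or.inl rfl)), h'⟩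
          · exact ⟨(q + 1) / 2, Or.inr (Or.inr (Or.inr rfl)), h'⟩
        have hMn := tw_arith q hq4 hq3 hq27 n M' hn' hM' (hdiv.trans hd)
        rw [hMn] at hd
        exact Nat.dvd_antisymm hd hdiv

end Cfsg.Agent.H62
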