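import Cfsg.Agent.H67.UmDefs
import Cfsg.Agent.H45.SingerU
import Cfsg.Agent.H62.RoB

/-!
# UM-PEEL (helper62, for helper67's S2263): a self-dual polynomial `P ≠ 1` over the field with `q²`
elements splits off a primary part of type `(a, k)`
-/

set_option autoImplicit false
set_option linter.unusedVariables false
set_option linter.unusedSimpArgs false
set_option linter.style.haveILetI false

open Polynomial

namespace Cfsg.Agent.H62.Um

open Cfsg.Agent.H45 (dualPoly dualPoly_mul dualPoly_C dualPoly_natDegree dualPoly_leadingCoeff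
  dualPoly_coeff_zero dualPoly_ne_zero dualPoly_dualPoly dualPoly_X_pow_sub_C)

universe u

section

variable {F : Type u} [Field F]

theorem dualPoly_one' (σ : F →+* F) : dualPoly σ (1 : F[X]) = 1 := by
  have h := dualPoly_C σ (1 : F)
  rw [map_one, map_one] at h
  exact h

theorem dualPoly_pow' (σ : F →+* F) (f : F[X]) (k : ℕ) : dualPoly σ (f ^ k) = dualPoly σ f ^ k := by
  induction k with
  | zero => rw [pow_zero, pow_zero, dualPoly_one']
  | succ k ih => rw [pow_succ, pow_succ, dualPoly_mul, ih]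

theorem dualPoly_dvd' (σ : F →+* F) {f g : F[X]} (h : f ∣ g) : dualPoly σ f ∣ dualPoly σ g := by
  obtain ⟨c, rfl⟩ := h
  rw [dualPoly_mul]
  exact dvd_mul_right _ _

theorem coeff_zero_ne_of_dvd {f g : F[X]} (h : f ∣ g) (hg : g.coeff 0 ≠ 0) : f.coeff 0 ≠ 0 := by
  obtain ⟨c, rfl⟩ := h
  rw [mul_coeff_zero] at hg
  exact left_ne_zero_of_mul hg

theorem coeff_zero_ne_of_dvd_right {f c : F[X]} (hg : (f * c).coeff 0 ≠ 0) : c.coeff 0 ≠ 0 := by
  rw [mul_coeff_zero] at hg
  exact right_ne_zero_of_mul hg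

theorem assoc_C_mul (c : F) (hc : c ≠ 0) (f : F[X]) : Associated f (C c * f) := by
  refine ⟨(Polynomial.isUnit_C.mpr (IsUnit.mk0 c hc)).unit, ?_⟩
  rw [IsUnit.unit_spec, mul_comm]

theorem irreducible_dualPoly {σ : F →+* F} (hσσ : ∀ a, σ (σ a) = a) (h : F[X]) (hh : Irreducible h)
    (hh0 : h.coeff 0 ≠ 0) : Irreducible (dualPoly σ h) := by
  have hdeg : (dualPoly σ h).natDegree = h.natDegree := dualPoly_natDegree σ h hh0
  have hd0 : (dualPoly σ h).coeff 0 ≠ 0 := by
    rw [dualPoly_coeff_zero]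
    exact (map_ne_zero σ).mpr (leadingCoeff_ne_zero.mpr hh.ne_zero)
  have key : ∀ a b : F[X], dualPoly σ h = a * b → IsUnit (dualPoly σ a) → IsUnit a := by
    intro a b hab hu
    have ha0 : a.coeff 0 ≠ 0 := coeff_zero_ne_of_dvd ⟨b, hab⟩ hd0
    have h1 : a.natDegree = 0 := by
      rw [← dualPoly_natDegree σ a ha0]
      exact natDegree_eq_zero_of_isUnit hu
    rw [eq_C_of_natDegree_eq_zero h1]
    exact Polynomial.isUnit_C.mpr (IsUnit.mk0 _ ha0)
  rw [irreducible_iff]
  refine ⟨?_, ?_⟩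
  · intro hu
    have h1 := natDegree_eq_zero_of_isUnit hu
    rw [hdeg] at h1
    exact (hh.natDegree_pos).ne' h1
  · intro a b hab
    have h2 : h = dualPoly σ a * dualPoly σ b := by
      rw [← dualPoly_mul, ← hab, dualPoly_dualPoly hσσ h hh0]
    rcases hh.isUnit_or_isUnit h2 with hu | hu
    · exact Or.inl (key a b hab hu)
    · exact Or.inr (key b a (by rw [hab, mul_comm]) hu)

end

/-- **UM-PEEL**. -/
theorem peel : Cfsg.Agent.H67.Um.StPeel.{u} := by
  intro hSD hSC F _ _ q σ hF hσq P hPm hP0 hPsd hP1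
  classical
  have hσσ : ∀ a, σ (σ a) = a := by
    intro a
    rw [hσq, hσq, ← pow_mul, ← sq, ← hF]
    exact FiniteField.pow_card a
  have hPne : P ≠ 0 := hPm.ne_zero
  have hPnu : ¬ IsUnit P := fun hu => hP1 (hPm.eq_one_of_isUnit hu)
  have hdualP : ∀ f : F[X], f ∣ P → dualPoly σ f ∣ P := fun f hf =>
    (dualPoly_dvd' σ hf).trans hPsd.symm.dvd
  obtain ⟨h, hhm, hh, hhP⟩ := exists_monic_irreducible_factor P hPnu
  have hh0 : h.coeff 0 ≠ 0 := coeff_zero_ne_of_dvd hhP hP0
  have hhdeg : 0 < h.natDegree := hh.natDegree_pos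
  have hfin : FiniteMultiplicity h P :=
    finiteMultiplicity_of_degree_pos_of_monic (natDegree_pos_iff_degree_pos.1 hhdeg) hhm hPne
  obtain ⟨R0, hPR0, hR0⟩ := hfin.exists_eq_pow_mul_and_not_dvd
  obtain ⟨k, hk⟩ : ∃ k, k = multiplicity h P := ⟨_, rfl⟩
  rw [← hk] at hPR0
  have hk1 : 1 ≤ k := by
    by_contra hk0
    have hk0' : k = 0 := by omega
    rw [hk0', pow_zero, one_mul] at hPR0
    rw [hPR0] at hhP
    exact hR0 hhP
  have hhk0 : h ^ k ≠ 0 := pow_ne_zero k hh.ne_zero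
  by_cases hsd : h ∣ dualPoly σ h
  · -- the self-dual case
    obtain ⟨hodd, hdv⟩ := hSD F q σ hF hσq h hh hhm hh0 hsd
    have hQn : Cfsg.Agent.H67.Um.Qn q h.natDegree = q ^ h.natDegree + 1 := by
      unfold Cfsg.Agent.H67.Um.Qn
      rw [if_neg (Nat.not_even_iff_odd.2 hodd)]
    have hq1 : q + 1 ∣ q ^ h.natDegree + 1 := by
      have h1 := Odd.nat_add_dvd_pow_add_pow q 1 hodd
      rwa [one_pow] at h1
    obtain ⟨M, hM⟩ := hq1
    obtain ⟨c, hc1, hc⟩ := hSC F q hF h M hh (by rw [← hM]; exact hdv)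
    have hMdiv : (q ^ h.natDegree + 1) / (q + 1) = M := by
      rw [hM]
      exact Nat.mul_div_cancel_left M (Nat.succ_pos q)
    have hdual_h : Associated h (dualPoly σ h) :=
      associated_of_dvd_of_natDegree_le hsd (dualPoly_ne_zero σ h hh0)
        (le_of_eq (dualPoly_natDegree σ h hh0))
    refine ⟨h ^ k, R0, h.natDegree, k, hhdeg, hk1, hPR0, ?_, ?_, ?_, ?_, ?_, ?_, ?_⟩
    · exact ((hh.coprime_iff_not_dvd).2 hR0).pow_left
    · rw [hhm.natDegree_pow, mul_comm]
    · exact (hhm.pow k).of_mul_monic_left (hPR0 ▸ hPm)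
    · exact coeff_zero_ne_of_dvd_right (hPR0 ▸ hP0)
    · have e1 : Associated (h ^ k * R0) (dualPoly σ h ^ k * dualPoly σ R0) := by
        rw [← dualPoly_pow', ← dualPoly_mul, ← hPR0]
        exact hPsd
      exact Associated.of_mul_left e1 (hdual_h.pow_pow) hhk0
    · rw [hQn]
      exact pow_dvd_pow_of_dvd hdv k
    · refine ⟨c, ?_⟩
      rw [hQn, hMdiv]
      exact pow_dvd_pow_of_dvd hc k
  · -- the case of a dual pair
    have hσh0 : σ (h.coeff 0) ≠ 0 := (map_ne_zero σ).mpr hh0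
    obtain ⟨ht, hht⟩ : ∃ ht : F[X], ht = C (σ (h.coeff 0))⁻¹ * dualPoly σ h := ⟨_, rfl⟩
    have hassoc_t : Associated (dualPoly σ h) ht := by
      rw [hht]
      exact assoc_C_mul _ (inv_ne_zero hσh0) _
    have hdd : (dualPoly σ h).natDegree = h.natDegree := dualPoly_natDegree σ h hh0
    have htdeg : ht.natDegree = h.natDegree := by
      rw [hht, natDegree_C_mul (inv_ne_zero hσh0), hdd]
    have htm : ht.Monic := by
      rw [hht, Monic, leadingCoeff_mul, leadingCoeff_C, dualPoly_leadingCoeff σ h hh0,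
        inv_mul_cancel₀ hσh0]
    have hdirr : Irreducible (dualPoly σ h) := irreducible_dualPoly hσσ h hh hh0
    have htirr : Irreducible ht := hassoc_t.irreducible hdirr
    have htP : ht ∣ P := hassoc_t.symm.dvd.trans (hdualP h hhP)
    have ht0 : ht.coeff 0 ≠ 0 := coeff_zero_ne_of_dvd htP hP0
    have hcop : IsCoprime h ht := by
      rw [hh.coprime_iff_not_dvd]
      intro hd
      exact hsd (hd.trans hassoc_t.symm.dvd)
    have hdt : dualPoly σ ht = C (σ (σ (h.coeff 0))⁻¹) * h := by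
      rw [hht, dualPoly_mul, dualPoly_C, dualPoly_dualPoly hσσ h hh0]
    have hassoc_dt : Associated (dualPoly σ ht) h := by
      rw [hdt]
      exact (assoc_C_mul _ ((map_ne_zero σ).mpr (inv_ne_zero hσh0)) _).symm
    have htk : ht ^ k ∣ P := by
      have h1 : dualPoly σ h ^ k ∣ P := by
        rw [← dualPoly_pow']
        exact hdualP _ ⟨R0, hPR0⟩
      exact (pow_dvd_pow_of_dvd hassoc_t.symm.dvd k).trans h1
    have htkR0 : ht ^ k ∣ R0 := by
      have h1 : ht ^ k ∣ h ^ k * R0 := hPR0 ▸ htk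
      exact (hcop.symm.pow (m := k) (n := k)).dvd_of_dvd_mul_left h1
    obtain ⟨R1, hR1⟩ := htkR0
    have hR1t : ¬ ht ∣ R1 := by
      intro hd
      have h1 : ht ^ (k + 1) ∣ P := by
        rw [hPR0, hR1, pow_succ]
        exact dvd_mul_of_dvd_right (mul_dvd_mul_left _ hd) _
      have h2 : dualPoly σ ht ^ (k + 1) ∣ P := by
        rw [← dualPoly_pow']
        exact hdualP _ h1
      have h3 : h ^ (k + 1) ∣ h ^ k * R0 := by
        rw [← hPR0]
        exact (pow_dvd_pow_of_dvd hassoc_dt.symm.dvd (k + 1)).trans h2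
      rw [pow_succ] at h3
      exact hR0 ((mul_dvd_mul_iff_left hhk0).1 h3)
    have hR1h : ¬ h ∣ R1 := by
      intro hd
      apply hR0
      rw [hR1]
      exact dvd_mul_of_dvd_right hd _
    have hPG : P = (h * ht) ^ k * R1 := by
      rw [hPR0, hR1, mul_pow, mul_assoc]
    have hGm : ((h * ht) ^ k).Monic := (hhm.mul htm).pow k
    have hG0 : (h * ht) ^ k ≠ 0 := hGm.ne_zero
    have hq1 : q + 1 ∣ q ^ (2 * h.natDegree) - 1 := by
      have h1 : q ^ 2 - 1 ∣ (q ^ 2) ^ h.natDegree - 1 ^ h.natDegree :=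
        Nat.sub_dvd_pow_sub_pow (q ^ 2) 1 h.natDegree
      rw [one_pow, ← pow_mul] at h1
      have h2 : q + 1 ∣ q ^ 2 - 1 := by
        have h3 := Nat.sq_sub_sq q 1
        rw [one_pow] at h3
        rw [h3]
        exact dvd_mul_right _ _
      exact h2.trans h1
    obtain ⟨M, hM⟩ := hq1
    have hQn : Cfsg.Agent.H67.Um.Qn q (2 * h.natDegree) = q ^ (2 * h.natDegree) - 1 := by
      unfold Cfsg.Agent.H67.Um.Qn
      rw [if_pos (even_two_mul _)]
    have hN : q ^ (2 * h.natDegree) - 1 = Fintype.card F ^ h.natDegree - 1 := by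
      rw [hF, ← pow_mul]
    have hd1 : h ∣ X ^ (q ^ (2 * h.natDegree) - 1) - 1 := by
      rw [hN]
      exact Cfsg.Agent.H62.irr_dvd_X_pow_sub_one h hh hh0
    have hd2 : ht ∣ X ^ (q ^ (2 * h.natDegree) - 1) - 1 := by
      have h1 := Cfsg.Agent.H62.irr_dvd_X_pow_sub_one ht htirr ht0
      rw [htdeg] at h1
      rw [hN]
      exact h1
    obtain ⟨c, hc1, hc⟩ := hSC F q hF h M hh (by rw [← hM]; exact hd1)
    have hc0 : c ≠ 0 := by
      intro h0
      rw [h0, zero_pow (Nat.succ_ne_zero q)] at hc1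
      exact zero_ne_one hc1
    have hσc : σ c = c⁻¹ := by
      rw [hσq]
      rw [pow_succ] at hc1
      exact eq_inv_of_mul_eq_one_left hc1
    have hct : ht ∣ X ^ M - C c := by
      have h1 : dualPoly σ h ∣ dualPoly σ (X ^ M - C c) := dualPoly_dvd' σ hc
      rw [dualPoly_X_pow_sub_C, hσc] at h1
      have e : (1 : F[X]) - C c⁻¹ * X ^ M = C (-c⁻¹) * (X ^ M - C c) := by
        have h5 : C c⁻¹ * C c = (1 : F[X]) := by rw [← C_mul, inv_mul_cancel₀ hc0, map_one]
        rw [C_neg]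
        linear_combination (-1 : F[X]) * h5
      rw [e] at h1
      exact hassoc_t.symm.dvd.trans ((Polynomial.dvd_C_mul (neg_ne_zero.mpr (inv_ne_zero hc0))).mp h1)
    have hMdiv : (q ^ (2 * h.natDegree) - 1) / (q + 1) = M := by
      rw [hM]
      exact Nat.mul_div_cancel_left M (Nat.succ_pos q)
    refine ⟨(h * ht) ^ k, R1, 2 * h.natDegree, k, by omega, hk1, hPG, ?_, ?_, ?_, ?_, ?_, ?_, ?_⟩
    · exact (((hh.coprime_iff_not_dvd).2 hR1h).mul_left ((htirr.coprime_iff_not_dvd).2 hR1t)).pow_left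
    · rw [(hhm.mul htm).natDegree_pow, hhm.natDegree_mul htm, htdeg]
      ring
    · exact hGm.of_mul_monic_left (hPG ▸ hPm)
    · exact coeff_zero_ne_of_dvd_right (hPG ▸ hP0)
    · have e1 : Associated ((h * ht) ^ k * R1)
          (dualPoly σ ((h * ht) ^ k) * dualPoly σ R1) := by
        rw [← dualPoly_mul, ← hPG]
        exact hPsd
      have e2 : Associated ((h * ht) ^ k) (dualPoly σ ((h * ht) ^ k)) := by
        rw [dualPoly_pow', dualPoly_mul]
        apply Associated.pow_pow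
        rw [mul_comm h ht]
        exact (hassoc_t.mul_mul hassoc_dt).symm
      exact Associated.of_mul_left e1 e2 hG0
    · rw [hQn]
      exact pow_dvd_pow_of_dvd (hcop.mul_dvd hd1 hd2) k
    · refine ⟨c, ?_⟩
      rw [hQn, hMdiv]
      exact pow_dvd_pow_of_dvd (hcop.mul_dvd hc hct) k

example : Cfsg.Agent.H67.Um.StPeel.{u} := peel

end Cfsg.Agent.H62.Um

#print axioms Cfsg.Agent.H62.Um.peel
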