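import Mathlib
import Cfsg.Prelude.Def_Classical

set_option autoImplicit false
set_option linter.style.haveILetI false
set_option linter.unusedSimpArgs false
set_option linter.unusedSectionVars false
set_option linter.unusedVariables false

namespace Cfsg.Agent.H62

open Matrix

/-- the star structure `x ↦ x ^ q` on a field where this is an involutive ring map. -/
@[reducible] def frobStarRing (F : Type*) [Field F] (q : ℕ) (h1 : ∀ x y : F, (x + y) ^ q = x ^ q + y ^ q)
    (h2 : ∀ x : F, (x ^ q) ^ q = x) : StarRing F where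
  star := fun x => x ^ q
  star_involutive := h2
  star_mul := fun x y => by
    show (x * y) ^ q = y ^ q * x ^ q
    rw [mul_pow, mul_comm]
  star_add := h1

section UnA

variable {F : Type*} [Field F] [StarRing F]

/-- preservation of the Hermitian form in matrix terms. -/
theorem herm_preserve_iff (n q : ℕ) (hstar : ∀ x : F, star x = x ^ q)
    (M : Matrix (Fin n) (Fin n) F) :
    (∀ u v, Cfsg.hermForm n F q (M *ᵥ u) (M *ᵥ v) = Cfsg.hermForm n F q u v) ↔ Mᴴ * M = 1 := by
  have hform : ∀ u v : Fin n → F, Cfsg.hermForm n F q u v = star v ⬝ᵥ u := by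
    intro u v
    unfold Cfsg.hermForm dotProduct
    apply Finset.sum_congr rfl
    intro i _
    rw [Pi.star_apply, hstar, mul_comm]
  have hkey : ∀ u v : Fin n → F, Cfsg.hermForm n F q (M *ᵥ u) (M *ᵥ v) =
      star v ⬝ᵥ ((Mᴴ * M) *ᵥ u) := by
    intro u v
    rw [hform, Matrix.star_mulVec, ← Matrix.dotProduct_mulVec, Matrix.mulVec_mulVec]
  constructor
  · intro h
    ext j k
    have e := h (Pi.single k 1) (Pi.single j 1)
    rw [hkey, hform] at e
    have hs : star (Pi.single j (1 : F) : Fin n → F) = Pi.single j 1 := by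
      funext i
      rw [Pi.star_apply]
      by_cases hij : i = j
      · subst hij; simp
      · simp [Pi.single_apply, hij]
    rw [hs, single_one_dotProduct, single_one_dotProduct, Matrix.mulVec_single_one] at e
    rw [Matrix.one_apply]
    simp only [Matrix.col_apply] at e
    rw [e, Pi.single_apply]
  · intro h u v
    rw [hkey, h, Matrix.one_mulVec, hform]

/-- an element of `SU(n, q)` from a unitary matrix of determinant one. -/
def mkSU (n q : ℕ) (hstar : ∀ x : F, star x = x ^ q) (M : Matrix (Fin n) (Fin n) F)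
    (hdet : M.det = 1) (hM : Mᴴ * M = 1) : Cfsg.SU n F q :=
  ⟨⟨M, hdet⟩, fun u v => (herm_preserve_iff n q hstar M).mpr hM u v⟩

theorem mkSU_coe (n q : ℕ) (hstar : ∀ x : F, star x = x ^ q) (M : Matrix (Fin n) (Fin n) F)
    (hdet : M.det = 1) (hM : Mᴴ * M = 1) :
    ((mkSU n q hstar M hdet hM).1.1 : Matrix (Fin n) (Fin n) F) = M := rfl

theorem su_unitary (n q : ℕ) (hstar : ∀ x : F, star x = x ^ q) (g : Cfsg.SU n F q) :
    (g.1.1 : Matrix (Fin n) (Fin n) F)ᴴ * g.1.1 = 1 :=
  (herm_preserve_iff n q hstar _).mp (fun u v => g.2 u v)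

theorem su_coe_pow (n q : ℕ) (g : Cfsg.SU n F q) (N : ℕ) :
    ((g ^ N).1.1 : Matrix (Fin n) (Fin n) F) = (g.1.1 : Matrix (Fin n) (Fin n) F) ^ N := by
  rw [Subgroup.coe_pow, Matrix.SpecialLinearGroup.coe_pow]

theorem su_coe_mul (n q : ℕ) (g h : Cfsg.SU n F q) :
    ((g * h).1.1 : Matrix (Fin n) (Fin n) F) = g.1.1 * h.1.1 := by
  rw [Subgroup.coe_mul, Matrix.SpecialLinearGroup.coe_mul]

end UnA

end Cfsg.Agent.H62
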