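import Mathlib
import Cfsg.Agent.H62.UnA

set_option autoImplicit false
set_option linter.style.haveILetI false
set_option linter.unusedSimpArgs false
set_option linter.unusedSectionVars false
set_option linter.unusedVariables false

namespace Cfsg.Agent.H62

open Matrix

section UnB

variable {F : Type*} [Field F] [Fintype F] [StarRing F]

theorem star_q_ge_two (q : ℕ) (hcard : Fintype.card F = q ^ 2) : 2 ≤ q := by
  have h1 : 2 ≤ Fintype.card F := Fintype.one_lt_card
  rw [hcard] at h1
  by_contra h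
  have hq : q = 0 ∨ q = 1 := by omega
  rcases hq with rfl | rfl <;> simp at h1

/-- a generator of the multiplicative group, as an element of the field. -/
theorem star_exists_gen (q : ℕ) (hcard : Fintype.card F = q ^ 2) :
    ∃ g : F, g ≠ 0 ∧ orderOf g = q ^ 2 - 1 ∧ ∀ a : F, a ≠ 0 → ∃ k : ℕ, g ^ k = a := by
  classical
  obtain ⟨g, hg⟩ := IsCyclic.exists_generator (α := Fˣ)
  refine ⟨(g : F), Units.ne_zero g, ?_, ?_⟩
  · rw [orderOf_units, orderOf_eq_card_of_forall_mem_zpowers hg, Nat.card_units,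
      Nat.card_eq_fintype_card, hcard]
  · intro a ha
    have h1 : Units.mk0 a ha ∈ Subgroup.zpowers g := hg _
    rw [← mem_powers_iff_mem_zpowers] at h1
    obtain ⟨k, hk⟩ := h1
    refine ⟨k, ?_⟩
    have := congrArg (fun u : Fˣ => (u : F)) hk
    simpa using this

/-- surjectivity of the norm onto the fixed field. -/
theorem star_norm_surj (q : ℕ) (hstar : ∀ x : F, star x = x ^ q)
    (hcard : Fintype.card F = q ^ 2) (a : F) (ha : star a = a) (ha0 : a ≠ 0) :
    ∃ c : F, star c * c = a := by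
  have hq := star_q_ge_two q hcard
  obtain ⟨g, hg0, hgo, hgen⟩ := star_exists_gen (F := F) q hcard
  obtain ⟨k, rfl⟩ := hgen a ha0
  rw [hstar] at ha
  have h1 : (g ^ k) ^ (q - 1) = 1 := by
    have h2 : (g ^ k) ^ (q - 1) * g ^ k = g ^ k := by
      rw [← pow_succ]
      have : q - 1 + 1 = q := by omega
      rw [this, ha]
    have h3 : (g ^ k) ^ (q - 1) * g ^ k = 1 * g ^ k := by rw [h2, one_mul]
    exact mul_right_cancel₀ ha0 h3
  rw [← pow_mul] at h1
  have h2 : q ^ 2 - 1 ∣ k * (q - 1) := by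
    rw [← hgo]; exact orderOf_dvd_of_pow_eq_one h1
  have hfac : q ^ 2 - 1 = (q + 1) * (q - 1) := by
    obtain ⟨j, rfl⟩ : ∃ j, q = j + 1 := ⟨q - 1, by omega⟩
    have e : (j + 1) ^ 2 = (j + 1 + 1) * j + 1 := by ring
    rw [e]; simp
  rw [hfac] at h2
  have h3 : q + 1 ∣ k := (Nat.mul_dvd_mul_iff_right (by omega)).mp h2
  obtain ⟨k', rfl⟩ := h3
  refine ⟨g ^ k', ?_⟩
  rw [hstar, ← pow_succ, ← pow_mul, mul_comm k' (q + 1)]

/-- an element of nonzero trace. -/
theorem star_trace_ne (q : ℕ) (hstar : ∀ x : F, star x = x ^ q)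
    (hcard : Fintype.card F = q ^ 2) : ∃ c0 : F, c0 + star c0 ≠ 0 := by
  have hq := star_q_ge_two q hcard
  by_cases h2 : (2 : F) = 0
  · obtain ⟨g, hg0, hgo, hgen⟩ := star_exists_gen (F := F) q hcard
    refine ⟨g, fun h => ?_⟩
    rw [hstar] at h
    have h3 : g ^ q = g := by
      have h4 : g + g = 0 := by rw [← two_mul, h2, zero_mul]
      have h5 : g ^ q = -g := by rw [eq_neg_iff_add_eq_zero, add_comm]; exact h
      rw [h5, neg_eq_iff_add_eq_zero, h4]
    have h1 : g ^ (q - 1) = 1 := by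
      have h6 : g ^ (q - 1) * g = 1 * g := by
        rw [← pow_succ, one_mul]
        have : q - 1 + 1 = q := by omega
        rw [this, h3]
      exact mul_right_cancel₀ hg0 h6
    have h7 : q ^ 2 - 1 ∣ q - 1 := by
      rw [← hgo]; exact orderOf_dvd_of_pow_eq_one h1
    have h8 := Nat.le_of_dvd (by omega) h7
    have h9 : q < q ^ 2 := by nlinarith
    omega
  · refine ⟨1, ?_⟩
    rw [star_one]
    intro h
    apply h2
    rw [← h]; norm_num

/-- Hermitian matrices over a finite field are Gram matrices. -/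
theorem herm_chol (q : ℕ) (hstar : ∀ x : F, star x = x ^ q) (hcard : Fintype.card F = q ^ 2) :
    ∀ (N : ℕ) (l : Type) [Fintype l] [DecidableEq l], Fintype.card l = N →
    ∀ H : Matrix l l F, Hᴴ = H → H.det ≠ 0 → ∃ P : Matrix l l F, Pᴴ * P = H := by
  intro N
  induction N with
  | zero =>
    intro l _ _ hl H _ _
    haveI : IsEmpty l := Fintype.card_eq_zero_iff.mp hl
    exact ⟨0, Subsingleton.elim _ _⟩
  | succ N ih =>
    intro l _ _ hl H hH hdet
    obtain ⟨G, hG, i, hGi⟩ : ∃ G : Matrix l l F, G.det ≠ 0 ∧ ∃ i, (Gᴴ * H * G) i i ≠ 0 := by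
      by_cases hdiag : ∃ i, H i i ≠ 0
      · obtain ⟨i, hi⟩ := hdiag
        exact ⟨1, by simp, i, by simpa using hi⟩
      · push Not at hdiag
        haveI : Nonempty l := Fintype.card_pos_iff.mp (by omega)
        obtain ⟨i0⟩ := ‹Nonempty l›
        obtain ⟨j, hj⟩ : ∃ j, H i0 j ≠ 0 := by
          by_contra hcon
          push Not at hcon
          exact hdet (Matrix.det_eq_zero_of_row_eq_zero i0 hcon)
        have hji : j ≠ i0 := by rintro rfl; exact hj (hdiag _)
        obtain ⟨c0, hc0⟩ := star_trace_ne q hstar hcard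
        refine ⟨Matrix.transvection j i0 (c0 / H i0 j),
          by rw [Matrix.det_transvection_of_ne _ _ hji]; exact one_ne_zero, i0, ?_⟩
        have hGH : (Matrix.transvection j i0 (c0 / H i0 j))ᴴ =
            Matrix.transvection i0 j (star (c0 / H i0 j)) := by
          unfold Matrix.transvection
          rw [conjTranspose_add, conjTranspose_one, conjTranspose_single]
        rw [hGH, Matrix.mul_assoc, Matrix.transvection_mul_apply_same,
          Matrix.mul_transvection_apply_same, Matrix.mul_transvection_apply_same,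
          hdiag i0, hdiag j]
        have hsym : H j i0 = star (H i0 j) := by
          have := congrFun (congrFun hH j) i0
          rw [conjTranspose_apply] at this
          exact this.symm
        have e1 : H i0 j * (c0 / H i0 j) = c0 := by field_simp
        rw [hsym, mul_zero, add_zero, zero_add, ← star_mul, div_mul_cancel₀ _ hj, e1]
        exact hc0
    -- reduce to the transformed matrix
    obtain ⟨H', hH'def⟩ : ∃ H', H' = Gᴴ * H * G := ⟨_, rfl⟩
    have hH'herm : H'ᴴ = H' := by
      rw [hH'def, conjTranspose_mul, conjTranspose_mul, conjTranspose_conjTranspose, hH,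
        Matrix.mul_assoc]
    have hH'det : H'.det ≠ 0 := by
      rw [hH'def, Matrix.det_mul, Matrix.det_mul, det_conjTranspose]
      refine mul_ne_zero (mul_ne_zero ?_ hdet) hG
      intro h
      apply hG
      have := congrArg star h
      rwa [star_star, star_zero] at this
    rw [← hH'def] at hGi
    suffices hsuff : ∃ P' : Matrix l l F, P'ᴴ * P' = H' by
      obtain ⟨P', hP'⟩ := hsuff
      have hGu : IsUnit G.det := isUnit_iff_ne_zero.mpr hG
      have hG1 : G * G⁻¹ = 1 := Matrix.mul_nonsing_inv G hGu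
      refine ⟨P' * G⁻¹, ?_⟩
      have h1 : (G⁻¹)ᴴ * Gᴴ = 1 := by rw [← conjTranspose_mul, hG1, conjTranspose_one]
      calc (P' * G⁻¹)ᴴ * (P' * G⁻¹) = (G⁻¹)ᴴ * (P'ᴴ * P') * G⁻¹ := by
            rw [conjTranspose_mul]; simp only [Matrix.mul_assoc]
        _ = ((G⁻¹)ᴴ * Gᴴ) * H * (G * G⁻¹) := by
            rw [hP', hH'def]; simp only [Matrix.mul_assoc]
        _ = H := by rw [h1, hG1, Matrix.one_mul, Matrix.mul_one]
    -- block decomposition
    obtain ⟨a, ha⟩ : ∃ a, a = H' i i := ⟨_, rfl⟩
    have ha0 : a ≠ 0 := ha ▸ hGi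
    have hastar : star a = a := by
      have := congrFun (congrFun hH'herm i) i
      rw [conjTranspose_apply] at this
      rw [ha]; exact this
    obtain ⟨c, hc⟩ := star_norm_surj q hstar hcard a hastar ha0
    let e : l ≃ {x // x = i} ⊕ {x // ¬ x = i} := (Equiv.sumCompl (fun x => x = i)).symm
    have hcard2 : Fintype.card {x // ¬ x = i} = N := by
      rw [Fintype.card_subtype_compl, Fintype.card_subtype_eq, hl]; rfl
    obtain ⟨Hb, hHb⟩ : ∃ Hb, Hb = H'.submatrix e.symm e.symm := ⟨_, rfl⟩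
    have hHbherm : Hbᴴ = Hb := by rw [hHb, conjTranspose_submatrix, hH'herm]
    have hHbdet : Hb.det ≠ 0 := by
      rw [hHb]
      have : H'.submatrix e.symm e.symm = Matrix.reindex e e H' := rfl
      rw [this, Matrix.det_reindex_self]; exact hH'det
    obtain ⟨B, hB⟩ : ∃ B, B = Hb.toBlocks₁₂ := ⟨_, rfl⟩
    obtain ⟨C, hC⟩ : ∃ C, C = Hb.toBlocks₂₁ := ⟨_, rfl⟩
    obtain ⟨D, hD⟩ : ∃ D, D = Hb.toBlocks₂₂ := ⟨_, rfl⟩
    have hA : Hb.toBlocks₁₁ = a • (1 : Matrix {x // x = i} {x // x = i} F) := by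
      ext x y
      have hxy : x = y := Subtype.ext (x.2.trans y.2.symm)
      subst hxy
      rw [Matrix.smul_apply, Matrix.one_apply_eq, smul_eq_mul, mul_one, hHb, ha]
      simp only [Matrix.toBlocks₁₁, Matrix.of_apply, Matrix.submatrix_apply]
      have : e.symm (Sum.inl x) = i := x.2
      rw [this]
    have hblocks : Hb = fromBlocks (a • (1 : Matrix {x // x = i} {x // x = i} F)) B C D := by
      rw [← hA, hB, hC, hD, Matrix.fromBlocks_toBlocks]
    have hh := hHbherm
    rw [hblocks] at hh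
    obtain ⟨-, hBC, hCB, hDherm⟩ := Matrix.isHermitian_fromBlocks_iff.mp hh
    obtain ⟨L, hL⟩ : ∃ L : Matrix ({x // x = i} ⊕ {x // ¬ x = i})
        ({x // x = i} ⊕ {x // ¬ x = i}) F, L = fromBlocks 1 (a⁻¹ • B) 0 1 := ⟨_, rfl⟩
    obtain ⟨S, hS⟩ : ∃ S, S = D - a⁻¹ • (C * B) := ⟨_, rfl⟩
    have hainv : star a⁻¹ = a⁻¹ := by rw [star_inv₀, hastar]
    have hLH : Lᴴ = fromBlocks 1 0 (a⁻¹ • C) 1 := by
      rw [hL, fromBlocks_conjTranspose, conjTranspose_one, conjTranspose_one, conjTranspose_zero,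
        conjTranspose_smul, hainv, hBC]
    have hdecomp : Hb = Lᴴ * fromBlocks (a • (1 : Matrix {x // x = i} {x // x = i} F)) 0 0 S
        * L := by
      rw [hblocks, hLH, hL, fromBlocks_multiply, fromBlocks_multiply]
      congr 1
      · simp
      · simp only [Matrix.one_mul, Matrix.zero_mul, Matrix.mul_zero, add_zero, zero_add,
          Matrix.mul_one, Matrix.smul_mul, Matrix.mul_smul, smul_smul]
        rw [inv_mul_cancel₀ ha0, one_smul]
      · simp only [Matrix.one_mul, Matrix.zero_mul, Matrix.mul_zero, add_zero, zero_add,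
          Matrix.mul_one, Matrix.smul_mul, Matrix.mul_smul, smul_smul]
        rw [mul_inv_cancel₀ ha0, one_smul]
      · simp only [Matrix.one_mul, Matrix.zero_mul, Matrix.mul_zero, add_zero, zero_add,
          Matrix.mul_one, Matrix.smul_mul, Matrix.mul_smul, smul_smul]
        rw [mul_inv_cancel₀ ha0, mul_one, hS]
        abel
    have hSherm : Sᴴ = S := by
      rw [hS, conjTranspose_sub, conjTranspose_smul, conjTranspose_mul, hainv, hBC, hCB]
      exact congrArg (· - a⁻¹ • (C * B)) hDherm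
    have hSdet : S.det ≠ 0 := by
      intro h0
      apply hHbdet
      rw [hdecomp, Matrix.det_mul, Matrix.det_mul, Matrix.det_fromBlocks_zero₂₁, h0, mul_zero,
        mul_zero, zero_mul]
    obtain ⟨P2, hP2⟩ := ih {x // ¬ x = i} hcard2 S hSherm hSdet
    suffices hsuff : ∃ Pb : Matrix ({x // x = i} ⊕ {x // ¬ x = i})
        ({x // x = i} ⊕ {x // ¬ x = i}) F, Pbᴴ * Pb = Hb by
      obtain ⟨Pb, hPb⟩ := hsuff
      refine ⟨Pb.submatrix e e, ?_⟩
      rw [conjTranspose_submatrix, Matrix.submatrix_mul_equiv, hPb, hHb,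
        Matrix.submatrix_submatrix]
      simp
    refine ⟨fromBlocks (c • (1 : Matrix {x // x = i} {x // x = i} F)) 0 0 P2 * L, ?_⟩
    rw [conjTranspose_mul, hdecomp]
    have hmid : (fromBlocks (c • (1 : Matrix {x // x = i} {x // x = i} F)) 0 0 P2)ᴴ *
        fromBlocks (c • (1 : Matrix {x // x = i} {x // x = i} F)) 0 0 P2 =
        fromBlocks (a • (1 : Matrix {x // x = i} {x // x = i} F)) 0 0 S := by
      rw [fromBlocks_conjTranspose, fromBlocks_multiply]
      congr 1
      · simp only [conjTranspose_smul, conjTranspose_one, Matrix.smul_mul, Matrix.mul_smul,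
          Matrix.one_mul, smul_smul, conjTranspose_zero, Matrix.zero_mul, add_zero]
        rw [mul_comm, hc]
      · simp
      · simp
      · simp only [conjTranspose_zero, Matrix.zero_mul, zero_add]
        exact hP2
    calc Lᴴ * (fromBlocks (c • (1 : Matrix {x // x = i} {x // x = i} F)) 0 0 P2)ᴴ *
          (fromBlocks (c • (1 : Matrix {x // x = i} {x // x = i} F)) 0 0 P2 * L)
        = Lᴴ * ((fromBlocks (c • (1 : Matrix {x // x = i} {x // x = i} F)) 0 0 P2)ᴴ *
          fromBlocks (c • (1 : Matrix {x // x = i} {x // x = i} F)) 0 0 P2) * L := by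
          simp only [Matrix.mul_assoc]
      _ = _ := by rw [hmid]

end UnB

end Cfsg.Agent.H62
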