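import Mathlib
import Cfsg.Agent.H62.UnB

set_option autoImplicit false
set_option linter.style.haveILetI false
set_option linter.unusedSimpArgs false
set_option linter.unusedSectionVars false
set_option linter.unusedVariables false

namespace Cfsg.Agent.H62

open Matrix

section UnC

variable {F : Type*} [Field F] [Fintype F] [StarRing F]

/-- a commutative algebra with a semilinear involution and a compatible nondegenerate
trace functional embeds into matrices compatibly with the conjugate transpose. -/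
theorem herm_alg_embed (q : ℕ) (hstar : ∀ x : F, star x = x ^ q)
    (hcard : Fintype.card F = q ^ 2) {R : Type*} [CommRing R] [Algebra F R]
    (l : Type) [Fintype l] [DecidableEq l] (b : Module.Basis l F R)
    (ι : R →+* R) (hι1 : ∀ c : F, ι (algebraMap F R c) = algebraMap F R (star c))
    (hι2 : ∀ x, ι (ι x) = x)
    (τ : R →ₗ[F] F) (hτ : ∀ x, τ (ι x) = star (τ x))
    (hnd : ∀ x : R, (∀ y, τ (x * y) = 0) → x = 0) :
    ∃ Φ : R →ₐ[F] Matrix l l F, Function.Injective Φ ∧ (∀ u, (Φ u)ᴴ = Φ (ι u)) ∧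
      ∀ u, (Φ u).det = Algebra.norm F u := by
  classical
  have hιsmul : ∀ (c : F) (x : R), ι (c • x) = star c • ι x := by
    intro c x
    rw [Algebra.smul_def, map_mul, hι1, ← Algebra.smul_def]
  have key1 : ∀ x y : R, ∑ j, b.repr x j * τ (b j * y) = τ (x * y) := by
    intro x y
    conv_rhs => rw [← b.sum_repr x]
    rw [Finset.sum_mul, map_sum]
    apply Finset.sum_congr rfl
    intro j _
    rw [smul_mul_assoc, map_smul, smul_eq_mul]
  have key2 : ∀ x y : R, ∑ j, star (b.repr y j) * τ (x * ι (b j)) = τ (x * ι y) := by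
    intro x y
    conv_rhs => rw [← b.sum_repr y]
    rw [map_sum, Finset.mul_sum, map_sum]
    apply Finset.sum_congr rfl
    intro j _
    rw [hιsmul, mul_smul_comm, map_smul, smul_eq_mul]
  obtain ⟨H, hHdef⟩ : ∃ H : Matrix l l F, ∀ i j, H i j = τ (b j * ι (b i)) :=
    ⟨Matrix.of fun i j => τ (b j * ι (b i)), fun i j => rfl⟩
  have hHherm : Hᴴ = H := by
    ext i j
    rw [conjTranspose_apply, hHdef, hHdef, ← hτ, map_mul, hι2, mul_comm]
  have hrel : ∀ u : R, (Algebra.leftMulMatrix b u)ᴴ * H = H * Algebra.leftMulMatrix b (ι u) := by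
    intro u
    ext i k
    rw [Matrix.mul_apply, Matrix.mul_apply]
    have h1 : ∑ j, (Algebra.leftMulMatrix b u)ᴴ i j * H j k =
        ∑ j, star (b.repr (u * b i) j) * τ (b k * ι (b j)) := by
      apply Finset.sum_congr rfl
      intro j _
      rw [conjTranspose_apply, Algebra.leftMulMatrix_eq_repr_mul, hHdef]
    have h2 : ∑ j, H i j * Algebra.leftMulMatrix b (ι u) j k =
        ∑ j, b.repr (ι u * b k) j * τ (b j * ι (b i)) := by
      apply Finset.sum_congr rfl
      intro j _
      rw [Algebra.leftMulMatrix_eq_repr_mul, hHdef, mul_comm]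
    have h3 : ι (u * b i) = ι u * ι (b i) := map_mul _ _ _
    rw [h1, h2, key1, key2, h3]
    congr 1
    ring
  have hHdet : H.det ≠ 0 := by
    intro h0
    obtain ⟨v, hv, hHv⟩ := Matrix.exists_mulVec_eq_zero_iff.mpr h0
    apply hv
    obtain ⟨x, hx⟩ : ∃ x : R, x = ∑ j, v j • b j := ⟨_, rfl⟩
    have hrepr : ∀ j, b.repr x j = v j := by
      intro j
      rw [hx]
      have := b.repr_sum_self v
      exact congrFun this j
    have h1 : ∀ i, τ (x * ι (b i)) = 0 := by
      intro i
      rw [← key1]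
      have := congrFun hHv i
      simp only [Matrix.mulVec, dotProduct, Pi.zero_apply] at this
      rw [← this]
      apply Finset.sum_congr rfl
      intro j _
      rw [hrepr, hHdef, mul_comm]
    have h2 : ∀ y, τ (x * y) = 0 := by
      intro y
      rw [← hι2 y, ← key2]
      apply Finset.sum_eq_zero
      intro j _
      rw [h1, mul_zero]
    have h3 := hnd x h2
    funext j
    rw [← hrepr, h3]
    simp
  obtain ⟨P, hP⟩ := herm_chol q hstar hcard (Fintype.card l) l rfl H hHherm hHdet
  have hPdet : P.det ≠ 0 := by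
    intro h0
    apply hHdet
    rw [← hP, Matrix.det_mul, h0, mul_zero]
  have hPu : IsUnit P.det := isUnit_iff_ne_zero.mpr hPdet
  have hP1 : P * P⁻¹ = 1 := Matrix.mul_nonsing_inv P hPu
  have hP2 : P⁻¹ * P = 1 := Matrix.nonsing_inv_mul P hPu
  let Φ : R →ₐ[F] Matrix l l F :=
    { toFun := fun u => P * Algebra.leftMulMatrix b u * P⁻¹
      map_one' := by rw [map_one, Matrix.mul_one, hP1]
      map_mul' := by
        intro u v
        rw [map_mul]
        calc P * (Algebra.leftMulMatrix b u * Algebra.leftMulMatrix b v) * P⁻¹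
            = P * Algebra.leftMulMatrix b u * 1 * Algebra.leftMulMatrix b v * P⁻¹ := by
              simp only [Matrix.mul_assoc, Matrix.one_mul]
          _ = P * Algebra.leftMulMatrix b u * P⁻¹ * (P * Algebra.leftMulMatrix b v * P⁻¹) := by
              rw [← hP2]; simp only [Matrix.mul_assoc]
      map_zero' := by rw [map_zero, Matrix.mul_zero, Matrix.zero_mul]
      map_add' := by
        intro u v
        rw [map_add, Matrix.mul_add, Matrix.add_mul]
      commutes' := by
        intro c
        rw [AlgHom.commutes, Algebra.algebraMap_eq_smul_one, Matrix.mul_smul, Matrix.mul_one,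
          Matrix.smul_mul, hP1] }
  have hΦ : ∀ u, Φ u = P * Algebra.leftMulMatrix b u * P⁻¹ := fun u => rfl
  refine ⟨Φ, ?_, ?_, ?_⟩
  · intro u v huv
    rw [hΦ, hΦ] at huv
    apply Algebra.leftMulMatrix_injective b
    calc Algebra.leftMulMatrix b u
        = P⁻¹ * (P * Algebra.leftMulMatrix b u * P⁻¹) * P := by
          simp only [Matrix.mul_assoc, hP2, Matrix.mul_one]
          rw [← Matrix.mul_assoc, hP2, Matrix.one_mul]
      _ = P⁻¹ * (P * Algebra.leftMulMatrix b v * P⁻¹) * P := by rw [huv]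
      _ = Algebra.leftMulMatrix b v := by
          simp only [Matrix.mul_assoc, hP2, Matrix.mul_one]
          rw [← Matrix.mul_assoc, hP2, Matrix.one_mul]
  · intro u
    rw [hΦ, hΦ, conjTranspose_mul, conjTranspose_mul]
    have h1 : (P⁻¹)ᴴ * Pᴴ = 1 := by rw [← conjTranspose_mul, hP1, conjTranspose_one]
    have h2 := hrel u
    rw [← hP] at h2
    calc (P⁻¹)ᴴ * ((Algebra.leftMulMatrix b u)ᴴ * Pᴴ)
        = (P⁻¹)ᴴ * ((Algebra.leftMulMatrix b u)ᴴ * (Pᴴ * P)) * P⁻¹ := by
          simp only [Matrix.mul_assoc, hP1, Matrix.mul_one]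
      _ = (P⁻¹)ᴴ * (Pᴴ * P * Algebra.leftMulMatrix b (ι u)) * P⁻¹ := by rw [h2]
      _ = ((P⁻¹)ᴴ * Pᴴ) * P * Algebra.leftMulMatrix b (ι u) * P⁻¹ := by
          simp only [Matrix.mul_assoc]
      _ = P * Algebra.leftMulMatrix b (ι u) * P⁻¹ := by rw [h1, Matrix.one_mul]
  · intro u
    rw [hΦ, Matrix.det_mul, Matrix.det_mul, mul_right_comm, ← Matrix.det_mul, hP1,
      Matrix.det_one, one_mul, Algebra.norm_eq_matrix_det b u]

end UnC

end Cfsg.Agent.H62
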