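import Mathlib
import Cfsg.Agent.H62.UnC

set_option autoImplicit false
set_option linter.style.haveILetI false
set_option linter.unusedSimpArgs false
set_option linter.unusedSectionVars false
set_option linter.unusedVariables false

namespace Cfsg.Agent.H62

open Matrix Polynomial

section UnD

variable {F : Type*} [Field F] [Fintype F] [StarRing F]

theorem star_not_fixed (q : ℕ) (hstar : ∀ x : F, star x = x ^ q)
    (hcard : Fintype.card F = q ^ 2) : ∃ t : F, star t ≠ t := by
  have hq := star_q_ge_two q hcard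
  obtain ⟨g, hg0, hgo, hgen⟩ := star_exists_gen (F := F) q hcard
  refine ⟨g, fun h => ?_⟩
  rw [hstar] at h
  have h1 : g ^ (q - 1) = 1 := by
    have h6 : g ^ (q - 1) * g = 1 * g := by
      rw [← pow_succ, one_mul]
      have : q - 1 + 1 = q := by omega
      rw [this, h]
    exact mul_right_cancel₀ hg0 h6
  have h7 : q ^ 2 - 1 ∣ q - 1 := by
    rw [← hgo]; exact orderOf_dvd_of_pow_eq_one h1
  have h8 := Nat.le_of_dvd (by omega) h7
  have h9 : q < q ^ 2 := by nlinarith
  omega

/-- a compatible nondegenerate functional on a truncated polynomial algebra. -/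
theorem un_nilalg {R : Type*} [CommRing R] [Algebra F R] [Nontrivial R] (q : ℕ)
    (hstar : ∀ x : F, star x = x ^ q) (hcard : Fintype.card F = q ^ 2) (n : ℕ) (hn : 1 ≤ n)
    (N : R) (hNn : N ^ n = 0) (b : Module.Basis (Fin n) F R)
    (hb : ∀ i : Fin n, b i = N ^ (i : ℕ)) (ι : R →+* R)
    (hι1 : ∀ c : F, ι (algebraMap F R c) = algebraMap F R (star c))
    (hι2 : ∀ x, ι (ι x) = x) (hιN : (1 + N) * ι (1 + N) = 1) :
    ∃ τ : R →ₗ[F] F, (∀ x, τ (ι x) = star (τ x)) ∧ ∀ x : R, (∀ y, τ (x * y) = 0) → x = 0 := by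
  classical
  have hιsmul : ∀ (c : F) (x : R), ι (c • x) = star c • ι x := by
    intro c x
    rw [Algebra.smul_def, map_mul, hι1, ← Algebra.smul_def]
  obtain ⟨last, hlast⟩ : ∃ last : Fin n, (last : ℕ) = n - 1 := ⟨⟨n - 1, by omega⟩, rfl⟩
  obtain ⟨s0, hs0⟩ : ∃ s0 : R, s0 = N ^ (n - 1) := ⟨_, rfl⟩
  have hbs0 : b last = s0 := by rw [hb, hlast, hs0]
  have hNs0 : N * s0 = 0 := by
    rw [hs0, ← pow_succ']
    have : n - 1 + 1 = n := by omega
    rw [this, hNn]
  obtain ⟨w, hw⟩ : ∃ w, w = ι (1 + N) := ⟨_, rfl⟩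
  rw [← hw] at hιN
  have hιNeq : ι N = -(N * w) := by
    have h1 : ι N = w - 1 := by rw [hw, map_add, map_one]; ring
    rw [h1]
    have h2 : w = 1 - N * w := by
      have : (1 + N) * w = w + N * w := by ring
      rw [this] at hιN
      rw [← hιN]; ring
    nth_rewrite 1 [h2]
    ring
  have hws0 : w * s0 = s0 := by
    have h2 : w = 1 - N * w := by
      have : (1 + N) * w = w + N * w := by ring
      rw [this] at hιN
      rw [← hιN]; ring
    rw [h2, sub_mul, one_mul, mul_right_comm, hNs0, zero_mul, sub_zero]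
  have hwks0 : ∀ k : ℕ, w ^ k * s0 = s0 := by
    intro k
    induction k with
    | zero => simp
    | succ k ih => rw [pow_succ, mul_assoc, hws0, ih]
  obtain ⟨ε, hε⟩ : ∃ ε : F, ε = (-1) ^ (n - 1) := ⟨_, rfl⟩
  have hιs0 : ι s0 = ε • s0 := by
    rw [hs0, map_pow, hιNeq, neg_pow, mul_pow, ← hs0, mul_comm s0, hwks0, Algebra.smul_def, hε,
      map_pow, map_neg, map_one]
  have hεstar : star ε = ε := by rw [hε, star_pow, star_neg, star_one]
  -- choice of t
  obtain ⟨t, ht⟩ : ∃ t : F, t + ε * star t ≠ 0 := by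
    rcases Nat.even_or_odd (n - 1) with he | ho
    · obtain ⟨c0, hc0⟩ := star_trace_ne q hstar hcard
      refine ⟨c0, ?_⟩
      rw [hε, he.neg_one_pow, one_mul]
      exact hc0
    · obtain ⟨t, ht⟩ := star_not_fixed q hstar hcard
      refine ⟨t, ?_⟩
      rw [hε, ho.neg_one_pow, neg_one_mul, ← sub_eq_add_neg]
      intro h
      exact ht (sub_eq_zero.mp h).symm
  let τ : R →ₗ[F] F :=
    { toFun := fun x => t * b.coord last x + star (t * b.coord last (ι x))
      map_add' := by
        intro x y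
        rw [map_add, map_add, map_add, mul_add, mul_add, star_add]
        ring
      map_smul' := by
        intro c x
        have e1 : ∀ y : F, star (t * (star c * y)) = c * star (t * y) := by
          intro y
          simp only [star_mul, star_star]
          ring
        rw [hιsmul, map_smul, map_smul, RingHom.id_apply, smul_eq_mul, smul_eq_mul,
          smul_eq_mul, e1]
        ring }
  have hτdef : ∀ x, τ x = t * b.coord last x + star (t * b.coord last (ι x)) := fun x => rfl
  have hcoord : b.coord last s0 = 1 := by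
    rw [← hbs0, Module.Basis.coord_apply, Module.Basis.repr_self]
    simp
  have hτs0 : τ s0 = t + ε * star t := by
    rw [hτdef, hιs0, map_smul, hcoord, smul_eq_mul, mul_one, mul_one, star_mul, hεstar]
  refine ⟨τ, ?_, ?_⟩
  · intro x
    rw [hτdef, hτdef, hι2, star_add, star_star, add_comm]
  · intro x hx
    by_contra hx0
    have hex : ∃ j : ℕ, ∃ h : j < n, b.repr x ⟨j, h⟩ ≠ 0 := by
      by_contra hcon
      push Not at hcon
      apply hx0
      apply b.repr.injective
      ext i
      rw [map_zero, Finsupp.zero_apply]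
      exact hcon i.1 i.2
    obtain ⟨k, hk, hkne, hmin⟩ : ∃ k, ∃ hk : k < n, b.repr x ⟨k, hk⟩ ≠ 0 ∧
        ∀ j, j < k → ∀ h : j < n, b.repr x ⟨j, h⟩ = 0 :=
      ⟨Nat.find hex, (Nat.find_spec hex).1, (Nat.find_spec hex).2, fun j hj h => by
        by_contra hne
        exact Nat.find_min hex hj ⟨h, hne⟩⟩
    have hprod : x * N ^ (n - 1 - k) = b.repr x ⟨k, hk⟩ • s0 := by
      conv_lhs => rw [← b.sum_repr x]
      rw [Finset.sum_mul, Finset.sum_eq_single ⟨k, hk⟩]
      · rw [smul_mul_assoc, hb, ← pow_add, hs0]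
        congr 2
        show k + (n - 1 - k) = n - 1
        omega
      · intro i _ hik
        rw [smul_mul_assoc, hb, ← pow_add]
        rcases Nat.lt_or_ge (i : ℕ) k with hlt | hge
        · have : b.repr x i = 0 := hmin i hlt i.2
          rw [this, zero_smul]
        · have hne : (i : ℕ) ≠ k := fun h => hik (Fin.ext h)
          have : (i : ℕ) + (n - 1 - k) = n + ((i : ℕ) - k - 1) := by omega
          rw [this, pow_add, hNn, zero_mul, smul_zero]
      · intro h
        exact absurd (Finset.mem_univ _) h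
    have h1 := hx (N ^ (n - 1 - k))
    rw [hprod, map_smul, smul_eq_mul, hτs0] at h1
    rcases mul_eq_zero.mp h1 with h2 | h2
    · exact hkne h2
    · exact ht h2

/-- a regular unipotent element of the unitary group. -/
theorem un_reg_unip (q : ℕ) (hstar : ∀ x : F, star x = x ^ q) (hcard : Fintype.card F = q ^ 2)
    (p : ℕ) [Fact p.Prime] [CharP F p] (n : ℕ) (hn : 1 ≤ n) :
    ∃ U : Matrix (Fin n) (Fin n) F, Uᴴ * U = 1 ∧ ∀ c : ℕ, U ^ (p ^ c) = 1 ↔ n ≤ p ^ c := by
  classical
  have hmonic : (X ^ n : F[X]).Monic := monic_X_pow n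
  have hdeg : (X ^ n : F[X]).natDegree = n := natDegree_X_pow n
  haveI : Nontrivial (AdjoinRoot (X ^ n : F[X])) := by
    apply AdjoinRoot.nontrivial
    rw [degree_X_pow]
    exact_mod_cast (by omega : n ≠ 0)
  obtain ⟨N, hNdef⟩ : ∃ N, N = AdjoinRoot.root (X ^ n : F[X]) := ⟨_, rfl⟩
  have hNn : N ^ n = 0 := by
    have := AdjoinRoot.mk_self (f := (X ^ n : F[X]))
    rw [map_pow, AdjoinRoot.mk_X] at this
    rw [hNdef]; exact this
  let b : Module.Basis (Fin n) F (AdjoinRoot (X ^ n : F[X])) :=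
    (AdjoinRoot.powerBasis' hmonic).basis.reindex (finCongr hdeg)
  have hb : ∀ i : Fin n, b i = N ^ (i : ℕ) := by
    intro i
    rw [hNdef]
    have h1 : b i = (AdjoinRoot.powerBasis' hmonic).basis ((finCongr hdeg).symm i) :=
      Module.Basis.reindex_apply _ _ _
    rw [h1, PowerBasis.coe_basis]
    rfl
  have hNj : ∀ j : ℕ, N ^ j = 0 ↔ n ≤ j := by
    intro j
    constructor
    · intro h
      by_contra hlt
      push Not at hlt
      have := b.ne_zero ⟨j, hlt⟩
      rw [hb] at this
      exact this h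
    · intro h
      obtain ⟨d, rfl⟩ := Nat.exists_eq_add_of_le h
      rw [pow_add, hNn, zero_mul]
  obtain ⟨w, hw⟩ : ∃ w, w = ∑ k ∈ Finset.range n, (-N) ^ k := ⟨_, rfl⟩
  have hNw : (1 + N) * w = 1 := by
    have h1 : (1 - (-N)) * w = 1 - (-N) ^ n := by rw [hw]; exact mul_neg_geom_sum (-N) n
    rw [sub_neg_eq_add, neg_pow, hNn, mul_zero, sub_zero] at h1
    exact h1
  have hN'n : (w - 1) ^ n = 0 := by
    have h1 : w - 1 = -(N * w) := by
      have : (1 + N) * w = w + N * w := by ring
      rw [this] at hNw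
      have h2 : w = 1 - N * w := by rw [← hNw]; ring
      nth_rewrite 1 [h2]
      ring
    rw [h1, neg_pow, mul_pow, hNn, zero_mul, mul_zero]
  let ι : AdjoinRoot (X ^ n : F[X]) →+* AdjoinRoot (X ^ n : F[X]) :=
    AdjoinRoot.lift ((algebraMap F (AdjoinRoot (X ^ n : F[X]))).comp (starRingEnd F)) (w - 1)
      (by rw [eval₂_X_pow]; exact hN'n)
  have hιN : ι N = w - 1 := by rw [hNdef]; exact AdjoinRoot.lift_root _
  have hι1 : ∀ c : F, ι (algebraMap F _ c) = algebraMap F _ (star c) := by
    intro c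
    rw [AdjoinRoot.algebraMap_eq]
    exact AdjoinRoot.lift_of _
  have hι1N : ι (1 + N) = w := by rw [map_add, map_one, hιN]; ring
  have hιw : ι w = 1 + N := by
    have h1 : w * ι w = 1 := by
      have := congrArg ι hNw
      rwa [map_mul, hι1N, map_one] at this
    calc ι w = ((1 + N) * w) * ι w := by rw [hNw, one_mul]
      _ = (1 + N) * (w * ι w) := by ring
      _ = 1 + N := by rw [h1, mul_one]
  have hι2' : ι.comp ι = RingHom.id _ := by
    apply AdjoinRoot.ringHom_ext
    · ext c
      simp only [RingHom.comp_apply, RingHom.id_apply]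
      rw [← AdjoinRoot.algebraMap_eq, hι1, hι1, star_star]
    · simp only [RingHom.comp_apply, RingHom.id_apply]
      rw [← hNdef, hιN, map_sub, map_one, hιw]
      ring
  have hι2 : ∀ x, ι (ι x) = x := fun x => by
    have := congrArg (fun f : AdjoinRoot (X ^ n : F[X]) →+* AdjoinRoot (X ^ n : F[X]) => f x) hι2'
    simpa using this
  obtain ⟨τ, hτ, hnd⟩ := un_nilalg q hstar hcard n hn N hNn b hb ι hι1 hι2
    (by rw [hι1N]; exact hNw)
  obtain ⟨Φ, hΦinj, hΦstar, -⟩ := herm_alg_embed q hstar hcard (Fin n) b ι hι1 hι2 τ hτ hnd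
  haveI : CharP (AdjoinRoot (X ^ n : F[X])) p :=
    charP_of_injective_algebraMap (algebraMap F (AdjoinRoot (X ^ n : F[X]))).injective p
  refine ⟨Φ (1 + N), ?_, ?_⟩
  · rw [hΦstar, ← map_mul, hι1N, mul_comm, hNw, map_one]
  · intro c
    rw [← map_pow, add_pow_char_pow, one_pow, ← hNj]
    constructor
    · intro h
      have h1 : Φ (1 + N ^ p ^ c) = Φ 1 := by rw [h, map_one]
      have h2 := hΦinj h1
      have h3 : N ^ p ^ c = (1 + N ^ p ^ c) - 1 := by ring
      rw [h3, h2, sub_self]
    · intro h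
      rw [h, add_zero, map_one]

end UnD

end Cfsg.Agent.H62
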