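import Mathlib
import Cfsg.Agent.H62.UnC

set_option autoImplicit false
set_option linter.style.haveILetI false
set_option linter.unusedSimpArgs false
set_option linter.unusedSectionVars false
set_option linter.unusedVariables false

namespace Cfsg.Agent.H62

open Matrix

/-- `(q ^ n - (-1) ^ n) / (q + 1)`. -/
def unM0 (q n : ℕ) : ℕ := if Even n then (q ^ n - 1) / (q + 1) else (q ^ n + 1) / (q + 1)

/-- the order of the Coxeter torus of `PSU(n, q)`. -/
def unM (q n : ℕ) : ℕ := unM0 q n / Nat.gcd (unM0 q n) (q + 1)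

theorem unM0_mul_even (q n : ℕ) (hn : Even n) : unM0 q n * (q + 1) = q ^ n - 1 := by
  unfold unM0
  rw [if_pos hn]
  apply Nat.div_mul_cancel
  obtain ⟨j, rfl⟩ := hn
  have h1 : q ^ 2 - 1 ∣ (q ^ 2) ^ j - 1 := by
    simpa only [one_pow] using Nat.sub_dvd_pow_sub_pow (q ^ 2) 1 j
  have h2 : q + 1 ∣ q ^ 2 - 1 := by
    rcases Nat.eq_zero_or_pos q with rfl | hq
    · simp
    · obtain ⟨k, rfl⟩ : ∃ k, q = k + 1 := ⟨q - 1, by omega⟩
      refine ⟨k, ?_⟩
      have e : (k + 1) ^ 2 = (k + 1 + 1) * k + 1 := by ring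
      rw [e]; simp
  have h3 : (q ^ 2) ^ j = q ^ (j + j) := by rw [← pow_mul]; congr 1; omega
  rw [← h3]
  exact dvd_trans h2 h1

theorem unM0_mul_odd (q n : ℕ) (hn : Odd n) : unM0 q n * (q + 1) = q ^ n + 1 := by
  unfold unM0
  rw [if_neg (Nat.not_even_iff_odd.mpr hn)]
  apply Nat.div_mul_cancel
  simpa only [one_pow] using Odd.nat_add_dvd_pow_add_pow q 1 hn

theorem unM0_pos (q n : ℕ) (hq : 2 ≤ q) (hn : 2 ≤ n) : 0 < unM0 q n := by
  rcases Nat.even_or_odd n with he | ho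
  · have h := unM0_mul_even q n he
    have h1 : q ^ 2 ≤ q ^ n := Nat.pow_le_pow_right (by omega) hn
    have h2 : 4 ≤ q ^ 2 := by nlinarith
    rcases Nat.eq_zero_or_pos (unM0 q n) with h0 | h0
    · rw [h0, zero_mul] at h; omega
    · exact h0
  · have h := unM0_mul_odd q n ho
    rcases Nat.eq_zero_or_pos (unM0 q n) with h0 | h0
    · rw [h0, zero_mul] at h; omega
    · exact h0

theorem div_gcd_dvd_of (M g k : ℕ) (hM : 0 < M) (h : M ∣ k * g) : M / Nat.gcd M g ∣ k := by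
  have hpos : 0 < Nat.gcd M g := Nat.gcd_pos_of_pos_left _ hM
  obtain ⟨a, ha⟩ := Nat.gcd_dvd_left M g
  obtain ⟨b, hb⟩ := Nat.gcd_dvd_right M g
  have hco : Nat.Coprime (M / Nat.gcd M g) (g / Nat.gcd M g) := Nat.coprime_div_gcd_div_gcd hpos
  have ha' : M / Nat.gcd M g = a := by
    nth_rewrite 1 [ha]; exact Nat.mul_div_cancel_left _ hpos
  have hb' : g / Nat.gcd M g = b := by
    nth_rewrite 1 [hb]; exact Nat.mul_div_cancel_left _ hpos
  rw [ha'] at hco ⊢
  rw [hb'] at hco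
  have h2 : a ∣ k * b := by
    have : Nat.gcd M g * a ∣ Nat.gcd M g * (k * b) := by
      have e : Nat.gcd M g * (k * b) = k * (Nat.gcd M g * b) := by ring
      rw [← ha, e, ← hb]; exact h
    exact (Nat.mul_dvd_mul_iff_left hpos).mp this
  exact hco.dvd_of_dvd_mul_right h2

theorem unM_dvd_of (q n k : ℕ) (hq : 2 ≤ q) (hn : 2 ≤ n) (h : unM0 q n ∣ k * (q + 1)) :
    unM q n ∣ k :=
  div_gcd_dvd_of _ _ _ (unM0_pos q n hq hn) h

theorem unM_mul_dvd (q n : ℕ) : unM0 q n ∣ unM q n * (q + 1) := by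
  unfold unM
  have h1 := Nat.div_mul_cancel (Nat.gcd_dvd_left (unM0 q n) (q + 1))
  obtain ⟨b, hb⟩ := Nat.gcd_dvd_right (unM0 q n) (q + 1)
  refine ⟨b, ?_⟩
  calc unM0 q n / Nat.gcd (unM0 q n) (q + 1) * (q + 1)
      = unM0 q n / Nat.gcd (unM0 q n) (q + 1) * (Nat.gcd (unM0 q n) (q + 1) * b) := by
        rw [← hb]
    _ = (unM0 q n / Nat.gcd (unM0 q n) (q + 1) * Nat.gcd (unM0 q n) (q + 1)) * b := by ring
    _ = unM0 q n * b := by rw [h1]

section UnE

variable {F : Type*} [Field F] [Fintype F] [StarRing F]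

theorem star_pow_q2 (q : ℕ) (hcard : Fintype.card F = q ^ 2) (c : F) : c ^ (q ^ 2) = c := by
  rw [← hcard]; exact FiniteField.pow_card c

theorem star_pow_odd (q : ℕ) (hcard : Fintype.card F = q ^ 2) (j : ℕ) (c : F) :
    c ^ (q ^ (2 * j + 1)) = c ^ q := by
  induction j with
  | zero => simp
  | succ j ih =>
    have e : q ^ (2 * (j + 1) + 1) = q ^ 2 * q ^ (2 * j + 1) := by rw [← pow_add]; congr 1; omega
    rw [e, pow_mul, star_pow_q2 q hcard, ih]

theorem star_mul_self_pow (q : ℕ) (hstar : ∀ x : F, star x = x ^ q) (c : F)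
    (h : c * star c = 1) : c ^ (q + 1) = 1 := by
  rw [pow_succ, ← hstar, mul_comm]; exact h

/-- a generator of the multiplicative group of a finite field. -/
theorem field_exists_gen (E : Type*) [Field E] [Finite E] :
    ∃ g : E, g ≠ 0 ∧ orderOf g = Nat.card E - 1 := by
  classical
  obtain ⟨g, hg⟩ := IsCyclic.exists_generator (α := Eˣ)
  exact ⟨(g : E), Units.ne_zero g, by
    rw [orderOf_units, orderOf_eq_card_of_forall_mem_zpowers hg, Nat.card_units]⟩

/-- the Coxeter torus in odd dimension. -/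
theorem un_torus_odd_gen (q : ℕ) (hstar : ∀ x : F, star x = x ^ q)
    (hcard : Fintype.card F = q ^ 2) (p : ℕ) [Fact p.Prime] [CharP F p] (a : ℕ) (hq : q = p ^ a)
    (n : ℕ) (hn : Odd n) (hn2 : 2 ≤ n) {E : Type*} [Field E] [Algebra F E] [Finite E]
    (hfr : Module.finrank F E = n) :
    ∃ S : Matrix (Fin n) (Fin n) F, Sᴴ * S = 1 ∧ S.det = 1 ∧
      ∀ (k : ℕ) (c : F), S ^ k = c • 1 → unM q n ∣ k := by
  classical
  have hq2 := star_q_ge_two q hcard
  haveI : CharP E p := charP_of_injective_algebraMap (algebraMap F E).injective p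
  haveI : Module.Finite F E := Module.finite_of_finrank_pos (by rw [hfr]; omega)
  haveI := Fintype.ofFinite E
  have hcardE : Nat.card E = q ^ (2 * n) := by
    rw [Module.natCard_eq_pow_finrank (K := F) (V := E), hfr, Nat.card_eq_fintype_card, hcard,
      ← pow_mul]
  have hEpow : ∀ x : E, x ^ (q ^ (2 * n)) = x := by
    intro x
    rw [← hcardE, Nat.card_eq_fintype_card]; exact FiniteField.pow_card x
  obtain ⟨j, hj⟩ := hn
  let ι : E →+* E := iterateFrobenius E p (a * n)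
  have hιdef : ∀ x, ι x = x ^ (q ^ n) := by
    intro x
    show iterateFrobenius E p (a * n) x = _
    rw [iterateFrobenius_def, hq, ← pow_mul]
  have hι1 : ∀ c : F, ι (algebraMap F E c) = algebraMap F E (star c) := by
    intro c
    rw [hιdef, ← map_pow, hstar, hj, star_pow_odd q hcard]
  have hι2 : ∀ x, ι (ι x) = x := by
    intro x
    rw [hιdef, hιdef, ← pow_mul, ← pow_add]
    have : n + n = 2 * n := by omega
    rw [this, hEpow]
  have hτ : ∀ x, Algebra.trace F E (ι x) = star (Algebra.trace F E x) := by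
    intro x
    apply (algebraMap F E).injective
    rw [← hι1, FiniteField.algebraMap_trace_eq_sum_pow, FiniteField.algebraMap_trace_eq_sum_pow,
      map_sum]
    apply Finset.sum_congr rfl
    intro i _
    rw [map_pow]
  have hnd : ∀ x : E, (∀ y, Algebra.trace F E (x * y) = 0) → x = 0 := by
    intro x hx
    by_contra hx0
    obtain ⟨z, hz⟩ := Algebra.trace_surjective F E 1
    have := hx (x⁻¹ * z)
    rw [← mul_assoc, mul_inv_cancel₀ hx0, one_mul, hz] at this
    exact one_ne_zero this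
  obtain ⟨Φ, hΦinj, hΦstar, hΦdet⟩ := herm_alg_embed q hstar hcard (Fin n)
    (Module.finBasisOfFinrankEq F E hfr) ι hι1 hι2 (Algebra.trace F E) hτ hnd
  obtain ⟨γ, hγ0, hγo⟩ := field_exists_gen E
  rw [hcardE] at hγo
  have hM0 := unM0_mul_odd q n ⟨j, hj⟩
  have hqn1 : 1 ≤ q ^ n := Nat.one_le_pow _ _ (by omega)
  have hfac : q ^ (2 * n) - 1 = (q ^ n - 1) * (q + 1) * unM0 q n := by
    have e1 : q ^ (2 * n) = q ^ n * q ^ n := by rw [← pow_add]; congr 1; omega
    rw [mul_assoc, mul_comm (q + 1), hM0, e1]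
    obtain ⟨t, ht⟩ : ∃ t, q ^ n = t + 1 := ⟨q ^ n - 1, by omega⟩
    rw [ht]
    have e2 : (t + 1) * (t + 1) = t * (t + 1 + 1) + 1 := by ring
    rw [e2]; simp
  obtain ⟨x0, hx0⟩ : ∃ x0, x0 = γ ^ ((q ^ n - 1) * (q + 1)) := ⟨_, rfl⟩
  have hM0pos := unM0_pos q n hq2 hn2
  have hqn2 : 2 ≤ q ^ n := by
    calc 2 ≤ q := hq2
      _ = q ^ 1 := (pow_one q).symm
      _ ≤ q ^ n := Nat.pow_le_pow_right (by omega) (by omega)
  have hx0o : orderOf x0 = unM0 q n := by
    have hpos : (q ^ n - 1) * (q + 1) ≠ 0 := by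
      apply Nat.mul_ne_zero <;> omega
    rw [hx0, orderOf_pow_of_dvd hpos (by rw [hγo, hfac]; exact dvd_mul_right _ _), hγo, hfac,
      Nat.mul_div_cancel_left _ (Nat.pos_of_ne_zero hpos)]
  have hx0u : x0 * ι x0 = 1 := by
    rw [hιdef, ← pow_succ', ← hM0, pow_mul, ← hx0o, pow_orderOf_eq_one, one_pow]
  have hnorm : Algebra.norm F x0 = 1 := by
    rw [hx0, map_pow]
    have hN0 : Algebra.norm F γ ≠ 0 := by
      rw [Ne, Algebra.norm_eq_zero_iff]; exact hγ0
    have h1 : Algebra.norm F γ ^ (q ^ 2 - 1) = 1 := by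
      have := FiniteField.pow_card_sub_one_eq_one (Algebra.norm F γ) hN0
      rwa [hcard] at this
    have h2 : q ^ 2 - 1 ∣ (q ^ n - 1) * (q + 1) := by
      have h3 : q - 1 ∣ q ^ n - 1 := by
        simpa only [one_pow] using Nat.sub_dvd_pow_sub_pow q 1 n
      have h4 : q ^ 2 - 1 = (q - 1) * (q + 1) := by
        obtain ⟨t, rfl⟩ : ∃ t, q = t + 1 := ⟨q - 1, by omega⟩
        have e : (t + 1) ^ 2 = t * (t + 1 + 1) + 1 := by ring
        rw [e]; simp
      rw [h4]
      exact Nat.mul_dvd_mul_right h3 _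
    obtain ⟨d, hd⟩ := h2
    rw [hd, pow_mul, h1, one_pow]
  refine ⟨Φ x0, ?_, ?_, ?_⟩
  · rw [hΦstar, ← map_mul, mul_comm, hx0u, map_one]
  · rw [hΦdet, hnorm]
  · intro k c hk
    have h1 : Φ (x0 ^ k) = Φ (algebraMap F E c) := by
      rw [map_pow, hk, AlgHom.commutes, Algebra.algebraMap_eq_smul_one]
    have h2 : x0 ^ k = algebraMap F E c := hΦinj h1
    have h3 : c * star c = 1 := by
      apply (algebraMap F E).injective
      rw [map_mul, ← hι1, ← h2, map_pow, ← mul_pow, hx0u, one_pow, map_one]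
    have h4 : c ^ (q + 1) = 1 := star_mul_self_pow q hstar c h3
    have h5 : x0 ^ (k * (q + 1)) = 1 := by
      rw [pow_mul, h2, ← map_pow, h4, map_one]
    apply unM_dvd_of q n k hq2 hn2
    rw [← hx0o]
    exact orderOf_dvd_of_pow_eq_one h5

/-- transport of an isometry of a Hermitian form to the standard form. -/
theorem un_transport (q : ℕ) (hstar : ∀ x : F, star x = x ^ q) (hcard : Fintype.card F = q ^ 2)
    (l : Type) [Fintype l] [DecidableEq l] (H : Matrix l l F) (hH : Hᴴ = H) (hdet : H.det ≠ 0) :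
    ∃ P : Matrix l l F, P * P⁻¹ = 1 ∧ P⁻¹ * P = 1 ∧
      ∀ S0 : Matrix l l F, S0ᴴ * H * S0 = H → (P * S0 * P⁻¹)ᴴ * (P * S0 * P⁻¹) = 1 := by
  obtain ⟨P, hP⟩ := herm_chol q hstar hcard (Fintype.card l) l rfl H hH hdet
  have hPdet : P.det ≠ 0 := by
    intro h0
    apply hdet
    rw [← hP, Matrix.det_mul, h0, mul_zero]
  have hPu : IsUnit P.det := isUnit_iff_ne_zero.mpr hPdet
  have hP1 : P * P⁻¹ = 1 := Matrix.mul_nonsing_inv P hPu
  have hP2 : P⁻¹ * P = 1 := Matrix.nonsing_inv_mul P hPu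
  refine ⟨P, hP1, hP2, ?_⟩
  intro S0 hS0
  have h1 : (P⁻¹)ᴴ * Pᴴ = 1 := by rw [← conjTranspose_mul, hP1, conjTranspose_one]
  rw [conjTranspose_mul, conjTranspose_mul]
  calc (P⁻¹)ᴴ * (S0ᴴ * Pᴴ) * (P * S0 * P⁻¹)
      = (P⁻¹)ᴴ * (S0ᴴ * (Pᴴ * P) * S0) * P⁻¹ := by simp only [Matrix.mul_assoc]
    _ = (P⁻¹)ᴴ * (Pᴴ * P) * P⁻¹ := by rw [hP, hS0]
    _ = ((P⁻¹)ᴴ * Pᴴ) * (P * P⁻¹) := by simp only [Matrix.mul_assoc]
    _ = 1 := by rw [h1, hP1, Matrix.one_mul]

theorem conj_pow_h62 {l : Type*} [Fintype l] [DecidableEq l] (P S0 : Matrix l l F)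
    (hP2 : P⁻¹ * P = 1) (hP1 : P * P⁻¹ = 1) (j : ℕ) :
    (P * S0 * P⁻¹) ^ j = P * S0 ^ j * P⁻¹ := by
  induction j with
  | zero => rw [pow_zero, pow_zero, Matrix.mul_one, hP1]
  | succ j ih =>
    rw [pow_succ, ih, pow_succ]
    calc P * S0 ^ j * P⁻¹ * (P * S0 * P⁻¹) = P * S0 ^ j * (P⁻¹ * P) * S0 * P⁻¹ := by
          simp only [Matrix.mul_assoc]
      _ = P * (S0 ^ j * S0) * P⁻¹ := by rw [hP2, Matrix.mul_one]; simp only [Matrix.mul_assoc]

/-- the Coxeter torus in even dimension. -/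
theorem un_torus_even_gen (q : ℕ) (hstar : ∀ x : F, star x = x ^ q)
    (hcard : Fintype.card F = q ^ 2) (n k : ℕ) (hnk : n = k + k) (hk : 1 ≤ k)
    {E : Type*} [Field E] [Algebra F E] [Finite E] (hfr : Module.finrank F E = k) :
    ∃ S : Matrix (Fin n) (Fin n) F, Sᴴ * S = 1 ∧ S.det = 1 ∧
      ∀ (j : ℕ) (c : F), S ^ j = c • 1 → unM q n ∣ j := by
  classical
  have hq2 := star_q_ge_two q hcard
  haveI : Module.Finite F E := Module.finite_of_finrank_pos (by rw [hfr]; omega)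
  haveI := Fintype.ofFinite E
  have hcardE : Nat.card E = q ^ n := by
    rw [Module.natCard_eq_pow_finrank (K := F) (V := E), hfr, Nat.card_eq_fintype_card, hcard,
      ← pow_mul, hnk]
    congr 1; omega
  obtain ⟨γ, hγ0, hγo⟩ := field_exists_gen E
  rw [hcardE] at hγo
  have hM0 := unM0_mul_even q n ⟨k, hnk⟩
  have hn2 : 2 ≤ n := by omega
  have hM0pos := unM0_pos q n hq2 hn2
  obtain ⟨x0, hx0⟩ : ∃ x0, x0 = γ ^ (q + 1) := ⟨_, rfl⟩
  have hx0o : orderOf x0 = unM0 q n := by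
    rw [hx0, orderOf_pow_of_dvd (by omega) (by rw [hγo, ← hM0]; exact dvd_mul_left _ _), hγo,
      ← hM0, Nat.mul_div_cancel _ (by omega)]
  have hx0ne : x0 ≠ 0 := by rw [hx0]; exact pow_ne_zero _ hγ0
  let b := Module.finBasisOfFinrankEq F E hfr
  obtain ⟨A, hA⟩ : ∃ A, A = Algebra.leftMulMatrix b x0 := ⟨_, rfl⟩
  obtain ⟨B, hB⟩ : ∃ B, B = Algebra.leftMulMatrix b x0⁻¹ := ⟨_, rfl⟩
  have hAB : A * B = 1 := by rw [hA, hB, ← map_mul, mul_inv_cancel₀ hx0ne, map_one]
  have hBA : B * A = 1 := by rw [hA, hB, ← map_mul, inv_mul_cancel₀ hx0ne, map_one]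
  have hδ : A.det ^ q = A.det := by
    rw [hA, ← Algebra.norm_eq_matrix_det b x0, hx0, map_pow, ← pow_mul]
    have e : (q + 1) * q = q ^ 2 + q := by ring
    rw [e, pow_add, star_pow_q2 q hcard, pow_succ, mul_comm]
  have hδ0 : A.det ≠ 0 := by
    intro h0
    have := congrArg Matrix.det hAB
    rw [Matrix.det_mul, h0, zero_mul, Matrix.det_one] at this
    exact zero_ne_one this
  have hdetB : B.det = (A.det)⁻¹ := by
    have := congrArg Matrix.det hAB
    rw [Matrix.det_mul, Matrix.det_one] at this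
    exact eq_inv_of_mul_eq_one_right this
  obtain ⟨S0, hS0⟩ : ∃ S0 : Matrix (Fin k ⊕ Fin k) (Fin k ⊕ Fin k) F,
      S0 = fromBlocks A 0 0 Bᴴ := ⟨_, rfl⟩
  obtain ⟨Hh, hHh⟩ : ∃ Hh : Matrix (Fin k ⊕ Fin k) (Fin k ⊕ Fin k) F,
      Hh = fromBlocks 0 1 1 0 := ⟨_, rfl⟩
  have hHherm : Hhᴴ = Hh := by
    rw [hHh, fromBlocks_conjTranspose]
    simp only [conjTranspose_zero, conjTranspose_one]
  have hHdet : Hh.det ≠ 0 := by
    have h1 : Hh * Hh = 1 := by
      rw [hHh, fromBlocks_multiply, ← fromBlocks_one]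
      congr 1 <;> simp
    intro h0
    have := congrArg Matrix.det h1
    rw [Matrix.det_mul, h0, zero_mul, Matrix.det_one] at this
    exact zero_ne_one this
  have hS0H : S0ᴴ * Hh * S0 = Hh := by
    rw [hS0, hHh, fromBlocks_conjTranspose, conjTranspose_conjTranspose]
    simp only [conjTranspose_zero]
    rw [fromBlocks_multiply, fromBlocks_multiply]
    congr 1
    · simp
    · simp only [Matrix.mul_zero, Matrix.mul_one, Matrix.zero_mul, zero_add, add_zero]
      rw [← conjTranspose_mul, hBA, conjTranspose_one]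
    · simp only [Matrix.mul_zero, Matrix.mul_one, Matrix.zero_mul, zero_add, add_zero]
      exact hBA
    · simp
  obtain ⟨P, hP1, hP2, hPt⟩ := un_transport q hstar hcard (Fin k ⊕ Fin k) Hh hHherm hHdet
  obtain ⟨S1, hS1⟩ : ∃ S1, S1 = P * S0 * P⁻¹ := ⟨_, rfl⟩
  have hS1u : S1ᴴ * S1 = 1 := by rw [hS1]; exact hPt S0 hS0H
  let e : Fin k ⊕ Fin k ≃ Fin n := finSumFinEquiv.trans (finCongr hnk.symm)
  have hS0pow : ∀ j : ℕ, S0 ^ j = fromBlocks (A ^ j) 0 0 (Bᴴ ^ j) := by
    intro j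
    induction j with
    | zero => simp [fromBlocks_one]
    | succ j ih =>
      rw [pow_succ, ih, hS0, fromBlocks_multiply]
      simp [pow_succ]
  refine ⟨Matrix.reindexAlgEquiv F F e S1, ?_, ?_, ?_⟩
  · rw [Matrix.coe_reindexAlgEquiv, Matrix.reindex_apply, conjTranspose_submatrix,
      Matrix.submatrix_mul_equiv, hS1u, Matrix.submatrix_one_equiv]
  · rw [Matrix.coe_reindexAlgEquiv, Matrix.det_reindex_self, hS1, Matrix.det_mul,
      Matrix.det_mul, mul_right_comm, ← Matrix.det_mul, hP1, Matrix.det_one, one_mul, hS0,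
      Matrix.det_fromBlocks_zero₂₁, det_conjTranspose, hdetB, hstar, inv_pow, hδ,
      mul_inv_cancel₀ hδ0]
  · intro j c hj
    have h1 : Matrix.reindexAlgEquiv F F e (S1 ^ j) =
        Matrix.reindexAlgEquiv F F e (c • (1 : Matrix (Fin k ⊕ Fin k) (Fin k ⊕ Fin k) F)) := by
      rw [map_pow, hj, map_smul, map_one]
    have h2 : S1 ^ j = c • 1 := (Matrix.reindexAlgEquiv F F e).injective h1
    rw [hS1, conj_pow_h62 P S0 hP2 hP1] at h2
    have h3 : S0 ^ j = c • 1 := by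
      calc S0 ^ j = P⁻¹ * (P * S0 ^ j * P⁻¹) * P := by
            simp only [Matrix.mul_assoc, hP2, Matrix.mul_one]
            rw [← Matrix.mul_assoc, hP2, Matrix.one_mul]
        _ = c • 1 := by rw [h2, Matrix.mul_smul, Matrix.mul_one, Matrix.smul_mul, hP2]
    rw [hS0pow, ← fromBlocks_one, fromBlocks_smul] at h3
    obtain ⟨h4, -, -, h5⟩ := fromBlocks_inj.mp h3
    have h6 : x0 ^ j = algebraMap F E c := by
      apply Algebra.leftMulMatrix_injective b
      rw [map_pow, ← hA, h4, AlgHom.commutes, Algebra.algebraMap_eq_smul_one]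
    have h7 : x0⁻¹ ^ j = algebraMap F E (star c) := by
      apply Algebra.leftMulMatrix_injective b
      rw [map_pow, ← hB, AlgHom.commutes, Algebra.algebraMap_eq_smul_one]
      rw [← conjTranspose_pow] at h5
      have := congrArg conjTranspose h5
      rw [conjTranspose_conjTranspose, conjTranspose_smul, conjTranspose_one] at this
      exact this
    have h8 : c * star c = 1 := by
      apply (algebraMap F E).injective
      rw [map_mul, ← h6, ← h7, ← mul_pow, mul_inv_cancel₀ hx0ne, one_pow, map_one]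
    have h9 : c ^ (q + 1) = 1 := star_mul_self_pow q hstar c h8
    have h10 : x0 ^ (j * (q + 1)) = 1 := by
      rw [pow_mul, h6, ← map_pow, h9, map_one]
    apply unM_dvd_of q n j hq2 hn2
    rw [← hx0o]
    exact orderOf_dvd_of_pow_eq_one h10

/-- the Coxeter torus of the special unitary group. -/
theorem un_torus (q : ℕ) (hstar : ∀ x : F, star x = x ^ q) (hcard : Fintype.card F = q ^ 2)
    (p : ℕ) [Fact p.Prime] [CharP F p] (a : ℕ) (hq : q = p ^ a) (n : ℕ) (hn : 2 ≤ n) :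
    ∃ S : Matrix (Fin n) (Fin n) F, Sᴴ * S = 1 ∧ S.det = 1 ∧
      ∀ (k : ℕ) (c : F), S ^ k = c • 1 → unM q n ∣ k := by
  rcases Nat.even_or_odd n with ⟨k, hk⟩ | ho
  · haveI : NeZero k := ⟨by omega⟩
    exact un_torus_even_gen q hstar hcard n k hk (by omega)
      (E := FiniteField.Extension F p k) (FiniteField.finrank_extension F p k)
  · haveI : NeZero n := ⟨by omega⟩
    exact un_torus_odd_gen q hstar hcard p a hq n ho hn
      (E := FiniteField.Extension F p n) (FiniteField.finrank_extension F p n)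

end UnE

end Cfsg.Agent.H62
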