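import Mathlib
import Cfsg.Agent.H62.UnD
import Cfsg.Agent.H62.AbsorbD

set_option autoImplicit false
set_option linter.style.haveILetI false
set_option linter.unusedSimpArgs false
set_option linter.unusedSectionVars false
set_option linter.unusedVariables false

namespace Cfsg.Agent.H62

open Matrix

section UnF

variable {F : Type*} [Field F] [Fintype F] [StarRing F]

/-- an element of norm one which is not its own inverse. -/
theorem star_exists_zeta (q : ℕ) (hstar : ∀ x : F, star x = x ^ q)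
    (hcard : Fintype.card F = q ^ 2) : ∃ ζ : F, star ζ * ζ = 1 ∧ ζ * ζ ≠ 1 := by
  have hq := star_q_ge_two q hcard
  obtain ⟨g, hg0, hgo, hgen⟩ := star_exists_gen (F := F) q hcard
  have hfac : q ^ 2 - 1 = (q - 1) * (q + 1) := by
    obtain ⟨t, rfl⟩ : ∃ t, q = t + 1 := ⟨q - 1, by omega⟩
    have e : (t + 1) ^ 2 = t * (t + 1 + 1) + 1 := by ring
    rw [e]; simp
  refine ⟨g ^ (q - 1), ?_, ?_⟩
  · rw [hstar, ← pow_succ, ← pow_mul, ← hfac, ← hgo, pow_orderOf_eq_one]
  · intro h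
    rw [← pow_add] at h
    have h1 : q ^ 2 - 1 ∣ (q - 1) + (q - 1) := by
      rw [← hgo]; exact orderOf_dvd_of_pow_eq_one h
    have h2 := Nat.le_of_dvd (by omega) h1
    have h3 : 2 * q ≤ q ^ 2 := by nlinarith
    have h4 : q ^ 2 ≥ 4 := by nlinarith
    omega

theorem su_scalar_center (n q : ℕ) (z : Cfsg.SU n F q) (c : F)
    (h : (z.1.1 : Matrix (Fin n) (Fin n) F) = c • 1) : z ∈ Subgroup.center (Cfsg.SU n F q) := by
  rw [Subgroup.mem_center_iff]
  intro g
  apply Subtype.ext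
  apply Subtype.ext
  rw [su_coe_mul, su_coe_mul, h, Matrix.mul_smul, Matrix.smul_mul, Matrix.mul_one,
    Matrix.one_mul]

/-- the centre of the special unitary group consists of scalar matrices. -/
theorem su_center_scalar (q : ℕ) (hstar : ∀ x : F, star x = x ^ q)
    (hcard : Fintype.card F = q ^ 2) (n : ℕ) (hn : 3 ≤ n) (z : Cfsg.SU n F q)
    (hz : z ∈ Subgroup.center (Cfsg.SU n F q)) :
    ∃ c : F, (z.1.1 : Matrix (Fin n) (Fin n) F) = c • 1 := by
  classical
  obtain ⟨Z, hZ⟩ : ∃ Z : Matrix (Fin n) (Fin n) F, Z = z.1.1 := ⟨_, rfl⟩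
  have hcomm : ∀ (M : Matrix (Fin n) (Fin n) F) (hdet : M.det = 1) (hM : Mᴴ * M = 1),
      M * Z = Z * M := by
    intro M hdet hM
    have h1 := Subgroup.mem_center_iff.mp hz (mkSU n q hstar M hdet hM)
    have h2 := congrArg (fun g : Cfsg.SU n F q => (g.1.1 : Matrix (Fin n) (Fin n) F)) h1
    simp only [su_coe_mul, mkSU_coe] at h2
    rw [hZ]; exact h2
  obtain ⟨ζ, hζ1, hζ2⟩ := star_exists_zeta (F := F) q hstar hcard
  have hζ0 : ζ ≠ 0 := by
    rintro rfl
    simp at hζ1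
  have hζinv : star ζ⁻¹ * ζ⁻¹ = 1 := by
    rw [star_inv₀, ← mul_inv, hζ1, inv_one]
  have hdiagU : ∀ (a : Fin n) (x : F), star x * x = 1 →
      (Matrix.diagonal (Function.update (1 : Fin n → F) a x))ᴴ *
        Matrix.diagonal (Function.update (1 : Fin n → F) a x) = 1 := by
    intro a x hx
    rw [diagonal_conjTranspose, diagonal_mul_diagonal, ← diagonal_one]
    congr 1
    funext i
    rw [Pi.star_apply, Function.update_apply]
    by_cases hi : i = a
    · rw [if_pos hi, hx]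
    · rw [if_neg hi]; simp
  have hdiagdet : ∀ (a : Fin n) (x : F),
      (Matrix.diagonal (Function.update (1 : Fin n → F) a x)).det = x := by
    intro a x
    rw [Matrix.det_diagonal, Finset.prod_update_of_mem (Finset.mem_univ a)]
    simp
  have hoff : ∀ a b : Fin n, a ≠ b → Z a b = 0 := by
    intro a b hab
    obtain ⟨D1, hD1⟩ : ∃ D1, D1 = Matrix.diagonal (Function.update (1 : Fin n → F) a ζ) :=
      ⟨_, rfl⟩
    obtain ⟨D2, hD2⟩ : ∃ D2, D2 = Matrix.diagonal (Function.update (1 : Fin n → F) b ζ⁻¹) :=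
      ⟨_, rfl⟩
    have hdet : (D1 * D2).det = 1 := by
      rw [Matrix.det_mul, hD1, hD2, hdiagdet, hdiagdet, mul_inv_cancel₀ hζ0]
    have hU : (D1 * D2)ᴴ * (D1 * D2) = 1 := by
      rw [conjTranspose_mul]
      calc D2ᴴ * D1ᴴ * (D1 * D2) = D2ᴴ * (D1ᴴ * D1) * D2 := by simp only [Matrix.mul_assoc]
        _ = 1 := by rw [hD1, hdiagU a ζ hζ1, Matrix.mul_one, hD2, hdiagU b ζ⁻¹ hζinv]
    have h1 := congrFun (congrFun (hcomm _ hdet hU) a) b
    rw [Matrix.mul_assoc, hD1, hD2, Matrix.diagonal_mul, Matrix.diagonal_mul,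
      ← Matrix.mul_assoc, Matrix.mul_diagonal, Matrix.mul_diagonal, Function.update_self,
      Function.update_self, Function.update_of_ne hab, Function.update_of_ne (Ne.symm hab)]
      at h1
    simp only [Pi.one_apply, one_mul, mul_one] at h1
    by_contra hne
    apply hζ2
    have h2 : ζ * Z a b * ζ = Z a b := by
      rw [h1, mul_assoc, inv_mul_cancel₀ hζ0, mul_one]
    have h3 : (ζ * ζ) * Z a b = 1 * Z a b := by rw [one_mul]; nth_rewrite 2 [← h2]; ring
    exact mul_right_cancel₀ hne h3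
  have hdiag : ∀ a b : Fin n, a ≠ b → Z a a = Z b b := by
    intro a b hab
    obtain ⟨k, hka, hkb⟩ : ∃ k : Fin n, k ≠ a ∧ k ≠ b := by
      by_contra hcon
      push Not at hcon
      have key : ∀ k : Fin n, k.val = a.val ∨ k.val = b.val := fun k => by
        by_cases h : k = a
        · left; rw [h]
        · right; rw [hcon k h]
      have h0 := key ⟨0, by omega⟩
      have h1 := key ⟨1, by omega⟩
      have h2 := key ⟨2, by omega⟩
      simp only at h0 h1 h2
      have hab' : a.val ≠ b.val := fun h => hab (Fin.ext h)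
      omega
    obtain ⟨σ, hσ⟩ : ∃ σ : Equiv.Perm (Fin n), σ = Equiv.swap a b * Equiv.swap b k := ⟨_, rfl⟩
    have hσa : σ a = b := by
      rw [hσ, Equiv.Perm.mul_apply, Equiv.swap_apply_of_ne_of_ne hab (Ne.symm hka),
        Equiv.swap_apply_left]
    have hsign : Equiv.Perm.sign σ = 1 := by
      rw [hσ, Equiv.Perm.sign_mul, Equiv.Perm.sign_swap hab, Equiv.Perm.sign_swap (Ne.symm hkb)]
      simp
    have hdet : (σ.permMatrix F).det = 1 := by
      rw [Matrix.det_permutation, hsign]; simp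
    have hU : (σ.permMatrix F)ᴴ * σ.permMatrix F = 1 := by
      rw [Matrix.conjTranspose_permMatrix, ← Matrix.permMatrix_mul, mul_inv_cancel,
        Matrix.permMatrix_one]
    have h1 := congrFun (congrFun (hcomm _ hdet hU) a) (σ a)
    rw [PEquiv.toMatrix_toPEquiv_mul, PEquiv.mul_toMatrix_toPEquiv] at h1
    simp only [Matrix.submatrix_apply, id, Equiv.symm_apply_apply] at h1
    rw [hσa] at h1
    exact h1.symm
  have hn1 : 0 < n := by omega
  refine ⟨Z ⟨0, hn1⟩ ⟨0, hn1⟩, ?_⟩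
  rw [← hZ]
  ext i j
  rw [Matrix.smul_apply, Matrix.one_apply, smul_eq_mul]
  by_cases hij : i = j
  · subst hij
    rw [if_pos rfl, mul_one]
    by_cases hi : i = ⟨0, hn1⟩
    · rw [hi]
    · exact hdiag i _ hi
  · rw [if_neg hij, mul_zero]
    exact hoff i j hij

theorem psu_pow_eq_one_iff (q : ℕ) (hstar : ∀ x : F, star x = x ^ q)
    (hcard : Fintype.card F = q ^ 2) (n : ℕ) (hn : 3 ≤ n) (g : Cfsg.SU n F q) (k : ℕ) :
    (QuotientGroup.mk' (Subgroup.center (Cfsg.SU n F q)) g) ^ k = 1 ↔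
      ∃ c : F, (g.1.1 : Matrix (Fin n) (Fin n) F) ^ k = c • 1 := by
  rw [← map_pow, QuotientGroup.mk'_apply, QuotientGroup.eq_one_iff]
  constructor
  · intro h
    obtain ⟨c, hc⟩ := su_center_scalar q hstar hcard n hn _ h
    exact ⟨c, by rw [← su_coe_pow]; exact hc⟩
  · rintro ⟨c, hc⟩
    exact su_scalar_center n q _ c (by rw [su_coe_pow]; exact hc)

theorem psu_order_dvd_of (q : ℕ) (hstar : ∀ x : F, star x = x ^ q)
    (hcard : Fintype.card F = q ^ 2) (n : ℕ) (hn : 3 ≤ n) (g : Cfsg.SU n F q) (N : ℕ)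
    (h : ∃ c : F, (g.1.1 : Matrix (Fin n) (Fin n) F) ^ N = c • 1) :
    orderOf (QuotientGroup.mk' (Subgroup.center (Cfsg.SU n F q)) g) ∣ N :=
  orderOf_dvd_of_pow_eq_one ((psu_pow_eq_one_iff q hstar hcard n hn g N).mpr h)

theorem psu_dvd_order_of (q : ℕ) (hstar : ∀ x : F, star x = x ^ q)
    (hcard : Fintype.card F = q ^ 2) (n : ℕ) (hn : 3 ≤ n) (g : Cfsg.SU n F q) (N : ℕ)
    (h : ∀ (k : ℕ) (c : F), (g.1.1 : Matrix (Fin n) (Fin n) F) ^ k = c • 1 → N ∣ k) :
    N ∣ orderOf (QuotientGroup.mk' (Subgroup.center (Cfsg.SU n F q)) g) := by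
  obtain ⟨c, hc⟩ := (psu_pow_eq_one_iff q hstar hcard n hn g _).mp (pow_orderOf_eq_one _)
  exact h _ c hc

theorem diagZ_unitary (n : ℕ) (ζ ζ' : F) (h1 : star ζ * ζ = 1) (h2 : star ζ' * ζ' = 1) :
    (diagZ n ζ ζ')ᴴ * diagZ n ζ ζ' = 1 := by
  unfold diagZ
  rw [diagonal_conjTranspose, diagonal_mul_diagonal, ← diagonal_one]
  congr 1
  funext i
  rw [Pi.star_apply]
  by_cases hi : i.val + 1 < n
  · simp only [if_pos hi, h1]
  · simp only [if_neg hi, h2]

/-- a unipotent element with blocks of sizes `n - 1` and `1`, commuting with `diagZ`. -/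
theorem un_blk_unip (q : ℕ) (hstar : ∀ x : F, star x = x ^ q) (hcard : Fintype.card F = q ^ 2)
    (p : ℕ) [Fact p.Prime] [CharP F p] (n : ℕ) (hn : 2 ≤ n) :
    ∃ U' : Matrix (Fin n) (Fin n) F, U'ᴴ * U' = 1 ∧ (∀ c : ℕ, U' ^ (p ^ c) = 1 ↔ n - 1 ≤ p ^ c) ∧
      ∀ ζ ζ' : F, Commute U' (diagZ n ζ ζ') := by
  classical
  obtain ⟨m, hm⟩ : ∃ m, n = m + 1 := ⟨n - 1, by omega⟩
  subst hm
  obtain ⟨U1, hU1, hU1c⟩ := un_reg_unip (F := F) q hstar hcard p m (by omega)
  let e : Fin m ⊕ Fin 1 ≃ Fin (m + 1) := finSumFinEquiv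
  obtain ⟨B, hB⟩ : ∃ B : Matrix (Fin m ⊕ Fin 1) (Fin m ⊕ Fin 1) F, B = fromBlocks U1 0 0 1 :=
    ⟨_, rfl⟩
  have hBpow : ∀ j : ℕ, B ^ j = fromBlocks (U1 ^ j) 0 0 1 := by
    intro j
    induction j with
    | zero => simp [fromBlocks_one]
    | succ j ih =>
      rw [pow_succ, ih, hB, fromBlocks_multiply]
      simp [pow_succ]
  refine ⟨Matrix.reindexAlgEquiv F F e B, ?_, ?_, ?_⟩
  · rw [Matrix.coe_reindexAlgEquiv, Matrix.reindex_apply, conjTranspose_submatrix,
      Matrix.submatrix_mul_equiv, hB, fromBlocks_conjTranspose, fromBlocks_multiply]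
    simp only [conjTranspose_zero, conjTranspose_one, Matrix.mul_zero, Matrix.zero_mul, add_zero,
      zero_add, Matrix.mul_one, hU1, fromBlocks_one, Matrix.submatrix_one_equiv]
  · intro c
    rw [← map_pow, Nat.add_sub_cancel, ← hU1c c, hBpow]
    constructor
    · intro h
      have h1 : Matrix.reindexAlgEquiv F F e (fromBlocks (U1 ^ p ^ c) 0 0 1) =
          Matrix.reindexAlgEquiv F F e 1 := by rw [h, map_one]
      have h2 := (Matrix.reindexAlgEquiv F F e).injective h1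
      rw [← fromBlocks_one] at h2
      exact (fromBlocks_inj.mp h2).1
    · intro h
      rw [h, fromBlocks_one, map_one]
  · intro ζ ζ'
    show _ * _ = _ * _
    unfold diagZ
    ext i j
    rw [Matrix.mul_diagonal, Matrix.diagonal_mul, Matrix.coe_reindexAlgEquiv,
      Matrix.reindex_apply, Matrix.submatrix_apply]
    obtain ⟨x, rfl⟩ := e.surjective i
    obtain ⟨y, rfl⟩ := e.surjective j
    rw [Equiv.symm_apply_apply, Equiv.symm_apply_apply, hB]
    rcases x with x | x <;> rcases y with y | y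
    · have h1 : (e (Sum.inl x)).val + 1 < m + 1 := by
        simp [e]
      have h2 : (e (Sum.inl y)).val + 1 < m + 1 := by
        simp [e]
      rw [if_pos h1, if_pos h2, mul_comm]
    · simp
    · simp
    · have h1 : ¬ (e (Sum.inr x)).val + 1 < m + 1 := by
        simp [e]
      have h2 : ¬ (e (Sum.inr y)).val + 1 < m + 1 := by
        simp [e]
      rw [if_neg h1, if_neg h2, mul_comm]

end UnF

end Cfsg.Agent.H62
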