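import Mathlib
import Cfsg.Agent.H62.UnE
import Cfsg.Agent.H62.AbsorbC

set_option autoImplicit false
set_option linter.style.haveILetI false
set_option linter.unusedSimpArgs false
set_option linter.unusedSectionVars false
set_option linter.unusedVariables false

namespace Cfsg.Agent.H62

open Matrix Polynomial

/-- the conjugate transpose of a polynomial in a matrix. -/
theorem conj_aeval {F : Type*} [Field F] [StarRing F] {l : Type*} [Fintype l] [DecidableEq l]
    (A : Matrix l l F) (P : F[X]) :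
    (aeval A P)ᴴ = aeval Aᴴ (P.map (starRingEnd F)) := by
  induction P using Polynomial.induction_on with
  | C a =>
    rw [aeval_C, Polynomial.map_C, aeval_C, Algebra.algebraMap_eq_smul_one,
      Algebra.algebraMap_eq_smul_one, conjTranspose_smul, conjTranspose_one, starRingEnd_apply]
  | add p q hp hq => rw [map_add, conjTranspose_add, hp, hq, Polynomial.map_add, map_add]
  | monomial n a _ =>
    rw [Polynomial.map_mul, Polynomial.map_C, Polynomial.map_pow, Polynomial.map_X, map_mul,
      map_mul, aeval_C, aeval_C, map_pow, map_pow, aeval_X, aeval_X,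
      Algebra.algebraMap_eq_smul_one, Algebra.algebraMap_eq_smul_one, Matrix.smul_mul,
      Matrix.one_mul, Matrix.smul_mul, Matrix.one_mul, conjTranspose_smul, conjTranspose_pow,
      starRingEnd_apply]

/-- the determinant of an endomorphism annihilated by an irreducible polynomial. -/
theorem irr_end_det {F : Type*} [Field F] [Fintype F] {W : Type*} [AddCommGroup W] [Module F W]
    [Module.Finite F W] (T : W →ₗ[F] W) (f : F[X]) (hf : Irreducible f) (hfT : aeval T f = 0) :
    ∃ e : ℕ, f.natDegree * e = Module.finrank F W ∧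
      algebraMap F (AdjoinRoot f) (LinearMap.det T) =
        (AdjoinRoot.root f ^ ((Fintype.card F ^ f.natDegree - 1) / (Fintype.card F - 1))) ^ e := by
  classical
  haveI : Fact (Irreducible f) := ⟨hf⟩
  have hfne : f ≠ 0 := hf.ne_zero
  let pb := AdjoinRoot.powerBasis hfne
  haveI : Module.Finite F (AdjoinRoot f) := pb.finite
  haveI : Finite (AdjoinRoot f) := Module.finite_of_finite F
  haveI : Fintype (AdjoinRoot f) := Fintype.ofFinite _
  have hfr : Module.finrank F (AdjoinRoot f) = f.natDegree := by rw [pb.finrank]; rfl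
  let Ψ : AdjoinRoot f →ₐ[F] Module.End F W :=
    Ideal.Quotient.liftₐ (Ideal.span {f}) (aeval T) (by
      intro a ha
      obtain ⟨c, rfl⟩ := Ideal.mem_span_singleton.mp ha
      rw [map_mul, hfT, zero_mul])
  have hΨ : Ψ (AdjoinRoot.root f) = T := by
    show aeval T (X : F[X]) = T
    exact aeval_X T
  letI : Module (AdjoinRoot f) W :=
    Module.compHom W (Ψ : AdjoinRoot f →+* Module.End F W)
  have hsmul : ∀ (k : AdjoinRoot f) (v : W), k • v = Ψ k v := fun k v => rfl
  haveI : IsScalarTower F (AdjoinRoot f) W := ⟨fun a k v => by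
    rw [hsmul, hsmul, map_smul]; rfl⟩
  haveI : Module.Finite (AdjoinRoot f) W := Module.Finite.of_restrictScalars_finite F _ _
  let T' : W →ₗ[AdjoinRoot f] W := AdjoinRoot.root f • LinearMap.id
  have hT : T'.restrictScalars F = T := by
    apply LinearMap.ext; intro v
    show AdjoinRoot.root f • v = _
    rw [hsmul, hΨ]
  have hdet1 : LinearMap.det (T'.restrictScalars F) = LinearMap.det T := by rw [hT]
  rw [LinearMap.det_restrictScalars] at hdet1
  have hdetT : LinearMap.det T' =
      AdjoinRoot.root f ^ Module.finrank (AdjoinRoot f) W := by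
    rw [LinearMap.det_smul, LinearMap.det_id, mul_one]
  rw [hdetT, map_pow] at hdet1
  have h2 := congrArg (algebraMap F (AdjoinRoot f)) hdet1
  rw [map_pow, FiniteField.algebraMap_norm_eq_pow] at h2
  have hcardK : Nat.card (AdjoinRoot f) = Fintype.card F ^ f.natDegree := by
    rw [Module.natCard_eq_pow_finrank (K := F) (V := AdjoinRoot f), Nat.card_eq_fintype_card,
      hfr]
  rw [hcardK, Nat.card_eq_fintype_card] at h2
  refine ⟨Module.finrank (AdjoinRoot f) W, ?_, h2.symm⟩
  rw [← hfr, Module.finrank_mul_finrank F (AdjoinRoot f) W]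

/-- powers of a norm. -/
theorem nt_norm_pow {K : Type*} [Field K] (Q d e : ℕ) (hQ : 2 ≤ Q) (ρ : K)
    (h1 : ρ ^ (Q ^ d - 1) = 1) : ρ ^ sgM' Q (d * e) = (ρ ^ sgM' Q d) ^ e := by
  obtain ⟨l, hl⟩ : ∃ l, l = ρ ^ sgM' Q d := ⟨_, rfl⟩
  rw [← hl]
  have hl1 : l ^ (Q - 1) = 1 := by
    rw [hl, ← pow_mul, sgM'_mul Q d hQ, h1]
  have hlq : l ^ Q = l := by
    have hq' : Q = (Q - 1) + 1 := by omega
    rw [hq', pow_succ, hl1, one_mul]
  have hlqj : ∀ j : ℕ, l ^ (Q ^ j) = l := by
    intro j
    induction j with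
    | zero => simp
    | succ j ih => rw [pow_succ, pow_mul, ih, hlq]
  have hE : l ^ (∑ i ∈ Finset.range e, (Q ^ d) ^ i) = l ^ e := by
    rw [← Finset.prod_pow_eq_pow_sum]
    have : ∀ i ∈ Finset.range e, l ^ ((Q ^ d) ^ i) = l := by
      intro i _
      rw [← pow_mul]; exact hlqj _
    rw [Finset.prod_congr rfl this, Finset.prod_const, Finset.card_range]
  have hDE : sgM' Q (d * e) = sgM' Q d * ∑ i ∈ Finset.range e, (Q ^ d) ^ i := by
    have hqd : 2 ≤ Q ^ d ∨ d = 0 := by
      rcases Nat.eq_zero_or_pos d with h | h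
      · right; exact h
      · left
        calc 2 ≤ Q := hQ
          _ = Q ^ 1 := (pow_one Q).symm
          _ ≤ Q ^ d := Nat.pow_le_pow_right (by omega) h
    rcases hqd with hqd | rfl
    · have e1 : sgM' Q (d * e) * (Q - 1) = Q ^ (d * e) - 1 := sgM'_mul Q (d * e) hQ
      have e2 : sgM' Q d * (Q - 1) = Q ^ d - 1 := sgM'_mul Q d hQ
      have e3 : (∑ i ∈ Finset.range e, (Q ^ d) ^ i) * (Q ^ d - 1) = (Q ^ d) ^ e - 1 :=
        sgM'_mul (Q ^ d) e hqd
      have e4 : sgM' Q (d * e) * (Q - 1) =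
          (sgM' Q d * ∑ i ∈ Finset.range e, (Q ^ d) ^ i) * (Q - 1) := by
        calc sgM' Q (d * e) * (Q - 1) = Q ^ (d * e) - 1 := e1
          _ = (Q ^ d) ^ e - 1 := by rw [pow_mul]
          _ = (∑ i ∈ Finset.range e, (Q ^ d) ^ i) * (Q ^ d - 1) := e3.symm
          _ = (∑ i ∈ Finset.range e, (Q ^ d) ^ i) * (sgM' Q d * (Q - 1)) := by rw [e2]
          _ = _ := by ring
      exact Nat.eq_of_mul_eq_mul_right (by omega) e4
    · simp [sgM']
  rw [hDE, pow_mul, ← hl, hE]

theorem prod_odd_even_split {M : Type*} [CommMonoid M] (b : ℕ → M) (m : ℕ) :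
    ∏ j ∈ Finset.range (2 * m + 1), b j =
      (∏ i ∈ Finset.range (m + 1), b (2 * i)) * ∏ i ∈ Finset.range m, b (2 * i + 1) := by
  induction m with
  | zero => simp
  | succ m ih =>
    have e : 2 * (m + 1) + 1 = (2 * m + 1) + 1 + 1 := by ring
    rw [e, Finset.prod_range_succ, Finset.prod_range_succ, ih,
      Finset.prod_range_succ (fun i => b (2 * i)) (m + 1),
      Finset.prod_range_succ (fun i => b (2 * i + 1)) m]
    have e2 : 2 * (m + 1) = 2 * m + 1 + 1 := by ring
    rw [e2]
    simp only [mul_assoc, mul_comm, mul_left_comm]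

theorem prod_periodic_two {M : Type*} [CommMonoid M] (m : ℕ) (b : ℕ → M)
    (hb : ∀ j, b (j + (2 * m + 1)) = b j) :
    ∏ i ∈ Finset.range (2 * m + 1), b (2 * i) = ∏ j ∈ Finset.range (2 * m + 1), b j := by
  rw [prod_odd_even_split b m]
  have e : 2 * m + 1 = (m + 1) + m := by ring
  rw [e, Finset.prod_range_add]
  congr 1
  apply Finset.prod_congr rfl
  intro i _
  have e2 : 2 * (m + 1 + i) = (2 * i + 1) + (2 * m + 1) := by ring
  rw [e2, hb]

theorem prod_periodic_pow {M : Type*} [CommMonoid M] (d e : ℕ) (b : ℕ → M)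
    (hb : ∀ j, b (j + d) = b j) :
    ∏ j ∈ Finset.range (d * e), b j = (∏ j ∈ Finset.range d, b j) ^ e := by
  have hk : ∀ k x : ℕ, b (d * k + x) = b x := by
    intro k
    induction k with
    | zero => intro x; simp
    | succ k ih =>
      intro x
      have e1 : d * (k + 1) + x = (d * k + x) + d := by ring
      rw [e1, hb, ih]
  induction e with
  | zero => simp
  | succ e ih =>
    rw [mul_add, mul_one, Finset.prod_range_add, ih, pow_succ]
    congr 1
    apply Finset.prod_congr rfl
    intro x _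
    exact hk e x

/-- the arithmetic core of the self-dual case. -/
theorem un_arith_a {K : Type*} [Field K] (q d e : ℕ) (hq : 2 ≤ q) (hd : Odd d) (ρ : K)
    (hρ0 : ρ ≠ 0) (h1 : ρ ^ (q ^ d) = ρ⁻¹) (h2 : (ρ ^ sgM' (q ^ 2) d) ^ e = 1) :
    ρ ^ unM0 q (d * e) = 1 := by
  classical
  obtain ⟨b, hb⟩ : ∃ b : ℕ → K, ∀ j, b j = if Even j then ρ ^ (q ^ j) else (ρ ^ (q ^ j))⁻¹ :=
    ⟨fun j => if Even j then ρ ^ (q ^ j) else (ρ ^ (q ^ j))⁻¹, fun j => rfl⟩
  have hshift : ∀ j, ρ ^ (q ^ (j + d)) = (ρ ^ (q ^ j))⁻¹ := by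
    intro j
    rw [pow_add, mul_comm, pow_mul, h1, inv_pow]
  have hper : ∀ j, b (j + d) = b j := by
    intro j
    rw [hb, hb, hshift]
    have hpar : Even (j + d) ↔ ¬ Even j := by
      rw [Nat.even_add]
      have hd' : ¬ Even d := Nat.not_even_iff_odd.mpr hd
      constructor
      · intro h hj; exact hd' (h.mp hj)
      · intro h
        exact ⟨fun hj => absurd hj h, fun hd'' => absurd hd'' hd'⟩
    by_cases hj : Even j
    · rw [if_neg (by rw [hpar]; exact not_not.mpr hj), if_pos hj, inv_inv]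
    · rw [if_pos (hpar.mpr hj), if_neg hj]
  have hN : ρ ^ sgM' (q ^ 2) d = ∏ j ∈ Finset.range d, b j := by
    unfold sgM'
    rw [← Finset.prod_pow_eq_pow_sum]
    have h3 : ∀ i ∈ Finset.range d, ρ ^ ((q ^ 2) ^ i) = b (2 * i) := by
      intro i _
      rw [hb, if_pos (even_two_mul i), ← pow_mul]
    rw [Finset.prod_congr rfl h3]
    obtain ⟨m, rfl⟩ := hd
    exact prod_periodic_two m b hper
  have hprod : ∏ j ∈ Finset.range (d * e), b j = 1 := by
    rw [prod_periodic_pow d e b hper, ← hN, h2]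
  obtain ⟨E, hE⟩ : ∃ E : ℕ → ℕ, ∀ n, E n = ∑ j ∈ Finset.range n, (if Even j then q ^ j else 0) :=
    ⟨_, fun n => rfl⟩
  obtain ⟨O, hO⟩ : ∃ O : ℕ → ℕ, ∀ n, O n = ∑ j ∈ Finset.range n, (if Even j then 0 else q ^ j) :=
    ⟨_, fun n => rfl⟩
  have hEs : ∀ n, E (n + 1) = E n + (if Even n then q ^ n else 0) := by
    intro n; rw [hE, hE, Finset.sum_range_succ]
  have hOs : ∀ n, O (n + 1) = O n + (if Even n then 0 else q ^ n) := by
    intro n; rw [hO, hO, Finset.sum_range_succ]
  have hEO : ∀ n, ∏ j ∈ Finset.range n, b j = ρ ^ E n * (ρ ^ O n)⁻¹ := by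
    intro n
    induction n with
    | zero => rw [hE, hO]; simp
    | succ n ih =>
      rw [Finset.prod_range_succ, ih, hEs, hOs, hb]
      by_cases hn : Even n
      · rw [if_pos hn, if_pos hn, if_pos hn, add_zero, pow_add]
        ring
      · rw [if_neg hn, if_neg hn, if_neg hn, add_zero, pow_add, mul_inv]
        ring
  have harith : ∀ n, (Even n → (q + 1) * E n + q ^ n = (q + 1) * O n + 1) ∧
      (¬ Even n → (q + 1) * E n = (q + 1) * O n + q ^ n + 1) := by
    intro n
    induction n with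
    | zero =>
      refine ⟨fun _ => ?_, fun h => absurd (by decide : Even 0) h⟩
      rw [hE, hO]; simp
    | succ n ih =>
      have hpar : Even (n + 1) ↔ ¬ Even n := by
        rw [Nat.even_add_one]
      rw [hEs, hOs]
      constructor
      · intro h
        have hn : ¬ Even n := hpar.mp h
        have h3 := ih.2 hn
        rw [if_neg hn, if_neg hn, add_zero, mul_add, pow_succ]
        linarith
      · intro h
        have hn : Even n := by
          by_contra hn
          exact h (hpar.mpr hn)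
        have h3 := ih.1 hn
        rw [if_pos hn, if_pos hn, add_zero, mul_add, pow_succ]
        linarith
  obtain ⟨n, hn⟩ : ∃ n, n = d * e := ⟨_, rfl⟩
  rw [← hn] at hprod ⊢
  rw [hEO] at hprod
  have hEne : ρ ^ E n ≠ 0 := pow_ne_zero _ hρ0
  have hOne : ρ ^ O n ≠ 0 := pow_ne_zero _ hρ0
  have hEOeq : ρ ^ E n = ρ ^ O n := by
    have := congrArg (· * ρ ^ O n) hprod
    rwa [mul_assoc, inv_mul_cancel₀ hOne, mul_one, one_mul] at this
  have hqn : 1 ≤ q ^ n := Nat.one_le_pow _ _ (by omega)
  by_cases he : Even n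
  · have hM := unM0_mul_even q n he
    have h3 := (harith n).1 he
    have h4 : (q + 1) * (E n + unM0 q n) = (q + 1) * O n := by
      rw [mul_add, mul_comm (q + 1) (unM0 q n), hM]
      omega
    have h5 : E n + unM0 q n = O n := Nat.eq_of_mul_eq_mul_left (by omega) h4
    rw [← h5, pow_add] at hEOeq
    have h6 : ρ ^ E n * 1 = ρ ^ E n * ρ ^ unM0 q n := by rw [mul_one]; exact hEOeq
    exact (mul_left_cancel₀ hEne h6).symm
  · have hM := unM0_mul_odd q n (Nat.not_even_iff_odd.mp he)
    have h3 := (harith n).2 he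
    have h4 : (q + 1) * E n = (q + 1) * (O n + unM0 q n) := by
      rw [mul_add, mul_comm (q + 1) (unM0 q n), hM]
      omega
    have h5 : E n = O n + unM0 q n := Nat.eq_of_mul_eq_mul_left (by omega) h4
    rw [h5, pow_add] at hEOeq
    have h6 : ρ ^ O n * ρ ^ unM0 q n = ρ ^ O n * 1 := by rw [mul_one]; exact hEOeq
    exact mul_left_cancel₀ hOne h6

end Cfsg.Agent.H62
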