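import Mathlib
import Cfsg.Agent.H62.UnG
import Cfsg.Agent.H62.UnD

set_option autoImplicit false
set_option linter.style.haveILetI false
set_option linter.unusedSimpArgs false
set_option linter.unusedSectionVars false
set_option linter.unusedVariables false

namespace Cfsg.Agent.H62

open Matrix Polynomial

/-- a unitary matrix over a finite field has finite order and its adjoint is a power of it. -/
theorem un_adj_pow {F : Type*} [Field F] [Fintype F] [StarRing F] (n : ℕ)
    (s : Matrix (Fin n) (Fin n) F) (hs : sᴴ * s = 1) :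
    ∃ o : ℕ, 1 ≤ o ∧ s ^ o = 1 ∧ sᴴ = s ^ (o - 1) := by
  classical
  have hs' : s * sᴴ = 1 := mul_eq_one_comm.mp hs
  let u : (Matrix (Fin n) (Fin n) F)ˣ := ⟨s, sᴴ, hs', hs⟩
  have ho : 0 < orderOf u := orderOf_pos u
  have h1 : s ^ orderOf u = 1 := by
    have := congrArg Units.val (pow_orderOf_eq_one u)
    rwa [Units.val_pow_eq_pow_val, Units.val_one] at this
  refine ⟨orderOf u, ho, h1, ?_⟩
  have e : orderOf u = 1 + (orderOf u - 1) := by omega
  calc sᴴ = sᴴ * s ^ orderOf u := by rw [h1, mul_one]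
    _ = sᴴ * (s * s ^ (orderOf u - 1)) := by
        nth_rewrite 1 [e]
        rw [pow_add, pow_one]
    _ = s ^ (orderOf u - 1) := by rw [← mul_assoc, hs, one_mul]

theorem q2_sub_one (q : ℕ) (hq : 1 ≤ q) : q ^ 2 - 1 = (q + 1) * (q - 1) := by
  obtain ⟨k, rfl⟩ : ∃ k, q = k + 1 := ⟨q - 1, by omega⟩
  have : (k + 1) ^ 2 = (k + 1 + 1) * k + 1 := by ring
  rw [this]; simp

/-- the self-dual irreducible case. -/
theorem un_case_a {F : Type*} [Field F] [Fintype F] [StarRing F] (q : ℕ)
    (hstar : ∀ x : F, star x = x ^ q) (hcard : Fintype.card F = q ^ 2)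
    (p : ℕ) [Fact p.Prime] [CharP F p] (a : ℕ) (hq : q = p ^ a)
    (n : ℕ) (hn : 1 ≤ n) (s : Matrix (Fin n) (Fin n) F) (hs : sᴴ * s = 1) (hdet : s.det = 1)
    (f : F[X]) (hf : Irreducible f) (hfs : aeval s f = 0) :
    ∃ c : F, s ^ unM q n = c • (1 : Matrix (Fin n) (Fin n) F) := by
  classical
  haveI : Fact (Irreducible f) := ⟨hf⟩
  haveI : Nonempty (Fin n) := ⟨⟨0, hn⟩⟩
  have hfne : f ≠ 0 := hf.ne_zero
  have hq2 : 2 ≤ q := star_q_ge_two (F := F) q hcard
  have hQ2 : 2 ≤ q ^ 2 := by nlinarith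
  let pb := AdjoinRoot.powerBasis hfne
  haveI : Module.Finite F (AdjoinRoot f) := pb.finite
  haveI : Finite (AdjoinRoot f) := Module.finite_of_finite F
  haveI : Fintype (AdjoinRoot f) := Fintype.ofFinite _
  have hfr : Module.finrank F (AdjoinRoot f) = f.natDegree := by rw [pb.finrank]; rfl
  let Φ : AdjoinRoot f →ₐ[F] Matrix (Fin n) (Fin n) F :=
    Ideal.Quotient.liftₐ (Ideal.span {f}) (aeval s) (by
      intro x hx
      obtain ⟨c, rfl⟩ := Ideal.mem_span_singleton.mp hx
      rw [map_mul, hfs, zero_mul])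
  have hΦ : Φ (AdjoinRoot.root f) = s := by
    show aeval s (X : F[X]) = s
    exact aeval_X s
  have hΦinj : Function.Injective Φ :=
    (Φ : AdjoinRoot f →+* Matrix (Fin n) (Fin n) F).injective
  obtain ⟨o, ho1, hso, hsH⟩ := un_adj_pow n s hs
  have hρo : AdjoinRoot.root f ^ o = 1 := by
    apply hΦinj
    rw [map_pow, hΦ, hso, map_one]
  have hρ0 : AdjoinRoot.root f ≠ 0 := by
    intro h
    rw [h, zero_pow (by omega)] at hρo
    exact zero_ne_one hρo
  have hρinv : AdjoinRoot.root f ^ (o - 1) = (AdjoinRoot.root f)⁻¹ := by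
    have e : o = (o - 1) + 1 := by omega
    rw [e, pow_succ] at hρo
    exact eq_inv_of_mul_eq_one_left hρo
  have hg : aeval (AdjoinRoot.root f ^ (o - 1)) (f.map (starRingEnd F)) = 0 := by
    apply hΦinj
    rw [← Polynomial.aeval_algHom_apply, map_pow, hΦ, ← hsH, ← conj_aeval, hfs,
      conjTranspose_zero, map_zero]
  have hg' : f.eval₂ ((algebraMap F (AdjoinRoot f)).comp (starRingEnd F))
      (AdjoinRoot.root f ^ (o - 1)) = 0 := by
    rw [← Polynomial.eval₂_map, ← Polynomial.aeval_def]; exact hg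
  let ι : AdjoinRoot f →+* AdjoinRoot f :=
    AdjoinRoot.lift ((algebraMap F (AdjoinRoot f)).comp (starRingEnd F))
      (AdjoinRoot.root f ^ (o - 1)) hg'
  have hιρ : ι (AdjoinRoot.root f) = (AdjoinRoot.root f)⁻¹ := by
    rw [← hρinv]; exact AdjoinRoot.lift_root hg'
  have hιF : ∀ c : F, ι (algebraMap F (AdjoinRoot f) c) = algebraMap F (AdjoinRoot f) (star c) := by
    intro c
    show AdjoinRoot.lift _ _ hg' (AdjoinRoot.of f c) = _
    rw [AdjoinRoot.lift_of]
    rfl
  have hιι : ∀ x, ι (ι x) = x := by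
    have h : ι.comp ι = RingHom.id _ := by
      apply AdjoinRoot.ringHom_ext
      · apply RingHom.ext
        intro c
        show ι (ι (algebraMap F (AdjoinRoot f) c)) = algebraMap F (AdjoinRoot f) c
        rw [hιF, hιF, star_star]
      · show ι (ι (AdjoinRoot.root f)) = AdjoinRoot.root f
        rw [hιρ, map_inv₀, hιρ, inv_inv]
    intro x; exact RingHom.congr_fun h x
  have hcardK : Nat.card (AdjoinRoot f) = (q ^ 2) ^ f.natDegree := by
    rw [Module.natCard_eq_pow_finrank (K := F) (V := AdjoinRoot f), Nat.card_eq_fintype_card,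
      hfr, hcard]
  haveI : CharP (AdjoinRoot f) p :=
    charP_of_injective_algebraMap (algebraMap F (AdjoinRoot f)).injective p
  letI : Algebra (ZMod p) (AdjoinRoot f) := ZMod.algebra (AdjoinRoot f) p
  have hcardK' : Nat.card (AdjoinRoot f) = p ^ Module.finrank (ZMod p) (AdjoinRoot f) := by
    rw [Module.natCard_eq_pow_finrank (K := ZMod p) (V := AdjoinRoot f), Nat.card_zmod]
  have hm : Module.finrank (ZMod p) (AdjoinRoot f) = 2 * (a * f.natDegree) := by
    have h1 : p ^ Module.finrank (ZMod p) (AdjoinRoot f) = p ^ (2 * (a * f.natDegree)) := by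
      rw [← hcardK', hcardK, hq, ← pow_mul, ← pow_mul]; congr 1; ring
    exact Nat.pow_right_injective (Fact.out : p.Prime).two_le h1
  let ιa : AdjoinRoot f →ₐ[ZMod p] AdjoinRoot f :=
    { ι with
      commutes' := fun x =>
        RingHom.congr_fun (Subsingleton.elim (ι.comp (algebraMap (ZMod p) (AdjoinRoot f)))
          (algebraMap (ZMod p) (AdjoinRoot f))) x }
  have hιa : ∀ x, ιa x = ι x := fun x => rfl
  obtain ⟨⟨i, hi⟩, hiσ⟩ :=
    (FiniteField.bijective_frobeniusAlgHom_pow (ZMod p) (AdjoinRoot f)).2 ιa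
  replace hiσ : FiniteField.frobeniusAlgHom (ZMod p) (AdjoinRoot f) ^ i = ιa := hiσ
  rw [hm] at hi
  have hιι' : ιa * ιa = 1 := by
    apply AlgHom.ext; intro x
    rw [AlgHom.mul_apply, AlgHom.one_apply, hιa, hιa, hιι]
  have hDi : 2 * (a * f.natDegree) ∣ 2 * i := by
    rw [← hm, ← FiniteField.orderOf_frobeniusAlgHom (ZMod p) (AdjoinRoot f)]
    apply orderOf_dvd_of_pow_eq_one
    rw [mul_comm, pow_mul, hiσ, pow_two, hιι']
  have hιfun : ∀ x, ι x = x ^ (p ^ i) := by
    intro x
    have e := DFunLike.congr_fun hiσ x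
    simp only [AlgHom.coe_pow, FiniteField.coe_frobeniusAlgHom, pow_iterate, ZMod.card] at e
    rw [← hιa, ← e]
  obtain ⟨t, ht⟩ := star_not_fixed (F := F) q hstar hcard
  have hi' : i = 0 ∨ i = a * f.natDegree := by
    obtain ⟨c, hc⟩ := hDi
    have hc' : c = 0 ∨ c = 1 := by
      rcases c with _ | _ | c
      · left; rfl
      · right; rfl
      · exfalso
        have h1 : 2 * (a * f.natDegree) * 2 ≤ 2 * (a * f.natDegree) * (c + 1 + 1) :=
          Nat.mul_le_mul_left _ (by omega)
        rw [← hc] at h1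
        omega
    rcases hc' with rfl | rfl
    · left; omega
    · right; omega
  have hiad : i = a * f.natDegree := by
    rcases hi' with h0 | h0
    · exfalso
      apply ht
      apply (algebraMap F (AdjoinRoot f)).injective
      rw [← hιF, hιfun, h0, pow_zero, pow_one]
    · exact h0
  have hιq : ∀ x, ι x = x ^ (q ^ f.natDegree) := by
    intro x
    rw [hιfun, hiad, hq, pow_mul]
  have hdodd : Odd f.natDegree := by
    by_contra hd
    rw [Nat.not_odd_iff_even] at hd
    obtain ⟨j, hj⟩ := hd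
    apply ht
    apply (algebraMap F (AdjoinRoot f)).injective
    rw [← hιF, hιq, ← map_pow]
    congr 1
    have e : q ^ f.natDegree = (q ^ 2) ^ j := by rw [hj, ← pow_mul]; congr 1; omega
    rw [e]
    have : ∀ j : ℕ, t ^ ((q ^ 2) ^ j) = t := by
      intro j
      induction j with
      | zero => simp
      | succ j ih => rw [pow_succ, pow_mul, ih, star_pow_q2 q hcard]
    exact this j
  have h1 : AdjoinRoot.root f ^ (q ^ f.natDegree) = (AdjoinRoot.root f)⁻¹ := by
    rw [← hιq, hιρ]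
  have hfT : aeval (Matrix.toLin' s) f = 0 := by
    have := Polynomial.aeval_algHom_apply
      (Matrix.toLinAlgEquiv' : Matrix (Fin n) (Fin n) F ≃ₐ[F] _).toAlgHom s f
    rw [hfs, map_zero] at this
    exact this
  obtain ⟨e, he, hdetK⟩ := irr_end_det (Matrix.toLin' s) f hf hfT
  rw [Module.finrank_fin_fun] at he
  rw [LinearMap.det_toLin', hdet, map_one, hcard] at hdetK
  have hD : ((q ^ 2) ^ f.natDegree - 1) / (q ^ 2 - 1) = sgM' (q ^ 2) f.natDegree := by
    unfold sgM'; rw [Nat.geomSum_eq hQ2 f.natDegree]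
  rw [hD] at hdetK
  have h3 := un_arith_a q f.natDegree e hq2 hdodd (AdjoinRoot.root f) hρ0 h1 hdetK.symm
  rw [he] at h3
  have h4 : (AdjoinRoot.root f ^ unM q n) ^ (Fintype.card F - 1) = 1 := by
    rw [hcard]
    obtain ⟨b, hb⟩ := unM_mul_dvd q n
    rw [q2_sub_one q (by omega), ← pow_mul, ← mul_assoc, hb, mul_assoc, pow_mul, h3, one_pow]
  obtain ⟨c, hc⟩ := mem_range_of_pow_card_sub_one (F := F) _ h4
  refine ⟨c, ?_⟩
  rw [← hΦ, ← map_pow, ← hc, AlgHom.commutes, Algebra.algebraMap_eq_smul_one]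

end Cfsg.Agent.H62
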