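import Mathlib
import Cfsg.Agent.H62.UnH

set_option autoImplicit false
set_option linter.style.haveILetI false
set_option linter.unusedSimpArgs false
set_option linter.unusedSectionVars false
set_option linter.unusedVariables false

namespace Cfsg.Agent.H62

open Matrix Polynomial

theorem rank_map_star_le {F : Type*} [Field F] [Fintype F] [StarRing F] (n : ℕ)
    (A : Matrix (Fin n) (Fin n) F) : A.rank ≤ (A.map star).rank := by
  classical
  have hmem : ∀ w : Fin n → F, w ∈ LinearMap.range A.mulVecLin →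
      star ∘ w ∈ LinearMap.range (A.map star).mulVecLin := by
    intro w hw
    obtain ⟨u, rfl⟩ := hw
    refine ⟨star ∘ u, ?_⟩
    funext i
    exact (RingHom.map_mulVec (starRingEnd F) A u i).symm
  have hcard : Nat.card (LinearMap.range A.mulVecLin) ≤
      Nat.card (LinearMap.range (A.map star).mulVecLin) := by
    apply Nat.card_le_card_of_injective
      (fun w : LinearMap.range A.mulVecLin =>
        (⟨star ∘ (w : Fin n → F), hmem w.1 w.2⟩ : LinearMap.range (A.map star).mulVecLin))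
    intro w1 w2 h
    apply Subtype.ext
    have h' := congrArg Subtype.val h
    funext i
    exact star_injective (congrFun h' i)
  rw [Module.natCard_eq_pow_finrank (K := F) (V := LinearMap.range A.mulVecLin),
    Module.natCard_eq_pow_finrank (K := F) (V := LinearMap.range (A.map star).mulVecLin)] at hcard
  have hQ : 1 < Nat.card F := by rw [Nat.card_eq_fintype_card]; exact Fintype.one_lt_card
  exact (Nat.pow_le_pow_iff_right hQ).mp hcard

theorem rank_conj_eq {F : Type*} [Field F] [Fintype F] [StarRing F] (n : ℕ)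
    (A : Matrix (Fin n) (Fin n) F) : Aᴴ.rank = A.rank := by
  have h1 : (A.map star).rank = A.rank := by
    apply le_antisymm
    · have := rank_map_star_le n (A.map star)
      have e : (A.map star).map star = A := by
        ext i j; simp
      rwa [e] at this
    · exact rank_map_star_le n A
  have h2 : Aᴴ = (A.map star)ᵀ := by
    ext i j; rfl
  rw [h2, Matrix.rank_transpose, h1]

theorem idem_rank_half {F : Type*} [Field F] [Fintype F] [StarRing F] (n : ℕ)
    (e1 : Matrix (Fin n) (Fin n) F) (hidem : e1 * e1 = e1) (hsum : e1 + e1ᴴ = 1) :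
    n = 2 * Module.finrank F (LinearMap.range (Matrix.toLin' e1)) := by
  have h12 : e1 * e1ᴴ = 0 := by
    have : e1ᴴ = 1 - e1 := eq_sub_of_add_eq' hsum
    rw [this, mul_sub, mul_one, hidem, sub_self]
  have hker : LinearMap.ker (Matrix.toLin' e1) = LinearMap.range (Matrix.toLin' e1ᴴ) := by
    ext v
    simp only [LinearMap.mem_ker, LinearMap.mem_range, Matrix.toLin'_apply]
    constructor
    · intro hv
      refine ⟨v, ?_⟩
      have : e1ᴴ *ᵥ v = (1 - e1) *ᵥ v := by rw [eq_sub_of_add_eq' hsum]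
      rw [this, Matrix.sub_mulVec, Matrix.one_mulVec, hv, sub_zero]
    · rintro ⟨u, rfl⟩
      rw [Matrix.mulVec_mulVec, h12, Matrix.zero_mulVec]
  have h1 := LinearMap.finrank_range_add_finrank_ker (Matrix.toLin' e1)
  rw [hker, Module.finrank_fin_fun] at h1
  have h2 : Module.finrank F (LinearMap.range (Matrix.toLin' e1ᴴ)) =
      Module.finrank F (LinearMap.range (Matrix.toLin' e1)) := by
    have := rank_conj_eq n e1
    unfold Matrix.rank at this
    rw [Matrix.toLin'_apply', Matrix.toLin'_apply']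
    exact this
  omega

/-- the split case. -/
theorem un_case_b {F : Type*} [Field F] [Fintype F] [StarRing F] (q : ℕ)
    (hstar : ∀ x : F, star x = x ^ q) (hcard : Fintype.card F = q ^ 2)
    (n : ℕ) (hn : 1 ≤ n) (s e1 : Matrix (Fin n) (Fin n) F) (hs : sᴴ * s = 1) (hdet : s.det = 1)
    (hidem : e1 * e1 = e1) (hcomm : Commute s e1) (hsum : e1 + e1ᴴ = 1)
    (f : F[X]) (hf : Irreducible f) (hfs : aeval s f * e1 = 0) :
    ∃ c : F, s ^ unM q n = c • (1 : Matrix (Fin n) (Fin n) F) := by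
  classical
  haveI : Fact (Irreducible f) := ⟨hf⟩
  haveI : Nonempty (Fin n) := ⟨⟨0, hn⟩⟩
  have hfne : f ≠ 0 := hf.ne_zero
  have hq2 : 2 ≤ q := star_q_ge_two (F := F) q hcard
  have hQ2 : 2 ≤ q ^ 2 := by nlinarith
  have hs' : s * sᴴ = 1 := mul_eq_one_comm.mp hs
  have hrank := idem_rank_half n e1 hidem hsum
  obtain ⟨e2, he2⟩ : ∃ e2, e2 = e1ᴴ := ⟨_, rfl⟩
  rw [← he2] at hsum
  have he2' : e2 = 1 - e1 := eq_sub_of_add_eq' hsum
  have h12 : e1 * e2 = 0 := by rw [he2', mul_sub, mul_one, hidem, sub_self]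
  have h21 : e2 * e1 = 0 := by rw [he2', sub_mul, one_mul, hidem, sub_self]
  have hidem2 : e2 * e2 = e2 := by
    rw [he2', mul_sub, mul_one, sub_mul, one_mul, hidem, sub_self, sub_zero]
  have hcomm2 : Commute s e2 := by rw [he2']; exact (Commute.one_right s).sub_right hcomm
  have he2H : e2ᴴ = e1 := by rw [he2, conjTranspose_conjTranspose]
  have hcommH : sᴴ * e1 = e1 * sᴴ := by
    have := congrArg conjTranspose hcomm2.eq
    rw [conjTranspose_mul, conjTranspose_mul, he2H] at this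
    exact this.symm
  have he10 : e1 ≠ 0 := by
    intro h
    rw [he2, h, conjTranspose_zero, add_zero] at hsum
    exact zero_ne_one hsum
  obtain ⟨B, hB⟩ : ∃ B, B = s * e1 + e2 := ⟨_, rfl⟩
  obtain ⟨C, hC⟩ : ∃ C, C = s * e2 + e1 := ⟨_, rfl⟩
  have hA1 : e1 * (s * e2) = 0 := by rw [← mul_assoc, ← hcomm.eq, mul_assoc, h12, mul_zero]
  have hA2 : e2 * (s * e2) = s * e2 := by rw [← mul_assoc, ← hcomm2.eq, mul_assoc, hidem2]
  have hBC : B * C = s := by
    rw [hB, hC, add_mul, mul_add, mul_add, mul_assoc, mul_assoc, hA1, hidem, hA2, h21, mul_zero,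
      zero_add, add_zero, ← mul_add, hsum, mul_one]
  have hBH : Bᴴ = e2 * sᴴ + e1 := by
    rw [hB, conjTranspose_add, conjTranspose_mul, he2H, ← he2]
  have hA3 : sᴴ * (s * e2) = e2 := by rw [← mul_assoc, hs, one_mul]
  have hBHC : Bᴴ * C = 1 := by
    rw [hBH, hC, add_mul, mul_add, mul_add, mul_assoc, mul_assoc, hA3, hidem2, hcommH,
      ← mul_assoc e2 e1, h21, zero_mul, hA1, hidem, add_zero, zero_add, add_comm, hsum]
  have hdetC : B.det * C.det = 1 := by rw [← det_mul, hBC, hdet]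
  have hdetC' : star B.det * C.det = 1 := by
    rw [← det_conjTranspose, ← det_mul, hBHC, det_one]
  obtain ⟨δ, hδ⟩ : ∃ δ, δ = B.det := ⟨_, rfl⟩
  rw [← hδ] at hdetC hdetC'
  have hC0 : C.det ≠ 0 := by
    intro h; rw [h, mul_zero] at hdetC; exact zero_ne_one hdetC
  have hδ0 : δ ≠ 0 := by
    intro h; rw [h, zero_mul] at hdetC; exact zero_ne_one hdetC
  have hδstar : star δ = δ := mul_right_cancel₀ hC0 (hdetC'.trans hdetC.symm)
  have hδq : δ ^ (q - 1) = 1 := by
    have h1 : δ ^ q = δ := by rw [← hstar]; exact hδstar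
    have e : q = (q - 1) + 1 := by omega
    rw [e, pow_succ] at h1
    exact mul_right_cancel₀ hδ0 (h1.trans (one_mul δ).symm)
  -- the invariant subspace
  have hBe1 : B * e1 = s * e1 := by rw [hB, add_mul, mul_assoc, hidem, h21, add_zero]
  have he1B : e1 * B = s * e1 := by
    rw [hB, mul_add, ← mul_assoc, ← hcomm.eq, mul_assoc, hidem, h12, add_zero]
  have hB1 : B - 1 = e1 * (s - 1) := by
    rw [hB, he2', mul_sub, mul_one, ← hcomm.eq]; abel
  obtain ⟨W1, hW1⟩ : ∃ W1, W1 = LinearMap.range (Matrix.toLin' e1) := ⟨_, rfl⟩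
  rw [← hW1] at hrank
  have hmemW : ∀ v : Fin n → F, v ∈ W1 ↔ ∃ u, e1 *ᵥ u = v := by
    intro v; rw [hW1, LinearMap.mem_range]; simp only [Matrix.toLin'_apply]
  have hfixW : ∀ v : Fin n → F, v ∈ W1 → e1 *ᵥ v = v := by
    intro v hv
    obtain ⟨u, rfl⟩ := (hmemW v).mp hv
    rw [Matrix.mulVec_mulVec, hidem]
  have he : W1 ≤ W1.comap (Matrix.toLin' B) := by
    intro w hw
    rw [Submodule.mem_comap, hmemW, Matrix.toLin'_apply]
    refine ⟨B *ᵥ w, ?_⟩
    rw [Matrix.mulVec_mulVec, he1B, ← hBe1, ← Matrix.mulVec_mulVec, hfixW w hw]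
  have hQ : W1.mapQ W1 (Matrix.toLin' B) he = LinearMap.id := by
    apply Submodule.linearMap_qext
    apply LinearMap.ext
    intro v
    show W1.mapQ W1 (Matrix.toLin' B) he (Submodule.Quotient.mk v) = Submodule.Quotient.mk v
    rw [Submodule.mapQ_apply, Submodule.Quotient.eq, hmemW, Matrix.toLin'_apply]
    refine ⟨(s - 1) *ᵥ v, ?_⟩
    rw [Matrix.mulVec_mulVec, ← hB1, Matrix.sub_mulVec, Matrix.one_mulVec]
  obtain ⟨T1, hT1⟩ : ∃ T1, T1 = (Matrix.toLin' B).restrict he := ⟨_, rfl⟩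
  have hdetB : δ = LinearMap.det T1 := by
    have h1 := LinearMap.det_eq_det_mul_det W1 (Matrix.toLin' B) he
    rw [hQ, LinearMap.det_id, mul_one, LinearMap.det_toLin', ← hT1] at h1
    rw [hδ]; exact h1
  have hT1v : ∀ w : W1, (T1 w : Fin n → F) = B *ᵥ (w : Fin n → F) := by
    intro w; rw [hT1]; rfl
  have hT1s : ∀ w : W1, (T1 w : Fin n → F) = s *ᵥ (w : Fin n → F) := by
    intro w
    calc (T1 w : Fin n → F) = B *ᵥ (w : Fin n → F) := hT1v w
      _ = B *ᵥ (e1 *ᵥ (w : Fin n → F)) := by rw [hfixW w.1 w.2]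
      _ = s *ᵥ (e1 *ᵥ (w : Fin n → F)) := by
        rw [Matrix.mulVec_mulVec, hBe1, ← Matrix.mulVec_mulVec]
      _ = s *ᵥ (w : Fin n → F) := by rw [hfixW w.1 w.2]
  have hpowc : ∀ (i : ℕ) (w : W1), ((T1 ^ i) w : Fin n → F) = (s ^ i) *ᵥ (w : Fin n → F) := by
    intro i
    induction i with
    | zero => intro w; rw [pow_zero, pow_zero, Module.End.one_apply, Matrix.one_mulVec]
    | succ i ih =>
      intro w
      rw [pow_succ, Module.End.mul_apply, ih, hT1s, Matrix.mulVec_mulVec, ← pow_succ]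
  have haeval : ∀ (P : F[X]) (w : W1),
      ((aeval T1 P) w : Fin n → F) = (aeval s P) *ᵥ (w : Fin n → F) := by
    intro P w
    induction P using Polynomial.induction_on' with
    | add p q hp hq =>
      rw [map_add, map_add, LinearMap.add_apply, Submodule.coe_add, hp, hq, Matrix.add_mulVec]
    | monomial k a =>
      rw [aeval_monomial, aeval_monomial, Module.End.mul_apply, Module.algebraMap_end_apply,
        Submodule.coe_smul, hpowc, Algebra.algebraMap_eq_smul_one, smul_mul_assoc, one_mul,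
        Matrix.smul_mulVec]
  have hT1f : aeval T1 f = 0 := by
    apply LinearMap.ext; intro w
    apply Subtype.ext
    rw [haeval, LinearMap.zero_apply, Submodule.coe_zero, ← hfixW w.1 w.2, Matrix.mulVec_mulVec,
      hfs, Matrix.zero_mulVec]
  obtain ⟨eK, hde, hdetK⟩ := irr_end_det T1 f hf hT1f
  rw [← hdetB, hcard] at hdetK
  have hD : ((q ^ 2) ^ f.natDegree - 1) / (q ^ 2 - 1) = sgM' (q ^ 2) f.natDegree := by
    unfold sgM'; rw [Nat.geomSum_eq hQ2 f.natDegree]
  rw [hD] at hdetK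
  let pb := AdjoinRoot.powerBasis hfne
  haveI : Module.Finite F (AdjoinRoot f) := pb.finite
  haveI : Finite (AdjoinRoot f) := Module.finite_of_finite F
  haveI : Fintype (AdjoinRoot f) := Fintype.ofFinite _
  have hfr : Module.finrank F (AdjoinRoot f) = f.natDegree := by rw [pb.finrank]; rfl
  have hcardK : Fintype.card (AdjoinRoot f) = (q ^ 2) ^ f.natDegree := by
    rw [← Nat.card_eq_fintype_card, Module.natCard_eq_pow_finrank (K := F) (V := AdjoinRoot f),
      Nat.card_eq_fintype_card, hfr, hcard]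
  have hdiv : ∀ g : F[X], AdjoinRoot.mk f g = 0 → aeval s g * e1 = 0 := by
    intro g hg
    obtain ⟨h, rfl⟩ := AdjoinRoot.mk_eq_zero.mp hg
    rw [mul_comm f h, map_mul, mul_assoc, hfs, mul_zero]
  have hρ0 : AdjoinRoot.root f ≠ 0 := by
    intro h
    have h1 : AdjoinRoot.mk f X = 0 := by rw [AdjoinRoot.mk_X]; exact h
    have h2 := hdiv X h1
    rw [aeval_X] at h2
    apply he10
    calc e1 = sᴴ * (s * e1) := by rw [← mul_assoc, hs, one_mul]
      _ = 0 := by rw [h2, mul_zero]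
  have h1 : AdjoinRoot.root f ^ ((q ^ 2) ^ f.natDegree - 1) = 1 := by
    have := FiniteField.pow_card_sub_one_eq_one (AdjoinRoot.root f) hρ0
    rwa [hcardK] at this
  have hnorm := nt_norm_pow (q ^ 2) f.natDegree eK hQ2 (AdjoinRoot.root f) h1
  rw [hde] at hnorm
  rw [← hnorm] at hdetK
  obtain ⟨w1, hw1⟩ : ∃ w1, w1 = Module.finrank F W1 := ⟨_, rfl⟩
  rw [← hw1] at hrank hdetK
  have hM0 : unM0 q n = sgM' (q ^ 2) w1 * (q - 1) := by
    have h2 := unM0_mul_even q n ⟨w1, by omega⟩
    have h3 := sgM'_mul (q ^ 2) w1 hQ2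
    rw [q2_sub_one q (by omega)] at h3
    have h4 : q ^ n = (q ^ 2) ^ w1 := by rw [hrank, pow_mul]
    rw [h4, ← h3] at h2
    have h5 : unM0 q n * (q + 1) = sgM' (q ^ 2) w1 * (q - 1) * (q + 1) := by rw [h2]; ring
    exact Nat.eq_of_mul_eq_mul_right (by omega) h5
  have hρM0 : AdjoinRoot.root f ^ unM0 q n = 1 := by
    rw [hM0, pow_mul, ← hdetK, ← map_pow, hδq, map_one]
  obtain ⟨N, hN⟩ : ∃ N, N = unM q n := ⟨_, rfl⟩
  rw [← hN]
  have h4 : (AdjoinRoot.root f ^ N) ^ (q + 1) = 1 := by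
    obtain ⟨b, hb⟩ := unM_mul_dvd q n
    rw [← pow_mul, hN, hb, pow_mul, hρM0, one_pow]
  have h5 : (AdjoinRoot.root f ^ N) ^ (Fintype.card F - 1) = 1 := by
    rw [hcard, q2_sub_one q (by omega), pow_mul, h4, one_pow]
  obtain ⟨c, hc⟩ := mem_range_of_pow_card_sub_one (F := F) _ h5
  have hcc : c ^ (q + 1) = 1 := by
    apply (algebraMap F (AdjoinRoot f)).injective
    rw [map_pow, hc, h4, map_one]
  have hcstar : c * star c = 1 := by rw [hstar, ← pow_succ']; exact hcc
  have hN1 : s ^ N * e1 = c • e1 := by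
    have h6 : AdjoinRoot.mk f (X ^ N - Polynomial.C c) = 0 := by
      rw [map_sub, map_pow, AdjoinRoot.mk_X, AdjoinRoot.mk_C, ← AdjoinRoot.algebraMap_eq, hc,
        sub_self]
    have h7 := hdiv _ h6
    rw [map_sub, map_pow, aeval_X, aeval_C, sub_mul, Algebra.algebraMap_eq_smul_one,
      smul_mul_assoc, one_mul, sub_eq_zero] at h7
    exact h7
  have hsHs : ∀ k : ℕ, (sᴴ) ^ k * s ^ k = 1 := by
    intro k
    have hc' : Commute sᴴ s := by show sᴴ * s = s * sᴴ; rw [hs, hs']
    rw [← hc'.mul_pow, hs, one_pow]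
  have hN2 : s ^ N * e2 = c • e2 := by
    have h8 := congrArg conjTranspose hN1
    rw [conjTranspose_mul, conjTranspose_pow, conjTranspose_smul, ← he2] at h8
    have h9 : e2 = star c • (e2 * s ^ N) := by
      calc e2 = e2 * (sᴴ ^ N * s ^ N) := by rw [hsHs, mul_one]
        _ = (e2 * sᴴ ^ N) * s ^ N := by rw [mul_assoc]
        _ = star c • (e2 * s ^ N) := by rw [h8, smul_mul_assoc]
    have h10 : c • e2 = e2 * s ^ N := by
      calc c • e2 = c • (star c • (e2 * s ^ N)) := by rw [← h9]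
        _ = e2 * s ^ N := by rw [smul_smul, hcstar, one_smul]
    rw [(hcomm2.pow_left N).eq, ← h10]
  refine ⟨c, ?_⟩
  calc s ^ N = s ^ N * (e1 + e2) := by rw [hsum, mul_one]
    _ = c • 1 := by rw [mul_add, hN1, hN2, ← smul_add, hsum]

end Cfsg.Agent.H62
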