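import Mathlib
import Cfsg.Agent.H62.UnI

set_option autoImplicit false
set_option linter.style.haveILetI false
set_option linter.unusedSimpArgs false
set_option linter.unusedSectionVars false
set_option linter.unusedVariables false

namespace Cfsg.Agent.H62

open Matrix Polynomial

/-- the structure of an element of a special unitary group. -/
theorem un_dichotomy {F : Type*} [Field F] [Fintype F] [StarRing F] (q : ℕ)
    (hstar : ∀ x : F, star x = x ^ q) (hcard : Fintype.card F = q ^ 2)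
    (p : ℕ) [Fact p.Prime] [CharP F p] (a : ℕ) (hq : q = p ^ a)
    (n : ℕ) (hn : 1 ≤ n) (T : ℕ) (hT : n ≤ p ^ T)
    (s : Matrix (Fin n) (Fin n) F) (hs : sᴴ * s = 1) (hdet : s.det = 1) :
    (∃ e : Matrix (Fin n) (Fin n) F, e * e = e ∧ eᴴ = e ∧ e ≠ 0 ∧ e ≠ 1 ∧ Commute s e) ∨
    (∃ c : F, s ^ (p ^ T * unM q n) = c • (1 : Matrix (Fin n) (Fin n) F)) := by
  classical
  haveI : Nonempty (Fin n) := ⟨⟨0, hn⟩⟩
  have hint : IsIntegral F s := Matrix.isIntegral s
  have hne : minpoly F s ≠ 0 := minpoly.ne_zero hint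
  have hnu : ¬ IsUnit (minpoly F s) := minpoly.not_isUnit F s
  have hdeg : (minpoly F s).natDegree ≤ n := by
    have := Polynomial.natDegree_le_of_dvd (Matrix.minpoly_dvd_charpoly s)
      (Matrix.charpoly_monic s).ne_zero
    rwa [Matrix.charpoly_natDegree_eq_dim, Fintype.card_fin] at this
  obtain ⟨f, hf, hfd⟩ := WfDvdMonoid.exists_irreducible_factor hnu hne
  obtain ⟨k, h, hfh, hμ⟩ := WfDvdMonoid.max_power_factor hne hf
  have hfne : f ≠ 0 := hf.ne_zero
  have hhne : h ≠ 0 := by rintro rfl; rw [mul_zero] at hμ; exact hne hμ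
  have hk : k ≠ 0 := by
    rintro rfl
    rw [pow_zero, one_mul] at hμ
    exact hfh (hμ ▸ hfd)
  have hkn : k ≤ n := by
    have hfk : (f ^ k).natDegree ≤ (minpoly F s).natDegree :=
      Polynomial.natDegree_le_of_dvd ⟨h, hμ⟩ hne
    rw [Polynomial.natDegree_pow] at hfk
    have hf1 : 1 ≤ f.natDegree := hf.natDegree_pos
    calc k = k * 1 := (mul_one k).symm
      _ ≤ k * f.natDegree := Nat.mul_le_mul_left k hf1
      _ ≤ n := hfk.trans hdeg
  obtain ⟨a', b, hab⟩ : IsCoprime (f ^ k) h :=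
    ((Irreducible.coprime_iff_not_dvd hf).mpr hfh).pow_left
  obtain ⟨o, ho1, hso, hsH⟩ := un_adj_pow n s hs
  have hadj : ∀ P : F[X],
      (aeval s P)ᴴ = aeval s ((P.map (starRingEnd F)).comp (X ^ (o - 1))) := by
    intro P
    rw [conj_aeval, hsH, aeval_comp]
    simp
  have hcommPQ : ∀ P Q : F[X], aeval s P * aeval s Q = aeval s Q * aeval s P := by
    intro P Q; rw [← map_mul, ← map_mul, mul_comm]
  have hcommP : ∀ P : F[X], Commute s (aeval s P) := by
    intro P
    have := hcommPQ X P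
    rwa [aeval_X] at this
  obtain ⟨P1, hP1⟩ : ∃ P1 : F[X], P1 = b * h := ⟨_, rfl⟩
  obtain ⟨P1', hP1'⟩ : ∃ P1' : F[X], P1' = (P1.map (starRingEnd F)).comp (X ^ (o - 1)) :=
    ⟨_, rfl⟩
  obtain ⟨e1, he1⟩ : ∃ e1, e1 = aeval s P1 := ⟨_, rfl⟩
  obtain ⟨e2, he2⟩ : ∃ e2, e2 = aeval s (a' * f ^ k) := ⟨_, rfl⟩
  obtain ⟨e1', he1'⟩ : ∃ e1', e1' = aeval s P1' := ⟨_, rfl⟩
  have hadj1 : e1ᴴ = e1' := by rw [he1, hadj, he1', hP1']
  have hadj1' : e1'ᴴ = e1 := by rw [← hadj1, conjTranspose_conjTranspose]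
  have hsum : e2 + e1 = 1 := by rw [he1, he2, hP1, ← map_add, hab, map_one]
  have hprod : e1 * e2 = 0 := by
    rw [he1, he2, hP1, ← map_mul]
    have : b * h * (a' * f ^ k) = (a' * b) * minpoly F s := by rw [hμ]; ring
    rw [this, map_mul, minpoly.aeval, mul_zero]
  have hidem : e1 * e1 = e1 := by
    have : e1 * (e2 + e1) = e1 := by rw [hsum, mul_one]
    rw [mul_add, hprod, zero_add] at this
    exact this
  have hidem' : e1' * e1' = e1' := by rw [← hadj1, ← conjTranspose_mul, hidem]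
  have hc11 : e1 * e1' = e1' * e1 := by rw [he1, he1']; exact hcommPQ _ _
  have he1ne : e1 ≠ 0 := by
    intro h0
    rw [he1, hP1] at h0
    have h1 : minpoly F s ∣ b * h := minpoly.dvd F s h0
    rw [hμ] at h1
    have h2' : f ^ k ∣ b := (mul_dvd_mul_iff_right hhne).mp h1
    have h3 : f ∣ 1 := by
      rw [← hab]
      exact dvd_add (Dvd.dvd.mul_left (dvd_pow_self f hk) a')
        (Dvd.dvd.mul_right ((dvd_pow_self f hk).trans h2') h)
    exact hf.not_isUnit (isUnit_of_dvd_one h3)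
  have hcs1 : Commute s e1 := by rw [he1]; exact hcommP _
  have hcs1' : Commute s e1' := by rw [he1']; exact hcommP _
  -- the Frobenius twist
  obtain ⟨s', hs'def⟩ : ∃ s', s' = s ^ p ^ T := ⟨_, rfl⟩
  obtain ⟨f', hf'def⟩ : ∃ f', f' = f.map (iterateFrobenius F p T) := ⟨_, rfl⟩
  have hfrob : aeval s (f ^ p ^ T) = aeval s' f' := by
    rw [← Polynomial.map_iterateFrobenius_expand, Polynomial.map_expand,
      Polynomial.expand_aeval, hs'def, hf'def]
  have hbij : Function.Bijective (iterateFrobenius F p T) :=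
    Finite.injective_iff_bijective.mp (iterateFrobenius F p T).injective
  have hirr : Irreducible f' := by
    have h2 : f' = Polynomial.mapEquiv (RingEquiv.ofBijective (iterateFrobenius F p T) hbij) f := by
      rw [hf'def]; rfl
    rw [h2, MulEquiv.irreducible_iff]
    exact hf
  have hs'u : s'ᴴ * s' = 1 := by
    rw [hs'def, conjTranspose_pow]
    have hc' : Commute sᴴ s := by show sᴴ * s = s * sᴴ; rw [hs, mul_eq_one_comm.mp hs]
    rw [← hc'.mul_pow, hs, one_pow]
  have hs'det : s'.det = 1 := by rw [hs'def, det_pow, hdet, one_pow]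
  have hs'c : Commute s' e1 := by rw [hs'def]; exact hcs1.pow_left _
  have hfin : ∀ c : F, s' ^ unM q n = c • (1 : Matrix (Fin n) (Fin n) F) →
      s ^ (p ^ T * unM q n) = c • (1 : Matrix (Fin n) (Fin n) F) := by
    intro c hc; rw [pow_mul, ← hs'def]; exact hc
  obtain ⟨j, hj⟩ := Nat.exists_eq_add_of_le (hkn.trans hT)
  by_cases hep1 : e1 * e1' = 1
  · right
    have he11 : e1 = 1 := by
      calc e1 = e1 * (e1 * e1') := by rw [hep1, mul_one]
        _ = 1 := by rw [← mul_assoc, hidem, hep1]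
    have he20 : e2 = 0 := by
      rw [he11] at hsum
      simpa using hsum
    have hhu : IsUnit h := by
      rw [he2] at he20
      have h1 : minpoly F s ∣ a' * f ^ k := minpoly.dvd F s he20
      rw [hμ, mul_comm a' (f ^ k)] at h1
      have h2' : h ∣ a' := (mul_dvd_mul_iff_left (pow_ne_zero k hfne)).mp h1
      apply isUnit_of_dvd_one
      rw [← hab]
      exact dvd_add (Dvd.dvd.mul_right h2' _) (Dvd.dvd.mul_left dvd_rfl b)
    obtain ⟨h', hh'⟩ : ∃ h', h * h' = 1 := by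
      obtain ⟨u, hu⟩ := hhu
      exact ⟨↑u⁻¹, by rw [← hu]; exact Units.mul_inv u⟩
    have hfk0 : aeval s (f ^ k) = 0 := by
      calc aeval s (f ^ k) = aeval s (minpoly F s * h') := by
            rw [hμ, mul_assoc, hh', mul_one]
        _ = 0 := by rw [map_mul, minpoly.aeval, zero_mul]
    have h1 : aeval s' f' = 0 := by
      rw [← hfrob, hj, pow_add, map_mul, hfk0, zero_mul]
    obtain ⟨c, hc⟩ := un_case_a q hstar hcard p a hq n hn s' hs'u hs'det f' hirr h1
    exact ⟨c, hfin c hc⟩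
  · by_cases hep0 : e1 * e1' = 0
    · obtain ⟨es, hes⟩ : ∃ es, es = e1 + e1' := ⟨_, rfl⟩
      have hep0' : e1' * e1 = 0 := by rw [← hc11]; exact hep0
      by_cases hes1 : es = 1
      · right
        have hsum' : e1 + e1ᴴ = 1 := by rw [hadj1, ← hes]; exact hes1
        have h1 : aeval s' f' * e1 = 0 := by
          rw [← hfrob, hj, he1, hP1, ← map_mul]
          have : f ^ (k + j) * (b * h) = (f ^ j * b) * minpoly F s := by rw [hμ]; ring
          rw [this, map_mul, minpoly.aeval, mul_zero]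
        obtain ⟨c, hc⟩ := un_case_b q hstar hcard n hn s' e1 hs'u hs'det hidem hs'c hsum' f'
          hirr h1
        exact ⟨c, hfin c hc⟩
      · left
        refine ⟨es, ?_, ?_, ?_, hes1, ?_⟩
        · rw [hes, mul_add, add_mul, add_mul, hidem, hidem', hep0, hep0']; abel
        · rw [hes, conjTranspose_add, hadj1, hadj1', add_comm]
        · intro h0
          apply he1ne
          have : e1 * es = e1 := by rw [hes, mul_add, hidem, hep0, add_zero]
          rw [← this, h0, mul_zero]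
        · rw [hes]; exact hcs1.add_right hcs1'
    · left
      refine ⟨e1 * e1', ?_, ?_, hep0, hep1, hcs1.mul_right hcs1'⟩
      · calc e1 * e1' * (e1 * e1') = e1 * (e1' * e1) * e1' := by simp only [mul_assoc]
          _ = e1 * (e1 * e1') * e1' := by rw [hc11]
          _ = (e1 * e1) * (e1' * e1') := by simp only [mul_assoc]
          _ = e1 * e1' := by rw [hidem, hidem']
      · rw [conjTranspose_mul, hadj1, hadj1']

/-- a unitary matrix commuting with a proper hermitian idempotent commutes with a non-scalar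
unitary matrix of order `r` and determinant one. -/
theorem un_idem_z {F : Type*} [Field F] [StarRing F] (n r : ℕ) (hr : r.Prime) (hrn : ¬ r ∣ n)
    (ζ : F) (hζ : orderOf ζ = r) (hζs : star ζ * ζ = 1)
    (A e1 : Matrix (Fin n) (Fin n) F) (hid1 : e1 * e1 = e1) (hH : e1ᴴ = e1) (hne1 : e1 ≠ 0)
    (hne1' : e1 ≠ 1) (hcomm1 : Commute A e1) :
    ∃ Z : Matrix (Fin n) (Fin n) F, Zᴴ * Z = 1 ∧ Z.det = 1 ∧ Commute A Z ∧ Z ^ r = 1 ∧
      ∀ (k : ℕ) (c : F), Z ^ k = c • 1 → r ∣ k := by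
  classical
  obtain ⟨e2, he2⟩ : ∃ e2, e2 = 1 - e1 := ⟨_, rfl⟩
  have hsum : e1 + e2 = 1 := by rw [he2]; abel
  have hprod : e1 * e2 = 0 := by rw [he2, mul_sub, mul_one, hid1, sub_self]
  have hprod' : e2 * e1 = 0 := by rw [he2, sub_mul, one_mul, hid1, sub_self]
  have hid2 : e2 * e2 = e2 := by
    rw [he2, mul_sub, mul_one, sub_mul, one_mul, hid1, sub_self, sub_zero]
  have hne2 : e2 ≠ 0 := by
    intro h
    apply hne1'
    rw [he2] at h
    exact (sub_eq_zero.mp h).symm
  have hcomm2 : Commute A e2 := by rw [he2]; exact (Commute.one_right A).sub_right hcomm1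
  have hH2 : e2ᴴ = e2 := by rw [he2, conjTranspose_sub, conjTranspose_one, hH]
  have hD : ∀ x y x' y' : F,
      (x • e1 + y • e2) * (x' • e1 + y' • e2) = (x * x') • e1 + (y * y') • e2 := by
    intro x y x' y'
    simp only [add_mul, mul_add, smul_mul_assoc, mul_smul_comm, hid1, hid2, hprod, hprod',
      smul_zero, add_zero, zero_add, smul_smul]
    rw [mul_comm x' x, mul_comm y' y]
  have hD1 : ∀ x : F, x • e1 + x • e2 = x • (1 : Matrix (Fin n) (Fin n) F) := by
    intro x; rw [← smul_add, hsum]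
  have hDpow : ∀ (x y : F) (k : ℕ), (x • e1 + y • e2) ^ k = (x ^ k) • e1 + (y ^ k) • e2 := by
    intro x y k
    induction k with
    | zero => rw [pow_zero, pow_zero, pow_zero, hD1, one_smul]
    | succ k ih => rw [pow_succ, ih, hD, pow_succ, pow_succ]
  have hζr : ζ ^ r = 1 := hζ ▸ pow_orderOf_eq_one ζ
  obtain ⟨δ1, hδ1def⟩ : ∃ δ1, δ1 = (ζ • e1 + (1 : F) • e2).det := ⟨_, rfl⟩
  obtain ⟨δ2, hδ2def⟩ : ∃ δ2, δ2 = ((1 : F) • e1 + ζ • e2).det := ⟨_, rfl⟩
  have hδ1 : δ1 ^ r = 1 := by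
    rw [hδ1def, ← Matrix.det_pow, hDpow, hζr, one_pow, hD1, one_smul, Matrix.det_one]
  have hδ2 : δ2 ^ r = 1 := by
    rw [hδ2def, ← Matrix.det_pow, hDpow, hζr, one_pow, hD1, one_smul, Matrix.det_one]
  have hδ12 : δ1 * δ2 = ζ ^ n := by
    rw [hδ1def, hδ2def, ← Matrix.det_mul, hD, mul_one, one_mul, hD1, Matrix.det_smul,
      Matrix.det_one, mul_one, Fintype.card_fin]
  have hprim : IsPrimitiveRoot ζ r := hζ ▸ IsPrimitiveRoot.orderOf ζ
  haveI : NeZero r := ⟨hr.ne_zero⟩
  obtain ⟨u, -, hu⟩ := hprim.eq_pow_of_pow_eq_one hδ1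
  obtain ⟨v, -, hv⟩ := hprim.eq_pow_of_pow_eq_one hδ2
  have huv : ζ ^ (u + v) = ζ ^ n := by rw [pow_add, hu, hv, hδ12]
  obtain ⟨r', rfl⟩ : ∃ r', r = r' + 1 := ⟨r - 1, by have := hr.one_lt; omega⟩
  have e : ζ ^ u * ζ ^ (r' * u) = 1 := by
    rw [← pow_add]
    have : u + r' * u = (r' + 1) * u := by ring
    rw [this, pow_mul, hζr, one_pow]
  have hnorm : ∀ m : ℕ, star (ζ ^ m) * ζ ^ m = 1 := by
    intro m
    rw [star_pow, ← mul_pow, hζs, one_pow]
  refine ⟨ζ ^ v • e1 + ζ ^ (r' * u) • e2, ?_, ?_, ?_, ?_, ?_⟩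
  · rw [conjTranspose_add, conjTranspose_smul, conjTranspose_smul, hH, hH2, hD, hnorm, hnorm,
      hD1, one_smul]
  · have h3 : ζ ^ v • e1 + ζ ^ (r' * u) • e2 =
        (ζ • e1 + (1 : F) • e2) ^ v * ((1 : F) • e1 + ζ • e2) ^ (r' * u) := by
      rw [hDpow, hDpow, hD, one_pow, one_pow, mul_one, one_mul]
    rw [h3, Matrix.det_mul, Matrix.det_pow, Matrix.det_pow, ← hδ1def, ← hδ2def, ← hu, ← hv,
      ← pow_mul, ← pow_mul, ← pow_add]
    have : u * v + v * (r' * u) = (r' + 1) * (u * v) := by ring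
    rw [this, pow_mul, hζr, one_pow]
  · exact (hcomm1.smul_right _).add_right (hcomm2.smul_right _)
  · rw [hDpow, ← pow_mul, ← pow_mul, mul_comm v, mul_comm (r' * u), pow_mul, pow_mul ζ (r' + 1),
      hζr, one_pow, one_pow, hD1, one_smul]
  · intro k c hk
    rw [hDpow, ← hD1 c] at hk
    have hk1 : (ζ ^ v) ^ k = c := by
      have h3 := congrArg (fun M => M * e1) hk
      simp only [add_mul, smul_mul_assoc, hid1, hprod', smul_zero, add_zero] at h3
      have h' : ((ζ ^ v) ^ k - c) • e1 = 0 := by rw [sub_smul, h3, sub_self]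
      rcases smul_eq_zero.mp h' with h'' | h''
      · exact sub_eq_zero.mp h''
      · exact absurd h'' hne1
    have hk2 : (ζ ^ (r' * u)) ^ k = c := by
      have h3 := congrArg (fun M => M * e2) hk
      simp only [add_mul, smul_mul_assoc, hid2, hprod, smul_zero, zero_add] at h3
      have h' : ((ζ ^ (r' * u)) ^ k - c) • e2 = 0 := by rw [sub_smul, h3, sub_self]
      rcases smul_eq_zero.mp h' with h'' | h''
      · exact sub_eq_zero.mp h''
      · exact absurd h'' hne2
    have h3 : (ζ ^ n) ^ k = 1 := by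
      calc (ζ ^ n) ^ k = (ζ ^ u * ζ ^ v) ^ k := by rw [← huv, pow_add]
        _ = (ζ ^ u) ^ k * (ζ ^ v) ^ k := mul_pow _ _ _
        _ = (ζ ^ u) ^ k * (ζ ^ (r' * u)) ^ k := by rw [hk1, hk2]
        _ = 1 := by rw [← mul_pow, e, one_pow]
    have h4 : (r' + 1) ∣ n * k := by
      rw [← hζ]; exact orderOf_dvd_of_pow_eq_one (by rw [pow_mul]; exact h3)
    exact (hr.dvd_mul.mp h4).resolve_left hrn

end Cfsg.Agent.H62
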