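import Mathlib
import Cfsg.Agent.H62.UnJ
import Cfsg.Agent.H62.UnF
import Cfsg.Agent.H62.AbsorbA
import Cfsg.Agent.H62.AbsorbE

set_option autoImplicit false
set_option linter.style.haveILetI false
set_option linter.unusedSimpArgs false
set_option linter.unusedSectionVars false
set_option linter.unusedVariables false

namespace Cfsg.Agent.H62

open Matrix Polynomial

theorem unM_coprime (p q n : ℕ) (hp : p.Prime) (hpq : p ∣ q) (hq : 2 ≤ q) (hn : 1 ≤ n) :
    Nat.Coprime p (unM q n) := by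
  rw [Nat.Prime.coprime_iff_not_dvd hp]
  intro h
  have h1 : unM q n ∣ unM0 q n := by
    unfold unM
    exact Nat.div_dvd_of_dvd (Nat.gcd_dvd_left _ _)
  have h2 : p ∣ unM0 q n * (q + 1) := dvd_mul_of_dvd_left (dvd_trans h h1) _
  have h3 : p ∣ q ^ n := dvd_pow hpq (by omega)
  have h4 : 1 ≤ q ^ n := Nat.one_le_pow _ _ (by omega)
  have h5 : p ∣ 1 := by
    rcases Nat.even_or_odd n with he | ho
    · rw [unM0_mul_even q n he] at h2
      have := Nat.dvd_sub h3 h2
      rwa [Nat.sub_sub_self h4] at this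
    · rw [unM0_mul_odd q n ho] at h2
      exact (Nat.dvd_add_right h3).mp h2
  exact hp.one_lt.ne' (Nat.dvd_one.mp h5)

/-- the two absorption statements for `PSU(n, q)`. -/
theorem psu_absorb {F : Type*} [Field F] [Fintype F] (p a n q r m : ℕ) (hp : p.Prime)
    (ha : 1 ≤ a) (hq : q = p ^ a) (hF : Fintype.card F = q ^ 2) (hn : 3 ≤ n) (hr : r.Prime)
    (hrq : r ∣ q + 1) (hrn : ¬ r ∣ n) :
    Set.range (orderOf : Cfsg.PSU n F q × Cfsg.PSU n F q × Cfsg.PSU n F q ×
        Multiplicative (Fin m → ZMod r) → ℕ) =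
      Set.range (orderOf : Cfsg.PSU n F q × Cfsg.PSU n F q × Cfsg.PSU n F q → ℕ) ∧
    ((¬ ∃ j : ℕ, n - 1 = p ^ j) →
      Set.range (orderOf : Cfsg.PSU n F q × Cfsg.PSU n F q ×
          Multiplicative (Fin m → ZMod r) → ℕ) =
        Set.range (orderOf : Cfsg.PSU n F q × Cfsg.PSU n F q → ℕ)) := by
  classical
  haveI : Fact p.Prime := ⟨hp⟩
  have hpq : p ∣ q := by rw [hq]; exact dvd_pow_self p (by omega)
  have hpF : p ∣ Fintype.card F := by
    rw [hF]; exact dvd_trans hpq (dvd_pow_self q (by norm_num))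
  haveI : CharP F p := by
    obtain ⟨n', hp', hcard⟩ := FiniteField.card F (ringChar F)
    have hpp : p = ringChar F := by
      have h1 : p ∣ ringChar F ^ (n' : ℕ) := by rw [← hcard]; exact hpF
      exact (Nat.prime_dvd_prime_iff_eq hp hp').mp (hp.dvd_of_dvd_pow h1)
    exact hpp ▸ ringChar.charP F
  have h1 : ∀ x y : F, (x + y) ^ q = x ^ q + y ^ q := by
    intro x y; rw [hq]; exact add_pow_char_pow x y p a
  have h2 : ∀ x : F, (x ^ q) ^ q = x := by
    intro x; rw [← pow_mul, ← pow_two, ← hF]; exact FiniteField.pow_card x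
  letI : StarRing F := frobStarRing F q h1 h2
  have hstar : ∀ x : F, star x = x ^ q := fun x => rfl
  have hq2 : 2 ≤ q := star_q_ge_two (F := F) q hF
  have hn1 : 1 ≤ n := by omega
  have hn2 : 2 ≤ n := by omega
  have hrp : r ≠ p := by
    rintro rfl
    have h3 : r ∣ 1 := (Nat.dvd_add_right hpq).mp hrq
    exact hr.one_lt.ne' (Nat.dvd_one.mp h3)
  -- an element of order r in F
  obtain ⟨ζ, hζ⟩ : ∃ ζ : F, orderOf ζ = r := by
    obtain ⟨g, hg⟩ := IsCyclic.exists_generator (α := Fˣ)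
    have hog : orderOf g = Fintype.card F - 1 := by
      rw [orderOf_eq_card_of_forall_mem_zpowers hg, Nat.card_units, Nat.card_eq_fintype_card]
    have hrq' : r ∣ Fintype.card F - 1 := by
      rw [hF, q2_sub_one q (by omega)]; exact dvd_mul_of_dvd_left hrq _
    have hpos : 0 < Fintype.card F - 1 := by
      have := Fintype.one_lt_card (α := F); omega
    obtain ⟨y, hy⟩ := absorb_exists_orderOf g r (hog ▸ hrq') (hog ▸ hpos)
    exact ⟨(y : F), by rw [orderOf_units, hy]⟩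
  have hζs : star ζ * ζ = 1 := by
    rw [hstar, ← pow_succ]
    obtain ⟨c, hc⟩ := hrq
    rw [hc, pow_mul, ← hζ, pow_orderOf_eq_one, one_pow]
  have hζm : ∀ j : ℕ, star (ζ ^ j) * ζ ^ j = 1 := by
    intro j; rw [star_pow, ← mul_pow, hζs, one_pow]
  -- the exponent t
  obtain ⟨t, ht1, ht2⟩ : ∃ t, p ^ t < n ∧ n ≤ p ^ (t + 1) := by
    have h3 : n ≤ p ^ Nat.clog p n := Nat.le_pow_clog hp.one_lt n
    have h4 : p ^ (Nat.clog p n).pred < n := Nat.pow_pred_clog_lt_self hp.one_lt (by omega)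
    have h5 : 0 < Nat.clog p n := Nat.clog_pos hp.one_lt hn2
    refine ⟨(Nat.clog p n).pred, h4, ?_⟩
    have h6 : (Nat.clog p n).pred + 1 = Nat.clog p n := Nat.succ_pred_eq_of_pos h5
    rw [h6]; exact h3
  -- matrices of p-power order
  have hdet_of_pow : ∀ U : Matrix (Fin n) (Fin n) F, U ^ p ^ (t + 1) = 1 → U.det = 1 := by
    intro U h3
    have h4 := congrArg Matrix.det h3
    rw [Matrix.det_pow, Matrix.det_one] at h4
    exact charp_pow_eq_one p (t + 1) _ h4
  have hpsu_ord : ∀ (u : Cfsg.SU n F q),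
      orderOf (u.1.1 : Matrix (Fin n) (Fin n) F) = p ^ (t + 1) →
      orderOf (QuotientGroup.mk' (Subgroup.center (Cfsg.SU n F q)) u) = p ^ (t + 1) := by
    intro u hu
    apply Nat.dvd_antisymm
    · apply psu_order_dvd_of q hstar hF n hn
      exact ⟨1, by rw [← hu, pow_orderOf_eq_one, one_smul]⟩
    · apply psu_dvd_order_of q hstar hF n hn
      intro k c hk
      exact pelt_scalar p n (t + 1) hn1 _ hu k c hk
  -- the regular unipotent element
  obtain ⟨U, hUu, hUc⟩ := un_reg_unip q hstar hF p n hn1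
  have hUord : orderOf U = p ^ (t + 1) := by
    apply orderOf_eq_prime_pow
    · rw [hUc]; omega
    · rw [hUc]; exact ht2
  have hUpow : U ^ p ^ (t + 1) = 1 := (hUc (t + 1)).mpr ht2
  obtain ⟨uU, huU⟩ : ∃ uU : Cfsg.SU n F q, (uU.1.1 : Matrix (Fin n) (Fin n) F) = U :=
    ⟨mkSU n q hstar U (hdet_of_pow U hUpow) hUu, rfl⟩
  obtain ⟨hU, hUdef⟩ : ∃ hU : Cfsg.PSU n F q,
      hU = QuotientGroup.mk' (Subgroup.center (Cfsg.SU n F q)) uU := ⟨_, rfl⟩
  have hUo : orderOf hU = p ^ (t + 1) := by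
    rw [hUdef]; exact hpsu_ord uU (by rw [huU]; exact hUord)
  -- the torus
  obtain ⟨S, hSu, hSdet, hSk⟩ := un_torus q hstar hF p a hq n hn2
  obtain ⟨uS, huS⟩ : ∃ uS : Cfsg.SU n F q, (uS.1.1 : Matrix (Fin n) (Fin n) F) = S :=
    ⟨mkSU n q hstar S hSdet hSu, rfl⟩
  obtain ⟨hS, hSdef⟩ : ∃ hS : Cfsg.PSU n F q,
      hS = QuotientGroup.mk' (Subgroup.center (Cfsg.SU n F q)) uS := ⟨_, rfl⟩
  have hSo : unM q n ∣ orderOf hS := by
    rw [hSdef]
    apply psu_dvd_order_of q hstar hF n hn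
    intro k c hk
    exact hSk k c (by rw [← huS]; exact hk)
  -- the diagonal element
  obtain ⟨hZdet, hZr, hZk⟩ := diagZ_spec n r hn2 hr hrn ζ hζ
  have hZu := diagZ_unitary n ζ (ζ ^ ((r - 1) * (n - 1))) hζs (hζm _)
  obtain ⟨uZ, huZ⟩ : ∃ uZ : Cfsg.SU n F q,
      (uZ.1.1 : Matrix (Fin n) (Fin n) F) = diagZ n ζ (ζ ^ ((r - 1) * (n - 1))) :=
    ⟨mkSU n q hstar _ hZdet hZu, rfl⟩
  obtain ⟨hR, hRdef⟩ : ∃ hR : Cfsg.PSU n F q,
      hR = QuotientGroup.mk' (Subgroup.center (Cfsg.SU n F q)) uZ := ⟨_, rfl⟩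
  have hRo : orderOf hR = r := by
    rw [hRdef]
    apply Nat.dvd_antisymm
    · apply psu_order_dvd_of q hstar hF n hn
      exact ⟨1, by rw [huZ, hZr, one_smul]⟩
    · apply psu_dvd_order_of q hstar hF n hn
      intro k c hk
      exact hZk k c (by rw [← huZ]; exact hk)
  -- the dichotomy
  have hd : ∀ g : Cfsg.PSU n F q,
      (∃ h : Cfsg.PSU n F q, Nat.lcm (orderOf g) r ∣ orderOf h) ∨
      orderOf g ∣ Nat.lcm (orderOf hU) (orderOf hS) := by
    intro g
    obtain ⟨s, rfl⟩ := QuotientGroup.mk'_surjective _ g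
    rcases un_dichotomy q hstar hF p a hq n hn1 (t + 1) ht2 s.1.1 (su_unitary n q hstar s) s.1.2
      with ⟨e, he1, he2, he3, he4, he5⟩ | ⟨c, hc⟩
    · left
      obtain ⟨Z, hZ0, hZ1, hZ2, hZ3, hZ4⟩ :=
        un_idem_z n r hr hrn ζ hζ hζs s.1.1 e he1 he2 he3 he4 he5
      obtain ⟨z, hz⟩ : ∃ z : Cfsg.SU n F q, (z.1.1 : Matrix (Fin n) (Fin n) F) = Z :=
        ⟨mkSU n q hstar Z hZ1 hZ0, rfl⟩
      have hzo : orderOf (QuotientGroup.mk' (Subgroup.center (Cfsg.SU n F q)) z) = r := by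
        apply Nat.dvd_antisymm
        · apply psu_order_dvd_of q hstar hF n hn
          exact ⟨1, by rw [hz, hZ3, one_smul]⟩
        · apply psu_dvd_order_of q hstar hF n hn
          intro k c hk
          exact hZ4 k c (by rw [← hz]; exact hk)
      have hcomm : Commute s z := by
        apply Subtype.ext
        apply Subtype.ext
        rw [su_coe_mul, su_coe_mul, hz]
        exact hZ2
      by_cases hrg : r ∣ orderOf (QuotientGroup.mk' (Subgroup.center (Cfsg.SU n F q)) s)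
      · exact ⟨_, Nat.lcm_dvd dvd_rfl hrg⟩
      · refine ⟨QuotientGroup.mk' _ s * QuotientGroup.mk' _ z, ?_⟩
        have hco' : Nat.Coprime
            (orderOf (QuotientGroup.mk' (Subgroup.center (Cfsg.SU n F q)) s))
            (orderOf (QuotientGroup.mk' (Subgroup.center (Cfsg.SU n F q)) z)) := by
          rw [hzo, Nat.coprime_comm]
          exact (Nat.Prime.coprime_iff_not_dvd hr).mpr hrg
        rw [(hcomm.map (QuotientGroup.mk' _)).orderOf_mul_eq_mul_orderOf_of_coprime hco', hzo]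
        exact Nat.lcm_dvd (dvd_mul_right _ _) (dvd_mul_left _ _)
    · right
      have h3 := psu_order_dvd_of q hstar hF n hn s _ ⟨c, hc⟩
      refine dvd_trans h3 ?_
      apply Nat.Coprime.mul_dvd_of_dvd_of_dvd
      · exact Nat.Coprime.pow_left _ (unM_coprime p q n hp hpq hq2 hn1)
      · rw [hUo]; exact Nat.dvd_lcm_left _ _
      · exact dvd_trans hSo (Nat.dvd_lcm_right _ _)
  refine ⟨?_, ?_⟩
  · exact absorb3 r (elem_ab_pow r m) (tri_absorb r hU hS hR (hRo ▸ dvd_rfl) hd)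
  · intro hj
    have ht3 : p ^ t < n - 1 := by
      have : p ^ t ≠ n - 1 := fun h => hj ⟨t, h.symm⟩
      omega
    obtain ⟨U', hU'u, hU'c, hU'comm⟩ := un_blk_unip q hstar hF p n hn2
    have hU'ord : orderOf U' = p ^ (t + 1) := by
      apply orderOf_eq_prime_pow
      · rw [hU'c]; omega
      · rw [hU'c]; omega
    have hU'pow : U' ^ p ^ (t + 1) = 1 := (hU'c (t + 1)).mpr (by omega)
    obtain ⟨uU', huU'⟩ : ∃ uU' : Cfsg.SU n F q, (uU'.1.1 : Matrix (Fin n) (Fin n) F) = U' :=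
      ⟨mkSU n q hstar U' (hdet_of_pow U' hU'pow) hU'u, rfl⟩
    have hU'o := hpsu_ord uU' (by rw [huU']; exact hU'ord)
    have hcomm : Commute uU' uZ := by
      apply Subtype.ext
      apply Subtype.ext
      rw [su_coe_mul, su_coe_mul, huU', huZ]
      exact hU'comm _ _
    have hco' : Nat.Coprime
        (orderOf (QuotientGroup.mk' (Subgroup.center (Cfsg.SU n F q)) uU'))
        (orderOf (QuotientGroup.mk' (Subgroup.center (Cfsg.SU n F q)) uZ)) := by
      rw [hU'o, ← hRdef, hRo]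
      apply Nat.Coprime.pow_left
      exact (Nat.coprime_primes hp hr).mpr (Ne.symm hrp)
    have hURo : Nat.lcm (orderOf hU) r ∣
        orderOf (QuotientGroup.mk' (Subgroup.center (Cfsg.SU n F q)) uU' *
          QuotientGroup.mk' (Subgroup.center (Cfsg.SU n F q)) uZ) := by
      rw [(hcomm.map (QuotientGroup.mk' _)).orderOf_mul_eq_mul_orderOf_of_coprime hco', hU'o,
        ← hRdef, hRo, hUo]
      exact Nat.lcm_dvd (dvd_mul_right _ _) (dvd_mul_left _ _)
    exact absorb2 r (elem_ab_pow r m) (bi_absorb r hU hS _ hURo hd)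

end Cfsg.Agent.H62
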